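import Cfsg.Agent.Lib.H87.PPow
import Cfsg.Agent.Lib.H87.CMap
set_option autoImplicit false
set_option linter.unusedSectionVars false

open Cfsg Cfsg.FusionSystem
open scoped commutatorElement

namespace H26.FocCent
open H87.Base H87.Basic H87.Syl H87.Sat H87.Grow H87.Inv H87.Frat H87.Bridge H87.PPow

variable {Ω : Type*} [Group Ω] {S T : Subgroup Ω} {F : FusionSystem S} {E : FusionSystem T}
  {P Q R K : Subgroup Ω} {f g h a b γ φ ψ : Ω → Ω} {p : ℕ}

theorem isIso_self [Finite S] (hf : IsMap F P f) (h : ∀ x ∈ P, f x ∈ P) : IsIso F P P f := by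
  have : Finite P := finite_of_le hf.le
  refine hf.isIso_of h fun y hy => ?_
  have hinj : Function.Injective (fun x : P => (⟨f x, h x x.2⟩ : P)) := by
    intro x z hxz
    exact Subtype.ext (hf.inj x.2 z.2 (congrArg Subtype.val hxz))
  obtain ⟨x, hx⟩ := (Finite.injective_iff_surjective.1 hinj) ⟨y, hy⟩
  exact ⟨x, x.2, congrArg Subtype.val hx⟩

/-- extension of an automorphism of a receptive `R` to `R C_S(R)` -/
theorem exists_ext_RC [Finite S] (hR : F.IsReceptive R) (ha : IsIso F R R a) :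
    ∃ b, IsIso F (R ⊔ centralizerIn S R) (R ⊔ centralizerIn S R) b ∧ (∀ x ∈ R, b x = a x) ∧
      ∀ c ∈ centralizerIn S R, b c ∈ centralizerIn S R := by
  obtain ⟨b, hb, h1⟩ := (isReceptive_iff.1 hR).2 R a ha
  have hle : R ⊔ centralizerIn S R ≤ nphi S R a := sup_le (le_nphi ha.isMap) centralizerIn_le_nphi
  have hb' := hb.mono hle
  have hC : ∀ c ∈ centralizerIn S R, b c ∈ centralizerIn S R := by
    intro c hc
    have hcm : c ∈ R ⊔ centralizerIn S R := (le_sup_right : centralizerIn S R ≤ _) hc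
    rw [mem_centralizerIn]
    refine ⟨hb'.mem hcm, fun y hy => ?_⟩
    obtain ⟨x, hx, rfl⟩ := ha.surj hy
    have hxm : x ∈ R ⊔ centralizerIn S R := (le_sup_left : R ≤ _) hx
    rw [← h1 x hx, ← hb'.map_mul hxm hcm, (mem_centralizerIn.1 hc).2 x hx, hb'.map_mul hcm hxm]
  refine ⟨b, isIso_self hb' fun x hx => ?_, h1, hC⟩
  refine mem_of_sup hb' (fun x hx => ?_) (fun x hx => ?_) x hx
  · rw [h1 x hx]; exact (le_sup_left : R ≤ _) (ha.mem hx)
  · exact (le_sup_right : centralizerIn S R ≤ _) (hC x hx)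

theorem ExtC.conj [Finite S] (hR : F.IsReceptive R) (hγ : IsIso F R R γ) (h : ExtC F R γ)
    (hφ : IsIso F R R φ) (hψ : IsIso F R R ψ) (h1 : ∀ x ∈ R, ψ (φ x) = x) (h2 : ∀ x ∈ R, φ (ψ x) = x) :
    ExtC F R (φ ∘ γ ∘ ψ) := by
  obtain ⟨k, hk, k1, k2⟩ := h
  obtain ⟨b, hb, b1, b2⟩ := exists_ext_RC hR hφ
  obtain ⟨c, hc, c1, c2⟩ := hb.symm
  have hcR : ∀ x ∈ R, c x = ψ x := by
    intro x hx
    have h3 : b (ψ x) = x := by rw [b1 _ (hψ.mem hx), h2 x hx]
    have h4 := c1 (ψ x) ((le_sup_left : R ≤ _) (hψ.mem hx))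
    rw [h3] at h4
    exact h4
  refine ⟨b ∘ k ∘ c, (hc.comp hk).comp hb, fun x hx => ?_, fun d hd => ?_⟩
  · show b (k (c x)) = φ (γ (ψ x))
    rw [hcR x hx, k1 _ (hψ.mem hx), b1 _ (hγ.mem (hψ.mem hx))]
  · have hdm : d ∈ R ⊔ centralizerIn S R := (le_sup_right : centralizerIn S R ≤ _) hd
    have hcd : c d ∈ centralizerIn S R := by
      rw [mem_centralizerIn]
      refine ⟨hc.isMap.mem hdm, fun y hy => ?_⟩
      have hy' : c (φ y) = y := by rw [hcR _ (hφ.mem hy), h1 y hy]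
      have hym : φ y ∈ R ⊔ centralizerIn S R := (le_sup_left : R ≤ _) (hφ.mem hy)
      rw [← hy', ← hc.isMap.map_mul hym hdm, (mem_centralizerIn.1 hd).2 _ (hφ.mem hy), hc.isMap.map_mul hdm hym]
    have hcdm : c d ∈ R ⊔ centralizerIn S R := (le_sup_right : centralizerIn S R ≤ _) hcd
    have h3 := k2 _ hcd
    have h4 : (c d)⁻¹ * k (c d) ∈ R ⊔ centralizerIn S R := (le_sup_left : R ≤ _) h3.1
    have h5 : b (k (c d)) = d * φ ((c d)⁻¹ * k (c d)) := by
      rw [← b1 _ h3.1]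
      have h6 : k (c d) = c d * ((c d)⁻¹ * k (c d)) := by group
      have h7 := hb.isMap.map_mul hcdm h4
      rw [← h6, c2 d hdm] at h7
      exact h7
    show d⁻¹ * b (k (c d)) ∈ _
    rw [h5, inv_mul_cancel_left]
    exact IsIso.center hφ h3

/-- inner automorphisms by `N_T(R)` -/
theorem extC_norm [Finite S] (hT : F.StronglyClosed T) (hRT : R ≤ T) (hC : centralizerIn T R ≤ R) {t : Ω}
    (ht : t ∈ normalizerIn T R) : ExtC F R (fun x => t * x * t⁻¹) := by
  have hTS := hT.1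
  have hRS := hRT.trans hTS
  have : Finite R := finite_of_le hRS
  have ht' := (mem_normalizerIn_iff.1 ht).2
  have ht2 : ∀ y ∈ R, t⁻¹ * y * t ∈ R := by
    intro y hy
    have := (mem_normalizerIn_iff.1 ((normalizerIn T R).inv_mem ht)).2 y hy
    rwa [inv_inv] at this
  have hV : R ⊔ centralizerIn S R ≤ S := sup_le hRS centralizerIn_le
  have hCn : ∀ c ∈ centralizerIn S R, t * c * t⁻¹ ∈ centralizerIn S R := by
    intro c hc
    rw [mem_centralizerIn]
    refine ⟨S.mul_mem (S.mul_mem (hTS ht.1) hc.1) (S.inv_mem (hTS ht.1)), fun y hy => ?_⟩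
    have := (mem_centralizerIn.1 hc).2 _ (ht2 y hy)
    calc y * (t * c * t⁻¹) = t * ((t⁻¹ * y * t) * c) * t⁻¹ := by group
      _ = t * (c * (t⁻¹ * y * t)) * t⁻¹ := by rw [this]
      _ = t * c * t⁻¹ * y := by group
  refine ⟨fun x => t * x * t⁻¹, isIso_self (isMap_conj F hV (hTS ht.1)) ?_, fun _ _ => rfl, fun c hc => ?_⟩
  · refine mem_of_sup (isMap_conj F hV (hTS ht.1)) (fun x hx => ?_) (fun x hx => ?_)
    · exact (le_sup_left : R ≤ _) (ht' x hx)
    · exact (le_sup_right : centralizerIn S R ≤ _) (hCn x hx)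
  · have h1 : c⁻¹ * (t * c * t⁻¹) ∈ T := by
      have h2 := StronglyClosed.conj_mem' hT hc.1 ht.1
      have h3 : c⁻¹ * (t * c * t⁻¹) = (c⁻¹ * t * c) * t⁻¹ := by group
      rw [h3]
      exact T.mul_mem h2 (T.inv_mem ht.1)
    have h2 : c⁻¹ * (t * c * t⁻¹) ∈ centralizerIn S R :=
      Subgroup.mul_mem _ (Subgroup.inv_mem _ hc) (hCn c hc)
    exact ⟨hC ⟨h1, h2.2⟩, h2.2⟩

/-- the lift property -/
def Lift (F : FusionSystem S) (K P : Subgroup Ω) (γ : Ω → Ω) : Prop :=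
  ∃ h, IsIso F (P ⊔ K) (P ⊔ K) h ∧ (∀ x ∈ P, h x = γ x) ∧
    ∀ c ∈ K, c⁻¹ * h c ∈ P ⊓ Subgroup.centralizer (P : Set Ω)

/-- transport of the lift property -/
theorem lift_of_extC [Fact p.Prime] [Finite S] (hS : IsPGroup p S) (hF : F.IsSaturated p)
    (hT : F.StronglyClosed T) (hPT : P ≤ T) (ha : IsIso F T T a) (haP : IsIso F P R a) (hb : ∀ x ∈ T, b (a x) = x)
    (hγ : IsIso F P P γ) (h : ExtC F R (a ∘ γ ∘ b)) : Lift F (centralizerIn S T) P γ := by
  obtain ⟨k, hk, k1, k2⟩ := h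
  obtain ⟨d, hd, d1, d2⟩ := exists_ext_TC hS hF hT ha
  obtain ⟨e, he, e1, e2⟩ := hd.symm
  have hRT : R ≤ T := by
    intro y hy
    obtain ⟨x, hx, rfl⟩ := haP.surj hy
    exact ha.mem (hPT hx)
  set K := centralizerIn S T with hK
  have hKR : K ≤ centralizerIn S R := fun c hc =>
    mem_centralizerIn.2 ⟨hc.1, fun y hy => (mem_centralizerIn.1 hc).2 y (hRT hy)⟩
  have hPK : P ⊔ K ≤ T ⊔ K := sup_le_sup_right hPT K
  have hRK : R ⊔ K ≤ T ⊔ K := sup_le_sup_right hRT K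
  have hRK' : R ⊔ K ≤ R ⊔ centralizerIn S R := sup_le_sup_left hKR R
  -- `d` maps `P ⊔ K` to `R ⊔ K`
  have m1 : ∀ x ∈ P ⊔ K, d x ∈ R ⊔ K := mem_of_sup (hd.isMap.mono hPK)
    (fun x hx => by rw [d1 x (hPT hx)]; exact (le_sup_left : R ≤ _) (haP.mem hx))
    (fun x hx => (le_sup_right : K ≤ _) (d2 x hx))
  have m2 : ∀ x ∈ R ⊔ K, k x ∈ R ⊔ K := mem_of_sup (hk.isMap.mono hRK')
    (fun x hx => by
      rw [k1 x hx]
      obtain ⟨y, hy, rfl⟩ := haP.surj hx
      show a (γ (b (a y))) ∈ _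
      rw [hb y (hPT hy)]
      exact (le_sup_left : R ≤ _) (haP.mem (hγ.mem hy)))
    (fun x hx => by
      have h1 := k2 x (hKR hx)
      have h2 : k x = x * (x⁻¹ * k x) := by group
      rw [h2]
      exact Subgroup.mul_mem _ ((le_sup_right : K ≤ _) hx) ((le_sup_left : R ≤ _) h1.1))
  -- `e` on `K`
  have hdK : ∀ x ∈ K, e x ∈ K := by
    intro x hx
    have hxm : x ∈ T ⊔ K := (le_sup_right : K ≤ _) hx
    have hfin : Finite K := finite_of_le centralizerIn_le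
    have h3 : IsIso F K K d := isIso_self (hd.isMap.mono le_sup_right) d2
    obtain ⟨z, hz, rfl⟩ := h3.surj hx
    rw [e1 z ((le_sup_right : K ≤ _) hz)]
    exact hz
  have heT : ∀ x ∈ T, e (a x) = x := by
    intro x hx
    rw [← d1 x hx]
    exact e1 x ((le_sup_left : T ≤ _) hx)
  have heR : ∀ x ∈ R, e x ∈ P := by
    intro x hx
    obtain ⟨y, hy, rfl⟩ := haP.surj hx
    rw [heT y (hPT hy)]
    exact hy
  have m3 : ∀ x ∈ R ⊔ K, e x ∈ P ⊔ K := mem_of_sup (he.isMap.mono hRK)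
    (fun x hx => (le_sup_left : P ≤ _) (heR x hx)) (fun x hx => (le_sup_right : K ≤ _) (hdK x hx))
  have hcomp : IsMap F (P ⊔ K) (e ∘ (k ∘ d)) :=
    ((hd.isMap.mono hPK).comp (hk.isMap.mono hRK') m1).comp (he.isMap.mono hRK) fun x hx => m2 _ (m1 x hx)
  refine ⟨e ∘ (k ∘ d), isIso_self hcomp fun x hx => m3 _ (m2 _ (m1 x hx)), fun x hx => ?_, fun c hc => ?_⟩
  · show e (k (d x)) = γ x
    rw [d1 x (hPT hx), k1 _ (haP.mem hx)]
    show e (a (γ (b (a x)))) = γ x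
    rw [hb x (hPT hx), heT _ (hPT (hγ.mem hx))]
  · show c⁻¹ * e (k (d c)) ∈ _
    have h1 := k2 _ (hKR (d2 c hc))
    have h2 : k (d c) = d c * ((d c)⁻¹ * k (d c)) := by group
    have hdc : d c ∈ T ⊔ K := (le_sup_right : K ≤ _) (d2 c hc)
    have hz : (d c)⁻¹ * k (d c) ∈ T ⊔ K := (le_sup_left : T ≤ _) (hRT h1.1)
    have h3 : e (k (d c)) = c * e ((d c)⁻¹ * k (d c)) := by
      have h4 := he.isMap.map_mul hdc hz
      rw [← h2, e1 c ((le_sup_right : K ≤ _) hc)] at h4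
      exact h4
    rw [h3, inv_mul_cancel_left]
    refine Subgroup.mem_inf.2 ⟨heR _ h1.1, ?_⟩
    rw [Subgroup.mem_centralizer_iff]
    intro y hy
    have h5 := Subgroup.mem_centralizer_iff.1 h1.2 (a y) (haP.mem hy)
    have h6 : e (a y) = y := heT y (hPT hy)
    have hay : a y ∈ T ⊔ K := (le_sup_left : T ≤ _) (hRT (haP.mem hy))
    have h7 := he.isMap.map_mul hay hz
    have h8 := he.isMap.map_mul hz hay
    rw [h6] at h7 h8
    rw [← h7, ← h8, h5]


theorem card_le_of_maps {A B : Subgroup Ω} [Finite B] (hf : IsMap F A f) (h : ∀ x ∈ A, f x ∈ B) :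
    Nat.card A ≤ Nat.card B := by
  refine Nat.card_le_card_of_injective (fun x : A => (⟨f x, h x x.2⟩ : B)) ?_
  intro x z hxz
  exact Subtype.ext (hf.inj x.2 z.2 (congrArg Subtype.val hxz))

theorem card_normalizerIn_le [Finite T] (ha : IsIso F T T a) (hQ : Q ≤ T) (hi : IsIso F Q R a) :
    Nat.card (normalizerIn T Q) ≤ Nat.card (normalizerIn T R) := by
  have hRT : R ≤ T := by
    intro y hy
    obtain ⟨x, hx, rfl⟩ := hi.surj hy
    exact ha.mem (hQ hx)
  have : Finite R := Finite.of_injective _ (Subgroup.inclusion_injective hRT)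
  have : Finite Q := Finite.of_injective _ (Subgroup.inclusion_injective hQ)
  have : Finite ↥(normalizerIn T R) := Finite.of_injective _ (Subgroup.inclusion_injective (inf_le_left : normalizerIn T R ≤ T))
  refine card_le_of_maps (ha.isMap.mono inf_le_left) fun x hx => ?_
  rw [mem_normalizerIn_iff] at hx ⊢
  refine ⟨ha.mem hx.1, fun y hy => ?_⟩
  obtain ⟨z, hz, rfl⟩ := hi.surj hy
  rw [← ha.isMap.map_conj hx.1 (hQ hz)]
  exact hi.mem (hx.2 z hz)

/-- being fully normalized in an invariant subsystem is preserved by `Aut_F(T)` -/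
theorem fn_transport [Finite T] (hA : AInv F E) (ha : IsIso F T T a) (hPT : P ≤ T) (haP : IsIso F P R a)
    (hb : IsIso F T T b) (hba : ∀ x ∈ T, b (a x) = x)
    (hR : E.IsFullyNormalized R) : E.IsFullyNormalized P := by
  have hRT := hR.1
  refine ⟨hPT, fun Q hQ => ?_⟩
  obtain ⟨k, hk⟩ := isConj_iff.1 hQ
  have hQT : Q ≤ T := hk.le'
  obtain ⟨g, hg, hg'⟩ := hA P k a hk.isMap ha
  rw [haP.eq_img] at hg
  have haQ := ha.restrict hQT
  have hg2 : IsIso E R (img Q a) g := by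
    refine hg.isIso_of ?_ ?_
    · intro y hy
      obtain ⟨x, hx, rfl⟩ := haP.surj hy
      rw [hg' x hx]
      exact haQ.mem (hk.mem hx)
    · intro y hy
      obtain ⟨z, hz, rfl⟩ := haQ.surj hy
      obtain ⟨x, hx, rfl⟩ := hk.surj hz
      exact ⟨a x, haP.mem hx, hg' x hx⟩
  have h1 := hR.2 _ hg2.isConj
  have h2 := card_normalizerIn_le ha hQT haQ
  have hbR : IsIso F R P b := by
    refine (hb.isMap.mono hRT).isIso_of ?_ ?_
    · intro y hy
      obtain ⟨x, hx, rfl⟩ := haP.surj hy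
      rw [hba x (hPT hx)]
      exact hx
    · intro x hx
      exact ⟨a x, haP.mem hx, hba x (hPT hx)⟩
  have h3 := card_normalizerIn_le hb hRT hbR
  exact h2.trans (h1.trans h3)

end H26.FocCent
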