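import Cfsg.Agent.Lib.H87.NE3
import Cfsg.Agent.Lib.H87.Crit5
import Cfsg.Agent.Lib.H26.FocCent
set_option autoImplicit false
set_option linter.unusedSectionVars false

open Cfsg Cfsg.FusionSystem

namespace H26.ChiSys
open H87.Base H87.Basic H87.Syl H87.Sat H87.Grow H87.Inv H87.Frat H87.Cut H87.PPow H87.Crit H87.PPr H87.NE

variable {Ω : Type*} [Group Ω] {S T : Subgroup Ω} {F : FusionSystem S} {E : FusionSystem T}
  {P Q R X Y : Subgroup Ω} {f g h a b : Ω → Ω} {p : ℕ} {K : Subgroup (MulAut T)}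

/-- a normal subgroup of `Aut_F(T)` of index prime to `p` containing `Aut_E(T)` -/
structure Ker (F : FusionSystem S) (E : FusionSystem T) (p : ℕ) (K : Subgroup (MulAut T)) : Prop where
  le : K ≤ F.autGroup T
  norm : ∀ a ∈ F.autGroup T, ∀ k ∈ K, a * k * a⁻¹ ∈ K
  sub : E.autGroup T ≤ K
  root : ∀ a ∈ F.autGroup T, ∀ k : ℕ, a ^ p ^ k ∈ K → a ∈ K

/-- an automorphism of `T` whose restriction to an `E`-centric subgroup is a map of `E` lies in `K` -/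
theorem Ker.mem_of_restrict [Fact p.Prime] [Finite S] (hK : Ker F E p K) (hS : IsPGroup p S)
    (hE : E.IsWeaklyNormalIn F p) {c : MulAut T} (hc : c ∈ F.autGroup T) (hX : TC F T X)
    (hm : IsMap E X (fn c)) : c ∈ K := by
  have hT := hE.2.2.2.1
  have hTS : T ≤ S := hT.1
  have hTfin : Finite T := finite_of_le hTS
  have : Finite (MulAut T) := finite_mulAut
  have hA : AInv F E := (sinv_of_invariant hE.2.2).ainv
  obtain ⟨e, m, hm', hnm⟩ := Nat.exists_eq_pow_mul_and_not_dvd (orderOf_pos c).ne' p (Fact.out : p.Prime).ne_one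
  have hcop : m.Coprime p := ((Fact.out : p.Prime).coprime_iff_not_dvd.2 hm').symm
  refine hK.root c hc e ?_
  have hc' : c ^ p ^ e ∈ F.autGroup T := Subgroup.pow_mem _ hc _
  have hord : (c ^ p ^ e) ^ m = 1 := by
    rw [← pow_mul, ← hnm]; exact pow_orderOf_eq_one c
  have hAle : Subgroup.zpowers (c ^ p ^ e) ≤ F.autGroup T := Subgroup.zpowers_le.2 hc'
  refine hK.sub (gam hS hE hAle (fun α hα k hk => ?_) X (centric_of_tc hE.2.2.1 hX) _ (Subgroup.mem_zpowers _)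
    (isMap_pow hTS hA hc hm _))
  obtain ⟨i, rfl⟩ := Subgroup.mem_zpowers_iff.1 hα
  have h1 : ((c ^ p ^ e) ^ i) ^ m = 1 := by
    rw [← zpow_natCast ((c ^ p ^ e) ^ i), ← zpow_mul, mul_comm, zpow_mul, zpow_natCast, hord, one_zpow]
  have h2 : ∃ j : ℕ, (((c ^ p ^ e) ^ i) ^ p ^ k) ^ j = (c ^ p ^ e) ^ i := by
    have hcop' : (p ^ k).Coprime (orderOf ((c ^ p ^ e) ^ i)) :=
      Nat.Coprime.coprime_dvd_right (orderOf_dvd_of_pow_eq_one h1) (Nat.Coprime.pow_left _ hcop.symm)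
    obtain ⟨j, hj⟩ := exists_pow_eq_self_of_coprime hcop'
    exact ⟨j, hj⟩
  obtain ⟨j, hj⟩ := h2
  rw [← hj]
  exact Subgroup.pow_mem _ hk j

def W0 (E : FusionSystem T) (K : Subgroup (MulAut T)) (X : Subgroup Ω) (f : Ω → Ω) : Prop :=
  ∃ k ∈ K, ∃ f₀, IsMap E X f₀ ∧ ∀ x ∈ X, f x = fn k (f₀ x)

theorem W0.congr (h : W0 E K X f) (e : ∀ x ∈ X, f x = g x) : W0 E K X g := by
  obtain ⟨k, hk, f₀, hf₀, e'⟩ := h
  exact ⟨k, hk, f₀, hf₀, fun x hx => by rw [← e x hx]; exact e' x hx⟩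

theorem W0.mono (h : W0 E K X f) (hY : Y ≤ X) : W0 E K Y f := by
  obtain ⟨k, hk, f₀, hf₀, e'⟩ := h
  exact ⟨k, hk, f₀, hf₀.mono hY, fun x hx => e' x (hY hx)⟩

theorem W0.of_E (h : IsMap E X f) : W0 E K X f :=
  ⟨1, K.one_mem, f, h, fun x hx => (fn_one (h.mem hx)).symm⟩

theorem W0.mem (h : W0 E K X f) {x : Ω} (hx : x ∈ X) : f x ∈ T := by
  obtain ⟨k, hk, f₀, hf₀, e'⟩ := h
  rw [e' x hx]; exact fn_mem k (hf₀.mem hx)

theorem W0.comp (hTS : T ≤ S) (hA : AInv F E) (hK : K ≤ F.autGroup T) (h1 : W0 E K X f) (h2 : W0 E K Y g)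
    (hfY : ∀ x ∈ X, f x ∈ Y) : W0 E K X (g ∘ f) := by
  obtain ⟨k, hk, f₀, hf₀, e⟩ := h1
  obtain ⟨l, hl, g₀, hg₀, e'⟩ := h2
  obtain ⟨g', hg', eg'⟩ := hA Y g₀ _ hg₀ (fn_iso (F := F) hTS (hK (K.inv_mem hk)))
  have hf0 : ∀ x ∈ X, f₀ x = fn k⁻¹ (f x) := fun x hx => by rw [e x hx, fn_inv_apply k (hf₀.mem hx)]
  refine ⟨l * k, K.mul_mem hl hk, g' ∘ f₀, hf₀.comp hg' fun x hx => ?_, fun x hx => ?_⟩
  · rw [hf0 x hx]; exact apply_mem_img (hfY x hx)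
  · show g (f x) = fn (l * k) (g' (f₀ x))
    have h3 : g' (f₀ x) = fn k⁻¹ (g₀ (f x)) := by rw [hf0 x hx, eg' _ (hfY x hx)]
    rw [e' _ (hfY x hx), h3, fn_mul _ _ (fn_mem _ (hg₀.mem (hfY x hx))), fn_apply_inv k (hg₀.mem (hfY x hx))]

theorem W0.symm (hTS : T ≤ S) (hA : AInv F E) (hK : K ≤ F.autGroup T) (hf : IsIso F X Y f) (h1 : W0 E K X f)
    (hgf : ∀ x ∈ X, g (f x) = x) : W0 E K Y g := by
  obtain ⟨k, hk, f₀, hf₀, e⟩ := h1
  have hX := hf₀.le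
  obtain ⟨f₁, hf₁, l1, l2⟩ := hf₀.isIso.symm
  obtain ⟨g', hg', eg'⟩ := hA _ f₁ _ hf₁.isMap (fn_iso (F := F) hTS (hK hk))
  refine ⟨k⁻¹, K.inv_mem hk, g', hg'.mono fun y hy => ?_, fun y hy => ?_⟩
  · obtain ⟨x, hx, rfl⟩ := hf.surj hy
    rw [e x hx]
    exact apply_mem_img (apply_mem_img hx)
  · obtain ⟨x, hx, rfl⟩ := hf.surj hy
    rw [hgf x hx, e x hx, eg' _ (apply_mem_img hx), l1 x hx, fn_inv_apply k (hX hx)]

/-- the value is well defined on `E`-centric subgroups -/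
theorem W0.uniq [Fact p.Prime] [Finite S] (hK : Ker F E p K) (hS : IsPGroup p S) (hE : E.IsWeaklyNormalIn F p)
    (hX : TC F T X) (h1 : W0 E K X f) {c : MulAut T} (hc : c ∈ F.autGroup T) (hg : IsMap E X g)
    (e : ∀ x ∈ X, f x = fn c (g x)) : c ∈ K := by
  have hT := hE.2.2.2.1
  have hTS : T ≤ S := hT.1
  obtain ⟨k, hk, f₀, hf₀, e'⟩ := h1
  have hkc : k⁻¹ * c ∈ F.autGroup T := Subgroup.mul_mem _ (Subgroup.inv_mem _ (hK.le hk)) hc
  have h2 : k⁻¹ * c ∈ K := by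
    have hgi := hg.isIso
    obtain ⟨g', hg', l1, l2⟩ := hgi.symm
    refine hK.mem_of_restrict hS hE hkc (hX.conj hT (isIso_of_sub hE.2.2.1 hgi)) ?_
    refine (hg'.isMap.comp hf₀ fun y hy => hg'.mem hy).congr fun y hy => ?_
    obtain ⟨x, hx, rfl⟩ := (mem_img hg).1 hy
    show f₀ (g' (g x)) = _
    rw [l1 x hx, fn_mul _ _ (hg.mem hx), ← e x hx, e' x hx, fn_inv_apply k (hf₀.mem hx)]
  have h3 := K.mul_mem hk h2
  rwa [mul_inv_cancel_left] at h3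

/-- elements of `Aut_S(T)` lie in `K` -/
theorem Ker.inner [Fact p.Prime] [Finite S] (hK : Ker F E p K) (hS : IsPGroup p S) (hTS : T ≤ S)
    {c : MulAut T} (hc : c ∈ autInducedBy S T) : c ∈ K := by
  have hTfin : Finite T := finite_of_le hTS
  obtain ⟨k, hk⟩ := (isPGroup_autInducedBy (P := T) hS) ⟨c, hc⟩
  refine hK.root c (autInducedBy_le_autGroup F hTS hc) k ?_
  have h1 := congrArg Subtype.val hk
  have h2 : c ^ p ^ k = 1 := h1
  rw [h2]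
  exact K.one_mem

/-- `Aut_F(T) = K Aut_F(S)|_T` -/
theorem Ker.exists_ext [Fact p.Prime] [Finite S] (hK : Ker F E p K) (hS : IsPGroup p S) (hF : F.IsSaturated p)
    (hT : F.StronglyClosed T) {c : MulAut T} (hc : c ∈ F.autGroup T) :
    ∃ b ∈ F.autGroup S, ∃ k ∈ K, ∀ x ∈ T, fn c x = fn b (fn k x) := by
  have hTS := hT.1
  have hTn : IsNice F p T := H87.Bridge.nice_of_fn hS hF (fn_of_stronglyClosed hT)
  obtain ⟨k, hk, hD⟩ := hTn.frattini hK.le hK.norm hc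
  obtain ⟨g, hg, hge⟩ := hD S le_rfl (by
    intro d hd
    have hdn : d ∈ Subgroup.normalizer (T : Set Ω) := by
      have : Finite T := finite_of_le hTS
      exact mem_normalizer_iff_of_finite.2 fun x hx => StronglyClosed.conj_mem hT hd hx
    exact ⟨cj T hdn, hK.inner hS hTS (cj_mem hdn hd), fun x => rfl⟩)
  have hg' : IsIso F S S g := by
    have h1 := hg.mono (le_sup_right : S ≤ T ⊔ S)
    exact H26.FocCent.isIso_self h1 fun x hx => h1.mem hx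
  have hkc : k * c ∈ F.autGroup T := Subgroup.mul_mem _ (hK.le hk) hc
  have hbT : ∀ x ∈ T, fn hg'.aut x = fn (k * c) x := by
    intro x hx
    rw [fn_aut hg' (hTS hx), hge x hx, fn_apply _ hx]
  refine ⟨hg'.aut, hg'.aut_mem, (k * c)⁻¹ * k⁻¹ * (k * c), ?_, fun x hx => ?_⟩
  · have h2 := hK.norm _ (Subgroup.inv_mem _ hkc) _ (K.inv_mem hk)
    rwa [inv_inv] at h2
  · rw [hbT _ (fn_mem _ hx), ← fn_mul _ _ hx]
    congr 1
    group

/-- the Frattini decomposition in terms of automorphisms -/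
theorem exists_fn_decomp (hE : E.IsInvariantIn F) (hX : X ≤ T) (hf : IsMap F X f) :
    ∃ c ∈ F.autGroup T, ∃ f₀, IsMap E X f₀ ∧ ∀ x ∈ X, f x = fn c (f₀ x) := by
  obtain ⟨-, -, -, hFr⟩ := isInvariantIn_iff.1 hE
  obtain ⟨a, f₀, ha, hf₀, e⟩ := hFr X f hX hf
  exact ⟨ha.aut, ha.aut_mem, f₀, hf₀, fun x hx => by rw [e x hx, fn_aut ha (hf₀.mem hx)]⟩

/-- Restriction to `T` of an isomorphism. -/
theorem iso_inf (hT : F.StronglyClosed T) (hf : IsIso F P Q f) : IsIso F (P ⊓ T) (Q ⊓ T) f := by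
  refine (hf.isMap.mono inf_le_left).isIso_of ?_ ?_
  · intro x hx
    exact ⟨hf.mem hx.1, mem_of_stronglyClosed hT hf.isMap hx.1 hx.2⟩
  · intro y hy
    obtain ⟨g, hg, g1, g2⟩ := hf.symm
    exact ⟨g y, ⟨hg.mem hy.1, mem_of_stronglyClosed hT hg.isMap hy.1 hy.2⟩, g2 y hy.1⟩

/-- `F₀` -/
structure IsF0 (F : FusionSystem S) (E : FusionSystem T) (K : Subgroup (MulAut T)) (F₀ : FusionSystem S) : Prop where
  sub : F₀.IsSubsystemOf F
  iff : ∀ P f, P ≤ S → TC F T (P ⊓ T) → (IsMap F₀ P f ↔ IsMap F P f ∧ W0 E K (P ⊓ T) f)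
  least : ∀ G : FusionSystem S, (∀ Q g, Q ≤ S → TC F T (Q ⊓ T) → IsMap F Q g → W0 E K (Q ⊓ T) g → IsMap G Q g) →
    ∀ P f, IsMap F₀ P f → IsMap G P f

theorem exists_F0 [Fact p.Prime] [Finite S] (hK : Ker F E p K) (hS : IsPGroup p S) (hE : E.IsWeaklyNormalIn F p) :
    ∃ F₀, IsF0 F E K F₀ := by
  have hT := hE.2.2.2.1
  have hTS : T ≤ S := hT.1
  have hA : AInv F E := (sinv_of_invariant hE.2.2).ainv
  let Gen : FusionSystem S → Prop := fun G => ∀ Q g, Q ≤ S → TC F T (Q ⊓ T) → IsMap F Q g → W0 E K (Q ⊓ T) g →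
    IsMap G Q g
  obtain ⟨F₀, hF₀⟩ := exists_cut F le_rfl (fun P f => ∀ G, Gen G → IsMap G P f)
    (fun P f g hP hf hfT e h G hG => (h G hG).congr e)
    (fun P hP t ht G hG => isMap_conj G hP ht)
    (fun P Q f g hP hQ hf hg hfQ hgT h1 h2 G hG => (h1 G hG).comp (h2 G hG) hfQ)
    (fun P Q f g hP hQ hf hg e1 e2 h G hG => by
      obtain ⟨l, hl, l1, l2⟩ := (h G hG).isIso.symm
      rw [hf.eq_img] at hl
      refine hl.isMap.congr fun y hy => ?_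
      obtain ⟨x, hx, rfl⟩ := hf.surj hy
      rw [l1 x hx, e1 x hx])
  obtain ⟨G₁, hG₁⟩ := exists_cut F le_rfl (fun P f => TC F T (P ⊓ T) → W0 E K (P ⊓ T) f)
    (fun P f g hP hf hfT e h hP' => (h hP').congr fun x hx => e x hx.1)
    (fun P hP t ht hP' => by
      have hdn : t ∈ Subgroup.normalizer (T : Set Ω) := by
        have : Finite T := finite_of_le hTS
        exact mem_normalizer_iff_of_finite.2 fun x hx => StronglyClosed.conj_mem hT ht hx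
      exact ⟨cj T hdn, hK.inner hS hTS (cj_mem hdn ht), fun x => x, isMap_id E inf_le_right, fun x hx =>
        (fn_cj hdn hx.2).symm⟩)
    (fun P Q f g hP hQ hf hg hfQ hgT h1 h2 hP' => by
      have h3 := iso_inf hT hf.isIso
      have h4 : img P f ⊓ T ≤ Q ⊓ T := by
        refine inf_le_inf_right _ ?_
        intro y hy
        obtain ⟨x, hx, rfl⟩ := (mem_img hf).1 hy
        exact hfQ x hx
      have hQ' : TC F T (Q ⊓ T) := (hP'.conj hT h3).up h4 inf_le_right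
      exact W0.comp hTS hA hK.le (h1 hP') (h2 hQ') fun x hx => h4 (h3.mem hx))
    (fun P Q f g hP hQ hf hg e1 e2 h hQ' => by
      have h3 := iso_inf hT hf
      have h4 := iso_inf hT hg
      have hP' : TC F T (P ⊓ T) := hQ'.conj hT h4
      exact W0.symm hTS hA hK.le h3 (h hP') fun x hx => e1 x hx.1)
  have hgen : Gen G₁ := fun Q g hQ hQ' hg hw => (hG₁ Q g).2 ⟨hg, hQ, fun x hx => hg.mem hx, fun _ => hw⟩
  refine ⟨F₀, isSubsystemOf_iff.2 fun P f hf => ((hF₀ P f).1 hf).1, fun P f hP hP' => ⟨fun h => ?_, fun h => ?_⟩, ?_⟩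
  · obtain ⟨h1, h2, h3, h4⟩ := (hF₀ P f).1 h
    exact ⟨h1, ((hG₁ P f).1 (h4 G₁ hgen)).2.2.2 hP'⟩
  · exact (hF₀ P f).2 ⟨h.1, hP, fun x hx => h.1.mem hx, fun G hG => hG P f hP hP' h.1 h.2⟩
  · intro G hG P f hf
    exact ((hF₀ P f).1 hf).2.2.2 G hG

end H26.ChiSys
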