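import Cfsg.Agent.Lib.H26.ChiSys
set_option autoImplicit false
set_option linter.unusedSectionVars false

open Cfsg Cfsg.FusionSystem

namespace H26.ChiSys
open H87.Base H87.Basic H87.Syl H87.Sat H87.Grow H87.Inv H87.Frat H87.Cut H87.PPow H87.Crit H87.PPr H87.NE

variable {Ω : Type*} [Group Ω] {S T : Subgroup Ω} {F F₀ : FusionSystem S} {E : FusionSystem T}
  {P Q R X Y : Subgroup Ω} {f g h a b : Ω → Ω} {p : ℕ} {K : Subgroup (MulAut T)}

/-- `F₀` is invariant under `Aut_F(S)`. -/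
theorem IsF0.ainv [Fact p.Prime] [Finite S] (hF₀ : IsF0 F E K F₀) (hK : Ker F E p K)
    (hE : E.IsWeaklyNormalIn F p) : AInv F F₀ := by
  have hT := hE.2.2.2.1
  have hTS : T ≤ S := hT.1
  have hA : AInv F E := (sinv_of_invariant hE.2.2).ainv
  obtain ⟨E₀, hE₀, hA₀⟩ := exists_inv_core (F := F) (E := F₀) hF₀.sub
  have hgen : ∀ Q g, Q ≤ S → TC F T (Q ⊓ T) → IsMap F Q g → W0 E K (Q ⊓ T) g → IsMap E₀ Q g := by
    intro Q g hQ hQ' hg hw
    refine (hE₀ Q g).2 ⟨(hF₀.iff Q g hQ hQ').2 ⟨hg, hw⟩, fun a ha => ?_⟩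
    have haQ : IsIso F Q (img Q a) a := (ha.isMap.mono hQ).isIso
    obtain ⟨ai, hai, a1, a2⟩ := haQ.symm
    have haT : IsIso F T T a := StronglyClosed.isMap_iso hT ha.isMap hTS
    have hRS : img Q a ≤ S := haQ.le'
    have hinf := iso_inf hT haQ
    have hinf' := iso_inf hT hai
    have hR' : TC F T (img Q a ⊓ T) := hQ'.conj hT hinf
    refine ⟨fun y => a (g (ai y)), (hF₀.iff _ _ hRS hR').2 ⟨?_, ?_⟩, fun x hx => ?_⟩
    · exact (hai.isMap.comp hg fun y hy => hai.mem hy).comp ha.isMap fun y hy => hg.mem (hai.mem hy)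
    · obtain ⟨k, hk, f₀, hf₀, e⟩ := hw
      obtain ⟨α, hα, hαe⟩ : ∃ α ∈ F.autGroup T, ∀ x ∈ T, fn α x = a x := ⟨haT.aut, haT.aut_mem, fun x hx => fn_aut haT hx⟩
      obtain ⟨g', hg', eg'⟩ := hA _ f₀ _ hf₀ (fn_iso (F := F) hTS hα)
      have hm : ∀ y ∈ img Q a ⊓ T, y ∈ img (Q ⊓ T) (fn α) := by
        intro y hy
        obtain ⟨x, hx, rfl⟩ := hinf.surj hy
        rw [← hαe x hx.2]
        exact apply_mem_img hx
      refine ⟨α * k * α⁻¹, hK.norm α hα k hk, g', hg'.mono hm, fun y hy => ?_⟩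
      obtain ⟨x, hx, rfl⟩ := hinf.surj hy
      have h1 : g' (a x) = fn α (f₀ x) := by rw [← hαe x hx.2, eg' x hx]
      have h2 : f₀ x ∈ T := hf₀.mem hx
      show a (g (ai (a x))) = _
      rw [a1 x hx.1, e x hx, h1, fn_mul _ _ (fn_mem α h2), fn_inv_apply α h2, fn_mul _ _ h2, hαe _ (fn_mem k h2)]
    · show a (g (ai (a x))) = a (g x)
      rw [a1 x hx]
  have hle := hF₀.least E₀ hgen
  intro P f a hf ha
  obtain ⟨g, hg, e⟩ := hA₀ P f a (hle P f hf) ha
  exact ⟨g, ((hE₀ _ _).1 hg).1, e⟩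

/-- witness of noncentricity -/
def Wit (T Q : Subgroup Ω) (x : Ω) : Prop :=
  x ∈ T ∧ x ∉ Q ∧ (∀ z ∈ Q, x * z * x⁻¹ ∈ Q) ∧ ∀ z ∈ Q, z ∈ T → x * z * x⁻¹ = z

theorem Wit.transport [Finite S] (hT : F.StronglyClosed T) (ha : IsIso F S S a) (hb : IsIso F S S b)
    (hba : ∀ x ∈ S, b (a x) = x) (hab : ∀ x ∈ S, a (b x) = x) (hQ : Q ≤ S) (haQ : IsIso F Q P a) {x : Ω}
    (h : Wit T P x) : Wit T Q (b x) := by
  obtain ⟨h1, h2, h3, h4⟩ := h
  have hTS := hT.1
  have hbT : IsIso F T T b := StronglyClosed.isMap_iso hT hb.isMap hTS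
  have haT : IsIso F T T a := StronglyClosed.isMap_iso hT ha.isMap hTS
  have hPS : P ≤ S := haQ.le'
  have hbP : ∀ y ∈ P, b y ∈ Q := by
    intro y hy
    obtain ⟨z, hz, rfl⟩ := haQ.surj hy
    rw [hba z (hQ hz)]; exact hz
  have hconj : ∀ z ∈ Q, b x * z * (b x)⁻¹ = b (x * a z * x⁻¹) := by
    intro z hz
    rw [hb.isMap.map_conj (hTS h1) (hPS (haQ.mem hz)), hba z (hQ hz)]
  refine ⟨hbT.mem h1, fun h => h2 ?_, fun z hz => ?_, fun z hz hzT => ?_⟩
  · have := haQ.mem h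
    rwa [hab x (hTS h1)] at this
  · rw [hconj z hz]; exact hbP _ (h3 _ (haQ.mem hz))
  · rw [hconj z hz, h4 _ (haQ.mem hz) (haT.mem hzT), hba z (hQ hz)]

/-- a witness gives an automorphism in `O_p(Aut(Q))` outside `Inn(Q)` -/
theorem Wit.spec [Fact p.Prime] [Finite S] (hS : IsPGroup p S) {G : FusionSystem S} (hT : G.StronglyClosed T)
    (hQ : Q ≤ S) (hC : centralizerIn S Q ≤ Q) {x : Ω} (h : Wit T Q x) :
    ∃ c ∈ autInducedBy S Q, c ∈ core G p Q ∧ c ∉ Inn Q ∧ ∀ z ∈ Q, fn c z = x * z * x⁻¹ := by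
  obtain ⟨h1, h2, h3, h4⟩ := h
  have hTS := hT.1
  have hfin : Finite Q := finite_of_le hQ
  have hxn : x ∈ Subgroup.normalizer (Q : Set Ω) := mem_normalizer_iff_of_finite.2 h3
  refine ⟨cj Q hxn, cj_mem hxn (hTS h1), ?_, fun hi => ?_, fun z hz => fn_cj hxn hz⟩
  · have hinv : ∀ a ∈ G.autGroup Q, ∀ y ∈ Q ⊓ T, fn a y ∈ Q ⊓ T := by
      intro a ha y hy
      exact ⟨fn_mem a hy.1, mem_of_stronglyClosed hT (fn_iso (F := G) hQ ha).isMap hy.1 hy.2⟩
    have hsub : stb Q (Q ⊓ T) inf_le_left ⊓ G.autGroup Q ≤ core G p Q := by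
      refine le_core inf_le_right (stb_normal hinv) ?_
      have : Finite ↥(Q ⊓ T) := finite_of_le (inf_le_left.trans hQ)
      exact (stb_isPGroup (hS.to_le (inf_le_left.trans hQ))).to_le inf_le_left
    refine hsub ⟨⟨fun z hz => ?_, fun z hz => ?_⟩, autInducedBy_le_autGroup G hQ (cj_mem hxn (hTS h1))⟩
    · rw [fn_cj hxn hz.1]; exact h4 z hz.1 hz.2
    · rw [fn_cj hxn hz]
      refine ⟨Q.mul_mem (Q.inv_mem hz) (h3 z hz), ?_⟩
      have h5 : z⁻¹ * (x * z * x⁻¹) = (z⁻¹ * x * z) * x⁻¹ := by group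
      rw [h5]
      exact T.mul_mem (StronglyClosed.conj_mem' hT (hQ hz) h1) (T.inv_mem h1)
  · rw [← H86.FusBasic.autInducedBy_self] at hi
    obtain ⟨u, hu, hu'⟩ := fn_autInduced hi
    apply h2
    have h5 : u⁻¹ * x ∈ centralizerIn S Q := by
      rw [mem_centralizerIn]
      refine ⟨S.mul_mem (S.inv_mem (hQ hu)) (hTS h1), fun y hy => ?_⟩
      have h6 := hu' y hy
      rw [fn_cj hxn hy] at h6
      have h7 : x * y = u * y * u⁻¹ * x := by rw [← h6]; group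
      calc y * (u⁻¹ * x) = u⁻¹ * (u * y * u⁻¹ * x) := by group
        _ = u⁻¹ * (x * y) := by rw [h7]
        _ = u⁻¹ * x * y := by group
    have h6 := Q.mul_mem hu (hC h5)
    rwa [mul_inv_cancel_left] at h6

/-- existence of a witness on a conjugate of a centric `P` outside the family -/
theorem exists_wit [Fact p.Prime] [Finite S] (hS : IsPGroup p S) (hE : E.IsWeaklyNormalIn F p) (hP : P ≤ S)
    (hPT : ¬ TC F T (P ⊓ T)) : ∃ ψ P' x, IsIso F P P' ψ ∧ Wit T P' x := by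
  obtain ⟨hEs, hF, hInv⟩ := hE
  have hT := hInv.2.1
  have hTS : T ≤ S := hT.1
  have hTfin : Finite T := finite_of_le hTS
  have hTp : IsPGroup p T := hS.to_le hTS
  have hUS : P ⊓ T ≤ S := inf_le_left.trans hP
  obtain ⟨U', hUU', hU'⟩ := exists_nice hF hUS
  obtain ⟨ψ, hψ, hψi⟩ := hU'.exists_map_normalizer hS hUU'
  have hfinU : Finite ↥(P ⊓ T) := finite_of_le hUS
  have hPN : P ≤ normalizerIn S (P ⊓ T) := by
    intro y hy
    refine mem_normalizerIn_iff.2 ⟨hP hy, fun z hz => ⟨P.mul_mem (P.mul_mem hy hz.1) (P.inv_mem hy), ?_⟩⟩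
    exact StronglyClosed.conj_mem hT (hP hy) hz.2
  have hψP : IsIso F P (img P ψ) ψ := (hψ.mono hPN).isIso
  obtain ⟨P', hP'⟩ : ∃ P', img P ψ = P' := ⟨_, rfl⟩
  rw [hP'] at hψP
  have hinf := iso_inf hT hψP
  have hU'eq : P' ⊓ T = U' := by rw [← hinf.eq_img, hψi.eq_img]
  have hU'T : U' ≤ T := by rw [← hU'eq]; exact inf_le_right
  have hnTC : ¬ TC F T U' := by
    intro h
    obtain ⟨k, hk, -⟩ := hψi.symm
    exact hPT (h.conj hT hk)
  have hEn : IsNice E p U' := H87.Bridge.nice_of_fn hTp hEs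
    (H87.Bridge.fn_sub hS hF hInv.1 hT hU'T (H87.Bridge.fn_of_nice hS hU'))
  have hEc : ¬ E.IsCentric U' := fun h => hnTC (tc_of_centric hInv h)
  obtain ⟨c, hc1, hc2⟩ := exists_centralizer hTp hEn hEc
  have hP'S : P' ≤ S := hψP.le'
  have hcP' : c ∉ P' := fun h => hc2 (by rw [← hU'eq]; exact ⟨h, hc1.1⟩)
  -- `P'` normalizes `C_T(U')`
  have hnorm : ∀ y ∈ P', ∀ d ∈ centralizerIn T U', y * d * y⁻¹ ∈ centralizerIn T U' := by
    intro y hy d hd
    rw [mem_centralizerIn]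
    refine ⟨StronglyClosed.conj_mem hT (hP'S hy) hd.1, fun z hz => ?_⟩
    have hz' : y⁻¹ * z * y ∈ U' := by
      rw [← hU'eq] at hz ⊢
      refine ⟨?_, StronglyClosed.conj_mem' hT (hP'S hy) hz.2⟩
      exact P'.mul_mem (P'.mul_mem (P'.inv_mem hy) hz.1) hy
    have h1 := (mem_centralizerIn.1 hd).2 _ hz'
    calc z * (y * d * y⁻¹) = y * ((y⁻¹ * z * y) * d) * y⁻¹ := by group
      _ = y * (d * (y⁻¹ * z * y)) * y⁻¹ := by rw [h1]
      _ = y * d * y⁻¹ * z := by group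
  have hCT : centralizerIn T U' ≤ S := centralizerIn_le.trans hTS
  have hWS : P' ⊔ centralizerIn T U' ≤ S := sup_le hP'S hCT
  have hlt : P' < P' ⊔ centralizerIn T U' :=
    lt_of_le_of_ne le_sup_left fun e => hcP' (by rw [e]; exact Subgroup.mem_sup_right hc1)
  have hWfin : Finite ↥(P' ⊔ centralizerIn T U') := finite_of_le hWS
  have hlt' := lt_normalizerIn (hS.to_le hWS) hlt
  obtain ⟨w, hw, hwP⟩ := SetLike.exists_of_lt hlt'
  obtain ⟨y, hy, d, hd, rfl⟩ := (mem_sup_of_conj hnorm).1 hw.1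
  have hfinP' : Finite P' := finite_of_le hP'S
  have hdn : d ∈ Subgroup.normalizer (P' : Set Ω) := by
    have h1 : y ∈ Subgroup.normalizer (P' : Set Ω) := Subgroup.le_normalizer hy
    have h2 := Subgroup.mul_mem _ (Subgroup.inv_mem _ h1) hw.2
    rwa [inv_mul_cancel_left] at h2
  refine ⟨ψ, P', d, hψP, hd.1, fun h => hwP (P'.mul_mem hy h), mem_normalizer_iff_of_finite.1 hdn, fun z hz hzT => ?_⟩
  have hzU : z ∈ U' := by rw [← hU'eq]; exact ⟨hz, hzT⟩
  have h1 := (mem_centralizerIn.1 hd).2 z hzU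
  rw [← h1]; group

/-- the Frattini condition for `F₀` -/
theorem IsF0.fg [Fact p.Prime] [Finite S] (hF₀ : IsF0 F E K F₀) (hK : Ker F E p K) (hS : IsPGroup p S)
    (hE : E.IsWeaklyNormalIn F p) : ∀ P f, IsMap F P f → FG F F₀ P f := by
  obtain ⟨hEs, hF, hInv⟩ := id hE
  have hT := hInv.2.1
  have hTS : T ≤ S := hT.1
  have hA := hF₀.ainv hK hE
  intro P f hf
  refine alp hS hF stronglyClosed_top (fun P f => FG F F₀ P f) (fun P f g _ _ e h => h.congr e)
    (fun P Q f _ _ hQ h => h.mono hQ) (fun P Q f g _ hf _ h1 h2 => FG.comp hA le_rfl hf h1 h2)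
    (fun P Q f g _ hf _ e _ h1 => FG.symm hA hf h1 e)
    (fun f hf => ⟨f, fun x => x, hf, isMap_id F₀ le_rfl, fun _ _ => rfl⟩) ?_ P f hf.le hf
  intro Q hQS hQne hQ hbig f hf
  by_cases hTC : TC F T (Q ⊓ T)
  · -- `Q` in the family
    have hfT := iso_inf hT hf
    obtain ⟨c, hc, f₀, hf₀, e⟩ := exists_fn_decomp hInv inf_le_right hfT.isMap
    obtain ⟨b, hb, k, hk, hbk⟩ := hK.exists_ext hS hF hT hc
    have hbi := fn_iso (F := F) le_rfl hb
    have hbi' := fn_iso (F := F) le_rfl (Subgroup.inv_mem _ hb)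
    refine ⟨fn b, fun x => fn b⁻¹ (f x), hbi, (hF₀.iff Q _ hQS hTC).2 ⟨?_, ?_⟩, fun x hx => ?_⟩
    · exact hf.isMap.comp hbi'.isMap fun x hx => hf.isMap.mem hx
    · refine ⟨k, hk, f₀, hf₀, fun x hx => ?_⟩
      show fn b⁻¹ (f x) = _
      rw [e x hx, hbk _ (hf₀.mem hx), fn_inv_apply b (hTS (fn_mem k (hf₀.mem hx)))]
    · show f x = fn b (fn b⁻¹ (f x))
      rw [fn_apply_inv b (hf.isMap.mem hx)]
  · by_cases hc : F.IsCentric Q
    · -- centric outside of the family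
      obtain ⟨ψ, P', x, hψ, hx⟩ := exists_wit hS hE hQS hTC
      have hP'c : F.IsCentric P' := IsCentric.conj hc hψ.isConj
      obtain ⟨c, hc1, hc2, hc3, hc4⟩ := hx.spec hS hT hψ.le' (hP'c.2 P' (isConj_refl F hψ.le'))
      obtain ⟨ψi, hψi, i1, i2⟩ := hψ.symm
      have hκ : IsIso.congrAut hψi c ∈ core F p Q := core_transport hψi hc2
      have hfinQ : Finite Q := finite_of_le hQS
      have : Finite (MulAut Q) := finite_mulAut
      have hcoreS : core F p Q ≤ autInducedBy S Q :=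
        sylIn_normal_le (isFullyAutomized_iff.1 hQ.1).2 core_le core_normal core_isPGroup
      obtain ⟨s, hs, hs'⟩ := fn_autInduced (hcoreS hκ)
      have hsn : s ∈ Subgroup.normalizer (Q : Set Ω) := by
        refine mem_normalizer_iff_of_finite.2 fun y hy => ?_
        rw [← hs' y hy]; exact fn_mem _ hy
      have hsQ : s ∉ Q := by
        intro hsQ
        apply hc3
        rw [← H86.FusBasic.autInducedBy_self]
        refine mem_autInduced_of_fn (g := ψ s) (hψ.mem hsQ) fun y hy => ?_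
        obtain ⟨z, hz, rfl⟩ := hψ.surj hy
        have h1 := fn_congrAut hψi c (hψ.mem hz)
        rw [i1 z hz, hs' z hz] at h1
        have h2 := congrArg ψ h1
        rw [hψ.isMap.map_conj hsQ hz, i2 _ (fn_mem c (hψ.mem hz))] at h2
        exact h2.symm
      obtain ⟨g, hg, hge⟩ := (isReceptive_iff.1 hQ.2).2 Q f hf
      have hfa : ∀ y ∈ Q, fn hf.aut y = f y := fun y hy => fn_aut hf hy
      have hsN : s ∈ nphi S Q f := by
        rw [mem_nphi]
        refine ⟨hs, hsn, ?_⟩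
        obtain ⟨t, ht, ht'⟩ := fn_autInduced (hcoreS (core_normal _ hf.aut_mem _ hκ))
        refine ⟨t, ht, fun y hy => ?_⟩
        have h1 := ht' _ (hf.mem hy)
        have h2 : fn hf.aut⁻¹ (f y) = y := by rw [← hfa y hy, fn_inv_apply _ hy]
        rw [fn_mul _ _ (hf.mem hy), h2, fn_mul _ _ hy, hs' y hy] at h1
        rw [← h1, hfa _ (by rw [← hs' y hy]; exact fn_mem _ hy)]
      have hle : Q ⊔ Subgroup.zpowers s ≤ nphi S Q f := sup_le (le_nphi hf.isMap) (Subgroup.zpowers_le.2 hsN)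
      have hlt : Q < Q ⊔ Subgroup.zpowers s :=
        lt_of_le_of_ne le_sup_left fun e => hsQ (by rw [e]; exact Subgroup.mem_sup_right (Subgroup.mem_zpowers s))
      have hg' := hg.mono hle
      exact ((hbig _ _ hg'.le (card_lt' hg'.le hlt) hg').mono le_sup_left).congr hge
    · obtain ⟨c, hc1, hc2⟩ := exists_centralizer hS hQ hc
      obtain ⟨g, hg, e⟩ := receptive_ext_centralizer hQ.2 hf
      have hlt : Q < Q ⊔ centralizerIn S Q :=
        lt_of_le_of_ne le_sup_left fun e => hc2 (by rw [e]; exact Subgroup.mem_sup_right hc1)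
      exact ((hbig _ _ hg.le (card_lt' hg.le hlt) hg).mono le_sup_left).congr e

end H26.ChiSys
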