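import Cfsg.Agent.Lib.H26.ChiSys2
set_option autoImplicit false
set_option linter.unusedSectionVars false

open Cfsg Cfsg.FusionSystem

namespace H26.ChiSys
open H87.Base H87.Basic H87.Syl H87.Sat H87.Grow H87.Inv H87.Frat H87.Cut H87.PPow H87.Crit H87.PPr H87.NE

variable {Ω : Type*} [Group Ω] {S T : Subgroup Ω} {F F₀ : FusionSystem S} {E : FusionSystem T}
  {P Q R X Y : Subgroup Ω} {f g h a b : Ω → Ω} {p : ℕ} {K : Subgroup (MulAut T)}

/-- niceness is transported by `Aut_F(S)` -/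
theorem nice_transport [Fact p.Prime] [Finite S] (hS : IsPGroup p S) (hF : F.IsSaturated p) (ha : IsIso F S S a)
    (hP : P ≤ S) (haP : IsIso F P Q a) (hQ : IsNice F p Q) : IsNice F p P := by
  refine H87.Bridge.nice_of_fn hS hF ⟨hP, fun R hR => ?_⟩
  obtain ⟨b, hb, b1, b2⟩ := ha.symm
  have hbQ : IsIso F Q P b := by
    refine (hb.isMap.mono haP.le').isIso_of ?_ ?_
    · intro y hy
      obtain ⟨x, hx, rfl⟩ := haP.surj hy
      rw [b1 x (hP hx)]; exact hx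
    · intro x hx
      exact ⟨a x, haP.mem hx, b1 x (hP hx)⟩
  exact ((H87.Bridge.fn_of_nice hS hQ).2 R (isConj_trans (isConj_symm haP.isConj) hR)).trans
    (H26.FocCent.card_normalizerIn_le hb haP.le' hbQ)

theorem IsF0.saturated [Fact p.Prime] [Finite S] (hF₀ : IsF0 F E K F₀) (hK : Ker F E p K) (hS : IsPGroup p S)
    (hE : E.IsWeaklyNormalIn F p) : F₀.IsSaturated p := by
  obtain ⟨hEs, hF, hInv⟩ := id hE
  have hT := hInv.2.1
  have hTS : T ≤ S := hT.1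
  have hfg := hF₀.fg hK hS hE
  have hsub := hF₀.sub
  refine saturated_of_family hS {P | P ≤ S ∧ TC F T (P ⊓ T)} ?_ ?_ ?_ ?_
  · rintro P ⟨hP, hPT⟩ Q hQ
    obtain ⟨f, hf⟩ := isConj_iff.1 hQ
    have hf' := isIso_of_sub hsub hf
    exact ⟨hf.le', hPT.conj hT (iso_inf hT hf')⟩
  · rintro P ⟨hP, hPT⟩
    obtain ⟨Q₀, hPQ₀, hQ₀⟩ := exists_nice hF hP
    obtain ⟨ψ, hψ⟩ := isConj_iff.1 hPQ₀
    obtain ⟨a, f₀, ha, hf₀, e⟩ := hfg P ψ hψ.isMap
    have hf₀i := hf₀.isIso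
    obtain ⟨Q, hQ⟩ : ∃ Q, img P f₀ = Q := ⟨_, rfl⟩
    rw [hQ] at hf₀i
    have hQS : Q ≤ S := hf₀i.le'
    have haQ : IsIso F Q Q₀ a := by
      refine (ha.isMap.mono hQS).isIso_of ?_ ?_
      · intro y hy
        obtain ⟨x, hx, rfl⟩ := hf₀i.surj hy
        rw [← e x hx]; exact hψ.mem hx
      · intro y hy
        obtain ⟨x, hx, rfl⟩ := hψ.surj hy
        exact ⟨f₀ x, hf₀i.mem hx, (e x hx).symm⟩
    have hQn := nice_transport hS hF ha hQS haQ hQ₀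
    have hQT : TC F T (Q ⊓ T) := hPT.conj hT (iso_inf hT (isIso_of_sub hsub hf₀i))
    refine ⟨Q, hf₀i.isConj, ?_, ?_⟩
    · rw [isFullyAutomized_iff]
      exact ⟨hQS, (isFullyAutomized_iff.1 hQn.1).2.of_le (autInducedBy_le_autGroup F₀ hQS) (autGroup_mono hsub Q)⟩
    · rw [isReceptive_iff]
      refine ⟨hQS, fun R f hf => ?_⟩
      have hf' := isIso_of_sub hsub hf
      obtain ⟨g, hg, hge⟩ := (isReceptive_iff.1 hQn.2).2 R f hf'
      have hRS : R ≤ S := hf.le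
      obtain ⟨fi, hfi, -⟩ := hf'.symm
      have hRT : TC F T (R ⊓ T) := hQT.conj hT (iso_inf hT hfi)
      have hle : R ≤ nphi S R f := le_nphi hf'.isMap
      have hNS : nphi S R f ≤ S := nphi_le
      have hNT : TC F T (nphi S R f ⊓ T) := hRT.up (inf_le_inf_right _ hle) inf_le_right
      refine ⟨g, (hF₀.iff _ _ hNS hNT).2 ⟨hg, ?_⟩, hge⟩
      have hgi := iso_inf hT hg.isIso
      obtain ⟨c, hc, g₀, hg₀, eg⟩ := exists_fn_decomp hInv inf_le_right hgi.isMap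
      have hfw := ((hF₀.iff R f hRS hRT).1 hf.isMap).2
      have hcK : c ∈ K := hfw.uniq hK hS hE hRT hc (hg₀.mono (inf_le_inf_right _ hle)) fun x hx => by
        rw [← hge x hx.1]; exact eg x ⟨hle hx.1, hx.2⟩
      exact ⟨c, hcK, g₀, hg₀, eg⟩
  · intro G hG P φ hφ
    have h1 := hF₀.least G (fun Q g hQ hQT hg hw => by
      obtain ⟨φ, hφ, e⟩ := (hF₀.iff Q g hQ hQT).2 ⟨hg, hw⟩
      exact ⟨φ, hG Q ⟨hQ, hQT⟩ hφ, e⟩) P _ (isMap_of_mem hφ)
    exact mem_iff.2 h1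
  · intro P hPc hPn
    have hPS := hPc.1
    have hPT : ¬ TC F T (P ⊓ T) := fun h => hPn ⟨hPS, h⟩
    have hPF : F.IsCentric P := (centric_iff (p := p) hsub hfg).1 hPc
    obtain ⟨ψ, P', x, hψ, hx⟩ := exists_wit hS hE hPS hPT
    obtain ⟨a, f₀, ha, hf₀, e⟩ := hfg P ψ hψ.isMap
    obtain ⟨b, hb, b1, b2⟩ := ha.symm
    have hf₀i := hf₀.isIso
    obtain ⟨Q, hQ⟩ : ∃ Q, img P f₀ = Q := ⟨_, rfl⟩
    rw [hQ] at hf₀i
    have hQS : Q ≤ S := hf₀i.le'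
    have haQ : IsIso F Q P' a := by
      refine (ha.isMap.mono hQS).isIso_of ?_ ?_
      · intro y hy
        obtain ⟨x, hx, rfl⟩ := hf₀i.surj hy
        rw [← e x hx]; exact hψ.mem hx
      · intro y hy
        obtain ⟨x, hx, rfl⟩ := hψ.surj hy
        exact ⟨f₀ x, hf₀i.mem hx, (e x hx).symm⟩
    have hw := hx.transport hT ha hb b1 b2 hQS haQ
    have hT₀ : F₀.StronglyClosed T := by
      rw [stronglyClosed_iff]
      refine ⟨hTS, fun R f hR hf y hy => ?_⟩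
      exact mem_of_stronglyClosed hT (isMap_of_sub hsub hf) hy (hR hy)
    have hQc : F₀.IsCentric Q := IsCentric.conj hPc hf₀i.isConj
    obtain ⟨c, hc1, hc2, hc3, -⟩ := hw.spec hS hT₀ hQS (hQc.2 Q (isConj_refl F₀ hQS))
    exact ⟨Q, hf₀i.isConj, fun hle => hc3 (hle ⟨hc1, hc2⟩)⟩

theorem IsF0.invariant [Fact p.Prime] [Finite S] (hF₀ : IsF0 F E K F₀) (hK : Ker F E p K) (hS : IsPGroup p S)
    (hE : E.IsWeaklyNormalIn F p) : F₀.IsInvariantIn F := by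
  rw [isInvariantIn_iff]
  exact ⟨hF₀.sub, stronglyClosed_top, hF₀.ainv hK hE, fun P f _ hf => hF₀.fg hK hS hE P f hf⟩

theorem IsF0.normal [Fact p.Prime] [Finite S] (hF₀ : IsF0 F E K F₀) (hK : Ker F E p K) (hS : IsPGroup p S)
    (hE : E.IsWeaklyNormalIn F p) : F₀.IsNormalIn F p := by
  rw [isNormalIn_iff]
  refine ⟨hF₀.saturated hK hS hE, hE.2.1, hF₀.invariant hK hS hE, fun a ha => ?_⟩
  have h1 : S ⊔ centralizerIn S S = S := sup_eq_left.2 centralizerIn_le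
  refine ⟨a, ?_, fun x _ => rfl, fun c hc => ?_⟩
  · rw [h1]; exact isIso_of_sub hF₀.sub ha
  · have hc' : c ∈ S ⊓ Subgroup.centralizer (S : Set Ω) := hc
    exact Subgroup.mul_mem _ (Subgroup.inv_mem _ hc') (H87.PPow.IsIso.center (isIso_of_sub hF₀.sub ha) hc')

/-- `E ≤ F₀` -/
theorem IsF0.contains [Fact p.Prime] [Finite S] (hF₀ : IsF0 F E K F₀) (hS : IsPGroup p S)
    (hE : E.IsWeaklyNormalIn F p) : E.IsSubsystemOf F₀ := by
  obtain ⟨hEs, hF, hInv⟩ := id hE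
  have hT := hInv.2.1
  have hTS : T ≤ S := hT.1
  have hTfin : Finite T := finite_of_le hTS
  have hTp : IsPGroup p T := hS.to_le hTS
  obtain ⟨J, hJ⟩ := exists_cut E le_rfl (fun P f => IsMap F₀ P f)
    (fun P f g hP hf hfT e h => h.congr e)
    (fun P hP t ht => isMap_conj F₀ (hP.trans hTS) (hTS ht))
    (fun P Q f g hP hQ hf hg hfQ hgT h1 h2 => h1.comp h2 hfQ)
    (fun P Q f g hP hQ hf hg e1 e2 h => by
      obtain ⟨l, hl, l1, l2⟩ := h.isIso.symm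
      rw [hf.eq_img] at hl
      refine hl.isMap.congr fun y hy => ?_
      obtain ⟨x, hx, rfl⟩ := hf.surj hy
      rw [l1 x hx, e1 x hx])
  have hle : E ≤ J := by
    refine H86.FusAlperin.alperin_goldschmidt hTp hEs J fun P hP => ?_
    have hPc : E.IsCentric P := by
      rcases hP with rfl | hP
      · rw [isCentric_iff]
        refine ⟨le_rfl, fun Q f hf => ?_⟩
        have h1 := hf.card_eq
        have h2 : Q = P := by
          have : Finite P := finite_of_le le_rfl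
          exact Subgroup.eq_of_le_of_card_ge hf.le' h1.le
        rw [h2]; exact centralizerIn_le
      · exact hP.1
    intro α hα
    have hαi := fn_iso hPc.1 hα
    refine mem_autGroup_of_isMap (f := fn α) hPc.1 ?_ fun x => (fn_coe α x).symm
    rw [hJ]
    refine ⟨hαi.isMap, hPc.1, fun x hx => hαi.isMap.mem hx, ?_⟩
    have hPT : P ⊓ T = P := inf_eq_left.2 hPc.1
    rw [hF₀.iff P _ (hPc.1.trans hTS) (by rw [hPT]; exact tc_of_centric hInv hPc), hPT]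
    exact ⟨isMap_of_sub hInv.1 hαi.isMap, W0.of_E hαi.isMap⟩
  rw [isSubsystemOf_iff]
  intro P f hf
  obtain ⟨φ, hφ, e⟩ := hf
  exact ((hJ P f).1 ⟨φ, hle P hφ, e⟩).2.2.2

theorem tc_top (hT : F.StronglyClosed T) [Finite S] : TC F T (S ⊓ T) := by
  rw [inf_eq_right.2 hT.1]
  refine ⟨le_rfl, fun Q f hf => ?_⟩
  have h1 := StronglyClosed.isMap_iso hT hf.isMap le_rfl
  have h2 : Q = T := hf.eq_img.symm.trans h1.eq_img
  rw [h2]; exact centralizerIn_le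

theorem IsF0.mem_autGroup [Fact p.Prime] [Finite S] (hF₀ : IsF0 F E K F₀) (hK : Ker F E p K) (hS : IsPGroup p S)
    (hE : E.IsWeaklyNormalIn F p) {α : MulAut S} : α ∈ F₀.autGroup S ↔ α ∈ F.autGroup S ∧
      ∃ k ∈ K, ∀ x ∈ T, fn k x = fn α x := by
  obtain ⟨hEs, hF, hInv⟩ := id hE
  have hT := hInv.2.1
  have hTS : T ≤ S := hT.1
  have hST : S ⊓ T = T := inf_eq_right.2 hTS
  have h0 := hF₀.iff S (fn α) le_rfl (tc_top hT)
  rw [hST] at h0
  constructor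
  · intro h
    have hm : IsMap F₀ S (fn α) := (fn_iso le_rfl h).isMap
    have hαF := autGroup_mono hF₀.sub S h
    obtain ⟨k, hk, f₀, hf₀, e⟩ := (h0.1 hm).2
    refine ⟨hαF, ?_⟩
    have hαT : IsIso F T T (fn α) := StronglyClosed.isMap_iso hT (fn_iso (F := F) le_rfl hαF).isMap hTS
    refine ⟨hαT.aut, ?_, fun x hx => fn_aut hαT hx⟩
    refine (h0.1 hm).2.uniq hK hS hE (by have := tc_top hT; rwa [hST] at this) hαT.aut_mem (isMap_id E le_rfl)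
      fun x hx => ?_
    exact (fn_aut hαT hx).symm
  · rintro ⟨hα, k, hk, e⟩
    refine mem_autGroup_of_isMap (f := fn α) le_rfl ?_ fun x => (fn_coe α x).symm
    exact h0.2 ⟨(fn_iso le_rfl hα).isMap, k, hk, fun x => x, isMap_id E le_rfl, fun x hx => (e x hx).symm⟩

/-- S5243 -/
theorem main [Fact p.Prime] [Finite S] (hS : IsPGroup p S) (hTS : T ≤ S) (hE : E.IsNormalIn F p) {Δ : Type*} [Group Δ]
    [Finite Δ] [Nontrivial Δ] (hΔ : (Nat.card Δ).Coprime p) (χ : ↥(F.autGroup T) →* Δ) (hχ : Function.Surjective χ)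
    (hker : (E.autGroup T).subgroupOf (F.autGroup T) ≤ χ.ker) :
    ∃ F₀ : FusionSystem S, F₀.IsNormalIn F p ∧ ¬ (∀ P : Subgroup Ω, F₀.Hom P = F.Hom P) ∧ E.IsSubsystemOf F₀ ∧
      (∀ α : MulAut ↥S, α ∈ F₀.autGroup S ↔ α ∈ F.autGroup S ∧ ∃ β : ↥(F.autGroup T), χ β = 1 ∧
        ∀ t : ↥T, (((β : MulAut ↥T) t : ↥T) : Ω) = ((α ⟨(t : Ω), hTS t.2⟩ : ↥S) : Ω)) ∧
      ∀ R : FusionSystem S, F.IsPPrimeResidual p R → R.IsSubsystemOf F₀ := by
  have hEw : E.IsWeaklyNormalIn F p := hE.1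
  obtain ⟨hEs, hF, hInv⟩ := id hEw
  have hT := hInv.2.1
  obtain ⟨K, hKdef⟩ : ∃ K : Subgroup (MulAut T), K = χ.ker.map (F.autGroup T).subtype := ⟨_, rfl⟩
  have hKm : ∀ k : MulAut T, k ∈ K ↔ ∃ h : k ∈ F.autGroup T, χ ⟨k, h⟩ = 1 := by
    intro k
    rw [hKdef]
    constructor
    · rintro ⟨κ, hκ, rfl⟩
      exact ⟨κ.2, hκ⟩
    · rintro ⟨h, hk⟩
      exact ⟨⟨k, h⟩, hk, rfl⟩
  have hK : Ker F E p K := by
    refine ⟨fun k hk => ((hKm k).1 hk).1, fun a ha k hk => ?_, fun k hk => ?_, fun a ha k hk => ?_⟩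
    · obtain ⟨h, hk⟩ := (hKm k).1 hk
      refine (hKm _).2 ⟨Subgroup.mul_mem _ (Subgroup.mul_mem _ ha h) (Subgroup.inv_mem _ ha), ?_⟩
      have h1 : (⟨a * k * a⁻¹, Subgroup.mul_mem _ (Subgroup.mul_mem _ ha h) (Subgroup.inv_mem _ ha)⟩ :
          ↥(F.autGroup T)) = ⟨a, ha⟩ * ⟨k, h⟩ * ⟨a, ha⟩⁻¹ := rfl
      rw [h1, map_mul, map_mul, map_inv, hk, mul_one, mul_inv_cancel]
    · have h1 := autGroup_mono hInv.1 T hk
      exact (hKm k).2 ⟨h1, hker (show (⟨k, h1⟩ : ↥(F.autGroup T)) ∈ (E.autGroup T).subgroupOf (F.autGroup T) from hk)⟩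
    · obtain ⟨h, hk⟩ := (hKm _).1 hk
      refine (hKm a).2 ⟨ha, ?_⟩
      have h1 : (⟨a ^ p ^ k, h⟩ : ↥(F.autGroup T)) = ⟨a, ha⟩ ^ p ^ k := rfl
      rw [h1, map_pow] at hk
      have h2 : orderOf (χ ⟨a, ha⟩) ∣ p ^ k := orderOf_dvd_of_pow_eq_one hk
      have h3 : (orderOf (χ ⟨a, ha⟩)).Coprime (p ^ k) :=
        Nat.Coprime.coprime_dvd_left (orderOf_dvd_natCard _) (Nat.Coprime.pow_right _ hΔ)
      exact orderOf_eq_one_iff.1 (Nat.eq_one_of_dvd_coprimes h3 dvd_rfl h2)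
  obtain ⟨F₀, hF₀⟩ := exists_F0 hK hS hEw
  have haut : ∀ α : MulAut ↥S, α ∈ F₀.autGroup S ↔ α ∈ F.autGroup S ∧ ∃ β : ↥(F.autGroup T), χ β = 1 ∧
        ∀ t : ↥T, (((β : MulAut ↥T) t : ↥T) : Ω) = ((α ⟨(t : Ω), hTS t.2⟩ : ↥S) : Ω) := by
    intro α
    rw [hF₀.mem_autGroup hK hS hEw]
    refine and_congr_right fun _ => ?_
    constructor
    · rintro ⟨k, hk, e⟩
      obtain ⟨h, hk⟩ := (hKm k).1 hk
      refine ⟨⟨k, h⟩, hk, fun t => ?_⟩
      have h1 := e t t.2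
      rw [fn_coe, fn_apply α (hTS t.2)] at h1
      exact h1
    · rintro ⟨β, hβ, e⟩
      refine ⟨β, (hKm _).2 ⟨β.2, hβ⟩, fun x hx => ?_⟩
      rw [fn_apply _ hx, fn_apply α (hTS hx)]
      exact e ⟨x, hx⟩
  refine ⟨F₀, hF₀.normal hK hS hEw, fun hall => ?_, hF₀.contains hS hEw, haut, fun R hR => ?_⟩
  · -- properness
    obtain ⟨δ, hδ⟩ := exists_ne (1 : Δ)
    obtain ⟨c, rfl⟩ := hχ δ
    obtain ⟨b, hb, k, hk, e⟩ := hK.exists_ext hS hF hT c.2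
    have hb₀ : b ∈ F₀.autGroup S := by
      refine mem_autGroup_of_isMap (f := fn b) le_rfl ?_ fun x => (fn_coe b x).symm
      obtain ⟨φ, hφ, e'⟩ := (fn_iso (F := F) le_rfl hb).isMap
      exact ⟨φ, by rw [hall]; exact hφ, e'⟩
    obtain ⟨-, l, hl, hl'⟩ := (hF₀.mem_autGroup hK hS hEw).1 hb₀
    apply hδ
    have h1 : (c : MulAut T) = l * k := by
      refine fn_ext fun x hx => ?_
      rw [e x hx, fn_mul _ _ hx, hl' _ (fn_mem k hx)]
    obtain ⟨h, h'⟩ := (hKm c).1 (by rw [h1]; exact K.mul_mem hl hk)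
    exact h'
  · -- the residual
    have hF₀s := hF₀.saturated hK hS hEw
    have hww : F.IsWeaklyNormalIn F p := by
      refine ⟨hF, hF, ?_⟩
      rw [isInvariantIn_iff]
      refine ⟨fun P => le_rfl, stronglyClosed_top, (sinv_self F).ainv, fun P f hP hf => ?_⟩
      exact ⟨fun x => x, f, isIso_id F le_rfl, hf, fun x _ => rfl⟩
    have hw₀ : F₀.IsWeaklyNormalIn F p := ⟨hF₀s, hF, hF₀.invariant hK hS hEw⟩
    exact hR.2.2 F₀ hF₀s (hasPrimeToPIndexIn_iff.2 ⟨hF₀.sub, fun P hP => hasP_of_weaklyNormal hS hww hw₀ hP⟩)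

end H26.ChiSys
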