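import Cfsg.Agent.Lib.H63.SRingAbel

set_option autoImplicit false
set_option linter.unusedSectionVars false

/-! S-rings over generalized dihedral groups, part 1: the decomposition of the group algebra, the
classes of a primitive S-ring, commutativity, powers. -/

namespace H26.Dih
open Finset H63.SR

/-- generalized dihedral data -/
structure Data (K D : Type*) [CommGroup K] [Group D] where
  ρ : K → D
  σ : K → D
  ρρ : ∀ a b, ρ a * ρ b = ρ (a * b)
  ρσ : ∀ a b, ρ a * σ b = σ (a⁻¹ * b)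
  σρ : ∀ a b, σ a * ρ b = σ (a * b)
  σσ : ∀ a b, σ a * σ b = ρ (a⁻¹ * b)
  cases : ∀ x, (∃ a, x = ρ a) ∨ (∃ a, x = σ a)
  ρinj : Function.Injective ρ
  σinj : Function.Injective σ
  ne : ∀ a b, ρ a ≠ σ b

section data
variable {K D : Type*} [CommGroup K] [Group D] (d : Data K D)

theorem Data.ρ_one : d.ρ 1 = 1 := by
  have h := d.ρρ 1 1
  rw [mul_one] at h
  exact mul_eq_left.mp h

theorem Data.ρ_inv (a : K) : (d.ρ a)⁻¹ = d.ρ a⁻¹ := by
  rw [inv_eq_iff_mul_eq_one, d.ρρ, mul_inv_cancel, d.ρ_one]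

theorem Data.σ_inv (a : K) : (d.σ a)⁻¹ = d.σ a := by
  rw [inv_eq_iff_mul_eq_one, d.σσ, inv_mul_cancel, d.ρ_one]

theorem Data.ρ_ne_one {a : K} (ha : a ≠ 1) : d.ρ a ≠ 1 := by
  intro h
  rw [← d.ρ_one] at h
  exact ha (d.ρinj h)

theorem Data.σ_ne_one (a : K) : d.σ a ≠ 1 := by
  intro h
  rw [← d.ρ_one] at h
  exact d.ne 1 a h.symm

/-- the rotation subgroup -/
def Data.rot : Subgroup D where
  carrier := {x | ∃ a, x = d.ρ a}
  mul_mem' := by
    rintro _ _ ⟨a, rfl⟩ ⟨b, rfl⟩
    exact ⟨a * b, d.ρρ a b⟩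
  one_mem' := ⟨1, d.ρ_one.symm⟩
  inv_mem' := by
    rintro _ ⟨a, rfl⟩
    exact ⟨a⁻¹, d.ρ_inv a⟩

theorem Data.mem_rot {x : D} : x ∈ d.rot ↔ ∃ a, x = d.ρ a := Iff.rfl

theorem Data.rot_ne_top : d.rot ≠ ⊤ := by
  intro h
  have : d.σ 1 ∈ d.rot := by rw [h]; trivial
  obtain ⟨a, ha⟩ := this
  exact d.ne a 1 ha.symm

variable [Fintype K] [Fintype D]

theorem Data.sum_eq {R : Type*} [AddCommMonoid R] (f : D → R) :
    ∑ x, f x = ∑ k, f (d.ρ k) + ∑ k, f (d.σ k) := by
  have hb : Function.Bijective (Sum.elim d.ρ d.σ : K ⊕ K → D) := by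
    constructor
    · rintro (a | a) (b | b) h
      · exact congrArg _ (d.ρinj h)
      · exact absurd h (d.ne a b)
      · exact absurd h.symm (d.ne b a)
      · exact congrArg _ (d.σinj h)
    · intro x
      rcases d.cases x with ⟨a, rfl⟩ | ⟨a, rfl⟩
      · exact ⟨Sum.inl a, rfl⟩
      · exact ⟨Sum.inr a, rfl⟩
  rw [← Equiv.sum_comp (Equiv.ofBijective _ hb) f, Fintype.sum_sum_type]
  rfl

include d in
theorem Data.card_eq : Fintype.card D = 2 * Fintype.card K := by
  have := d.sum_eq (fun _ => (1 : ℕ))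
  simp only [sum_const, card_univ, smul_eq_mul, mul_one] at this
  omega

end data

section alg
variable {K D : Type*} [CommGroup K] [Group D] (d : Data K D) [Fintype K] [Fintype D]
variable {R : Type*} [CommRing R]

/-- element of the group algebra from a function -/
noncomputable def el {G : Type*} [Fintype G] (f : G → R) : MonoidAlgebra R G :=
  MonoidAlgebra.ofCoeff (Finsupp.equivFunOnFinite.symm f)

theorem coeff_el {G : Type*} [Fintype G] (f : G → R) (x : G) : (el f).coeff x = f x := rfl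

theorem ma_ext {G : Type*} {x y : MonoidAlgebra R G} (h : ∀ g, x.coeff g = y.coeff g) : x = y := by
  rw [← MonoidAlgebra.coeff_inj]
  exact Finsupp.ext h

/-- rotation part -/
noncomputable def pA (f : MonoidAlgebra R D) : MonoidAlgebra R K := el fun k => f.coeff (d.ρ k)
/-- reflection part -/
noncomputable def pB (f : MonoidAlgebra R D) : MonoidAlgebra R K := el fun k => f.coeff (d.σ k)
/-- inversion -/
noncomputable def st (x : MonoidAlgebra R K) : MonoidAlgebra R K := el fun k => x.coeff k⁻¹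

theorem coeff_pA (f : MonoidAlgebra R D) (k : K) : (pA d f).coeff k = f.coeff (d.ρ k) := rfl
theorem coeff_pB (f : MonoidAlgebra R D) (k : K) : (pB d f).coeff k = f.coeff (d.σ k) := rfl
theorem coeff_st (x : MonoidAlgebra R K) (k : K) : (st x).coeff k = x.coeff k⁻¹ := rfl

theorem st_add (x y : MonoidAlgebra R K) : st (x + y) = st x + st y := ma_ext fun _ => rfl
theorem st_st (x : MonoidAlgebra R K) : st (st x) = x := by
  apply ma_ext
  intro k
  rw [coeff_st, coeff_st, inv_inv]

theorem st_mul (x y : MonoidAlgebra R K) : st (x * y) = st x * st y := by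
  apply ma_ext
  intro k
  rw [coeff_st, coeff_mul_eq, coeff_mul_eq, ← Equiv.sum_comp (Equiv.inv K)]
  refine sum_congr rfl fun u _ => ?_
  rw [coeff_st, coeff_st, Equiv.inv_apply, inv_inv, mul_inv_rev, inv_inv, mul_comm u]

theorem st_one : st (1 : MonoidAlgebra R K) = 1 := by
  apply ma_ext
  intro k
  classical
  rw [coeff_st, MonoidAlgebra.one_def, MonoidAlgebra.coeff_single, Finsupp.single_apply,
    Finsupp.single_apply]
  by_cases h : k = 1
  · subst h; simp
  · have h1 : ¬ (1 : K) = k⁻¹ := fun h' => h (by rw [← inv_inv k, ← h', inv_one])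
    rw [if_neg h1, if_neg (fun h' => h h'.symm)]

theorem st_zero : st (0 : MonoidAlgebra R K) = 0 := ma_ext fun _ => rfl

theorem st_pow (x : MonoidAlgebra R K) (n : ℕ) : st (x ^ n) = st x ^ n := by
  induction n with
  | zero => rw [pow_zero, pow_zero, st_one]
  | succ n ih => rw [pow_succ, pow_succ, st_mul, ih]

theorem pA_mul (f g : MonoidAlgebra R D) :
    pA d (f * g) = pA d f * pA d g + st (pB d f) * pB d g := by
  apply ma_ext
  intro k
  rw [coeff_pA, coeff_mul_eq, d.sum_eq, MonoidAlgebra.coeff_add, Finsupp.add_apply, coeff_mul_eq,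
    coeff_mul_eq]
  congr 1
  · refine sum_congr rfl fun u _ => ?_
    rw [coeff_pA, coeff_pA, d.ρ_inv, d.ρρ]
  · rw [← Equiv.sum_comp (Equiv.inv K)]
    refine sum_congr rfl fun u _ => ?_
    rw [coeff_st, coeff_pB, coeff_pB, Equiv.inv_apply, d.σ_inv, d.σρ]

theorem pB_mul (f g : MonoidAlgebra R D) :
    pB d (f * g) = st (pA d f) * pB d g + pB d f * pA d g := by
  apply ma_ext
  intro k
  rw [coeff_pB, coeff_mul_eq, d.sum_eq, MonoidAlgebra.coeff_add, Finsupp.add_apply, coeff_mul_eq,
    coeff_mul_eq]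
  congr 1
  · rw [← Equiv.sum_comp (Equiv.inv K)]
    refine sum_congr rfl fun u _ => ?_
    rw [coeff_st, coeff_pB, coeff_pA, Equiv.inv_apply, d.ρ_inv, d.ρσ, inv_inv]
  · refine sum_congr rfl fun u _ => ?_
    rw [coeff_pA, coeff_pB, d.σ_inv, d.σσ]

theorem pA_one : pA d (1 : MonoidAlgebra R D) = 1 := by
  apply ma_ext
  intro k
  classical
  rw [coeff_pA, MonoidAlgebra.one_def, MonoidAlgebra.one_def, MonoidAlgebra.coeff_single,
    MonoidAlgebra.coeff_single, Finsupp.single_apply, Finsupp.single_apply]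
  by_cases h : k = 1
  · subst h; rw [d.ρ_one]; simp
  · rw [if_neg (fun h' => d.ρ_ne_one h h'.symm), if_neg (fun h' => h h'.symm)]

theorem pB_one : pB d (1 : MonoidAlgebra R D) = 0 := by
  apply ma_ext
  intro k
  classical
  rw [coeff_pB, MonoidAlgebra.one_def, MonoidAlgebra.coeff_single, Finsupp.single_apply,
    if_neg (fun h' => d.σ_ne_one k h'.symm)]
  rfl

/-- the powers of an element with symmetric rotation part -/
theorem pow_parts (f : MonoidAlgebra R D) (hs : st (pA d f) = pA d f) (n : ℕ) :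
    ∀ q : QuadraticAlgebra (MonoidAlgebra R K) (st (pB d f) * pB d f) 0,
      q = ⟨pA d f, 1⟩ ^ n →
      pA d (f ^ n) = q.re ∧ pB d (f ^ n) = pB d f * q.im ∧ st q.re = q.re ∧ st q.im = q.im := by
  have hsb : st (st (pB d f) * pB d f) = st (pB d f) * pB d f := by
    rw [st_mul, st_st, mul_comm]
  induction n with
  | zero =>
    rintro q rfl
    rw [pow_zero, pow_zero, pA_one, pB_one, QuadraticAlgebra.re_one, QuadraticAlgebra.im_one,
      mul_zero, st_one, st_zero]
    exact ⟨rfl, rfl, rfl, rfl⟩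
  | succ n ih =>
    rintro q rfl
    obtain ⟨h1, h2, h3, h4⟩ := ih _ rfl
    set q := (⟨pA d f, 1⟩ : QuadraticAlgebra (MonoidAlgebra R K) (st (pB d f) * pB d f) 0) ^ n
      with hq
    rw [pow_succ, pow_succ, pA_mul, pB_mul, h1, h2, ← hq, QuadraticAlgebra.re_mul,
      QuadraticAlgebra.im_mul, st_mul, h4, h3]
    refine ⟨?_, ?_, ?_, ?_⟩
    · ring
    · ring
    · rw [st_add, st_mul, st_mul, st_mul, hs, h3, h4, hsb, st_one]
    · rw [st_add, st_add, st_mul, st_mul, st_mul, st_mul, hs, h3, h4, st_one, st_zero]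

/-- rotation part of a p-th power in odd characteristic `p` -/
theorem pA_pow_char {p : ℕ} [hp : Fact p.Prime] (hp2 : p ≠ 2) (f : MonoidAlgebra (ZMod p) D)
    (hs : st (pA d f) = pA d f) : pA d (f ^ p) = pA d f ^ p := by
  obtain ⟨h1, -⟩ := pow_parts d f hs p _ rfl
  rw [h1]
  set α := pA d f with hα
  set B := st (pB d f) * pB d f with hB
  have h2 : (⟨α, 1⟩ : QuadraticAlgebra (MonoidAlgebra (ZMod p) K) B 0) =
      QuadraticAlgebra.C α + ⟨0, 1⟩ := by
    ext1
    · rw [QuadraticAlgebra.re_add, QuadraticAlgebra.re_C, add_zero]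
    · rw [QuadraticAlgebra.im_add, QuadraticAlgebra.im_C, zero_add]
  have hω : ∀ n : ℕ, ((⟨0, 1⟩ : QuadraticAlgebra (MonoidAlgebra (ZMod p) K) B 0) ^
      (2 * n + 1)).re = 0 := by
    intro n
    induction n with
    | zero => rw [mul_zero, zero_add, pow_one]
    | succ n ih =>
      have e : 2 * (n + 1) + 1 = (2 * n + 1) + 1 + 1 := by ring
      rw [e, pow_succ, pow_succ, QuadraticAlgebra.re_mul, QuadraticAlgebra.re_mul,
        QuadraticAlgebra.im_mul, ih]
      ring
  obtain ⟨n, hn⟩ := hp.out.odd_of_ne_two hp2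
  rw [h2, add_pow_prime_eq' hp.out, QuadraticAlgebra.re_add, QuadraticAlgebra.re_add]
  have h3 : (((⟨0, 1⟩ : QuadraticAlgebra (MonoidAlgebra (ZMod p) K) B 0)) ^ p).re = 0 := by
    have := hω n
    rwa [← hn] at this
  have h4 : ((p : ℕ) : MonoidAlgebra (ZMod p) K) = 0 := by
    rw [MonoidAlgebra.natCast_def, ZMod.natCast_self, MonoidAlgebra.single_zero]
  rw [h3, ← QuadraticAlgebra.C_pow, QuadraticAlgebra.re_C, add_zero, QuadraticAlgebra.re_mul,
    QuadraticAlgebra.re_natCast, QuadraticAlgebra.im_natCast, h4]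
  ring

end alg

section sring
variable {K D : Type*} [CommGroup K] [Group D] (d : Data K D) [Fintype K] [Fintype D]
variable {r : D → D → Prop}

/-- every class meets the rotations -/
theorem meetρ [Nontrivial K] (h : IsSRing r) (hprim : Prim r) (x : D) : ∃ k, r x (d.ρ k) := by
  by_cases hx : x = 1
  · exact ⟨1, by rw [hx, d.ρ_one]; exact h.refl 1⟩
  by_contra hcon
  push Not at hcon
  have hσ : ∀ y, r x y → ∃ a, y = d.σ a := by
    intro y hy
    rcases d.cases y with ⟨a, rfl⟩ | hy'
    · exact absurd hy (hcon a)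
    · exact hy'
  have hc := h.closed_closure (h.closed_mul (h.closed_class x) (h.closed_class x))
  have hle : Subgroup.closure {z | ∃ u ∈ {y | r x y}, u⁻¹ * z ∈ {y | r x y}} ≤ d.rot := by
    rw [Subgroup.closure_le]
    rintro z ⟨u, hu, huz⟩
    obtain ⟨a, ha⟩ := hσ u hu
    obtain ⟨b, hb⟩ := hσ _ huz
    refine ⟨a⁻¹ * b, ?_⟩
    rw [← d.σσ, ← ha, ← hb, mul_inv_cancel_left]
  have hbot : Subgroup.closure {z | ∃ u ∈ {y | r x y}, u⁻¹ * z ∈ {y | r x y}} = ⊥ := by
    rcases hprim _ hc with h1 | h1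
    · exact h1
    · rw [h1] at hle
      exact absurd (top_le_iff.mp hle) d.rot_ne_top
  have hone : ∀ y, r x y → y = x := by
    intro y hy
    have h1 : x * y ∈ Subgroup.closure {z | ∃ u ∈ {y | r x y}, u⁻¹ * z ∈ {y | r x y}} :=
      Subgroup.subset_closure ⟨x, h.refl x, by rw [inv_mul_cancel_left]; exact hy⟩
    rw [hbot, Subgroup.mem_bot] at h1
    obtain ⟨a, ha⟩ := hσ x (h.refl x)
    have h2 : x * x = 1 := by rw [ha, d.σσ, inv_mul_cancel, d.ρ_one]
    exact mul_left_cancel (h1.trans h2.symm)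
  have hT : Closed r ({x} : Set D) := by
    intro y z hyz hy
    rw [Set.mem_singleton_iff] at hy ⊢
    rw [hy] at hyz
    exact hone z hyz
  rcases hprim _ (h.closed_closure hT) with h1 | h1
  · apply hx
    rw [← Subgroup.mem_bot, ← h1]
    exact Subgroup.subset_closure rfl
  · obtain ⟨a, ha⟩ := hσ x (h.refl x)
    have h2 : x * x = 1 := by rw [ha, d.σσ, inv_mul_cancel, d.ρ_one]
    have h3 : ∀ z ∈ Subgroup.closure ({x} : Set D), z = 1 ∨ z = x := by
      intro z hz
      induction hz using Subgroup.closure_induction with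
      | mem y hy => exact Or.inr hy
      | one => exact Or.inl rfl
      | mul y z _ _ hy hz =>
        rcases hy with rfl | rfl <;> rcases hz with rfl | rfl
        · exact Or.inl (mul_one _)
        · exact Or.inr (one_mul _)
        · exact Or.inr (mul_one _)
        · exact Or.inl h2
      | inv y _ hy =>
        rcases hy with rfl | rfl
        · exact Or.inl inv_one
        · exact Or.inr (by rw [inv_eq_iff_mul_eq_one]; exact h2)
    obtain ⟨k, hk⟩ := exists_ne (1 : K)
    rcases h3 (d.ρ k) (by rw [h1]; trivial) with h4 | h4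
    · exact d.ρ_ne_one hk h4
    · exact d.ne k a (h4.trans ha)

/-- every nontrivial class meets the reflections -/
theorem meetσ (h : IsSRing r) (hprim : Prim r) {x : D} (hx : x ≠ 1) : ∃ k, r x (d.σ k) := by
  by_contra hcon
  push Not at hcon
  have hle : Subgroup.closure {y | r x y} ≤ d.rot := by
    rw [Subgroup.closure_le]
    intro y hy
    rcases d.cases y with hy' | ⟨a, rfl⟩
    · exact hy'
    · exact absurd hy (hcon a)
  rcases hprim _ (h.closed_closure (h.closed_class x)) with h1 | h1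
  · apply hx
    rw [← Subgroup.mem_bot, ← h1]
    exact Subgroup.subset_closure (h.refl x)
  · rw [h1] at hle
    exact absurd (top_le_iff.mp hle) d.rot_ne_top

include d in
theorem rinv (h : IsSRing r) (hprim : Prim r) (x : D) : r x x⁻¹ := by
  by_cases hx : x = 1
  · rw [hx, inv_one]; exact h.refl 1
  obtain ⟨k, hk⟩ := meetσ d h hprim hx
  have h1 := h.inv _ _ hk
  rw [d.σ_inv] at h1
  exact h.trans hk (h.symm h1)

variable {R : Type*} [CommRing R]

include d in
theorem cfm_inv (h : IsSRing r) (hprim : Prim r) {f : MonoidAlgebra R D} (hf : CFM r f) (x : D) :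
    f.coeff x⁻¹ = f.coeff x := (hf _ _ (rinv d h hprim x)).symm

include d in
theorem cfm_comm (h : IsSRing r) (hprim : Prim r) {f g : MonoidAlgebra R D} (hf : CFM r f)
    (hg : CFM r g) : f * g = g * f := by
  apply ma_ext
  intro x
  rw [← cfm_inv d h hprim (h.cfm_mul hf hg), coeff_mul_eq, coeff_mul_eq,
    ← Equiv.sum_comp (Equiv.mulLeft x⁻¹)]
  refine sum_congr rfl fun u _ => ?_
  rw [Equiv.coe_mulLeft, mul_comm]
  congr 1
  · rw [← cfm_inv d h hprim hg]
    congr 1
    group
  · rw [← cfm_inv d h hprim hf]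
    congr 1
    group

theorem cfm_symA (h : IsSRing r) (hprim : Prim r) {f : MonoidAlgebra R D} (hf : CFM r f) :
    st (pA d f) = pA d f := by
  apply ma_ext
  intro k
  rw [coeff_st, coeff_pA, coeff_pA, ← d.ρ_inv]
  exact cfm_inv d h hprim hf _

/-- class functions are determined by the rotation part -/
theorem cfm_ext [Nontrivial K] (h : IsSRing r) (hprim : Prim r) {f g : MonoidAlgebra R D}
    (hf : CFM r f) (hg : CFM r g) (hfg : ∀ k, f.coeff (d.ρ k) = g.coeff (d.ρ k)) : f = g := by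
  apply ma_ext
  intro x
  obtain ⟨k, hk⟩ := meetρ d h hprim x
  have h1 := hf _ _ hk
  have h2 := hg _ _ hk
  beta_reduce at h1 h2
  rw [h1, h2, hfg]

variable [DecidableEq K]

/-- Frobenius -/
theorem frob (h : IsSRing r) (hprim : Prim r) {p : ℕ} [hp : Fact p.Prime] (hp2 : p ≠ 2)
    {f : MonoidAlgebra (ZMod p) D} (hf : CFM r f) (z : K) :
    (f ^ p).coeff (d.ρ z) = ∑ u : K, if u ^ p = z then f.coeff (d.ρ u) else 0 := by
  rw [← coeff_pA, pA_pow_char d hp2 f (cfm_symA d h hprim hf), coeff_pow_char]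
  rfl

end sring

end H26.Dih
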