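import Cfsg.Agent.Lib.H26.Dih1

set_option autoImplicit false
set_option linter.unusedSectionVars false

/-! S-rings over generalized dihedral groups, part 2: multipliers; the rational S-ring. -/

namespace H26.Dih
open Finset H63.SR

section pow
variable {K : Type*} [CommGroup K] [Fintype K]

theorem exists_inv_pow {j : ℕ} (hj : j.Coprime (Nat.card K)) :
    ∃ i : ℕ, i.Coprime (Nat.card K) ∧ (Odd j → Odd i) ∧ ∀ u : K, (u ^ j) ^ i = u := by
  refine ⟨j ^ ((Nat.card K).totient - 1), hj.pow_left _, fun h => h.pow, fun u => ?_⟩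
  have h1 : j * j ^ ((Nat.card K).totient - 1) ≡ 1 [MOD Nat.card K] := by
    rw [← pow_succ', Nat.sub_add_cancel (Nat.totient_pos.mpr Nat.card_pos)]
    exact Nat.ModEq.pow_totient hj
  rw [← pow_mul]
  conv_rhs => rw [← pow_one u]
  rw [pow_eq_pow_iff_modEq]
  exact h1.of_dvd (orderOf_dvd_natCard u)

theorem pow_inj {j : ℕ} (hj : j.Coprime (Nat.card K)) {u v : K} (h : u ^ j = v ^ j) : u = v := by
  obtain ⟨i, -, -, hi⟩ := exists_inv_pow hj
  rw [← hi u, ← hi v, h]

theorem pow_surj {j : ℕ} (hj : j.Coprime (Nat.card K)) (z : K) : ∃ w, w ^ j = z := by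
  obtain ⟨i, -, -, hi⟩ := exists_inv_pow hj
  refine ⟨z ^ i, ?_⟩
  rw [← pow_mul, mul_comm, pow_mul, hi]

theorem exists_prime_pow {j : ℕ} (hj : j.Coprime (Nat.card K)) (N : ℕ) :
    ∃ p : ℕ, p.Prime ∧ N < p ∧ p ≠ 2 ∧ p.Coprime (Nat.card K) ∧ ∀ u : K, u ^ p = u ^ j := by
  obtain ⟨p, hp, hpp, hmod⟩ := Nat.forall_exists_prime_gt_and_modEq (max N 2)
    (q := Nat.card K) (a := j) Nat.card_pos.ne' hj
  refine ⟨p, hpp, (le_max_left _ _).trans_lt hp, ((le_max_right _ _).trans_lt hp).ne', ?_, ?_⟩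
  · rw [Nat.Coprime, hmod.gcd_eq]
    exact hj
  · intro u
    rw [pow_eq_pow_iff_modEq]
    exact hmod.of_dvd (orderOf_dvd_natCard u)

/-- augmentation is multiplicative -/
theorem aug_mul {G R : Type*} [Group G] [Fintype G] [CommRing R] (x y : MonoidAlgebra R G) :
    ∑ g, (x * y).coeff g = (∑ g, x.coeff g) * ∑ g, y.coeff g := by
  simp_rw [coeff_mul_eq]
  rw [sum_comm, sum_mul]
  refine sum_congr rfl fun u _ => ?_
  rw [← mul_sum]
  congr 1
  exact Equiv.sum_comp (Equiv.mulLeft u⁻¹) (fun g => y.coeff g)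

theorem aug_one {G R : Type*} [Group G] [Fintype G] [CommRing R] :
    ∑ g, (1 : MonoidAlgebra R G).coeff g = 1 := by
  classical
  rw [MonoidAlgebra.one_def, sum_eq_single 1]
  · rw [MonoidAlgebra.coeff_single, Finsupp.single_eq_same]
  · intro b _ hb
    rw [MonoidAlgebra.coeff_single, Finsupp.single_apply, if_neg (fun h => hb h.symm)]
  · intro h
    exact absurd (mem_univ _) h

theorem aug_pow {G R : Type*} [Group G] [Fintype G] [CommRing R] (x : MonoidAlgebra R G) (n : ℕ) :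
    ∑ g, (x ^ n).coeff g = (∑ g, x.coeff g) ^ n := by
  induction n with
  | zero => rw [pow_zero, pow_zero, aug_one]
  | succ n ih => rw [pow_succ, pow_succ, aug_mul, ih]

end pow

section sring
variable {K D : Type*} [CommGroup K] [Group D] (d : Data K D) [Fintype K] [Fintype D]
variable {r : D → D → Prop} [DecidableEq K] [Nontrivial K]

theorem frob_coprime (h : IsSRing r) (hprim : Prim r) {p : ℕ} [hp : Fact p.Prime] (hp2 : p ≠ 2)
    (hpn : p.Coprime (Nat.card K)) {f : MonoidAlgebra (ZMod p) D} (hf : CFM r f) (w : K) :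
    (f ^ p).coeff (d.ρ (w ^ p)) = f.coeff (d.ρ w) := by
  rw [frob d h hprim hp2 hf, sum_eq_single w, if_pos rfl]
  · intro u _ hu
    rw [if_neg]
    intro h1
    exact hu (pow_inj hpn h1)
  · intro h1
    exact absurd (mem_univ _) h1

theorem closed_pow_prime' (h : IsSRing r) (hprim : Prim r) {T : Set D} (hT : Closed r T) {p : ℕ}
    (hp : p.Prime) (hp2 : p ≠ 2) (hpn : p.Coprime (Nat.card K)) :
    ∃ T' : Set D, Closed r T' ∧ ∀ z, d.ρ z ∈ T' ↔ ∃ u, d.ρ u ∈ T ∧ u ^ p = z := by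
  classical
  have : Fact p.Prime := ⟨hp⟩
  let f : MonoidAlgebra (ZMod p) D := el fun t => if t ∈ T then 1 else 0
  have hf : CFM r f := h.cf_indicator hT
  refine ⟨{x | (f ^ p).coeff x ≠ 0}, IsSRing.closed_of_cf (h.cfm_pow hf p) (fun n => n ≠ 0), ?_⟩
  intro z
  obtain ⟨w, rfl⟩ := pow_surj hpn z
  have h1 : (f ^ p).coeff (d.ρ (w ^ p)) ≠ 0 ↔ d.ρ w ∈ T := by
    rw [frob_coprime d h hprim hp2 hpn hf, coeff_el]
    by_cases hw : d.ρ w ∈ T
    · simp [hw]
    · simp [hw]
  constructor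
  · intro hz
    exact ⟨w, h1.mp hz, rfl⟩
  · rintro ⟨u, hu, huw⟩
    rw [pow_inj hpn huw] at hu
    exact h1.mpr hu

theorem closed_pow' (h : IsSRing r) (hprim : Prim r) {T : Set D} (hT : Closed r T) {j : ℕ}
    (hodd : Odd j) (hj : j.Coprime (Nat.card K)) :
    ∃ T' : Set D, Closed r T' ∧ ∀ z, d.ρ z ∈ T' ↔ ∃ u, d.ρ u ∈ T ∧ u ^ j = z := by
  induction j using Nat.recOnMul generalizing T with
  | zero => exact absurd hodd (by decide)
  | one => exact ⟨T, hT, fun z => ⟨fun hz => ⟨z, hz, pow_one z⟩, fun ⟨u, hu, huz⟩ => by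
      rw [pow_one] at huz; rwa [← huz]⟩⟩
  | prime p hp =>
    refine closed_pow_prime' d h hprim hT hp ?_ hj
    rintro rfl
    exact absurd hodd (by decide)
  | mul a b iha ihb =>
    rw [Nat.odd_mul] at hodd
    obtain ⟨T1, hT1, h1⟩ := iha hT hodd.1 (Nat.Coprime.coprime_mul_right hj)
    obtain ⟨T2, hT2, h2⟩ := ihb hT1 hodd.2 (Nat.Coprime.coprime_mul_left hj)
    refine ⟨T2, hT2, fun z => ?_⟩
    rw [h2]
    constructor
    · rintro ⟨u, hu, rfl⟩
      obtain ⟨v, hv, rfl⟩ := (h1 u).mp hu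
      exact ⟨v, hv, pow_mul v a b⟩
    · rintro ⟨v, hv, rfl⟩
      exact ⟨v ^ a, (h1 _).mpr ⟨v, hv, rfl⟩, (pow_mul v a b).symm⟩

theorem rel_pow' (h : IsSRing r) (hprim : Prim r) {u v : K} (huv : r (d.ρ u) (d.ρ v)) {j : ℕ}
    (hj : j.Coprime (Nat.card K)) : r (d.ρ (u ^ j)) (d.ρ (v ^ j)) := by
  have key : ∀ {j : ℕ}, Odd j → j.Coprime (Nat.card K) → r (d.ρ (u ^ j)) (d.ρ (v ^ j)) := by
    intro j hodd hj
    obtain ⟨i, hi, hio, hinv⟩ := exists_inv_pow hj
    obtain ⟨T, hT, h1⟩ := closed_pow' d h hprim (h.closed_class (d.ρ (u ^ j))) (hio hodd) hi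
    have h2 : d.ρ u ∈ T := (h1 u).mpr ⟨u ^ j, h.refl _, hinv u⟩
    obtain ⟨w, hw, hwv⟩ := (h1 v).mp (hT _ _ huv h2)
    have h3 : w = v ^ j := by
      apply pow_inj hi
      rw [hwv, hinv]
    rw [← h3]
    exact hw
  rcases Nat.even_or_odd j with he | ho
  · have hn : Odd (Nat.card K) := by
      rw [← Nat.not_even_iff_odd]
      intro hn
      have := Nat.Coprime.eq_one_of_dvd (Nat.Coprime.coprime_dvd_left he.two_dvd hj) hn.two_dvd
      omega
    have h1 := key (j := j + Nat.card K) (he.add_odd hn) (by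
      rw [Nat.coprime_add_self_left]; exact hj)
    rwa [pow_add, pow_add, pow_card_eq_one', pow_card_eq_one', mul_one, mul_one] at h1
  · exact key ho hj

/-- the rational relation -/
def rat (d : Data K D) (r : D → D → Prop) (x y : D) : Prop :=
  ∃ (j : ℕ) (a : K), j.Coprime (Nat.card K) ∧ r x (d.ρ a) ∧ r (d.ρ (a ^ j)) y

theorem rat_of (h : IsSRing r) (hprim : Prim r) {x y : D} (hxy : r x y) : rat d r x y := by
  obtain ⟨k, hk⟩ := meetρ d h hprim x
  exact ⟨1, k, Nat.coprime_one_left _, hk, by rw [pow_one]; exact h.trans (h.symm hk) hxy⟩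

theorem rat_pow (h : IsSRing r) (u : K) {j : ℕ} (hj : j.Coprime (Nat.card K)) :
    rat d r (d.ρ u) (d.ρ (u ^ j)) := ⟨j, u, hj, h.refl _, h.refl _⟩

theorem rat_equiv (h : IsSRing r) (hprim : Prim r) : Equivalence (rat d r) := by
  refine ⟨fun x => rat_of d h hprim (h.refl x), ?_, ?_⟩
  · rintro x y ⟨j, a, hj, h1, h2⟩
    obtain ⟨i, hi, -, hinv⟩ := exists_inv_pow hj
    exact ⟨i, a ^ j, hi, h.symm h2, by rw [hinv]; exact h.symm h1⟩
  · rintro x y z ⟨j, a, hj, h1, h2⟩ ⟨i, b, hi, h3, h4⟩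
    have h5 := rel_pow' d h hprim (h.trans h2 h3) hi
    refine ⟨j * i, a, Nat.Coprime.mul_left hj hi, h1, ?_⟩
    rw [pow_mul]
    exact h.trans h5 h4

theorem num_cast {s : D → D → Prop} (R : Type*) [CommRing R] (a b x : D)
    [DecidablePred (· ∈ {u | s a u})] [DecidablePred (· ∈ {u | s b u})] :
    ((num s a b x : ℕ) : R) = ((el fun t => if t ∈ {u | s a u} then (1 : R) else 0) *
      (el fun t => if t ∈ {u | s b u} then (1 : R) else 0)).coeff x := by
  classical
  rw [coeff_mul_eq, num, card_filter, Nat.cast_sum]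
  refine sum_congr rfl fun u _ => ?_
  rw [coeff_el, coeff_el]
  by_cases h1 : s a u <;> by_cases h2 : s b (u⁻¹ * x) <;> simp [h1, h2]

theorem pow_eq_self (h : IsSRing r) (hprim : Prim r) {p : ℕ} [hp : Fact p.Prime] (hp2 : p ≠ 2)
    (hpn : p.Coprime (Nat.card K)) {f : MonoidAlgebra (ZMod p) D} (hf : CFM r f)
    (hr : ∀ u, f.coeff (d.ρ (u ^ p)) = f.coeff (d.ρ u)) : f ^ p = f := by
  apply cfm_ext d h hprim (h.cfm_pow hf p) hf
  intro k
  obtain ⟨w, rfl⟩ := pow_surj hpn k
  rw [frob_coprime d h hprim hp2 hpn hf, hr]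

theorem num_le (s : D → D → Prop) (a b x : D) : num s a b x ≤ Fintype.card D := by
  classical
  rw [num]
  exact card_le_univ _

theorem rat_sring (h : IsSRing r) (hprim : Prim r) : IsSRing (rat d r) := by
  classical
  have he := rat_equiv d h hprim
  refine ⟨he, ?_, ?_, ?_⟩
  · rintro y ⟨j, a, hj, h1, h2⟩
    have h3 := h.one _ h1
    rw [← d.ρ_one] at h3
    rw [d.ρinj h3, one_pow, d.ρ_one] at h2
    exact h.one _ h2
  · intro x y hxy
    exact he.trans (rat_of d h hprim (h.symm (rinv d h hprim x)))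
      (he.trans hxy (rat_of d h hprim (rinv d h hprim y)))
  · rintro a b x y ⟨j, c, hj, h1, h2⟩
    obtain ⟨p, hp, hpN, hp2, hpn, hpj⟩ := exists_prime_pow hj (Fintype.card D)
    have : Fact p.Prime := ⟨hp⟩
    have hcl : ∀ a : D, Closed r {u | rat d r a u} := fun a u v huv hu =>
      he.trans hu (rat_of d h hprim huv)
    set f : MonoidAlgebra (ZMod p) D := el fun t => if t ∈ {u | rat d r a u} then 1 else 0 with hfd
    set g : MonoidAlgebra (ZMod p) D := el fun t => if t ∈ {u | rat d r b u} then 1 else 0 with hgd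
    have hf : CFM r f := h.cf_indicator (hcl a)
    have hg : CFM r g := h.cf_indicator (hcl b)
    have hf1 : f ^ p = f := by
      apply pow_eq_self d h hprim hp2 hpn hf
      intro u
      rw [hfd, coeff_el, coeff_el]
      have : d.ρ (u ^ p) ∈ {u | rat d r a u} ↔ d.ρ u ∈ {u | rat d r a u} :=
        ⟨fun hu => he.trans hu (he.symm (rat_pow d h u hpn)), fun hu =>
          he.trans hu (rat_pow d h u hpn)⟩
      simp only [this]
    have hg1 : g ^ p = g := by
      apply pow_eq_self d h hprim hp2 hpn hg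
      intro u
      rw [hgd, coeff_el, coeff_el]
      have : d.ρ (u ^ p) ∈ {u | rat d r b u} ↔ d.ρ u ∈ {u | rat d r b u} :=
        ⟨fun hu => he.trans hu (he.symm (rat_pow d h u hpn)), fun hu =>
          he.trans hu (rat_pow d h u hpn)⟩
      simp only [this]
    have hfg := h.cfm_mul hf hg
    have hc : Commute f g := cfm_comm d h hprim hf hg
    have h3 : (f * g) ^ p = f * g := by rw [hc.mul_pow, hf1, hg1]
    have h4 : (f * g).coeff x = (f * g).coeff y := by
      have e1 : (f * g).coeff x = (f * g).coeff (d.ρ c) := hfg _ _ h1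
      have e2 : (f * g).coeff (d.ρ (c ^ j)) = (f * g).coeff y := hfg _ _ h2
      rw [e1, ← e2, ← hpj]
      conv_rhs => rw [← h3]
      rw [frob_coprime d h hprim hp2 hpn hfg]
    rw [← num_cast, ← num_cast, ZMod.natCast_eq_natCast_iff] at h4
    exact Nat.ModEq.eq_of_lt_of_lt h4 ((num_le _ _ _ _).trans_lt hpN)
      ((num_le _ _ _ _).trans_lt hpN)

theorem rat_prim (h : IsSRing r) (hprim : Prim r) : Prim (rat d r) := by
  intro L hL
  exact hprim L fun x y hxy hx => hL x y (rat_of d h hprim hxy) hx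

/-- if the rational S-ring is trivial, so is the S-ring -/
theorem trivial_of_rat (h : IsSRing r) (hprim : Prim r)
    (hall : ∀ x y, x ≠ 1 → y ≠ 1 → rat d r x y) {x y : D} (hx : x ≠ 1) (hy : y ≠ 1) : r x y := by
  classical
  set a : D → ℕ := fun x => (univ.filter fun k : K => r x (d.ρ k)).card with ha
  set b : D → ℕ := fun x => (univ.filter fun k : K => r x (d.σ k)).card with hb
  have hab : ∀ x, (univ.filter fun y : D => r x y).card = a x + b x := by
    intro x
    rw [card_filter, d.sum_eq, ha, hb]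
    simp only [card_filter]
  have hcla : ∀ x y, r x y → a x = a y := by
    intro x y hxy
    change (univ.filter fun k : K => r x (d.ρ k)).card = (univ.filter fun k : K => r y (d.ρ k)).card
    congr 1
    ext k
    simp only [mem_filter, mem_univ, true_and]
    exact ⟨fun h1 => h.trans (h.symm hxy) h1, fun h1 => h.trans hxy h1⟩
  have hclb : ∀ x y, r x y → b x = b y := by
    intro x y hxy
    change (univ.filter fun k : K => r x (d.σ k)).card = (univ.filter fun k : K => r y (d.σ k)).card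
    congr 1
    ext k
    simp only [mem_filter, mem_univ, true_and]
    exact ⟨fun h1 => h.trans (h.symm hxy) h1, fun h1 => h.trans hxy h1⟩
  have hrel : ∀ {u v : K} {j : ℕ}, j.Coprime (Nat.card K) →
      (r (d.ρ u) (d.ρ v) ↔ r (d.ρ (u ^ j)) (d.ρ (v ^ j))) := by
    intro u v j hj
    refine ⟨fun h1 => rel_pow' d h hprim h1 hj, fun h1 => ?_⟩
    obtain ⟨i, hi, -, hinv⟩ := exists_inv_pow hj
    have := rel_pow' d h hprim h1 hi
    rwa [hinv, hinv] at this
  have hpa : ∀ (u : K) {j : ℕ}, j.Coprime (Nat.card K) → a (d.ρ (u ^ j)) = a (d.ρ u) := by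
    intro u j hj
    symm
    refine card_bij (fun k _ => k ^ j) ?_ ?_ ?_
    · intro k hk
      rw [mem_filter] at hk ⊢
      exact ⟨mem_univ _, (hrel hj).mp hk.2⟩
    · intro k _ l _ hkl
      exact pow_inj hj hkl
    · intro k hk
      obtain ⟨w, rfl⟩ := pow_surj hj k
      rw [mem_filter] at hk
      exact ⟨w, by rw [mem_filter]; exact ⟨mem_univ _, (hrel hj).mpr hk.2⟩, rfl⟩
  have hpc : ∀ (u : K) {j : ℕ}, j.Coprime (Nat.card K) →
      (univ.filter fun y : D => r (d.ρ (u ^ j)) y).card =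
      (univ.filter fun y : D => r (d.ρ u) y).card := by
    intro u j hj
    obtain ⟨p, hp, hpN, hp2, hpn, hpj⟩ := exists_prime_pow hj (Fintype.card D)
    have : Fact p.Prime := ⟨hp⟩
    set f : MonoidAlgebra (ZMod p) D := el fun t => if t ∈ {y | r (d.ρ u) y} then 1 else 0 with hfd
    set g : MonoidAlgebra (ZMod p) D :=
      el fun t => if t ∈ {y | r (d.ρ (u ^ j)) y} then 1 else 0 with hgd
    have hf : CFM r f := h.cf_indicator (h.closed_class _)
    have hg : CFM r g := h.cf_indicator (h.closed_class _)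
    have h1 : f ^ p = g := by
      apply cfm_ext d h hprim (h.cfm_pow hf p) hg
      intro k
      obtain ⟨w, rfl⟩ := pow_surj hpn k
      rw [frob_coprime d h hprim hp2 hpn hf, hfd, hgd, coeff_el, coeff_el]
      have : d.ρ w ∈ {y | r (d.ρ u) y} ↔ d.ρ (w ^ p) ∈ {y | r (d.ρ (u ^ j)) y} := by
        rw [← hpj]; exact hrel hpn
      simp only [this]
    have h2 := aug_pow f p
    rw [h1, ZMod.pow_card, hfd, hgd] at h2
    simp only [coeff_el] at h2
    rw [← Nat.cast_one, ← Nat.cast_zero] at h2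
    simp only [← Nat.cast_ite, ← Nat.cast_sum] at h2
    rw [ZMod.natCast_eq_natCast_iff] at h2
    have h3 : ∀ v : K, (∑ i, if i ∈ {y | r (d.ρ v) y} then 1 else 0) =
        (univ.filter fun y : D => r (d.ρ v) y).card := by
      intro v
      rw [card_filter]
      rfl
    rw [h3, h3] at h2
    exact Nat.ModEq.eq_of_lt_of_lt h2 ((card_le_univ _).trans_lt hpN)
      ((card_le_univ _).trans_lt hpN)
  have hpb : ∀ (u : K) {j : ℕ}, j.Coprime (Nat.card K) → b (d.ρ (u ^ j)) = b (d.ρ u) := by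
    intro u j hj
    have h1 := hpc u hj
    rw [hab, hab, hpa u hj] at h1
    omega
  have haa : ∀ x y, x ≠ 1 → y ≠ 1 → a x = a y ∧ b x = b y := by
    intro x y hx hy
    obtain ⟨j, c, hj, h1, h2⟩ := hall x y hx hy
    exact ⟨by rw [hcla _ _ h1, ← hcla _ _ h2, hpa c hj], by rw [hclb _ _ h1, ← hclb _ _ h2, hpb c hj]⟩
  -- double counting
  have hdc : ∑ k : K, b (d.ρ k) = ∑ s : K, a (d.σ s) := by
    rw [ha, hb]
    simp only [card_filter]
    rw [sum_comm]
    refine sum_congr rfl fun s _ => sum_congr rfl fun k _ => ?_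
    have : r (d.ρ k) (d.σ s) ↔ r (d.σ s) (d.ρ k) := ⟨h.symm, h.symm⟩
    simp only [this]
  have hb1 : b (d.ρ 1) = 0 := by
    rw [hb, card_eq_zero, filter_eq_empty_iff]
    intro s _ h1
    rw [d.ρ_one] at h1
    exact d.σ_ne_one s (h.one _ h1)
  obtain ⟨n, hn⟩ : ∃ n, Fintype.card K = n + 1 := ⟨Fintype.card K - 1, by
    have : 0 < Fintype.card K := Fintype.card_pos
    omega⟩
  have h1 : ∑ k : K, b (d.ρ k) = n * b x := by
    rw [← add_sum_erase univ _ (mem_univ (1 : K)), hb1, zero_add,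
      sum_congr rfl (fun k hk => (haa (d.ρ k) x (d.ρ_ne_one (ne_of_mem_erase hk)) hx).2),
      sum_const, card_erase_of_mem (mem_univ _), card_univ, hn, smul_eq_mul]
    rfl
  have h2 : ∑ s : K, a (d.σ s) = (n + 1) * a x := by
    rw [sum_congr rfl (fun s _ => (haa (d.σ s) x (d.σ_ne_one s) hx).1),
      sum_const, card_univ, hn, smul_eq_mul]
  rw [h1, h2] at hdc
  have hbpos : 0 < b x := by
    obtain ⟨k, hk⟩ := meetσ d h hprim hx
    rw [hb, card_pos]
    exact ⟨k, by rw [mem_filter]; exact ⟨mem_univ _, hk⟩⟩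
  have hdvd : n + 1 ∣ b x := by
    have : n + 1 ∣ n * b x := ⟨a x, hdc⟩
    exact (Nat.Coprime.dvd_mul_left (by simp)).mp this
  have hble : n + 1 ≤ b x := Nat.le_of_dvd hbpos hdvd
  have hfull : ∀ z, z ≠ 1 → ∀ s, r z (d.σ s) := by
    intro z hz s
    have h3 : (univ.filter fun k : K => r z (d.σ k)) = univ := by
      rw [← card_eq_iff_eq_univ]
      apply le_antisymm (card_le_univ _)
      rw [hn]
      have : b z = b x := (haa z x hz hx).2
      rw [← this] at hble
      exact hble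
    have h4 : s ∈ univ.filter fun k : K => r z (d.σ k) := by rw [h3]; exact mem_univ _
    rw [mem_filter] at h4
    exact h4.2
  exact h.trans (hfull x hx 1) (h.symm (hfull y hy 1))

end sring

end H26.Dih
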