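import Cfsg.Agent.Lib.H26.Dih2

set_option autoImplicit false
set_option linter.unusedSectionVars false

/-! S-rings over generalized dihedral groups, part 3: rational S-rings; p-adic limits of powers. -/

namespace H26.Dih
open Finset H63.SR

section gen

theorem coeff_sum' {G R ι : Type*} [CommRing R] [Group G] (s : Finset ι)
    (f : ι → MonoidAlgebra R G) (k : G) : (∑ i ∈ s, f i).coeff k = ∑ i ∈ s, (f i).coeff k := by
  rw [MonoidAlgebra.coeff_sum, Finsupp.finsetSum_apply]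

theorem coeff_natCast_mul {G R : Type*} [CommRing R] [Group G] (n : ℕ) (x : MonoidAlgebra R G)
    (k : G) : ((n : MonoidAlgebra R G) * x).coeff k = n * x.coeff k := by
  rw [MonoidAlgebra.natCast_def, MonoidAlgebra.coeff_single_one_mul]

/-- powers in a quadratic algebra with respect to a subring -/
theorem quad_split {C : Type*} [CommRing C] (J : Subring C) {α B : C} (hα : α ∈ J) (hB : B ∈ J)
    {p n : ℕ} (hp : p.Prime) (hn : p = 2 * n + 1) :
    ∃ u ∈ J, ∃ w ∈ J, ((⟨α, 1⟩ : QuadraticAlgebra C B 0) ^ p).re = α ^ p + p * u ∧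
      ((⟨α, 1⟩ : QuadraticAlgebra C B 0) ^ p).im = B ^ n + p * w := by
  let G : Subring (QuadraticAlgebra C B 0) :=
    { carrier := {z | z.re ∈ J ∧ z.im ∈ J}
      mul_mem' := by
        rintro x y ⟨hx1, hx2⟩ ⟨hy1, hy2⟩
        refine ⟨?_, ?_⟩
        · rw [QuadraticAlgebra.re_mul]
          exact J.add_mem (J.mul_mem hx1 hy1) (J.mul_mem (J.mul_mem hB hx2) hy2)
        · rw [QuadraticAlgebra.im_mul, zero_mul, zero_mul, add_zero]
          exact J.add_mem (J.mul_mem hx1 hy2) (J.mul_mem hx2 hy1)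
      one_mem' := ⟨J.one_mem, J.zero_mem⟩
      add_mem' := fun {x y} hx hy => ⟨J.add_mem hx.1 hy.1, J.add_mem hx.2 hy.2⟩
      zero_mem' := ⟨J.zero_mem, J.zero_mem⟩
      neg_mem' := fun {x} hx => ⟨J.neg_mem hx.1, J.neg_mem hx.2⟩ }
  have h2 : (⟨α, 1⟩ : QuadraticAlgebra C B 0) = QuadraticAlgebra.C α + ⟨0, 1⟩ := by
    ext1
    · rw [QuadraticAlgebra.re_add, QuadraticAlgebra.re_C, add_zero]
    · rw [QuadraticAlgebra.im_add, QuadraticAlgebra.im_C, zero_add]
  have hω : ∀ n : ℕ, ((⟨0, 1⟩ : QuadraticAlgebra C B 0) ^ (2 * n + 1)).re = 0 ∧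
      ((⟨0, 1⟩ : QuadraticAlgebra C B 0) ^ (2 * n + 1)).im = B ^ n := by
    intro n
    induction n with
    | zero => rw [mul_zero, zero_add, pow_one, pow_zero]; exact ⟨rfl, rfl⟩
    | succ n ih =>
      have e : 2 * (n + 1) + 1 = (2 * n + 1) + 1 + 1 := by ring
      rw [e, pow_succ, pow_succ, QuadraticAlgebra.re_mul, QuadraticAlgebra.re_mul,
        QuadraticAlgebra.im_mul, QuadraticAlgebra.im_mul, QuadraticAlgebra.im_mul,
        QuadraticAlgebra.re_mul, ih.1, ih.2]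
      constructor <;> ring
  have hCα : QuadraticAlgebra.C α ∈ G := ⟨hα, J.zero_mem⟩
  have hωG : (⟨0, 1⟩ : QuadraticAlgebra C B 0) ∈ G := ⟨J.zero_mem, J.one_mem⟩
  set h := ∑ k ∈ Ioo 0 p, (QuadraticAlgebra.C α : QuadraticAlgebra C B 0) ^ k * ⟨0, 1⟩ ^ (p - k) *
    ↑(p.choose k / p) with hh
  have hG : h ∈ G := by
    apply Subring.sum_mem
    intro k _
    exact G.mul_mem (G.mul_mem (G.pow_mem hCα k) (G.pow_mem hωG _)) (natCast_mem G _)
  refine ⟨h.re, hG.1, h.im, hG.2, ?_, ?_⟩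
  · rw [h2, add_pow_prime_eq' hp, ← hh, QuadraticAlgebra.re_add, QuadraticAlgebra.re_add,
      QuadraticAlgebra.re_mul, QuadraticAlgebra.re_natCast, QuadraticAlgebra.im_natCast,
      ← QuadraticAlgebra.C_pow, QuadraticAlgebra.re_C]
    have := (hω n).1
    rw [← hn] at this
    rw [this]
    ring
  · rw [h2, add_pow_prime_eq' hp, ← hh, QuadraticAlgebra.im_add, QuadraticAlgebra.im_add,
      QuadraticAlgebra.im_mul, QuadraticAlgebra.re_natCast, QuadraticAlgebra.im_natCast,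
      ← QuadraticAlgebra.C_pow, QuadraticAlgebra.im_C]
    have := (hω n).2
    rw [← hn] at this
    rw [this]
    ring

variable {K : Type*} [CommGroup K] [Fintype K]

/-- coefficients outside `L` divisible by `c` -/
noncomputable def Qsub (c : ℤ) (L : Subgroup K) : Subring (MonoidAlgebra ℤ K) where
  carrier := {y | ∀ k, k ∉ L → c ∣ y.coeff k}
  mul_mem' := by
    intro y z hy hz k hk
    rw [coeff_mul_eq]
    refine dvd_sum fun u _ => ?_
    by_cases hu : u ∈ L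
    · refine Dvd.dvd.mul_left (hz _ fun h => hk ?_) _
      have := L.mul_mem hu h
      rwa [mul_inv_cancel_left] at this
    · exact Dvd.dvd.mul_right (hy u hu) _
  one_mem' := by
    classical
    intro k hk
    rw [MonoidAlgebra.one_def, MonoidAlgebra.coeff_single, Finsupp.single_apply,
      if_neg (fun h => hk (by rw [← h]; exact L.one_mem))]
    exact dvd_zero _
  add_mem' := by
    intro y z hy hz k hk
    rw [MonoidAlgebra.coeff_add, Finsupp.add_apply]
    exact dvd_add (hy k hk) (hz k hk)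
  zero_mem' := fun k _ => dvd_zero _
  neg_mem' := by
    intro y hy k hk
    rw [MonoidAlgebra.coeff_neg, Finsupp.neg_apply]
    exact (dvd_neg).mpr (hy k hk)

theorem mem_Qsub {c : ℤ} {L : Subgroup K} {y : MonoidAlgebra ℤ K} :
    y ∈ Qsub c L ↔ ∀ k, k ∉ L → c ∣ y.coeff k := Iff.rfl

/-- the filtration -/
noncomputable def Jf (p i : ℕ) : Subring (MonoidAlgebra ℤ K) :=
  ⨅ s : ℕ, ⨅ t : ℕ, ⨅ _ : s + t = i + 1, Qsub ((p : ℤ) ^ t) (powMonoidHom (p ^ s) : K →* K).range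

theorem mem_Jf {p i : ℕ} {y : MonoidAlgebra ℤ K} : y ∈ Jf p i ↔
    ∀ s t, s + t = i + 1 → ∀ k, k ∉ (powMonoidHom (p ^ s) : K →* K).range →
      (p : ℤ) ^ t ∣ y.coeff k := by
  simp only [Jf, Subring.mem_iInf, mem_Qsub]

theorem Jf_zero (p : ℕ) (y : MonoidAlgebra ℤ K) : y ∈ Jf p 0 := by
  rw [mem_Jf]
  intro s t hst k hk
  rcases Nat.eq_zero_or_pos t with rfl | ht
  · rw [pow_zero]; exact one_dvd _
  · have : s = 0 := by omega
    subst this
    exact absurd ⟨k, by rw [powMonoidHom_apply, pow_zero, pow_one]⟩ hk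

theorem Jf_p_mul {p i : ℕ} {y : MonoidAlgebra ℤ K} (hy : y ∈ Jf p i) :
    (p : MonoidAlgebra ℤ K) * y ∈ Jf p (i + 1) := by
  rw [mem_Jf] at hy ⊢
  intro s t hst k hk
  rw [coeff_natCast_mul]
  rcases Nat.eq_zero_or_pos t with rfl | ht
  · rw [pow_zero]; exact one_dvd _
  · obtain ⟨t', rfl⟩ : ∃ t', t = t' + 1 := ⟨t - 1, by omega⟩
    rw [pow_succ']
    exact mul_dvd_mul_left _ (hy s t' (by omega) k hk)

theorem pow_p_dvd {C : Type*} [CommRing C] {p t : ℕ} (hp : p.Prime) (ht : 0 < t) {y g : C}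
    (h : ((p : C) ^ t) ∣ y - g) : ((p : C) ^ (t + 1)) ∣ y ^ p - g ^ p := by
  obtain ⟨z, hz⟩ := h
  have hy : y = g + (p : C) ^ t * z := by rw [← hz]; ring
  obtain ⟨w, hw⟩ := exists_add_pow_prime_eq hp g ((p : C) ^ t * z)
  rw [hy, hw]
  have h1 : ((p : C) ^ (t + 1)) ∣ ((p : C) ^ t * z) ^ p := by
    rw [mul_pow, ← pow_mul]
    apply Dvd.dvd.mul_right
    apply pow_dvd_pow
    have := hp.two_le
    nlinarith
  have h2 : ((p : C) ^ (t + 1)) ∣ p * g * ((p : C) ^ t * z) * w := ⟨g * z * w, by ring⟩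
  have e : g ^ p + ((p : C) ^ t * z) ^ p + p * g * ((p : C) ^ t * z) * w - g ^ p =
    ((p : C) ^ t * z) ^ p + p * g * ((p : C) ^ t * z) * w := by ring
  rw [e]
  exact dvd_add h1 h2

theorem coeff_intPow_mul {G : Type*} [Group G] (c : ℕ) (t : ℕ) (x : MonoidAlgebra ℤ G)
    (k : G) : (((c : MonoidAlgebra ℤ G) ^ t) * x).coeff k = (c : ℤ) ^ t * x.coeff k := by
  rw [← Nat.cast_pow, coeff_natCast_mul, Nat.cast_pow]

theorem pow_coeff_mod {p : ℕ} [hp : Fact p.Prime] [DecidableEq K] (y : MonoidAlgebra ℤ K) (z : K) :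
    (((y ^ p).coeff z : ℤ) : ZMod p) = ∑ u, if u ^ p = z then ((y.coeff u : ℤ) : ZMod p) else 0 := by
  have h1 := MonoidAlgebra.coeff_mapRingHom (M := K) (Int.castRingHom (ZMod p)) (y ^ p) z
  rw [map_pow, coeff_pow_char] at h1
  rw [eq_intCast] at h1
  rw [← h1]
  refine sum_congr rfl fun u _ => ?_
  rw [MonoidAlgebra.coeff_mapRingHom, eq_intCast]

theorem Jf_pow {p i : ℕ} (hp : p.Prime) {y : MonoidAlgebra ℤ K} (hy : y ∈ Jf p i) :
    y ^ p ∈ Jf p (i + 1) := by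
  classical
  have : Fact p.Prime := ⟨hp⟩
  rw [mem_Jf] at hy ⊢
  intro s t hst k hk
  rcases Nat.eq_zero_or_pos t with rfl | ht
  · rw [pow_zero]; exact one_dvd _
  rcases Nat.eq_or_lt_of_le ht with ht1 | ht1
  · -- t = 1
    have ht1' : t = 1 := ht1.symm
    subst ht1'
    have hs : s = i + 1 := by omega
    subst hs
    rw [pow_one]
    have h1 := pow_coeff_mod (p := p) y k
    rw [← ZMod.intCast_zmod_eq_zero_iff_dvd, h1]
    refine sum_eq_zero fun u _ => ?_
    by_cases hu : u ^ p = k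
    · rw [if_pos hu, ZMod.intCast_zmod_eq_zero_iff_dvd]
      have := hy i 1 rfl u (by
        rintro ⟨w, hw⟩
        apply hk
        refine ⟨w, ?_⟩
        rw [powMonoidHom_apply] at hw ⊢
        rw [pow_succ, pow_mul, hw, hu])
      rwa [pow_one] at this
    · rw [if_neg hu]
  · obtain ⟨t', rfl⟩ : ∃ t', t = t' + 1 := ⟨t - 1, by omega⟩
    set L : Subgroup K := (powMonoidHom (p ^ s) : K →* K).range with hL
    let g : MonoidAlgebra ℤ K := el fun k => if k ∈ L then y.coeff k else 0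
    have hg : g ∈ Qsub 0 L := by
      intro k hk
      rw [coeff_el, if_neg hk]
    have hd : ((p : MonoidAlgebra ℤ K) ^ t') ∣ y - g := by
      refine ⟨el fun k => if k ∈ L then 0 else y.coeff k / (p : ℤ) ^ t', ?_⟩
      apply ma_ext
      intro k
      rw [coeff_intPow_mul, coeff_el, MonoidAlgebra.coeff_sub, Finsupp.sub_apply, coeff_el]
      by_cases hk : k ∈ L
      · rw [if_pos hk, if_pos hk, sub_self, mul_zero]
      · rw [if_neg hk, if_neg hk, sub_zero, Int.mul_ediv_cancel' (hy s t' (by omega) k hk)]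
    obtain ⟨z, hz⟩ := pow_p_dvd hp (by omega : 0 < t') hd
    have h1 : y ^ p = g ^ p + (p : MonoidAlgebra ℤ K) ^ (t' + 1) * z := by rw [← hz]; ring
    have h2 : (g ^ p).coeff k = 0 := by
      have := (Qsub (0 : ℤ) L).pow_mem hg p k hk
      rwa [zero_dvd_iff] at this
    rw [h1, MonoidAlgebra.coeff_add, Finsupp.add_apply, h2, zero_add, coeff_intPow_mul]
    exact dvd_mul_right _ _

end gen

section sring
variable {K D : Type*} [CommGroup K] [Group D] (d : Data K D) [Fintype K] [Fintype D]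
variable {r : D → D → Prop} [DecidableEq K] [Nontrivial K]

theorem rat_order (hrat : ∀ (u : K) {j : ℕ}, j.Coprime (Nat.card K) → r (d.ρ u) (d.ρ (u ^ j)))
    {u : K} {i : ℕ} (hi : i.Coprime (orderOf u)) : r (d.ρ u) (d.ρ (u ^ i)) := by
  obtain ⟨p, hp, hpp, hmod⟩ := Nat.forall_exists_prime_gt_and_modEq (Nat.card K)
    (q := orderOf u) (a := i) (orderOf_pos u).ne' hi
  have h1 : p.Coprime (Nat.card K) := (Nat.Prime.coprime_iff_not_dvd hpp).mpr fun h =>
    absurd (Nat.le_of_dvd Nat.card_pos h) (by omega)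
  have h2 := hrat u h1
  rwa [pow_eq_pow_iff_modEq.mpr hmod] at h2

/-- rotation parts of iterated `p`-th powers -/
theorem powJ (h : IsSRing r) (hprim : Prim r) {p : ℕ} (hp : p.Prime) (hp2 : p ≠ 2)
    {f : MonoidAlgebra ℤ D} (hf : CFM r f) (i : ℕ) :
    CFM r (f ^ p ^ i) ∧ pA d (f ^ p ^ i) ∈ Jf p i ∧
      st (pB d (f ^ p ^ i)) * pB d (f ^ p ^ i) ∈ Jf p i := by
  induction i with
  | zero => exact ⟨by rw [pow_zero, pow_one]; exact hf, Jf_zero _ _, Jf_zero _ _⟩
  | succ i ih =>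
    obtain ⟨h1, h2, h3⟩ := ih
    refine ⟨h.cfm_pow hf _, ?_⟩
    rw [pow_succ, pow_mul]
    set g := f ^ p ^ i with hg
    obtain ⟨n, hn⟩ := hp.odd_of_ne_two hp2
    obtain ⟨u, hu, w, hw, e1, e2⟩ := quad_split (Jf (K := K) p i) h2 h3 hp hn
    obtain ⟨e3, e4, e5, e6⟩ := pow_parts d g (cfm_symA d h hprim h1) p _ rfl
    rw [e3, e4, st_mul, e6, e1, e2]
    refine ⟨(Jf p (i + 1)).add_mem (Jf_pow hp h2) (Jf_p_mul hu), ?_⟩
    set B := st (pB d g) * pB d g with hB
    have e7 : st (pB d g) * (B ^ n + ↑p * w) * (pB d g * (B ^ n + ↑p * w)) =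
        B ^ p + (p : MonoidAlgebra ℤ K) * (2 * B ^ (n + 1) * w + p * (B * w ^ 2)) := by
      have : B ^ p = B * (B ^ n) ^ 2 := by rw [hn]; ring
      rw [this]
      have e : st (pB d g) * (B ^ n + ↑p * w) * (pB d g * (B ^ n + ↑p * w)) =
        B * (B ^ n + ↑p * w) ^ 2 := by rw [hB]; ring
      rw [e]
      ring
    rw [e7]
    refine (Jf p (i + 1)).add_mem (Jf_pow hp h3) (Jf_p_mul ?_)
    have hw2 := Subring.pow_mem _ hw 2
    have hB2 := Subring.pow_mem _ h3 (n + 1)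
    exact (Jf p i).add_mem ((Jf p i).mul_mem ((Jf p i).mul_mem (ofNat_mem _ 2) hB2) hw)
      ((Jf p i).mul_mem (natCast_mem _ _) ((Jf p i).mul_mem h3 hw2))

/-- elements all of whose related rotations have order prime to `p` -/
def Wset (d : Data K D) (r : D → D → Prop) (p : ℕ) : Set D :=
  {x | ∀ k, r x (d.ρ k) → ¬ p ∣ orderOf k}

/-- class functions divisible by `p ^ n` outside `Wset` -/
def Tn (d : Data K D) (r : D → D → Prop) (p n : ℕ) (f : MonoidAlgebra ℤ D) : Prop :=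
  CFM r f ∧ ∀ x, x ∉ Wset d r p → (p : ℤ) ^ n ∣ f.coeff x

theorem P1 (h : IsSRing r) (hprim : Prim r) {p v m : ℕ} (hp : p.Prime) (hp2 : p ≠ 2)
    (hv : Nat.card K = p ^ v * m) (hm : ¬ p ∣ m) {f : MonoidAlgebra ℤ D} (hf : CFM r f) {n M : ℕ}
    (hM : n + v ≤ M) : Tn d r p n (f ^ p ^ M) := by
  obtain ⟨h1, h2, -⟩ := powJ d h hprim hp hp2 hf M
  refine ⟨h1, fun x hx => ?_⟩
  simp only [Wset, Set.mem_ofPred_eq, not_forall, not_not] at hx
  obtain ⟨k, hxk, hk⟩ := hx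
  have e : (f ^ p ^ M).coeff x = (f ^ p ^ M).coeff (d.ρ k) := h1 _ _ hxk
  rw [e, ← coeff_pA]
  rw [mem_Jf] at h2
  obtain ⟨t, ht⟩ : ∃ t, v + t = M + 1 := ⟨M + 1 - v, by omega⟩
  refine (pow_dvd_pow _ (by omega : n ≤ t)).trans (h2 v t ht k ?_)
  rintro ⟨u, hu⟩
  rw [powMonoidHom_apply] at hu
  apply hm
  refine hk.trans (orderOf_dvd_of_pow_eq_one ?_)
  rw [← hu, ← pow_mul, ← hv, pow_card_eq_one']

theorem order_mul {k l : K} {p : ℕ} (hp : p.Prime) (hk : ¬ p ∣ orderOf k) (hl : ¬ p ∣ orderOf l) :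
    ¬ p ∣ orderOf (k * l) := by
  intro h1
  rcases (Nat.Prime.dvd_mul hp).mp (h1.trans (Commute.all k l).orderOf_mul_dvd_mul_orderOf) with
    h2 | h2
  · exact hk h2
  · exact hl h2

theorem P2 (h : IsSRing r) (hprim : Prim r)
    (hrat : ∀ (u : K) {j : ℕ}, j.Coprime (Nat.card K) → r (d.ρ u) (d.ρ (u ^ j)))
    {p : ℕ} [hp : Fact p.Prime] (hp2 : p ≠ 2) {f : MonoidAlgebra ℤ D} (hf : Tn d r p 1 f) :
    (MonoidAlgebra.mapRingHom D (Int.castRingHom (ZMod p)) f) ^ p =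
      MonoidAlgebra.mapRingHom D (Int.castRingHom (ZMod p)) f := by
  set g := MonoidAlgebra.mapRingHom D (Int.castRingHom (ZMod p)) f with hg
  have hgc : ∀ x, g.coeff x = ((f.coeff x : ℤ) : ZMod p) := by
    intro x
    rw [hg, MonoidAlgebra.coeff_mapRingHom, eq_intCast]
  have hgf : CFM r g := by
    intro x y hxy
    have := hf.1 x y hxy
    beta_reduce at this ⊢
    rw [hgc, hgc, this]
  have hz : ∀ k, p ∣ orderOf k → g.coeff (d.ρ k) = 0 := by
    intro k hk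
    rw [hgc, ZMod.intCast_zmod_eq_zero_iff_dvd]
    have := hf.2 (d.ρ k) (fun h1 => h1 k (h.refl _) hk)
    rwa [pow_one] at this
  apply cfm_ext d h hprim (h.cfm_pow hgf p) hgf
  intro k
  rw [frob d h hprim hp2 hgf]
  by_cases hk : p ∣ orderOf k
  · rw [hz k hk]
    refine sum_eq_zero fun u _ => ?_
    by_cases hu : u ^ p = k
    · rw [if_pos hu, hz]
      refine hk.trans ?_
      rw [← hu]
      exact orderOf_pow_dvd p
    · rw [if_neg hu]
  · have hcop : p.Coprime (orderOf k) := (Nat.Prime.coprime_iff_not_dvd hp.out).mpr hk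
    obtain ⟨i, hi1, hi⟩ : ∃ i, i.Coprime (orderOf k) ∧ (k ^ i) ^ p = k := by
      refine ⟨p ^ ((orderOf k).totient - 1), hcop.pow_left _, ?_⟩
      have h1 : p * p ^ ((orderOf k).totient - 1) ≡ 1 [MOD orderOf k] := by
        rw [← pow_succ', Nat.sub_add_cancel (Nat.totient_pos.mpr (orderOf_pos k))]
        exact Nat.ModEq.pow_totient hcop
      rw [← pow_mul, mul_comm]
      conv_rhs => rw [← pow_one k]
      rw [pow_eq_pow_iff_modEq]
      exact h1
    rw [sum_eq_single (k ^ i), if_pos hi]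
    · exact (hgf _ _ (rat_order d hrat hi1)).symm
    · intro u _ hu
      by_cases hup : u ^ p = k
      · rw [if_pos hup, hz]
        by_contra hnd
        apply hu
        have h1 : ¬ p ∣ orderOf (k ^ i) := fun h2 => hk (h2.trans (orderOf_pow_dvd i))
        have h2 : ¬ p ∣ orderOf (u * (k ^ i)⁻¹) :=
          order_mul hp.out hnd (by rw [orderOf_inv]; exact h1)
        have h3 : (u * (k ^ i)⁻¹) ^ p = 1 := by
          rw [mul_pow, inv_pow, hup, hi, mul_inv_cancel]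
        have h4 : orderOf (u * (k ^ i)⁻¹) = 1 := by
          rcases (Nat.dvd_prime hp.out).mp (orderOf_dvd_of_pow_eq_one h3) with h5 | h5
          · exact h5
          · exact absurd (h5 ▸ dvd_rfl) h2
        rw [orderOf_eq_one_iff] at h4
        exact mul_inv_eq_one.mp h4
      · rw [if_neg hup]
    · intro h1
      exact absurd (mem_univ _) h1

theorem P2' (h : IsSRing r) (hprim : Prim r)
    (hrat : ∀ (u : K) {j : ℕ}, j.Coprime (Nat.card K) → r (d.ρ u) (d.ρ (u ^ j)))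
    {p : ℕ} (hp : p.Prime) (hp2 : p ≠ 2) {f : MonoidAlgebra ℤ D} (hf : Tn d r p 1 f) (M : ℕ) :
    ∃ g : MonoidAlgebra ℤ D, CFM r g ∧ f = f ^ p ^ M + (p : MonoidAlgebra ℤ D) * g := by
  have : Fact p.Prime := ⟨hp⟩
  have h1 := P2 d h hprim hrat hp2 hf
  set φ := MonoidAlgebra.mapRingHom D (Int.castRingHom (ZMod p)) with hφ
  have h2 : ∀ M, φ f ^ p ^ M = φ f := by
    intro M
    induction M with
    | zero => rw [pow_zero, pow_one]
    | succ M ih => rw [pow_succ, pow_mul, ih, h1]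
  have h3 : ∀ x, (p : ℤ) ∣ (f - f ^ p ^ M).coeff x := by
    intro x
    rw [← ZMod.intCast_zmod_eq_zero_iff_dvd, ← eq_intCast (Int.castRingHom (ZMod p)),
      ← MonoidAlgebra.coeff_mapRingHom, ← hφ, map_sub, map_pow, h2, sub_self]
    rfl
  refine ⟨el fun x => (f - f ^ p ^ M).coeff x / p, ?_, ?_⟩
  · intro x y hxy
    have e1 := hf.1 x y hxy
    have e2 := h.cfm_pow hf.1 (p ^ M) x y hxy
    beta_reduce at e1 e2 ⊢
    rw [coeff_el, coeff_el, MonoidAlgebra.coeff_sub, Finsupp.sub_apply, Finsupp.sub_apply, e1, e2]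
  · apply ma_ext
    intro x
    rw [MonoidAlgebra.coeff_add, Finsupp.add_apply, coeff_natCast_mul, coeff_el,
      Int.mul_ediv_cancel' (h3 x), MonoidAlgebra.coeff_sub, Finsupp.sub_apply]
    ring

theorem Tn_mono {p : ℕ} {f : MonoidAlgebra ℤ D} {n n' : ℕ} (hf : Tn d r p n f) (hn : n' ≤ n) :
    Tn d r p n' f := ⟨hf.1, fun x hx => (pow_dvd_pow _ hn).trans (hf.2 x hx)⟩

theorem Tn_add {p n : ℕ} {f g : MonoidAlgebra ℤ D} (hf : Tn d r p n f) (hg : Tn d r p n g) :
    Tn d r p n (f + g) := by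
  refine ⟨fun x y hxy => ?_, fun x hx => ?_⟩
  · have e1 := hf.1 x y hxy
    have e2 := hg.1 x y hxy
    beta_reduce at e1 e2 ⊢
    rw [MonoidAlgebra.coeff_add, Finsupp.add_apply, Finsupp.add_apply, e1, e2]
  · rw [MonoidAlgebra.coeff_add, Finsupp.add_apply]
    exact dvd_add (hf.2 x hx) (hg.2 x hx)

theorem Tn_p_mul {p n : ℕ} {f : MonoidAlgebra ℤ D} (hf : Tn d r p n f) :
    Tn d r p (n + 1) ((p : MonoidAlgebra ℤ D) * f) := by
  refine ⟨fun x y hxy => ?_, fun x hx => ?_⟩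
  · have e1 := hf.1 x y hxy
    beta_reduce at e1 ⊢
    rw [coeff_natCast_mul, coeff_natCast_mul, e1]
  · rw [coeff_natCast_mul, pow_succ']
    exact mul_dvd_mul_left _ (hf.2 x hx)

/-- division step -/
theorem Tn_div (h : IsSRing r) (hprim : Prim r)
    (hrat : ∀ (u : K) {j : ℕ}, j.Coprime (Nat.card K) → r (d.ρ u) (d.ρ (u ^ j)))
    {p v m : ℕ} (hp : p.Prime) (hp2 : p ≠ 2) (hv : Nat.card K = p ^ v * m) (hm : ¬ p ∣ m)
    {n M : ℕ} (hM : n + 1 + v ≤ M) {f : MonoidAlgebra ℤ D} (hf : Tn d r p (n + 1) f) :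
    ∃ g, Tn d r p n g ∧ f = f ^ p ^ M + (p : MonoidAlgebra ℤ D) * g := by
  obtain ⟨g, hg, hfg⟩ := P2' d h hprim hrat hp hp2 (Tn_mono d hf (by omega : 1 ≤ n + 1)) M
  refine ⟨g, ⟨hg, fun x hx => ?_⟩, hfg⟩
  have h1 := hf.2 x hx
  have h2 := (P1 d h hprim hp hp2 hv hm hf.1 hM).2 x hx
  have h3 : (p : ℤ) * g.coeff x = f.coeff x - (f ^ p ^ M).coeff x := by
    conv_rhs => rw [hfg]
    rw [MonoidAlgebra.coeff_add, Finsupp.add_apply, coeff_natCast_mul, ← hfg]
    ring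
  have h4 : (p : ℤ) ^ (n + 1) ∣ (p : ℤ) * g.coeff x := by
    rw [h3]; exact dvd_sub h1 h2
  rw [pow_succ'] at h4
  exact (mul_dvd_mul_iff_left (by exact_mod_cast hp.ne_zero)).mp h4

theorem L1 (h : IsSRing r) (hprim : Prim r)
    (hrat : ∀ (u : K) {j : ℕ}, j.Coprime (Nat.card K) → r (d.ρ u) (d.ρ (u ^ j)))
    {p v m : ℕ} (hp : p.Prime) (hp2 : p ≠ 2) (hv : Nat.card K = p ^ v * m) (hm : ¬ p ∣ m)
    {M : ℕ} {x : MonoidAlgebra ℤ D} (hx : CFM r x) : ∀ {n : ℕ}, n + v ≤ M →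
    ∀ {f : MonoidAlgebra ℤ D}, Tn d r p n f → Tn d r p n (f * x ^ p ^ M) := by
  intro n
  induction n with
  | zero =>
    intro _ f hf
    exact ⟨h.cfm_mul hf.1 (h.cfm_pow hx _), fun y _ => by rw [pow_zero]; exact one_dvd _⟩
  | succ n ih =>
    intro hM f hf
    obtain ⟨g, hg, hfg⟩ := Tn_div d h hprim hrat hp hp2 hv hm hM hf
    have hc : Commute f x := cfm_comm d h hprim hf.1 hx
    have e : f * x ^ p ^ M = (f * x) ^ p ^ M + (p : MonoidAlgebra ℤ D) * (g * x ^ p ^ M) := by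
      conv_lhs => rw [hfg]
      rw [hc.mul_pow, add_mul, mul_assoc]
    rw [e]
    exact Tn_add d (P1 d h hprim hp hp2 hv hm (h.cfm_mul hf.1 hx) hM)
      (Tn_p_mul d (ih (by omega) hg))

theorem L2 (h : IsSRing r) (hprim : Prim r)
    (hrat : ∀ (u : K) {j : ℕ}, j.Coprime (Nat.card K) → r (d.ρ u) (d.ρ (u ^ j)))
    {p v m : ℕ} (hp : p.Prime) (hp2 : p ≠ 2) (hv : Nat.card K = p ^ v * m) (hm : ¬ p ∣ m) :
    ∀ {n : ℕ} {f g : MonoidAlgebra ℤ D}, Tn d r p n f → Tn d r p n g → Tn d r p n (f * g) := by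
  intro n
  induction n with
  | zero =>
    intro f g hf hg
    exact ⟨h.cfm_mul hf.1 hg.1, fun y _ => by rw [pow_zero]; exact one_dvd _⟩
  | succ n ih =>
    intro f g hf hg
    obtain ⟨g1, hg1, hgg⟩ := Tn_div d h hprim hrat hp hp2 hv hm (le_refl (n + 1 + v)) hg
    have e : f * g = f * g ^ p ^ (n + 1 + v) + (p : MonoidAlgebra ℤ D) * (f * g1) := by
      conv_lhs => rw [hgg]
      rw [mul_add, ← mul_assoc, ← mul_assoc, (Nat.cast_commute p f).eq]
    rw [e]
    exact Tn_add d (L1 d h hprim hrat hp hp2 hv hm hg.1 (le_refl _) hf)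
      (Tn_p_mul d (ih (Tn_mono d hf (by omega)) hg1))

/-- every nontrivial class contains rotations of order divisible by `p` -/
theorem exists_order_dvd (h : IsSRing r) (hprim : Prim r)
    (hrat : ∀ (u : K) {j : ℕ}, j.Coprime (Nat.card K) → r (d.ρ u) (d.ρ (u ^ j)))
    {p : ℕ} (hp : p.Prime) (hp2 : p ≠ 2) (hpK : p ∣ Nat.card K) {x : D} (hx : x ≠ 1) :
    ∃ k, r x (d.ρ k) ∧ p ∣ orderOf k := by
  classical
  have : Fact p.Prime := ⟨hp⟩
  obtain ⟨v, m, hm, hv⟩ := Nat.exists_eq_pow_mul_and_not_dvd (Nat.card_pos (α := K)).ne' p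
    hp.ne_one
  by_contra hcon
  push Not at hcon
  have hWcl : Closed r (Wset d r p) := fun x y hxy hx k hk => hx k (h.trans hxy hk)
  let f : MonoidAlgebra ℤ D := el fun t => if t ∈ Wset d r p then 1 else 0
  have hf : CFM r f := h.cf_indicator hWcl
  have hfT : ∀ n, Tn d r p n f := fun n => ⟨hf, fun x hx => by
    rw [coeff_el, if_neg hx]; exact dvd_zero _⟩
  have hff : ∀ x, x ∉ Wset d r p → (f * f).coeff x = 0 := by
    intro x hx
    have h1 : ∀ n, (p : ℤ) ^ n ∣ (f * f).coeff x := fun n =>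
      (L2 d h hprim hrat hp hp2 hv hm (hfT n) (hfT n)).2 x hx
    by_contra hne
    have h2 := Int.le_of_dvd (abs_pos.mpr hne) ((dvd_abs _ _).mpr
      (h1 ((f * f).coeff x).natAbs))
    rw [Int.abs_eq_natAbs] at h2
    have h3 : ((f * f).coeff x).natAbs < p ^ ((f * f).coeff x).natAbs :=
      Nat.lt_pow_self hp.one_lt
    have h4 : (((f * f).coeff x).natAbs : ℤ) < (p : ℤ) ^ ((f * f).coeff x).natAbs := by
      exact_mod_cast h3
    omega
  let L : Subgroup D :=
    { carrier := Wset d r p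
      mul_mem' := by
        intro a b ha hb
        by_contra hab
        have h1 := hff _ hab
        rw [coeff_mul_eq, sum_eq_zero_iff_of_nonneg] at h1
        · have h2 := h1 a (mem_univ _)
          rw [coeff_el, coeff_el, if_pos ha, inv_mul_cancel_left, if_pos hb] at h2
          exact absurd h2 (by norm_num)
        · intro u _
          rw [coeff_el, coeff_el]
          split_ifs <;> norm_num
      one_mem' := by
        intro k hk
        have h1 := h.one _ hk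
        rw [← d.ρ_one] at h1
        rw [d.ρinj h1, orderOf_one]
        exact hp.one_lt.ne' ∘ Nat.dvd_one.mp
      inv_mem' := fun {a} ha => hWcl _ _ (rinv d h hprim a) ha }
  rcases hprim L hWcl with h1 | h1
  · apply hx
    rw [← Subgroup.mem_bot, ← h1]
    exact hcon
  · obtain ⟨c, hc⟩ := exists_prime_orderOf_dvd_card' p hpK
    have h2 : d.ρ c ∈ L := by rw [h1]; trivial
    exact h2 c (h.refl _) (hc ▸ dvd_rfl)

end sring

end H26.Dih
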