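import Cfsg.Agent.Lib.H26.Dih1
import Cfsg.Agent.Lib.H26.Dih3

set_option autoImplicit false
set_option linter.unusedSectionVars false

/-! S-rings over generalized dihedral groups, part 4: the numerical contradiction. -/

namespace H26.Dih
open Finset H63.SR

section num
variable {K : Type*} [CommGroup K] [Fintype K]

/-- invariant functions have sums divisible by the order of the subgroup -/
theorem sum_inv_dvd (L : Subgroup K) (g : K → ℤ) (hg : ∀ z ∈ L, ∀ k, g (z * k) = g k) :
    (Nat.card L : ℤ) ∣ ∑ k, g k := by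
  classical
  have := Fintype.ofFinite (K ⧸ L)
  rw [← sum_fiberwise univ (fun k : K => (k : K ⧸ L))]
  refine dvd_sum fun q _ => ?_
  have h1 : (univ.filter fun k : K => (k : K ⧸ L) = q) =
      (univ.filter fun k : K => k ∈ L).image (fun z => z * q.out) := by
    ext k
    simp only [mem_filter, mem_univ, true_and, mem_image]
    constructor
    · intro hk
      refine ⟨k * q.out⁻¹, ?_, by rw [inv_mul_cancel_right]⟩
      have h2 : (q.out : K ⧸ L) = (k : K ⧸ L) := by rw [QuotientGroup.out_eq', hk]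
      rw [QuotientGroup.eq] at h2
      rwa [mul_comm]
    · rintro ⟨z, hz, rfl⟩
      rw [mul_comm, QuotientGroup.mk_mul_of_mem q.out hz]
      exact QuotientGroup.out_eq' q
  rw [h1, sum_image (fun a _ b _ hab => mul_right_cancel hab),
    sum_congr rfl (fun z hz => hg z (by rw [mem_filter] at hz; exact hz.2) q.out), sum_const,
    nsmul_eq_mul]
  have h3 : (univ.filter fun k : K => k ∈ L).card = Nat.card L := by
    rw [Nat.card_eq_fintype_card, Fintype.card_subtype]
  rw [h3]
  exact dvd_mul_right _ _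

/-- invariant elements of the group ring -/
def Inv (L : Subgroup K) (x : MonoidAlgebra ℤ K) : Prop := ∀ z ∈ L, ∀ k, x.coeff (z * k) = x.coeff k

theorem Inv.mul {L : Subgroup K} {x : MonoidAlgebra ℤ K} (hx : Inv L x) (y : MonoidAlgebra ℤ K) :
    Inv L (x * y) := by
  intro z hz k
  rw [coeff_mul_eq, coeff_mul_eq, ← Equiv.sum_comp (Equiv.mulLeft z)]
  refine sum_congr rfl fun u _ => ?_
  rw [Equiv.coe_mulLeft, hx z hz]
  congr 2
  rw [mul_inv_rev, mul_assoc, inv_mul_cancel_left]

theorem Inv.dvd {L : Subgroup K} {x y : MonoidAlgebra ℤ K} (hx : Inv L x) (hy : Inv L y) (k : K) :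
    (Nat.card L : ℤ) ∣ (x * y).coeff k := by
  rw [coeff_mul_eq]
  apply sum_inv_dvd L
  intro z hz u
  rw [hx z hz]
  congr 1
  rw [mul_inv_rev, mul_assoc, mul_left_comm, hy _ (inv_mem hz)]

/-- partial difference set data on a generalized dihedral group -/
structure PDS (A B : K → ℤ) (c N : ℤ) : Prop where
  hA : ∀ k, A k = 0 ∨ A k = 1
  hB : ∀ k, B k = 0 ∨ B k = 1
  sym : ∀ k, A k⁻¹ = A k
  h1 : ∀ k, (el A * el A + st (el B) * el B).coeff k = (1 : MonoidAlgebra ℤ K).coeff k * N + c
  h2 : ∀ k, 2 * (el A * el B).coeff k = c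

variable {A B : K → ℤ} {c N : ℤ}

theorem sum_st (x : MonoidAlgebra ℤ K) : ∑ k, (st x).coeff k = ∑ k, x.coeff k := by
  rw [← Equiv.sum_comp (Equiv.inv K) (fun k => x.coeff k)]
  rfl

theorem sq01 {a : ℤ} (h : a = 0 ∨ a = 1) : a * a = a := by
  rcases h with rfl | rfl <;> rfl

theorem coeff_sq_one (hA : ∀ k, A k = 0 ∨ A k = 1) (hs : ∀ k, A k⁻¹ = A k) :
    (el A * el A).coeff 1 = ∑ k, A k := by
  rw [coeff_mul_eq]
  refine sum_congr rfl fun u _ => ?_
  rw [coeff_el, coeff_el, mul_one, hs, sq01 (hA u)]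

theorem PDS.ea (h : PDS A B c N) :
    (∑ k, A k) ^ 2 + (∑ k, B k) ^ 2 = N + c * Fintype.card K := by
  have h1 : ∑ k, (el A * el A + st (el B) * el B).coeff k =
      ∑ k, ((1 : MonoidAlgebra ℤ K).coeff k * N + c) := sum_congr rfl fun k _ => h.h1 k
  simp only [MonoidAlgebra.coeff_add, Finsupp.add_apply, sum_add_distrib] at h1
  rw [aug_mul, aug_mul, sum_st, ← sum_mul, aug_one] at h1
  simp only [coeff_el, sum_const, card_univ, nsmul_eq_mul] at h1
  linarith

theorem PDS.eb (h : PDS A B c N) : 2 * (∑ k, A k) * (∑ k, B k) = c * Fintype.card K := by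
  have h1 : ∑ k, 2 * (el A * el B).coeff k = ∑ _k : K, c := sum_congr rfl fun k _ => h.h2 k
  rw [← mul_sum, aug_mul] at h1
  simp only [coeff_el, sum_const, card_univ, nsmul_eq_mul] at h1
  linarith

theorem PDS.ec (h : PDS A B c N) : N + c = (∑ k, A k) + ∑ k, B k := by
  have h1 := h.h1 1
  rw [MonoidAlgebra.coeff_add, Finsupp.add_apply, coeff_sq_one h.hA h.sym, MonoidAlgebra.coeff_one_one,
    one_mul, coeff_mul_eq] at h1
  have h2 : ∑ u, (st (el B)).coeff u * (el B).coeff (u⁻¹ * 1) = ∑ k, B k := by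
    rw [← Equiv.sum_comp (Equiv.inv K) B]
    refine sum_congr rfl fun u _ => ?_
    rw [coeff_st, mul_one, coeff_el, sq01 (h.hB _)]
    rfl
  rw [h2] at h1
  linarith

theorem PDS.eN (h : PDS A B c N) : N = ((∑ k, A k) - ∑ k, B k) ^ 2 := by
  have h1 := h.ea
  have h2 := h.eb
  linear_combination -h1 + h2

/-- pure arithmetic -/
theorem arith {m l x y N c S : ℤ} (ha : x ^ 2 + y ^ 2 = N + c * m) (hb : 2 * x * y = c * m)
    (hc : N + c = x + y) (hS : 2 * S = 2 * N * x + (2 * c * x - c * y) * x)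
    (hCS : (x ^ 2 - l * x) ^ 2 ≤ (m - l) * (S - l * x ^ 2)) (hl : 3 ≤ l) (hx : 0 < x) (hxm : x < m)
    (hdvd : l ^ 2 ∣ N) : False := by
  have hN : N = (x - y) ^ 2 := by linear_combination -ha + hb
  -- c' m = 2 x^3 - 2 N x
  have hd : (2 * c * x - c * y) * m = 2 * x ^ 3 - 2 * N * x := by
    rw [hN]; linear_combination (-2 * x + y) * hb
  have h1 : (m - x) * ((m - l) * N - l * x * (m - x)) * (2 * x) ≥ 0 := by
    have e : (m - x) * ((m - l) * N - l * x * (m - x)) * (2 * x) =
        2 * m * ((m - l) * (S - l * x ^ 2) - (x ^ 2 - l * x) ^ 2) := by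
      linear_combination (-(m - l) * x) * hd - (m - l) * m * hS
    rw [e]
    have hm : 0 < m := hx.trans hxm
    exact mul_nonneg (by linarith) (by linarith)
  have h2 : (m - l) * N - l * x * (m - x) ≥ 0 := by
    by_contra hneg
    push Not at hneg
    have : (m - x) * ((m - l) * N - l * x * (m - x)) * (2 * x) < 0 :=
      mul_neg_of_neg_of_pos (mul_neg_of_pos_of_neg (by linarith) hneg) (by linarith)
    linarith
  obtain ⟨δ, hδ⟩ : ∃ δ, y = x + δ := ⟨y - x, by ring⟩
  subst hδ
  have hN' : N = δ ^ 2 := by rw [hN]; ring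
  have h3 : 2 * x * (m - x) = m * δ ^ 2 - δ * (m - 2 * x) := by
    rw [hN'] at hc
    linear_combination (-m) * hc - hb
  have h4 : l * δ * (m - 2 * x) ≥ δ ^ 2 * (l * m - 2 * m + 2 * l) := by
    rw [hN'] at h2
    nlinarith [h2, h3]
  have h5 : l ∣ δ := by
    rw [hN'] at hdvd
    exact (Int.pow_dvd_pow_iff (by norm_num)).mp hdvd
  have hδ0 : δ ≠ 0 := by
    rintro rfl
    rw [hN'] at h2
    have : 0 < l * x * (m - x) := mul_pos (mul_pos (by linarith) hx) (by linarith)
    nlinarith
  obtain ⟨t, rfl⟩ := h5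
  have ht : t ≠ 0 := by
    rintro rfl
    exact hδ0 (mul_zero l)
  have hm : 0 < m := hx.trans hxm
  have hQ : l * m - 2 * m + 2 * l ≥ m + 2 * l := by nlinarith
  have h6 : t * (m - 2 * x) ≥ t ^ 2 * (l * m - 2 * m + 2 * l) := by
    have : l ^ 2 * (t * (m - 2 * x)) ≥ l ^ 2 * (t ^ 2 * (l * m - 2 * m + 2 * l)) := by
      have e1 : l * (l * t) * (m - 2 * x) = l ^ 2 * (t * (m - 2 * x)) := by ring
      have e2 : (l * t) ^ 2 * (l * m - 2 * m + 2 * l) =
        l ^ 2 * (t ^ 2 * (l * m - 2 * m + 2 * l)) := by ring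
      rw [← e1, ← e2]
      exact h4
    exact le_of_mul_le_mul_left this (by positivity)
  rcases lt_or_gt_of_ne ht with h7 | h7
  · have h8 : -(m - 2 * x) ≥ (-t) * (l * m - 2 * m + 2 * l) := by
      have : (-t) * (-(m - 2 * x)) ≥ (-t) * ((-t) * (l * m - 2 * m + 2 * l)) := by
        have e1 : (-t) * (-(m - 2 * x)) = t * (m - 2 * x) := by ring
        have e2 : (-t) * ((-t) * (l * m - 2 * m + 2 * l)) =
          t ^ 2 * (l * m - 2 * m + 2 * l) := by ring
        rw [e1, e2]; exact h6
      exact le_of_mul_le_mul_left this (by linarith)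
    have h9 : (-t) * (l * m - 2 * m + 2 * l) ≥ 1 * (l * m - 2 * m + 2 * l) := by
      apply mul_le_mul_of_nonneg_right (by linarith) (by linarith)
    linarith
  · have h8 : (m - 2 * x) ≥ t * (l * m - 2 * m + 2 * l) := by
      have : t * (m - 2 * x) ≥ t * (t * (l * m - 2 * m + 2 * l)) := by
        have e2 : t * (t * (l * m - 2 * m + 2 * l)) =
          t ^ 2 * (l * m - 2 * m + 2 * l) := by ring
        rw [e2]; exact h6
      exact le_of_mul_le_mul_left this h7
    have h9 : t * (l * m - 2 * m + 2 * l) ≥ 1 * (l * m - 2 * m + 2 * l) := by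
      apply mul_le_mul_of_nonneg_right (by linarith) (by linarith)
    linarith

theorem coeff_intCast_mul {G : Type*} [Group G] (n : ℤ) (x : MonoidAlgebra ℤ G) (k : G) :
    ((n : MonoidAlgebra ℤ G) * x).coeff k = n * x.coeff k := by
  rw [← zsmul_eq_mul, MonoidAlgebra.coeff_smul_apply, smul_eq_mul]

theorem coeff_two_mul {G : Type*} [Group G] (x : MonoidAlgebra ℤ G) (k : G) :
    (2 * x).coeff k = 2 * x.coeff k := by
  have := coeff_natCast_mul 2 x k
  push_cast at this
  exact this

theorem mul_one_el (x : MonoidAlgebra ℤ K) :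
    x * el (fun _ => (1 : ℤ)) = ((∑ k, x.coeff k : ℤ) : MonoidAlgebra ℤ K) * el (fun _ => 1) := by
  apply ma_ext
  intro k
  rw [coeff_intCast_mul, coeff_el, mul_one, coeff_mul_eq]
  refine sum_congr rfl fun u _ => ?_
  rw [coeff_el, mul_one]

theorem PDS.false (h : PDS A B c N) (L : Subgroup K) (hL : 3 ≤ Nat.card L)
    (hinv : ∀ z ∈ L, ∀ k, A (z * k) = A k) (hA0 : A 1 = 0) (hne : ∃ k, A k = 1) : False := by
  classical
  set E : MonoidAlgebra ℤ K := el A with hE
  set β : MonoidAlgebra ℤ K := el B with hβ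
  set Kb : MonoidAlgebra ℤ K := el (fun _ => 1) with hKb
  set x : ℤ := ∑ k, A k with hx
  set y : ℤ := ∑ k, B k with hy
  have hEx : E * Kb = (x : MonoidAlgebra ℤ K) * Kb := mul_one_el E
  have hβy : st β * Kb = (y : MonoidAlgebra ℤ K) * Kb := by
    rw [hKb, mul_one_el, sum_st]; rfl
  have hsE : st E = E := ma_ext fun k => h.sym k
  have g1 : E * E + st β * β = (N : MonoidAlgebra ℤ K) + (c : MonoidAlgebra ℤ K) * Kb := by
    apply ma_ext
    intro k
    rw [h.h1, MonoidAlgebra.coeff_add, Finsupp.add_apply, coeff_intCast_mul, hKb, coeff_el, mul_one,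
      ← mul_one (N : MonoidAlgebra ℤ K), coeff_intCast_mul, mul_comm]
  have g2 : 2 * (E * β) = (c : MonoidAlgebra ℤ K) * Kb := by
    apply ma_ext
    intro k
    have := coeff_two_mul (E * β) k
    rw [this, coeff_intCast_mul, hKb, coeff_el, mul_one]
    exact h.h2 k
  set c' : ℤ := 2 * c * x - c * y with hc'
  have g3 : 2 * (E * E * E) = 2 * ((N : MonoidAlgebra ℤ K) * E) + (c' : MonoidAlgebra ℤ K) * Kb := by
    rw [hc']
    push_cast
    linear_combination (2 * E) * g1 - st β * g2 + 2 * (c : MonoidAlgebra ℤ K) * hEx -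
      (c : MonoidAlgebra ℤ K) * hβy
  have g3' : ∀ k, 2 * (E * E * E).coeff k = 2 * (N * A k) + c' := by
    intro k
    rw [← coeff_two_mul (E * E * E), g3, MonoidAlgebra.coeff_add, Finsupp.add_apply,
      coeff_two_mul, coeff_intCast_mul, coeff_intCast_mul, hKb, coeff_el, coeff_el, mul_one]
  have g4 : 2 * (E * E * (E * E)) = 2 * ((N : MonoidAlgebra ℤ K) * (E * E)) +
      ((c' * x : ℤ) : MonoidAlgebra ℤ K) * Kb := by
    push_cast
    linear_combination E * g3 + (c' : MonoidAlgebra ℤ K) * hEx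
  have hEE1 : (E * E).coeff 1 = x := coeff_sq_one h.hA h.sym
  have g4' : 2 * (E * E * (E * E)).coeff 1 = 2 * (N * x) + c' * x := by
    rw [← coeff_two_mul (E * E * (E * E)), g4, MonoidAlgebra.coeff_add, Finsupp.add_apply,
      coeff_two_mul, coeff_intCast_mul, coeff_intCast_mul, hKb, coeff_el, mul_one, hEE1]
  have hIE : Inv L E := hinv
  have hIEE : Inv L (E * E) := hIE.mul E
  -- divisibility
  have hl2 : ∀ k, (Nat.card L : ℤ) ^ 2 ∣ (E * E * E).coeff k := by
    intro k
    let g : MonoidAlgebra ℤ K := el fun k => (E * E).coeff k / (Nat.card L : ℤ)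
    have hg : E * E = ((Nat.card L : ℤ) : MonoidAlgebra ℤ K) * g := by
      apply ma_ext
      intro k
      rw [coeff_intCast_mul, coeff_el, Int.mul_ediv_cancel' (hIE.dvd hIE k)]
    have hgI : Inv L g := by
      intro z hz k
      rw [coeff_el, coeff_el, hIEE z hz]
    rw [hg, mul_assoc, coeff_intCast_mul, pow_two]
    exact mul_dvd_mul_left _ (hgI.dvd hIE k)
  have hdvd : (Nat.card L : ℤ) ^ 2 ∣ N := by
    obtain ⟨k, hk⟩ := hne
    have e1 := g3' 1
    have e2 := g3' k
    rw [hA0] at e1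
    rw [hk] at e2
    have e3 : N = (E * E * E).coeff k - (E * E * E).coeff 1 := by linarith
    rw [e3]
    exact dvd_sub (hl2 k) (hl2 1)
  -- Cauchy-Schwarz
  have hx0 : 0 < x := by
    obtain ⟨k, hk⟩ := hne
    rw [hx]
    apply sum_pos'
    · intro i _
      rcases h.hA i with h0 | h0 <;> rw [h0] <;> norm_num
    · exact ⟨k, mem_univ _, by rw [hk]; norm_num⟩
  have hxm : x < Fintype.card K := by
    rw [hx, ← sub_pos]
    have e : (Fintype.card K : ℤ) - ∑ k, A k = ∑ k, (1 - A k) := by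
      rw [sum_sub_distrib, sum_const, card_univ, nsmul_eq_mul, mul_one]
    rw [e]
    apply sum_pos'
    · intro i _
      rcases h.hA i with h0 | h0 <;> rw [h0] <;> norm_num
    · exact ⟨1, mem_univ _, by rw [hA0]; norm_num⟩
  have hsum : ∑ k, (E * E).coeff k = x ^ 2 := by
    rw [aug_mul, pow_two]; rfl
  have hsq : ∑ k, (E * E).coeff k ^ 2 = (E * E * (E * E)).coeff 1 := by
    rw [coeff_mul_eq]
    refine sum_congr rfl fun u _ => ?_
    have e : (E * E).coeff u⁻¹ = (E * E).coeff u := by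
      rw [← coeff_st, st_mul, hsE]
    rw [mul_one, e, pow_two]
  have hLcard : (univ.filter fun k : K => k ∈ L).card = Nat.card L := by
    rw [Nat.card_eq_fintype_card, Fintype.card_subtype]
  have hconst : ∀ k ∈ univ.filter (fun k : K => k ∈ L), (E * E).coeff k = x := by
    intro k hk
    rw [mem_filter] at hk
    have := hIEE k hk.2 1
    rw [mul_one] at this
    rw [this, hEE1]
  have s1 : ∑ k ∈ univ.filter (fun k : K => k ∉ L), (E * E).coeff k = x ^ 2 - Nat.card L * x := by
    have := sum_filter_add_sum_filter_not univ (fun k : K => k ∈ L) (fun k => (E * E).coeff k)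
    rw [hsum, sum_congr rfl hconst, sum_const, hLcard, nsmul_eq_mul] at this
    linarith
  have s2 : ∑ k ∈ univ.filter (fun k : K => k ∉ L), (E * E).coeff k ^ 2 =
      (E * E * (E * E)).coeff 1 - Nat.card L * x ^ 2 := by
    have := sum_filter_add_sum_filter_not univ (fun k : K => k ∈ L)
      (fun k => (E * E).coeff k ^ 2)
    rw [hsq, sum_congr rfl (fun k hk => by rw [hconst k hk]), sum_const, hLcard,
      nsmul_eq_mul] at this
    linarith
  have s3 : ((univ.filter (fun k : K => k ∉ L)).card : ℤ) = Fintype.card K - Nat.card L := by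
    have := card_filter_add_card_filter_not (s := (univ : Finset K)) (fun k : K => k ∈ L)
    rw [hLcard, card_univ] at this
    rw [← this]
    push_cast
    ring
  have hCS := sq_sum_le_card_mul_sum_sq (s := univ.filter (fun k : K => k ∉ L))
    (f := fun k => (E * E).coeff k)
  rw [s1, s2, s3] at hCS
  refine arith (m := Fintype.card K) (l := Nat.card L) (x := x) (y := y) (N := N) (c := c)
    (S := (E * E * (E * E)).coeff 1) h.ea h.eb h.ec ?_ hCS (by exact_mod_cast hL) hx0 hxm hdvd
  rw [g4', hc']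
  ring

end num

end H26.Dih
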