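import Cfsg.Agent.Lib.H26.Dih4

set_option autoImplicit false
set_option linter.unusedSectionVars false

/-! S-rings over generalized dihedral groups, part 5: the exceptional 2-power case. -/

namespace H26.Dih
open Finset H63.SR

theorem mem_zpowers_cyc {K : Type*} [CommGroup K] [Finite K] [IsCyclic K] {c z : K}
    (hz : z ^ orderOf c = 1) : z ∈ Subgroup.zpowers c := by
  classical
  have := Fintype.ofFinite K
  have h1 : (Subgroup.zpowers c : Set K).toFinset ⊆ univ.filter fun s : K => s ^ orderOf c = 1 := by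
    intro s hs
    rw [Set.mem_toFinset] at hs
    obtain ⟨k, rfl⟩ := hs
    rw [mem_filter]
    refine ⟨mem_univ _, ?_⟩
    change (c ^ k) ^ orderOf c = 1
    rw [← zpow_natCast, ← zpow_mul, mul_comm, zpow_mul, zpow_natCast, pow_orderOf_eq_one, one_zpow]
  have h2 := eq_of_subset_of_card_le h1 (by
    rw [Set.toFinset_card, Fintype.card_eq_nat_card]
    have : Nat.card (Subgroup.zpowers c : Set K) = orderOf c := Nat.card_zpowers c
    rw [this]
    exact IsCyclic.card_pow_eq_one_le (orderOf_pos c))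
  have h3 : z ∈ univ.filter fun s : K => s ^ orderOf c = 1 := by simp [hz]
  rw [← h2, Set.mem_toFinset] at h3
  exact h3

/-- pure arithmetic for the 2-power case -/
theorem arith2 {M e : ℕ} (hM : M = 2 ^ e) {x y c N s : ℤ} (hb : 2 * x * y = c * (4 * M))
    (hc : N + c = x + y) (hN : N = (x - y) ^ 2) (hx : x = 2 * (1 + 2 * s)) (hx0 : 0 < x)
    (hxm : x < 4 * M) (hy0 : 0 < y) (hym : y < 4 * M) : M = 2 ∧ y = 4 ∧ c = x := by
  obtain ⟨x', hx'⟩ : ∃ x', x' = 1 + 2 * s := ⟨_, rfl⟩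
  rw [← hx'] at hx
  subst hx
  have hM0 : (M : ℤ) ≠ 0 := by
    rw [hM]; positivity
  have h1 : x' * y = c * M := by linarith
  have hcop : IsCoprime (M : ℤ) x' := by
    rw [hM]
    push_cast
    apply IsCoprime.pow_left
    exact ⟨-s, 1, by rw [hx']; ring⟩
  obtain ⟨j, rfl⟩ : (M : ℤ) ∣ y := hcop.dvd_of_dvd_mul_left (Dvd.intro_left c h1.symm)
  have hc' : c = x' * j := by
    have : c * M = x' * j * M := by rw [← h1]; ring
    exact mul_right_cancel₀ hM0 this
  subst hc'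
  have hMpos : (0 : ℤ) < M := by
    have : (0 : ℤ) ≤ M := Nat.cast_nonneg M
    omega
  have hj0 : 0 < j := by
    by_contra hneg
    push Not at hneg
    nlinarith
  have hj4 : j < 4 := by
    by_contra hneg
    push Not at hneg
    nlinarith
  rcases Nat.eq_zero_or_pos e with he | he
  · subst he
    rw [pow_zero] at hM
    subst hM
    rw [Nat.cast_one] at *
    have hx1 : x' = 1 := by omega
    subst hx1
    exfalso
    rw [hN] at hc
    interval_cases j <;> norm_num at hc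
  · obtain ⟨e', rfl⟩ : ∃ e', e = e' + 1 := ⟨e - 1, by omega⟩
    obtain ⟨M', hM'⟩ : ∃ M' : ℤ, M' = 2 ^ e' := ⟨_, rfl⟩
    have hMM : (M : ℤ) = 2 * M' := by
      rw [hM, hM', pow_succ]; push_cast; ring
    rw [hN, hMM] at hc
    have hj : j = 1 ∨ j = 2 ∨ j = 3 := by omega
    rcases hj with rfl | rfl | rfl
    · exfalso
      have h2 : x' = 2 * (2 * (x' - M') ^ 2 - M') := by linear_combination -hc
      omega
    · have h2 : M' = (x' - 2 * M') ^ 2 := by
        have : 4 * M' = 4 * (x' - 2 * M') ^ 2 := by linear_combination -hc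
        linarith
      have h3 : M' = 2 * (2 * (s - M') ^ 2 + 2 * (s - M')) + 1 := by
        rw [hx'] at h2
        linear_combination h2
      rcases Nat.eq_zero_or_pos e' with he' | he'
      · subst he'
        have hM2 : M = 2 := by rw [hM]; norm_num
        subst hM2
        refine ⟨rfl, by norm_num, by ring⟩
      · exfalso
        obtain ⟨e'', rfl⟩ : ∃ e'', e' = e'' + 1 := ⟨e' - 1, by omega⟩
        rw [pow_succ] at hM'
        obtain ⟨t, ht⟩ : ∃ t : ℤ, t = 2 ^ e'' := ⟨_, rfl⟩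
        rw [← ht] at hM'
        omega
    · exfalso
      have h2 : x' = 2 * (3 * M' - 2 * (x' - 3 * M') ^ 2) := by linear_combination hc
      omega


section m8
variable {K : Type*} [CommGroup K] [Fintype K] {A B : K → ℤ} {c N : ℤ}

theorem sum_gen {g : K} (hg : orderOf g = 8) (hK : Fintype.card K = 8) (F : K → ℤ) :
    ∑ k, F k = F (g ^ 0) + F (g ^ 1) + F (g ^ 2) + F (g ^ 3) + F (g ^ 4) + F (g ^ 5) + F (g ^ 6) +
      F (g ^ 7) := by
  classical
  have hinj : Set.InjOn (fun i : ℕ => g ^ i) (range 8 : Set ℕ) := by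
    intro i hi j hj hij
    simp only [coe_range, Set.mem_Iio] at hi hj
    exact pow_injOn_Iio_orderOf (by rw [hg]; exact hi) (by rw [hg]; exact hj) hij
  have hu : (range 8).image (fun i : ℕ => g ^ i) = univ := by
    rw [← card_eq_iff_eq_univ, card_image_of_injOn hinj, card_range, hK]
  rw [← hu, sum_image hinj]
  simp only [sum_range_succ, sum_range_zero, zero_add]

theorem PDS.false8 (h : PDS A B c N) {g : K} (hg : orderOf g = 8) (hK : Fintype.card K = 8)
    (h0 : A (g ^ 0) = 0) (h4 : A (g ^ 4) = 0) (h2 : A (g ^ 2) = 1) (h6 : A (g ^ 6) = 1)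
    (h3 : A (g ^ 3) = A (g ^ 1)) (h5 : A (g ^ 5) = A (g ^ 1)) (h7 : A (g ^ 7) = A (g ^ 1))
    (hc : c = ∑ k, A k) (hy : ∑ k, B k = 4) : False := by
  have hg8 : g ^ 8 = 1 := by rw [← hg]; exact pow_orderOf_eq_one g
  have hgi : ∀ i : ℕ, g ^ (i + 8) = g ^ i := fun i => by rw [pow_add, hg8, mul_one]
  have hinv : ∀ i j : ℕ, i ≤ 8 → (g ^ i)⁻¹ * g ^ j = g ^ (8 - i + j) := by
    intro i j hi
    rw [inv_mul_eq_iff_eq_mul, ← pow_add]
    have : i + (8 - i + j) = j + 8 := by omega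
    rw [this, hgi]
  have hinv' : ∀ i : ℕ, i ≤ 8 → (g ^ i)⁻¹ = g ^ (8 - i) := by
    intro i hi
    have := hinv i 0 hi
    rwa [pow_zero, mul_one, add_zero] at this
  obtain ⟨t, ht⟩ : ∃ t, A (g ^ 1) = t := ⟨_, rfl⟩
  have htt : t * t = t := by rw [← ht]; exact sq01 (h.hA _)
  rw [ht] at h3 h5 h7
  rw [sum_gen hg hK, h0, ht, h2, h3, h4, h5, h6, h7] at hc
  rw [sum_gen hg hK] at hy
  have e1 : g ^ 8 = g ^ 0 := hgi 0
  have e2 : g ^ 9 = g ^ 1 := hgi 1
  have e3 : g ^ 10 = g ^ 2 := hgi 2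
  have e4 : g ^ 11 = g ^ 3 := hgi 3
  have e5 : g ^ 12 = g ^ 4 := hgi 4
  have q1 := h.h1 (g ^ 1)
  have q4 := h.h1 (g ^ 4)
  have o1 : (1 : MonoidAlgebra ℤ K).coeff (g ^ 1) = 0 := by
    classical
    rw [MonoidAlgebra.one_def, MonoidAlgebra.coeff_single, Finsupp.single_apply, if_neg]
    intro h1
    have := orderOf_dvd_of_pow_eq_one h1.symm
    rw [hg] at this
    omega
  have o4 : (1 : MonoidAlgebra ℤ K).coeff (g ^ 4) = 0 := by
    classical
    rw [MonoidAlgebra.one_def, MonoidAlgebra.coeff_single, Finsupp.single_apply, if_neg]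
    intro h1
    have := orderOf_dvd_of_pow_eq_one h1.symm
    rw [hg] at this
    omega
  rw [o1, zero_mul, zero_add, MonoidAlgebra.coeff_add, Finsupp.add_apply, coeff_mul_eq,
    coeff_mul_eq, sum_gen hg hK, sum_gen hg hK] at q1
  rw [o4, zero_mul, zero_add, MonoidAlgebra.coeff_add, Finsupp.add_apply, coeff_mul_eq,
    coeff_mul_eq, sum_gen hg hK, sum_gen hg hK] at q4
  simp only [coeff_st, coeff_el] at q1 q4
  rw [hinv 0 1 (by norm_num), hinv 1 1 (by norm_num), hinv 2 1 (by norm_num),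
    hinv 3 1 (by norm_num), hinv 4 1 (by norm_num), hinv 5 1 (by norm_num),
    hinv 6 1 (by norm_num), hinv 7 1 (by norm_num), hinv' 0 (by norm_num), hinv' 1 (by norm_num),
    hinv' 2 (by norm_num), hinv' 3 (by norm_num), hinv' 4 (by norm_num), hinv' 5 (by norm_num),
    hinv' 6 (by norm_num), hinv' 7 (by norm_num)] at q1
  rw [hinv 0 4 (by norm_num), hinv 1 4 (by norm_num), hinv 2 4 (by norm_num),
    hinv 3 4 (by norm_num), hinv 4 4 (by norm_num), hinv 5 4 (by norm_num),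
    hinv 6 4 (by norm_num), hinv 7 4 (by norm_num), hinv' 0 (by norm_num), hinv' 1 (by norm_num),
    hinv' 2 (by norm_num), hinv' 3 (by norm_num), hinv' 4 (by norm_num), hinv' 5 (by norm_num),
    hinv' 6 (by norm_num), hinv' 7 (by norm_num)] at q4
  norm_num only [e1, e2, e3, e4, e5] at q1 q4
  simp only [h0, h4, h2, h6, h3, h5, h7, ht] at q1 q4
  have c0 := h.hB (g ^ 0)
  have c1 := h.hB (g ^ 1)
  have c2 := h.hB (g ^ 2)
  have c3 := h.hB (g ^ 3)
  have c4 := h.hB (g ^ 4)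
  have c5 := h.hB (g ^ 5)
  have c6 := h.hB (g ^ 6)
  have c7 := h.hB (g ^ 7)
  generalize B (g ^ 0) = b0 at *
  generalize B (g ^ 1) = b1 at *
  generalize B (g ^ 2) = b2 at *
  generalize B (g ^ 3) = b3 at *
  generalize B (g ^ 4) = b4 at *
  generalize B (g ^ 5) = b5 at *
  generalize B (g ^ 6) = b6 at *
  generalize B (g ^ 7) = b7 at *
  clear hinv hinv' hgi
  have key : ∀ {a b : ℤ}, (a = 0 ∨ a = 1) → (b = 0 ∨ b = 1) → 0 ≤ a * b ∧ a + b ≤ 1 + a * b := by
    intro a b ha hb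
    rcases ha with rfl | rfl <;> rcases hb with rfl | rfl <;> norm_num
  obtain ⟨n0, m0⟩ := key c0 c4
  obtain ⟨n1, m1⟩ := key c1 c5
  obtain ⟨n2, m2⟩ := key c2 c6
  obtain ⟨n3, m3⟩ := key c3 c7
  have q4' : b0 * b4 + b1 * b5 + b2 * b6 + b3 * b7 = 0 := by
    rw [hc, htt] at q4
    linarith
  obtain rfl : b4 = 1 - b0 := by linarith
  obtain rfl : b5 = 1 - b1 := by linarith
  obtain rfl : b6 = 1 - b2 := by linarith
  obtain rfl : b7 = 1 - b3 := by linarith
  rw [hc] at q1
  clear q4 q4' n0 m0 n1 m1 n2 m2 n3 m3 c4 c5 c6 c7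
  rcases c0 with rfl | rfl <;> rcases c1 with rfl | rfl <;> rcases c2 with rfl | rfl <;>
    rcases c3 with rfl | rfl <;> norm_num at q1 <;> omega

theorem sum_bounds {A : K → ℤ} (hA : ∀ k, A k = 0 ∨ A k = 1) (h0 : ∃ k, A k = 0)
    (h1 : ∃ k, A k = 1) : 0 < ∑ k, A k ∧ ∑ k, A k < Fintype.card K := by
  constructor
  · obtain ⟨k, hk⟩ := h1
    apply sum_pos'
    · intro i _
      rcases hA i with h0 | h0 <;> rw [h0]
      norm_num
    · exact ⟨k, mem_univ _, by rw [hk]; norm_num⟩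
  · obtain ⟨k, hk⟩ := h0
    rw [← sub_pos]
    have e : (Fintype.card K : ℤ) - ∑ k, A k = ∑ k, (1 - A k) := by
      rw [sum_sub_distrib, sum_const, card_univ, nsmul_eq_mul, mul_one]
    rw [e]
    apply sum_pos'
    · intro i _
      rcases hA i with h0 | h0 <;> rw [h0] <;> norm_num
    · exact ⟨k, mem_univ _, by rw [hk]; norm_num⟩

theorem PDS.false2 [IsCyclic K] (h : PDS A B c N) {a : ℕ} (hK : Nat.card K = 2 ^ a) {w : K}
    (hw : orderOf w = 4) (hAw : A w = 1) (hA2 : ∀ k : K, k ^ 2 = 1 → A k = 0)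
    (hinv : ∀ z : K, z ^ 4 = 1 → ∀ k, k ^ 4 ≠ 1 → A (z * k) = A k)
    (hgen : ∀ (u : K) {j : ℕ}, j.Coprime (Nat.card K) → A (u ^ j) = A u)
    (hB0 : ∃ k, B k = 0) (hB1 : ∃ k, B k = 1) : False := by
  classical
  have hdvd : 4 ∣ 2 ^ a := by rw [← hw, ← hK]; exact orderOf_dvd_natCard w
  obtain ⟨e, rfl⟩ : ∃ e, a = e + 2 := by
    rcases a with - | - | a
    · exact absurd hdvd (by norm_num)
    · exact absurd hdvd (by norm_num)
    · exact ⟨a, rfl⟩
  obtain ⟨M, hM⟩ : ∃ M, M = 2 ^ e := ⟨_, rfl⟩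
  have hKM : Nat.card K = 4 * M := by rw [hK, hM, pow_add]; ring
  have hKM' : (Fintype.card K : ℤ) = 4 * M := by
    rw [← Nat.card_eq_fintype_card, hKM]; push_cast; ring
  have hodd : ∀ {j : ℕ}, ¬ 2 ∣ j → j.Coprime (Nat.card K) := by
    intro j hj
    rw [hK]
    exact Nat.Coprime.pow_right _ ((Nat.Prime.coprime_iff_not_dvd Nat.prime_two).mpr hj).symm
  set L : Subgroup K := Subgroup.zpowers w with hL
  have hLmem : ∀ z, z ∈ L ↔ z ^ 4 = 1 := by
    intro z
    constructor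
    · rintro ⟨i, rfl⟩
      change (w ^ i) ^ 4 = 1
      rw [← zpow_natCast, ← zpow_mul, mul_comm, zpow_mul, zpow_natCast, ← hw, pow_orderOf_eq_one,
        one_zpow]
    · intro hz
      rw [← hw] at hz
      exact mem_zpowers_cyc hz
  have hLc : Nat.card L = 4 := by rw [hL, Nat.card_zpowers, hw]
  -- the sum over L
  have hw4 : w ^ 4 = 1 := by rw [← hw]; exact pow_orderOf_eq_one w
  have s1 : ∑ k ∈ univ.filter (fun k : K => k ∈ L), A k = 2 := by
    have hinj : Set.InjOn (fun i : ℕ => w ^ i) (range 4 : Set ℕ) := by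
      intro i hi j hj hij
      simp only [coe_range, Set.mem_Iio] at hi hj
      exact pow_injOn_Iio_orderOf (by rw [hw]; exact hi) (by rw [hw]; exact hj) hij
    have hu : univ.filter (fun k : K => k ∈ L) = (range 4).image (fun i : ℕ => w ^ i) := by
      symm
      apply eq_of_subset_of_card_le
      · intro k hk
        rw [mem_image] at hk
        obtain ⟨i, -, rfl⟩ := hk
        rw [mem_filter]
        exact ⟨mem_univ _, Subgroup.npow_mem_zpowers w i⟩
      · rw [card_image_of_injOn hinj, card_range, ← Fintype.card_subtype]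
        rw [← Nat.card_eq_fintype_card]
        exact hLc.le
    rw [hu, sum_image hinj]
    simp only [sum_range_succ, sum_range_zero, zero_add]
    rw [hA2 (w ^ 0) (by rw [pow_zero, one_pow]), pow_one, hAw,
      hA2 (w ^ 2) (by rw [← pow_mul]; exact hw4), hgen w (j := 3) (hodd (by norm_num)), hAw]
    norm_num
  have s2 : (4 : ℤ) ∣ ∑ k, (if k ∈ L then 0 else A k) := by
    have := sum_inv_dvd L (fun k => if k ∈ L then 0 else A k) (by
      intro z hz k
      have h1 : z * k ∈ L ↔ k ∈ L := Subgroup.mul_mem_cancel_left _ hz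
      by_cases hk : k ∈ L
      · simp only [if_pos hk, if_pos (h1.mpr hk)]
      · simp only [if_neg hk, if_neg (fun h' => hk (h1.mp h'))]
        exact hinv z ((hLmem z).mp hz) k (fun h' => hk ((hLmem k).mpr h')))
    rw [hLc] at this
    exact this
  have s3 : ∑ k, A k = 2 + ∑ k, (if k ∈ L then 0 else A k) := by
    rw [← s1, sum_filter, ← sum_add_distrib]
    refine sum_congr rfl fun k _ => ?_
    by_cases hk : k ∈ L
    · rw [if_pos hk, if_pos hk, add_zero]
    · rw [if_neg hk, if_neg hk, zero_add]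
  obtain ⟨s, hs⟩ := s2
  rw [hs] at s3
  obtain ⟨bx0, bx1⟩ := sum_bounds h.hA ⟨1, hA2 1 (one_pow 2)⟩ ⟨w, hAw⟩
  obtain ⟨by0, by1⟩ := sum_bounds h.hB hB0 hB1
  rw [hKM'] at bx1 by1
  have hb := h.eb
  rw [hKM'] at hb
  obtain ⟨hM2, hy4, hcx⟩ := arith2 hM hb h.ec h.eN (s := s) (by rw [s3]; ring) bx0 bx1 by0 by1
  have hK8 : Nat.card K = 8 := by rw [hKM, hM2]
  obtain ⟨g, hg⟩ := IsCyclic.exists_generator (α := K)
  have hg8 : orderOf g = 8 := by
    rw [orderOf_eq_card_of_forall_mem_zpowers hg, hK8]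
  have hg1 : g ^ 8 = 1 := by rw [← hg8]; exact pow_orderOf_eq_one g
  have hAg2 : A (g ^ 2) = 1 := by
    have h1 : orderOf (g ^ 2) = 4 := by
      rw [orderOf_pow_of_dvd (by norm_num) (by rw [hg8]; norm_num), hg8]
    have h2 : w ∈ Subgroup.zpowers (g ^ 2) := mem_zpowers_cyc (by rw [h1]; exact hw4)
    rw [← mem_powers_iff_mem_zpowers] at h2
    obtain ⟨i, hi⟩ := h2
    have hi' : (g ^ 2) ^ i = w := hi
    have h4 : i.Coprime (Nat.card K) := by
      apply hodd
      rintro ⟨j, rfl⟩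
      have h3 : w ^ 2 = 1 := by
        rw [← hi', ← pow_mul, ← pow_mul, show 2 * (2 * j * 2) = 8 * j by ring, pow_mul, hg1,
          one_pow]
      have := orderOf_dvd_of_pow_eq_one h3
      rw [hw] at this
      omega
    rw [← hAw, ← hi', hgen (g ^ 2) h4]
  refine h.false8 hg8 (by rw [← Nat.card_eq_fintype_card, hK8]) (hA2 _ (by rw [pow_zero, one_pow]))
    (hA2 _ (by rw [← pow_mul]; exact hg1)) hAg2 ?_ ?_ ?_ ?_ hcx hy4
  · rw [show g ^ 6 = (g ^ 2) ^ 3 by rw [← pow_mul], hgen _ (hodd (by norm_num)), hAg2]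
  · rw [hgen _ (hodd (by norm_num)), pow_one]
  · rw [hgen _ (hodd (by norm_num)), pow_one]
  · rw [hgen _ (hodd (by norm_num)), pow_one]

end m8

end H26.Dih
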