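import Cfsg.Agent.Lib.H26.Dih5

set_option autoImplicit false
set_option linter.unusedSectionVars false
set_option linter.unusedTactic false

/-! S-rings over generalized dihedral groups, part 6: primitive S-rings over dihedral groups are
trivial. -/

namespace H26.Dih
open Finset H63.SR

section sring
variable {K D : Type*} [CommGroup K] [Group D] (d : Data K D) [Fintype K] [Fintype D]
variable {r : D → D → Prop} [DecidableEq K] [Nontrivial K] [IsCyclic K]

theorem caseQ (hrat : ∀ (u : K) {j : ℕ}, j.Coprime (Nat.card K) → r (d.ρ u) (d.ρ (u ^ j)))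
    {u z : K} {q n : ℕ} (hz : z ^ q = 1) (hN : orderOf u = q * n)
    (hq : ∀ t : ℕ, t.Prime → t ∣ q → t ∣ n) : r (d.ρ u) (d.ρ (z * u)) := by
  have hN0 : 0 < q * n := by rw [← hN]; exact orderOf_pos u
  have hn0 : n ≠ 0 := by
    rintro rfl
    simp at hN0
  have h1 : orderOf (u ^ n) = q := by
    rw [orderOf_pow_of_dvd hn0 (by rw [hN]; exact dvd_mul_left _ _), hN,
      Nat.mul_div_cancel _ (Nat.pos_of_ne_zero hn0)]
  have h2 : z ∈ Subgroup.zpowers (u ^ n) := mem_zpowers_cyc (by rw [h1]; exact hz)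
  rw [← mem_powers_iff_mem_zpowers] at h2
  obtain ⟨i, hi⟩ := h2
  have hi' : (u ^ n) ^ i = z := hi
  have h3 : z * u = u ^ (n * i + 1) := by rw [pow_succ, pow_mul, hi']
  rw [h3]
  apply rat_order d hrat
  by_contra hcop
  obtain ⟨t, ht, h4, h5⟩ := Nat.Prime.not_coprime_iff_dvd.mp hcop
  rw [hN, Nat.Prime.dvd_mul ht] at h5
  have h6 : t ∣ n := h5.elim (hq t ht) id
  have h7 : t ∣ 1 := (Nat.dvd_add_right (h6.mul_right i)).mp h4
  exact ht.one_lt.ne' (Nat.dvd_one.mp h7)

theorem caseA (hrat : ∀ (u : K) {j : ℕ}, j.Coprime (Nat.card K) → r (d.ρ u) (d.ρ (u ^ j)))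
    {u z : K} {p : ℕ} (hp : p.Prime) (hz : z ^ p = 1) (hu : p ∣ orderOf (u ^ p)) :
    r (d.ρ u) (d.ρ (z * u)) := by
  have h1 : p ∣ orderOf u := hu.trans (orderOf_pow_dvd p)
  have h2 : orderOf (u ^ p) = orderOf u / p := orderOf_pow_of_dvd hp.ne_zero h1
  rw [h2] at hu
  refine caseQ d hrat hz (Nat.mul_div_cancel' h1).symm ?_
  intro t ht htp
  rw [(Nat.prime_dvd_prime_iff_eq ht hp).mp htp]
  exact hu

theorem card_fib {p : ℕ} (hp : p.Prime) (hpK : p ∣ Nat.card K) (w₀ : K) :
    (univ.filter fun w : K => w ^ p = w₀ ^ p).card = p := by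
  have : Fact p.Prime := ⟨hp⟩
  have e : (univ.filter fun s : K => s ^ p = w₀ ^ p) =
      (univ.filter fun s : K => s ^ p = 1).image (fun s => s * w₀) := by
    ext s
    simp only [mem_filter, mem_univ, true_and, mem_image]
    constructor
    · intro hs
      exact ⟨s * w₀⁻¹, by rw [mul_pow, hs, inv_pow, mul_inv_cancel], by simp⟩
    · rintro ⟨a, ha, rfl⟩
      rw [mul_pow, ha, one_mul]
  rw [e, card_image_of_injective _ (mul_left_injective w₀)]
  apply le_antisymm (IsCyclic.card_pow_eq_one_le hp.pos)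
  obtain ⟨c, hc⟩ := exists_prime_orderOf_dvd_card' p hpK
  conv_lhs => rw [← card_range p]
  apply card_le_card_of_injOn (fun i => c ^ i)
  · intro i _
    simp only [coe_filter, mem_univ, true_and, Set.mem_ofPred_eq]
    rw [← pow_mul, mul_comm, pow_mul, ← hc, pow_orderOf_eq_one, one_pow]
  · intro i hi j hj hij
    simp only [coe_range, Set.mem_Iio] at hi hj
    exact pow_injOn_Iio_orderOf (by rw [hc]; exact hi) (by rw [hc]; exact hj) hij

theorem inv_odd (h : IsSRing r) (hprim : Prim r)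
    (hrat : ∀ (u : K) {j : ℕ}, j.Coprime (Nat.card K) → r (d.ρ u) (d.ρ (u ^ j)))
    {p : ℕ} (hp : p.Prime) (hp2 : p ≠ 2) (hpK : p ∣ Nat.card K) {u z : K} (hz : z ^ p = 1)
    (hu : u ^ p ≠ 1) : r (d.ρ u) (d.ρ (z * u)) := by
  classical
  have : Fact p.Prime := ⟨hp⟩
  obtain ⟨k', hk', hpk'⟩ := exists_order_dvd d h hprim hrat hp hp2 hpK (d.ρ_ne_one hu)
  let f : MonoidAlgebra (ZMod p) D := el fun t => if t ∈ {y | r (d.ρ u) y} then 1 else 0
  have hf : CFM r f := h.cf_indicator (h.closed_class _)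
  have hval : ∀ w : K, (f ^ p).coeff (d.ρ w) =
      (((univ.filter fun v : K => v ^ p = w ∧ r (d.ρ u) (d.ρ v)).card : ℕ) : ZMod p) := by
    intro w
    rw [frob d h hprim hp2 hf, card_filter, Nat.cast_sum]
    refine sum_congr rfl fun v _ => ?_
    rw [coeff_el]
    by_cases h1 : v ^ p = w <;> by_cases h2 : r (d.ρ u) (d.ρ v) <;> simp [h1, h2]
  have e1 : (f ^ p).coeff (d.ρ (u ^ p)) = (f ^ p).coeff (d.ρ k') := h.cfm_pow hf p _ _ hk'
  have e2 : (f ^ p).coeff (d.ρ k') = 0 := by
    rw [hval]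
    by_cases hex : ∃ w, w ^ p = k' ∧ r (d.ρ u) (d.ρ w)
    · obtain ⟨w, rfl, hw⟩ := hex
      have : (univ.filter fun v : K => v ^ p = w ^ p ∧ r (d.ρ u) (d.ρ v)) =
          univ.filter fun v : K => v ^ p = w ^ p := by
        apply filter_congr
        intro v _
        rw [and_iff_left_iff_imp]
        intro hv
        have h1 := caseA d hrat (u := w) (z := v * w⁻¹) hp
          (by rw [mul_pow, hv, inv_pow, mul_inv_cancel]) hpk'
        rw [inv_mul_cancel_right] at h1
        exact h.trans hw h1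
      rw [this, card_fib hp hpK, ZMod.natCast_self]
    · have : (univ.filter fun v : K => v ^ p = k' ∧ r (d.ρ u) (d.ρ v)) = ∅ := by
        rw [filter_eq_empty_iff]
        intro v _ hv
        exact hex ⟨v, hv⟩
      rw [this, card_empty, Nat.cast_zero]
  rw [e2, hval, ZMod.natCast_eq_zero_iff] at e1
  have h1 : 0 < (univ.filter fun v : K => v ^ p = u ^ p ∧ r (d.ρ u) (d.ρ v)).card :=
    card_pos.mpr ⟨u, by rw [mem_filter]; exact ⟨mem_univ _, rfl, h.refl _⟩⟩
  have h2 := Nat.le_of_dvd h1 e1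
  have h3 : (univ.filter fun v : K => v ^ p = u ^ p ∧ r (d.ρ u) (d.ρ v)) ⊆
      univ.filter fun v : K => v ^ p = u ^ p := by
    intro v hv
    rw [mem_filter] at hv ⊢
    exact ⟨hv.1, hv.2.1⟩
  have h4 := eq_of_subset_of_card_le h3 (by rw [card_fib hp hpK]; exact h2)
  have h5 : z * u ∈ univ.filter fun v : K => v ^ p = u ^ p := by
    rw [mem_filter, mul_pow, hz, one_mul]
    exact ⟨mem_univ _, rfl⟩
  rw [← h4, mem_filter] at h5
  exact h5.2.2

/-- classes avoiding the subgroup of order `p` are difference sets -/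
theorem exists_pds (h : IsSRing r) (hprim : Prim r)
    (hrat : ∀ (u : K) {j : ℕ}, j.Coprime (Nat.card K) → r (d.ρ u) (d.ρ (u ^ j)))
    {p : ℕ} (hp : p.Prime) (hpK : p ∣ Nat.card K)
    (hinv : ∀ u z : K, z ^ p = 1 → u ^ p ≠ 1 → r (d.ρ u) (d.ρ (z * u))) {x₀ : D}
    (hav : ∀ z, z ^ p = 1 → ¬ r x₀ (d.ρ z)) [DecidableRel r] :
    ∃ c N : ℤ, PDS (fun k => if r x₀ (d.ρ k) then (1 : ℤ) else 0)
      (fun k => if r x₀ (d.σ k) then (1 : ℤ) else 0) c N := by
  have : Fact p.Prime := ⟨hp⟩
  set A : K → ℤ := fun k => if r x₀ (d.ρ k) then (1 : ℤ) else 0 with hA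
  set B : K → ℤ := fun k => if r x₀ (d.σ k) then (1 : ℤ) else 0 with hB
  let f : MonoidAlgebra ℤ D := el fun t => if r x₀ t then 1 else 0
  have hf : CFM r f := by
    intro x y hxy
    beta_reduce
    rw [coeff_el, coeff_el]
    have : r x₀ x ↔ r x₀ y := ⟨fun h1 => h.trans h1 hxy, fun h1 => h.trans h1 (h.symm hxy)⟩
    simp only [this]
  have hfA : pA d f = el A := rfl
  have hfB : pB d f = el B := rfl
  have hF : CFM r (f * f) := h.cfm_mul hf hf
  have hsym : st (el A) = el A := by rw [← hfA]; exact cfm_symA d h hprim hf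
  have hFρ : ∀ k, (f * f).coeff (d.ρ k) = (el A * el A + st (el B) * el B).coeff k := by
    intro k
    rw [← coeff_pA, pA_mul, hfA, hfB]
  have hFσ : ∀ k, (f * f).coeff (d.σ k) = 2 * (el A * el B).coeff k := by
    intro k
    rw [← coeff_pB, pB_mul, hfA, hfB, hsym, mul_comm (el B), ← two_mul, coeff_two_mul]
  obtain ⟨z₀, hz₀⟩ := exists_prime_orderOf_dvd_card' p hpK
  have hz₀p : z₀ ^ p = 1 := by rw [← hz₀]; exact pow_orderOf_eq_one z₀
  have hz₀1 : z₀ ≠ 1 := by
    rintro rfl
    rw [orderOf_one] at hz₀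
    exact hp.one_lt.ne hz₀
  have hPrel : ∀ z, z ^ p = 1 → z ≠ 1 → r (d.ρ z₀) (d.ρ z) := by
    intro z hz hz1
    have h1 : z ∈ Subgroup.zpowers z₀ := mem_zpowers_cyc (by rw [hz₀]; exact hz)
    rw [← mem_powers_iff_mem_zpowers] at h1
    obtain ⟨i, hi⟩ := h1
    have hi' : z₀ ^ i = z := hi
    rw [← hi']
    apply rat_order d hrat
    rw [hz₀]
    apply Nat.Coprime.symm
    rw [Nat.Prime.coprime_iff_not_dvd hp]
    rintro ⟨j, rfl⟩
    apply hz1
    rw [← hi', pow_mul, hz₀p, one_pow]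
  set c : ℤ := (f * f).coeff (d.ρ z₀) with hc
  set L : Subgroup K := (powMonoidHom p : K →* K).ker with hL
  have hLm : ∀ z, z ∈ L ↔ z ^ p = 1 := fun z => by
    rw [hL, MonoidHom.mem_ker, powMonoidHom_apply]
  have hIA : Inv L (el A) := by
    intro z hz k
    rw [hLm] at hz
    rw [coeff_el, coeff_el, hA]
    beta_reduce
    by_cases hk : k ^ p = 1
    · rw [if_neg (hav k hk), if_neg (hav (z * k) (by rw [mul_pow, hz, hk, one_mul]))]
    · have : r x₀ (d.ρ (z * k)) ↔ r x₀ (d.ρ k) :=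
        ⟨fun h1 => h.trans h1 (h.symm (hinv k z hz hk)), fun h1 => h.trans h1 (hinv k z hz hk)⟩
      simp only [this]
  have hC1 : ∀ x, x ≠ 1 → (f * f).coeff x = c := by
    intro x hx
    by_contra hne
    set S : Set D := {y | y ≠ 1 ∧ (f * f).coeff y = (f * f).coeff x} with hS
    have hScl : Closed r S := by
      rintro y y' hyy ⟨h1, h2⟩
      refine ⟨?_, ?_⟩
      · rintro rfl
        exact h1 (h.one _ (h.symm hyy))
      · rw [← h2]
        exact (hF _ _ hyy).symm
    have hinvS : ∀ z, z ^ p = 1 → ∀ y ∈ S, d.ρ z * y ∈ S := by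
      rintro z hz y ⟨h1, h2⟩
      rcases d.cases y with ⟨k, rfl⟩ | ⟨k, rfl⟩
      · have hk1 : k ≠ 1 := by
          rintro rfl
          exact h1 d.ρ_one
        have hkp : k ^ p ≠ 1 := by
          intro hkp
          apply hne
          rw [← h2]
          exact (hF _ _ (hPrel k hkp hk1)).symm
        rw [d.ρρ]
        refine ⟨?_, ?_⟩
        · apply d.ρ_ne_one
          intro h3
          apply hkp
          have h4 : k = z⁻¹ := by rw [eq_inv_iff_mul_eq_one, mul_comm]; exact h3
          rw [h4, inv_pow, hz, inv_one]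
        · rw [← h2]
          exact (hF _ _ (hinv k z hz hkp)).symm
      · rw [d.ρσ]
        refine ⟨d.σ_ne_one _, ?_⟩
        rw [← h2, hFσ, hFσ, (hIA.mul (el B)) z⁻¹ ((hLm _).mpr (by rw [inv_pow, hz, inv_one])) k]
    have h5 := h.eq_univ_of_stab hprim hScl (d.ρ_ne_one hz₀1) (by
      intro y
      constructor
      · intro hy
        rw [d.ρ_inv]
        exact hinvS _ (by rw [inv_pow, hz₀p, inv_one]) y hy
      · intro hy
        have := hinvS z₀ hz₀p _ hy
        rwa [mul_inv_cancel_left] at this) ⟨x, hx, rfl⟩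
    have h6 : (1 : D) ∈ S := by rw [h5]; trivial
    exact h6.1 rfl
  refine ⟨c, (f * f).coeff 1 - c, ?_, ?_, ?_, ?_, ?_⟩
  · intro k
    rw [hA]
    beta_reduce
    split_ifs
    · exact Or.inr rfl
    · exact Or.inl rfl
  · intro k
    rw [hB]
    beta_reduce
    split_ifs
    · exact Or.inr rfl
    · exact Or.inl rfl
  · intro k
    have : (st (el A)).coeff k = (el A).coeff k := by rw [hsym]
    exact this
  · intro k
    rw [← hFρ]
    by_cases hk : k = 1
    · rw [hk, d.ρ_one, MonoidAlgebra.coeff_one_one]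
      ring
    · rw [hC1 _ (d.ρ_ne_one hk), MonoidAlgebra.one_def, MonoidAlgebra.coeff_single,
        Finsupp.single_apply, if_neg (fun h' => hk h'.symm), zero_mul, zero_add]
  · intro k
    rw [← hFσ, hC1 _ (d.σ_ne_one k)]

/-- rational primitive S-rings over dihedral groups are trivial -/
theorem rational_trivial (h : IsSRing r) (hprim : Prim r)
    (hrat : ∀ (u : K) {j : ℕ}, j.Coprime (Nat.card K) → r (d.ρ u) (d.ρ (u ^ j)))
    {x y : D} (hx : x ≠ 1) (hy : y ≠ 1) : r x y := by
  classical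
  -- choose the prime
  obtain ⟨p, hp, hpK, hcase⟩ : ∃ p : ℕ, p.Prime ∧ p ∣ Nat.card K ∧
      (p ≠ 2 ∨ (p = 2 ∧ ∃ a, Nat.card K = 2 ^ a)) := by
    by_cases hex : ∃ p : ℕ, p.Prime ∧ p ∣ Nat.card K ∧ p ≠ 2
    · obtain ⟨p, h1, h2, h3⟩ := hex
      exact ⟨p, h1, h2, Or.inl h3⟩
    · push Not at hex
      have h2 : Nat.card K = 2 ^ (Nat.card K).primeFactorsList.length :=
        Nat.eq_prime_pow_of_unique_prime_dvd Nat.card_pos.ne' (fun {q} hq hqK => hex q hq hqK)
      refine ⟨2, Nat.prime_two, ?_, Or.inr ⟨rfl, _, h2⟩⟩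
      obtain ⟨q, hq, hqK⟩ := Nat.exists_prime_and_dvd (Finite.one_lt_card (α := K)).ne'
      rw [← hex q hq hqK]
      exact hqK
  have : Fact p.Prime := ⟨hp⟩
  have hord2 : ∀ {a : ℕ}, Nat.card K = 2 ^ a → ∀ u : K, ∃ b, orderOf u = 2 ^ b := by
    intro a ha u
    have : orderOf u ∣ 2 ^ a := by rw [← ha]; exact orderOf_dvd_natCard u
    obtain ⟨b, -, hb⟩ := (Nat.dvd_prime_pow Nat.prime_two).mp this
    exact ⟨b, hb⟩
  have hinv : ∀ u z : K, z ^ p = 1 → u ^ p ≠ 1 → r (d.ρ u) (d.ρ (z * u)) := by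
    intro u z hz hu
    rcases hcase with hp2 | ⟨rfl, a, ha⟩
    · exact inv_odd d h hprim hrat hp hp2 hpK hz hu
    · apply caseA d hrat hp hz
      obtain ⟨b, hb⟩ := hord2 ha (u ^ 2)
      rcases Nat.eq_zero_or_pos b with rfl | hb0
      · rw [pow_zero, orderOf_eq_one_iff] at hb
        exact absurd hb hu
      · rw [hb]
        exact dvd_pow_self 2 hb0.ne'
  -- every nontrivial class meets P
  have hmeet : ∀ x₀ : D, x₀ ≠ 1 → ∃ z, z ^ p = 1 ∧ r x₀ (d.ρ z) := by
    intro x₀ hx₀
    by_contra hcon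
    push Not at hcon
    obtain ⟨c, N, hpds⟩ := exists_pds d h hprim hrat hp hpK hinv hcon
    obtain ⟨k₀, hk₀⟩ := meetρ d h hprim x₀
    have hone : ∃ k, (fun k => if r x₀ (d.ρ k) then (1 : ℤ) else 0) k = 1 :=
      ⟨k₀, by beta_reduce; rw [if_pos hk₀]⟩
    have hA1 : (fun k => if r x₀ (d.ρ k) then (1 : ℤ) else 0) 1 = 0 := by
      beta_reduce
      rw [if_neg (hcon 1 (one_pow p))]
    rcases hcase with hp2 | ⟨rfl, a, ha⟩
    · refine hpds.false (powMonoidHom p : K →* K).ker ?_ ?_ hA1 hone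
      · have h1 : Nat.card (powMonoidHom p : K →* K).ker = p := by
          have h2 := card_fib (K := K) hp hpK 1
          rw [one_pow] at h2
          have h3 : Nat.card (powMonoidHom p : K →* K).ker =
              (univ.filter fun w : K => w ^ p = 1).card := by
            rw [← Fintype.card_subtype, ← Nat.card_eq_fintype_card]
            rfl
          rw [h3, h2]
        rw [h1]
        have := hp.two_le
        omega
      · intro z hz k
        rw [MonoidHom.mem_ker, powMonoidHom_apply] at hz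
        beta_reduce
        by_cases hk : k ^ p = 1
        · rw [if_neg (hcon k hk), if_neg (hcon (z * k) (by rw [mul_pow, hz, hk, one_mul]))]
        · have : r x₀ (d.ρ (z * k)) ↔ r x₀ (d.ρ k) :=
            ⟨fun h1 => h.trans h1 (h.symm (hinv k z hz hk)), fun h1 =>
              h.trans h1 (hinv k z hz hk)⟩
          simp only [this]
    · have hinv4 : ∀ z : K, z ^ 4 = 1 → ∀ k : K, k ^ 4 ≠ 1 → r (d.ρ k) (d.ρ (z * k)) := by
        intro z hz k hk
        obtain ⟨b, hb⟩ := hord2 ha k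
        have hb3 : 3 ≤ b := by
          by_contra hlt
          apply hk
          apply orderOf_dvd_iff_pow_eq_one.mp
          rw [hb, show (4 : ℕ) = 2 ^ 2 by norm_num]
          exact pow_dvd_pow 2 (by omega)
        obtain ⟨b', rfl⟩ : ∃ b', b = b' + 3 := ⟨b - 3, by omega⟩
        refine caseQ d hrat (q := 4) (n := 2 ^ (b' + 1)) hz (by rw [hb, pow_add, pow_succ]; ring) ?_
        intro t ht ht4
        have : t ∣ 2 ^ 2 := ht4
        have h2 : t = 2 := (Nat.prime_dvd_prime_iff_eq ht Nat.prime_two).mp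
          (ht.dvd_of_dvd_pow this)
        rw [h2]
        exact dvd_pow_self 2 (by omega)
      by_cases hex : ∃ w, w ^ 4 = 1 ∧ r x₀ (d.ρ w)
      · obtain ⟨w, hw4, hw⟩ := hex
        have hw : orderOf w = 4 := by
          have h1 : orderOf w ∣ 2 ^ 2 := orderOf_dvd_of_pow_eq_one hw4
          obtain ⟨b, hb, hb'⟩ := (Nat.dvd_prime_pow Nat.prime_two).mp h1
          have : b ≠ 0 ∧ b ≠ 1 := by
            constructor
            · rintro rfl
              rw [pow_zero, orderOf_eq_one_iff] at hb'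
              exact hcon w (by rw [hb', one_pow]) hw
            · rintro rfl
              rw [pow_one] at hb'
              exact hcon w (by rw [← hb']; exact pow_orderOf_eq_one w) hw
          have hb2 : b = 2 := by omega
          rw [hb', hb2]
          norm_num
        obtain ⟨z₀, hz₀⟩ := exists_prime_orderOf_dvd_card' 2 hpK
        have hz₀p : z₀ ^ 2 = 1 := by rw [← hz₀]; exact pow_orderOf_eq_one z₀
        have hz₀1 : z₀ ≠ 1 := by
          rintro rfl
          rw [orderOf_one] at hz₀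
          omega
        obtain ⟨s₀, hs₀⟩ := meetσ d h hprim (d.ρ_ne_one hz₀1)
        obtain ⟨s₁, hs₁⟩ := meetσ d h hprim hx₀
        refine hpds.false2 ha hw ?_ ?_ ?_ ?_ ⟨s₀, ?_⟩ ⟨s₁, ?_⟩
        · beta_reduce; rw [if_pos (by assumption)]
        · intro k hk
          beta_reduce
          rw [if_neg (hcon k hk)]
        · intro z hz k hk
          beta_reduce
          have : r x₀ (d.ρ (z * k)) ↔ r x₀ (d.ρ k) :=
            ⟨fun h1 => h.trans h1 (h.symm (hinv4 z hz k hk)), fun h1 =>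
              h.trans h1 (hinv4 z hz k hk)⟩
          simp only [this]
        · intro u j hj
          beta_reduce
          have : r x₀ (d.ρ (u ^ j)) ↔ r x₀ (d.ρ u) :=
            ⟨fun h1 => h.trans h1 (h.symm (hrat u hj)), fun h1 => h.trans h1 (hrat u hj)⟩
          simp only [this]
        · beta_reduce
          rw [if_neg]
          intro h1
          exact hcon z₀ hz₀p (h.trans h1 (h.symm hs₀))
        · beta_reduce
          rw [if_pos hs₁]
      · push Not at hex
        have h4K : ∃ w : K, orderOf w = 4 := by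
          obtain ⟨b, hb⟩ := hord2 ha k₀
          have hb2 : 2 ≤ b := by
            by_contra hlt
            apply hcon k₀ _ hk₀
            apply orderOf_dvd_iff_pow_eq_one.mp
            rw [hb]
            conv_rhs => rw [← pow_one 2]
            exact pow_dvd_pow 2 (by omega)
          obtain ⟨b', rfl⟩ : ∃ b', b = b' + 2 := ⟨b - 2, by omega⟩
          refine ⟨k₀ ^ 2 ^ b', ?_⟩
          rw [orderOf_pow_of_dvd (by positivity) (by rw [hb]; exact pow_dvd_pow 2 (by omega)), hb,
            pow_add, Nat.mul_div_cancel_left _ (by positivity)]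
          norm_num
        obtain ⟨w, hw⟩ := h4K
        refine hpds.false (Subgroup.zpowers w) (by rw [Nat.card_zpowers, hw]; norm_num) ?_ hA1 hone
        intro z hz k
        have hz4 : z ^ 4 = 1 := by
          obtain ⟨i, rfl⟩ := hz
          change (w ^ i) ^ 4 = 1
          rw [← zpow_natCast, ← zpow_mul, mul_comm, zpow_mul, zpow_natCast, ← hw,
            pow_orderOf_eq_one, one_zpow]
        beta_reduce
        by_cases hk : k ^ 4 = 1
        · rw [if_neg (hex k hk), if_neg (hex (z * k) (by rw [mul_pow, hz4, hk, one_mul]))]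
        · have : r x₀ (d.ρ (z * k)) ↔ r x₀ (d.ρ k) :=
            ⟨fun h1 => h.trans h1 (h.symm (hinv4 z hz4 k hk)), fun h1 =>
              h.trans h1 (hinv4 z hz4 k hk)⟩
          simp only [this]
  obtain ⟨z, hz, hxz⟩ := hmeet x hx
  obtain ⟨z', hz', hyz⟩ := hmeet y hy
  have hne : ∀ {x : D} {z : K}, x ≠ 1 → r x (d.ρ z) → z ≠ 1 := by
    rintro x z hx hxz rfl
    rw [d.ρ_one] at hxz
    exact hx (h.one _ (h.symm hxz))
  have hz1 := hne hx hxz
  have hz1' := hne hy hyz
  have ho : orderOf z = p := orderOf_eq_prime hz hz1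
  have h1 : z' ∈ Subgroup.zpowers z := mem_zpowers_cyc (by rw [ho]; exact hz')
  rw [← mem_powers_iff_mem_zpowers] at h1
  obtain ⟨i, hi⟩ := h1
  have hi' : z ^ i = z' := hi
  have h2 : r (d.ρ z) (d.ρ z') := by
    rw [← hi']
    apply rat_order d hrat
    rw [ho]
    apply Nat.Coprime.symm
    rw [Nat.Prime.coprime_iff_not_dvd hp]
    rintro ⟨j, rfl⟩
    apply hz1'
    rw [← hi', pow_mul, hz, one_pow]
  exact h.trans hxz (h.trans h2 (h.symm hyz))

include d in
/-- **primitive S-rings over dihedral groups are trivial** -/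
theorem trivial_of_prim (h : IsSRing r) (hprim : Prim r) {x y : D} (hx : x ≠ 1) (hy : y ≠ 1) :
    r x y := by
  refine trivial_of_rat d h hprim ?_ hx hy
  intro x y hx hy
  exact rational_trivial d (rat_sring d h hprim) (rat_prim d h hprim)
    (fun u j hj => rat_pow d h u hj) hx hy

end sring

end H26.Dih
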