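import Mathlib
import Cfsg.Prelude
import Cfsg.Agent.Lib.H1.Cores
import Cfsg.Agent.Lib.H1.Solv
import Cfsg.Agent.Lib.H1.Coprime
import Cfsg.Agent.Lib.H1.Coprime2

set_option autoImplicit false
set_option linter.unusedSectionVars false

open Subgroup Cfsg
open scoped Pointwise

namespace H26.FlavCore

variable {G : Type*} [Group G] [Finite G]

/-- `K` solvable normal with `O_{q'}(K) = 1`, `z` a `q`-element, `X` a `q'`-group centralizing `z`
and normalized by `C_K(z)`: then `X` centralizes `K` and meets it trivially. -/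
theorem le_centralizer_of {q : ℕ} [hq : Fact q.Prime] (K : Subgroup G) [hK : K.Normal]
    (hs : Group.IsSolvable K) (hO : pPrimeCore q K = ⊥) (Z X : Subgroup G)
    (hZ : IsPGroup q Z) (hX : (Nat.card X).Coprime q) (hXZ : X ≤ centralizer (Z : Set G))
    (hC : K ⊓ centralizer (Z : Set G) ≤ normalizer (X : Set G)) :
    X ≤ centralizer (K : Set G) ∧ X ⊓ K = ⊥ := by
  set Q : Subgroup G := (pCore q K).map K.subtype with hQ
  have hQeq : Q = K ⊓ pCore q G := by rw [hQ, H1.Cores.map_subtype_pCore]
  have hQn : Q.Normal := by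
    rw [hQeq]; infer_instance
  have hQp : IsPGroup q Q := (H1.Cores.isPGroup_pCore (G := G) q).to_le (by rw [hQeq]; exact inf_le_right)
  have hQK : Q ≤ K := by rw [hQeq]; exact inf_le_left
  have hCQ : K ⊓ centralizer (Q : Set G) ≤ Q := by
    intro x hx
    rw [Subgroup.mem_inf] at hx
    have h := H1.Solv.centralizer_pCore_le hs q hO
    have h1 : (⟨x, hx.1⟩ : K) ∈ centralizer (pCore q K : Set K) := by
      rw [Subgroup.mem_centralizer_iff]
      intro y hy
      apply Subtype.ext
      exact Subgroup.mem_centralizer_iff.mp hx.2 _ ⟨y, hy, rfl⟩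
    exact ⟨_, h h1, rfl⟩
  have hcopQX : Q ⊓ X = ⊥ :=
    H1.Coprime.inf_eq_bot_of_coprime_card (H1.Cores.coprime_card_of_isPGroup hQp hX)
  have hXQ : X ≤ centralizer (Q : Set G) := by
    apply H1.Coprime2.pq_lemma q Z X hZ hX (Subgroup.le_centralizer_iff.mp hXZ) _ Q rfl hQp
      (by rw [Subgroup.normalizer_eq_top]; exact le_top)
      (by rw [Subgroup.normalizer_eq_top]; exact le_top)
    intro u hu
    rw [Subgroup.mem_inf] at hu
    rw [Subgroup.mem_centralizer_iff]
    intro x hx
    have hun : u ∈ normalizer (X : Set G) := hC (Subgroup.mem_inf.mpr ⟨hQK hu.1, hu.2⟩)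
    have h1 : x * u * x⁻¹ * u⁻¹ ∈ Q := Q.mul_mem (hQn.conj_mem _ hu.1 _) (Q.inv_mem hu.1)
    have h2 : x * u * x⁻¹ * u⁻¹ ∈ X := by
      have h3 := (Subgroup.mem_normalizer_iff.mp hun x⁻¹).mp (X.inv_mem hx)
      have := X.mul_mem hx h3
      simpa [mul_assoc] using this
    have h4 : x * u * x⁻¹ * u⁻¹ ∈ Q ⊓ X := Subgroup.mem_inf.mpr ⟨h1, h2⟩
    rw [hcopQX, Subgroup.mem_bot] at h4
    calc x * u = (x * u * x⁻¹ * u⁻¹) * (u * x) := by group
      _ = u * x := by rw [h4, one_mul]
  have hCQn : (centralizer (Q : Set G)).Normal := inferInstance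
  constructor
  · intro x hx
    rw [Subgroup.mem_centralizer_iff]
    intro k hk
    -- c = [x⁻¹, k]
    set c := x⁻¹ * (k * x * k⁻¹) with hc
    have hcK : c ∈ K := by
      have : c = (x⁻¹ * k * x) * k⁻¹ := by rw [hc]; group
      rw [this]
      refine K.mul_mem ?_ (K.inv_mem hk)
      have := hK.conj_mem k hk x⁻¹
      simpa using this
    have hcC : c ∈ centralizer (Q : Set G) :=
      mul_mem (inv_mem (hXQ hx)) (hCQn.conj_mem _ (hXQ hx) _)
    have hcQ : c ∈ Q := hCQ (Subgroup.mem_inf.mpr ⟨hcK, hcC⟩)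
    have hcomm : Commute x c := by
      have := Subgroup.mem_centralizer_iff.mp (hXQ hx) c hcQ
      exact this.symm
    have hpow : c ^ orderOf x = 1 := by
      have h1 : (x * c) ^ orderOf x = x ^ orderOf x * c ^ orderOf x := hcomm.mul_pow _
      have h2 : x * c = k * x * k⁻¹ := by rw [hc]; group
      rw [h2, conj_pow, pow_orderOf_eq_one, one_mul, mul_one, mul_inv_cancel] at h1
      exact h1.symm
    obtain ⟨n, hn⟩ := hQp ⟨c, hcQ⟩
    have hn' : c ^ q ^ n = 1 := by
      have := congrArg Subtype.val hn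
      simpa using this
    have hcop : (orderOf x).Coprime (q ^ n) := by
      apply Nat.Coprime.pow_right
      apply Nat.Coprime.coprime_dvd_left _ hX
      have := orderOf_dvd_natCard (⟨x, hx⟩ : X)
      rwa [Subgroup.orderOf_mk] at this
    have hc1 : c = 1 := by
      have h1 : orderOf c ∣ 1 := by
        rw [← hcop]
        exact Nat.dvd_gcd (orderOf_dvd_of_pow_eq_one hpow) (orderOf_dvd_of_pow_eq_one hn')
      exact orderOf_eq_one_iff.mp (Nat.dvd_one.mp h1)
    have : k * x * k⁻¹ = x := by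
      have h2 : x * c = k * x * k⁻¹ := by rw [hc]; group
      rw [← h2, hc1, mul_one]
    calc k * x = (k * x * k⁻¹) * k := by group
      _ = x * k := by rw [this]
  · rw [eq_bot_iff]
    intro x hx
    rw [Subgroup.mem_inf] at hx
    have h1 : x ∈ Q := hCQ (Subgroup.mem_inf.mpr ⟨hx.2, hXQ hx.1⟩)
    have : x ∈ Q ⊓ X := Subgroup.mem_inf.mpr ⟨h1, hx.1⟩
    rwa [hcopQX] at this

/-- relative `O_{q'}` -/
def ppc (q : ℕ) (C : Subgroup G) : Subgroup G := (pPrimeCore q C).map C.subtype

theorem ppc_le (q : ℕ) (C : Subgroup G) : ppc q C ≤ C := Subgroup.map_subtype_le _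

theorem coprime_ppc (q : ℕ) (C : Subgroup G) : (Nat.card (ppc q C)).Coprime q :=
  Nat.Coprime.coprime_dvd_left (Subgroup.card_map_dvd _ _) (H1.Cores.coprime_card_pPrimeCore q)

/-- the normalizer of `C` normalizes `ppc q C`. -/
theorem normalizer_le (q : ℕ) (C : Subgroup G) :
    normalizer (C : Set G) ≤ normalizer (ppc q C : Set G) := by
  have := H1.Cores.pPrimeCore_characteristic (G := C) q
  apply H1.Coprime.le_normalizer_of_conj_mem
  rintro g hg _ ⟨y, hy, rfl⟩
  have h1 : ∀ y : C, g * y * g⁻¹ ∈ C := fun y => (Subgroup.mem_normalizer_iff.mp hg y).mp y.2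
  have h2 : ∀ y : C, g⁻¹ * y * g ∈ C := fun y => (Subgroup.mem_normalizer_iff''.mp hg y).mp y.2
  let e : C ≃* C :=
    { toFun := fun y => ⟨g * y * g⁻¹, h1 y⟩
      invFun := fun y => ⟨g⁻¹ * y * g, h2 y⟩
      left_inv := fun y => by apply Subtype.ext; simp [mul_assoc]
      right_inv := fun y => by apply Subtype.ext; simp [mul_assoc]
      map_mul' := fun a b => by apply Subtype.ext; simp [mul_assoc] }
  have h3 : (pPrimeCore q C).map (e : C →* C) = pPrimeCore q C := H1.Cores.map_equiv_pPrimeCore q e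
  have h4 : e y ∈ pPrimeCore q C := by
    rw [← h3]
    exact ⟨y, hy, rfl⟩
  exact ⟨e y, h4, rfl⟩

theorem main {p : ℕ} [hp : Fact p.Prime]
    (P H : Subgroup G) (hP : IsPGroup p P) [hH : H.Normal] (hHp : (Nat.card H).Coprime p)
    (hPH : H ⊔ P = ⊤) (hsol : Group.IsSolvable ↥⁅H, P⁆)
    {q : ℕ} [hq : Fact q.Prime] (z : G) (hzH : z ∈ H) (hzP : z ∈ centralizer (P : Set G))
    (hz : ∃ k : ℕ, orderOf z = q ^ k) :
    (ppc q (H ⊓ centralizer ({z} : Set G)) ⊓ ppc q (H ⊓ centralizer (P : Set G))) ⊔
      ⁅ppc q (H ⊓ centralizer ({z} : Set G)), P⁆ ≤ ppc q H := by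
  set X := ppc q (H ⊓ centralizer ({z} : Set G)) with hXd
  set Y := ppc q (H ⊓ centralizer (P : Set G)) with hYd
  set N := pPrimeCore q G with hN
  have hHN : ppc q H = H ⊓ N := H1.Cores.map_subtype_pPrimeCore q H
  rw [hHN]
  have hXH : X ≤ H := (ppc_le _ _).trans inf_le_left
  have hXz : X ≤ centralizer ({z} : Set G) := (ppc_le _ _).trans inf_le_right
  have hYH : Y ≤ H := (ppc_le _ _).trans inf_le_left
  have hPHn : P ≤ normalizer (H : Set G) := by rw [Subgroup.normalizer_eq_top]; exact le_top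
  -- K
  set K : Subgroup G := ⁅H, P⁆ with hKd
  have hKH : K ≤ H := H1.Coprime2.commutator_le_left hPHn
  have hcop : (Nat.card P).Coprime (Nat.card H) := H1.Cores.coprime_card_of_isPGroup hP hHp
  have hPs : Group.IsSolvable P := by
    have := hP.isNilpotent
    infer_instance
  have hKn : K.Normal := by
    rw [← Subgroup.normalizer_eq_top_iff, eq_top_iff, ← hPH]
    exact sup_le (H1.Coprime2.le_normalizer_commutator_left H P)
      (H1.Coprime2.le_normalizer_commutator_right H P)
  have hHC : K ⊔ (H ⊓ centralizer (P : Set G)) = H :=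
    H1.Coprime2.commutator_sup_centralizer P H hPHn hcop (Or.inl hPs)
  -- normalizers
  have hCzn : centralizer ({z} : Set G) ≤ normalizer (X : Set G) := by
    refine le_trans ?_ (normalizer_le q _)
    refine H1.Coprime2.le_normalizer_inf (by rw [Subgroup.normalizer_eq_top]; exact le_top)
      (Subgroup.le_normalizer)
  have hPz : P ≤ centralizer ({z} : Set G) := by
    intro x hx
    rw [Subgroup.mem_centralizer_iff]
    rintro _ rfl
    exact (Subgroup.mem_centralizer_iff.mp hzP x hx).symm
  have hPX : P ≤ normalizer (X : Set G) := hPz.trans hCzn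
  have hPY : P ≤ normalizer (Y : Set G) := by
    refine le_trans ?_ (normalizer_le q _)
    exact H1.Coprime2.le_normalizer_inf hPHn (H1.Coprime2.le_normalizer_centralizer
      Subgroup.le_normalizer)
  have hCY : H ⊓ centralizer (P : Set G) ≤ normalizer (Y : Set G) :=
    (Subgroup.le_normalizer).trans (normalizer_le q _)
  -- the quotient
  let π := QuotientGroup.mk' N
  have hπs : Function.Surjective π := QuotientGroup.mk'_surjective N
  have hker : ∀ g : G, π g = 1 ↔ g ∈ N := fun g => QuotientGroup.eq_one_iff g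
  have hObar : pPrimeCore q (G ⧸ N) = ⊥ := H1.Cores.pPrimeCore_quotient_pPrimeCore q
  have hKbn : (K.map π).Normal := Subgroup.Normal.map hKn _ hπs
  have hKbs : Group.IsSolvable (K.map π) := by
    have h1 : Function.Surjective (π.subgroupMap K) := MonoidHom.subgroupMap_surjective π K
    exact Group.isSolvable_of_surjective h1
  have hKbO : pPrimeCore q (K.map π) = ⊥ := by
    have h1 := H1.Cores.map_subtype_pPrimeCore q (K.map π)
    rw [hObar, inf_bot_eq] at h1
    exact (Subgroup.map_eq_bot_iff_of_injective _ (K.map π).subtype_injective).mp h1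
  have hZp : IsPGroup q (Subgroup.zpowers z) := by
    obtain ⟨k, hk⟩ := hz
    exact IsPGroup.of_card (n := k) (by rw [Nat.card_zpowers, hk])
  have hcent : centralizer ((Subgroup.zpowers z : Subgroup G) : Set G) = centralizer ({z} : Set G) := by
    rw [Subgroup.zpowers_eq_closure, Subgroup.centralizer_closure]
  have hcopN : (Nat.card (Subgroup.zpowers z)).Coprime (Nat.card N) :=
    H1.Cores.coprime_card_of_isPGroup hZp (H1.Cores.coprime_card_pPrimeCore q)
  have hZs : Group.IsSolvable (Subgroup.zpowers z) := by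
    have := hZp.isNilpotent
    infer_instance
  have hA := le_centralizer_of (q := q) (K.map π) hKbs hKbO ((Subgroup.zpowers z).map π) (X.map π)
    (hZp.map π) (Nat.Coprime.coprime_dvd_left (Subgroup.card_map_dvd _ _) (coprime_ppc q _))
    (by
      rintro _ ⟨x, hx, rfl⟩
      rw [Subgroup.mem_centralizer_iff]
      rintro _ ⟨y, hy, rfl⟩
      rw [← map_mul, ← map_mul]
      have h1 : x ∈ centralizer ((Subgroup.zpowers z : Subgroup G) : Set G) := by
        rw [hcent]; exact hXz hx
      rw [Subgroup.mem_centralizer_iff.mp h1 y hy])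
    (by
      intro k hk
      rw [Subgroup.mem_inf] at hk
      have h1 : (⊤ : Subgroup G).map π ⊓ centralizer (((Subgroup.zpowers z).map π : Subgroup _) : Set _) =
        ((⊤ : Subgroup G) ⊓ centralizer ((Subgroup.zpowers z : Subgroup G) : Set G)).map π :=
        H1.Coprime.map_inf_centralizer (Subgroup.zpowers z) ⊤ N
        (by rw [Subgroup.normalizer_eq_top]; exact le_top) hcopN (Or.inl hZs) le_top
      have h2 : k ∈ ((⊤ : Subgroup G) ⊓ centralizer ((Subgroup.zpowers z : Subgroup G) : Set G)).map π := by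
        rw [← h1]
        refine Subgroup.mem_inf.mpr ⟨?_, hk.2⟩
        obtain ⟨g, rfl⟩ := hπs k
        exact ⟨g, Subgroup.mem_top g, rfl⟩
      obtain ⟨c, hc, rfl⟩ := h2
      have h3 : c ∈ normalizer (X : Set G) := by
        apply hCzn
        rw [← hcent]
        exact (Subgroup.mem_inf.mp hc).2
      exact Subgroup.le_normalizer_map π ⟨c, h3, rfl⟩)
  obtain ⟨hXC, hXK⟩ := hA
  refine sup_le (le_inf (inf_le_left.trans hXH) ?_) (le_inf ?_ ?_)
  · -- X ⊓ Y ≤ N
    set D : Subgroup (G ⧸ N) := Y.map π ⊓ centralizer ((K.map π : Subgroup _) : Set _) with hD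
    have hcKn : (centralizer ((K.map π : Subgroup _) : Set (G ⧸ N))).Normal := inferInstance
    have hDn : D.Normal := by
      rw [← Subgroup.normalizer_eq_top_iff, eq_top_iff]
      have h1 : (⊤ : Subgroup (G ⧸ N)) = (K.map π ⊔ (H ⊓ centralizer (P : Set G)).map π) ⊔ P.map π := by
        rw [← Subgroup.map_sup, ← Subgroup.map_sup, hHC, hPH]
        rw [eq_comm, eq_top_iff]
        intro g _
        obtain ⟨g, rfl⟩ := hπs g
        exact ⟨g, Subgroup.mem_top g, rfl⟩
      rw [h1]
      refine sup_le (sup_le ?_ ?_) ?_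
      · -- K centralizes D
        refine le_trans ?_ (Subgroup.centralizer_le_normalizer _)
        rw [Subgroup.le_centralizer_iff]
        exact inf_le_right
      · refine H1.Coprime2.le_normalizer_inf ?_ (by rw [Subgroup.normalizer_eq_top]; exact le_top)
        exact (Subgroup.map_mono hCY).trans (Subgroup.le_normalizer_map π)
      · refine H1.Coprime2.le_normalizer_inf ?_ (by rw [Subgroup.normalizer_eq_top]; exact le_top)
        exact (Subgroup.map_mono hPY).trans (Subgroup.le_normalizer_map π)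
    have hDq : (Nat.card D).Coprime q := by
      refine Nat.Coprime.coprime_dvd_left (Subgroup.card_dvd_of_le inf_le_left) ?_
      exact Nat.Coprime.coprime_dvd_left (Subgroup.card_map_dvd _ _) (coprime_ppc q _)
    have hDbot : D ≤ ⊥ := by
      rw [← hObar]
      exact H1.Cores.le_pPrimeCore hDn hDq
    intro x hx
    rw [Subgroup.mem_inf] at hx
    rw [← hker]
    have : π x ∈ D := Subgroup.mem_inf.mpr ⟨⟨x, hx.2, rfl⟩, hXC ⟨x, hx.1, rfl⟩⟩
    exact Subgroup.mem_bot.mp (hDbot this)
  · exact (Subgroup.commutator_mono hXH le_rfl).trans hKH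
  · intro x hx
    rw [← hker]
    have : π x ∈ X.map π ⊓ K.map π :=
      Subgroup.mem_inf.mpr ⟨⟨x, H1.Coprime2.commutator_le_left hPX hx, rfl⟩,
        ⟨x, Subgroup.commutator_mono hXH le_rfl hx, rfl⟩⟩
    rw [hXK] at this
    exact Subgroup.mem_bot.mp this

end H26.FlavCore
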