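import Cfsg.Agent.Lib.H26.FlavRep5

set_option autoImplicit false
set_option linter.unusedSectionVars false
set_option linter.style.haveILetI false

namespace H26.FlavFit

universe u

/-- non-faithful form of the fixed space bound -/
theorem outer' {k : Type*} [Field k] {V : Type*} [AddCommGroup V] [Module k V] [FiniteDimensional k V]
    {G : Type u} [Group G] [Finite G] [Nontrivial V] (ℓ : ℕ) [hℓ : Fact ℓ.Prime] [CharP k ℓ] {p : ℕ}
    [hp : Fact p.Prime] (h5 : 5 ≤ p)
    (hs : Group.IsSolvable G) {x : G} (hx : x ^ p = 1) (hgen : Subgroup.normalClosure ({x} : Set G) = ⊤)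
    (ρ : G →* Module.End k V) (hne : ∃ g, ρ g ≠ 1)
    (hirr : ∀ W : Submodule k V, (∀ g, ∀ v ∈ W, ρ g v ∈ W) → W = ⊥ ∨ W = ⊤) :
    2 * Module.finrank k (LinearMap.ker (ρ x - 1)) < Module.finrank k V := by
  set N : Subgroup G := MonoidHom.ker ρ with hN
  have hNn : N.Normal := by rw [hN]; infer_instance
  let ρ' : Representation k (G ⧸ N) V := QuotientGroup.lift N ρ (fun g hg => hg)
  have hρ' : ∀ g : G, ρ' (QuotientGroup.mk' N g) = ρ g := fun g => rfl
  have hsurj := QuotientGroup.mk'_surjective N
  have hxN : QuotientGroup.mk' N x ≠ 1 := by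
    intro h
    have h1 : x ∈ N := (QuotientGroup.eq_one_iff x).mp h
    obtain ⟨g, hg⟩ := hne
    apply hg
    have h2 : N = ⊤ := by
      rw [eq_top_iff, ← hgen]
      apply Subgroup.normalClosure_le_normal
      rw [Set.singleton_subset_iff]
      exact h1
    have h3 : g ∈ N := by rw [h2]; exact Subgroup.mem_top g
    exact h3
  have hinj : Function.Injective ρ' := by
    intro a b hab
    obtain ⟨a, rfl⟩ := hsurj a
    obtain ⟨b, rfl⟩ := hsurj b
    rw [hρ', hρ'] at hab
    rw [← inv_mul_eq_one, ← map_inv, ← map_mul]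
    refine (QuotientGroup.eq_one_iff _).mpr ?_
    show ρ (a⁻¹ * b) = 1
    rw [map_mul, ← hab, ← map_mul, inv_mul_cancel, map_one]
  refine H26.FlavRep5.outer ℓ (x := QuotientGroup.mk' N x) h5 (Group.isSolvable_of_surjective hsurj) ?_ ?_ ρ' hinj hxN ?_
  · rw [← map_pow, hx, map_one]
  · have h1 := Subgroup.map_normalClosure ({x} : Set G) (QuotientGroup.mk' N) hsurj
    rw [hgen, Set.image_singleton] at h1
    rw [← h1, eq_top_iff]
    intro g _
    obtain ⟨g, rfl⟩ := hsurj g
    exact ⟨g, Subgroup.mem_top g, rfl⟩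
  · intro W hW
    exact hirr W (fun g v hv => hW (QuotientGroup.mk' N g) v hv)

/-- additive form -/
theorem card_fix_sq_lt_add {q : ℕ} [hq : Fact q.Prime] {V : Type*} [AddCommGroup V] [Finite V]
    [Module (ZMod q) V] {A : Type u} [Group A] [Finite A] (f : A →* AddMonoid.End V) {p : ℕ} [hp : Fact p.Prime]
    (h5 : 5 ≤ p) (hs : Group.IsSolvable A) {x : A} (hx : x ^ p = 1)
    (hgen : Subgroup.normalClosure ({x} : Set A) = ⊤) (hne : ∃ g : A, ∃ m : V, f g m ≠ m)
    (hirr : ∀ U : AddSubgroup V, (∀ g : A, ∀ u ∈ U, f g u ∈ U) → U = ⊥ ∨ U = ⊤) :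
    (Nat.card {m : V // f x m = m}) ^ 2 < Nat.card V := by
  let ρ : A →* Module.End (ZMod q) V :=
    { toFun := fun g => AddMonoidHom.toZModLinearMap q (f g)
      map_one' := by
        apply LinearMap.ext
        intro m
        show f 1 m = m
        rw [map_one]; rfl
      map_mul' := by
        intro g h
        apply LinearMap.ext
        intro m
        show f (g * h) m = f g (f h m)
        rw [map_mul]; rfl }
  have hρ : ∀ g m, ρ g m = f g m := fun _ _ => rfl
  obtain ⟨g, m, hgm⟩ := hne
  have hnt : Nontrivial V := ⟨⟨_, _, hgm⟩⟩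
  have h1 := outer' (k := ZMod q) (V := V) q h5 hs hx hgen ρ ⟨g, by
    intro h
    apply hgm
    have h2 := LinearMap.congr_fun h m
    rw [hρ] at h2
    exact h2⟩ (by
    intro W hW
    have h2 := hirr W.toAddSubgroup (by
      intro g u hu
      exact hW g u hu)
    rcases h2 with h2 | h2
    · left
      rw [eq_bot_iff]
      intro w hw
      have h3 : w ∈ W.toAddSubgroup := hw
      rw [h2, AddSubgroup.mem_bot] at h3
      exact (Submodule.mem_bot _).mpr h3
    · right
      rw [eq_top_iff]
      intro w _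
      have h3 : w ∈ W.toAddSubgroup := by rw [h2]; exact AddSubgroup.mem_top _
      exact h3)
  have h2 : Nat.card V = q ^ Module.finrank (ZMod q) V := by
    have := Module.natCard_eq_pow_finrank (K := ZMod q) (V := V)
    rw [Nat.card_zmod] at this
    exact this
  have h3 : Nat.card {m : V // f x m = m} = q ^ Module.finrank (ZMod q) (LinearMap.ker (ρ x - 1)) := by
    have := Module.natCard_eq_pow_finrank (K := ZMod q) (V := LinearMap.ker (ρ x - 1))
    rw [Nat.card_zmod] at this
    rw [← this]
    apply Nat.card_congr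
    apply Equiv.subtypeEquivRight
    intro m
    rw [LinearMap.mem_ker, LinearMap.sub_apply, Module.End.one_apply, sub_eq_zero, hρ]
  rw [h3, h2, ← pow_mul]
  apply Nat.pow_lt_pow_right hq.out.one_lt
  omega

/-- group form -/
theorem card_fix_sq_lt {M : Type*} [CommGroup M] [Finite M] {A : Type u} [Group A] [Finite A]
    (φ : A →* MulAut M) {q : ℕ} [hq : Fact q.Prime] {p : ℕ} [hp : Fact p.Prime] (h5 : 5 ≤ p)
    (hM : ∀ m : M, m ^ q = 1) (hs : Group.IsSolvable A) {x : A} (hx : x ^ p = 1)
    (hgen : Subgroup.normalClosure ({x} : Set A) = ⊤) (hne : ∃ g : A, ∃ m : M, φ g m ≠ m)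
    (hirr : ∀ U : Subgroup M, (∀ g : A, ∀ u ∈ U, φ g u ∈ U) → U = ⊥ ∨ U = ⊤) :
    (Nat.card {m : M // φ x m = m}) ^ 2 < Nat.card M := by
  let f : A →* AddMonoid.End (Additive M) :=
    { toFun := fun g => MonoidHom.toAdditive (φ g).toMonoidHom
      map_one' := by
        apply AddMonoidHom.ext
        intro m
        show Additive.ofMul (φ 1 m.toMul) = m
        rw [map_one]; rfl
      map_mul' := by
        intro g h
        apply AddMonoidHom.ext
        intro m
        show Additive.ofMul (φ (g * h) m.toMul) = Additive.ofMul (φ g (φ h m.toMul))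
        rw [map_mul]; rfl }
  have hfin : Finite (Additive M) := inferInstanceAs (Finite M)
  obtain ⟨g, m, hgm⟩ := hne
  have hmod : Nonempty (Module (ZMod q) (Additive M)) :=
    ⟨AddCommGroup.zmodModule (n := q) (fun m => hM m.toMul)⟩
  obtain ⟨inst⟩ := hmod
  have h1 := @card_fix_sq_lt_add q hq (Additive M) _ hfin inst A _ _ f p hp h5 hs x hx hgen
    ⟨g, Additive.ofMul m, fun h => hgm (Additive.ofMul.injective h)⟩ (by
    intro U hU
    rcases hirr (AddSubgroup.toSubgroup' U) (fun g u hu => hU g (Additive.ofMul u) hu) with h2 | h2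
    · left
      rw [eq_bot_iff]
      intro w hw
      have h3 : w.toMul ∈ AddSubgroup.toSubgroup' U := hw
      rw [h2, Subgroup.mem_bot] at h3
      exact (AddSubgroup.mem_bot).mpr h3
    · right
      rw [eq_top_iff]
      intro w _
      have h3 : w.toMul ∈ AddSubgroup.toSubgroup' U := by rw [h2]; exact Subgroup.mem_top _
      exact h3)
  exact h1

end H26.FlavFit
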