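import Cfsg.Agent.Lib.H26.FlavFit
import Cfsg.Agent.Lib.H1.SZ
import Cfsg.Agent.Lib.H1.Hall
import Cfsg.Agent.Lib.H1.Coprime
import Cfsg.Agent.Lib.H1.Coprime2
import Cfsg.Agent.Lib.H1.Frat
import Cfsg.Agent.Lib.H65.HallHigman

set_option autoImplicit false
set_option linter.unusedSectionVars false
set_option linter.style.haveILetI false

open Subgroup Cfsg
open scoped Pointwise commutatorElement

namespace H26.FlavFit2

universe u

variable {Y : Type u} [Group Y] [Finite Y]

theorem five_le {p : ℕ} [hp : Fact p.Prime] (h3 : 3 < p) : 5 ≤ p := by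
  have h4 : p ≠ 4 := by
    intro h
    have := hp.out
    rw [h] at this
    exact absurd this (by norm_num)
  omega

/-- the counting step -/
theorem card_sq_lt {p q : ℕ} [hp : Fact p.Prime] [hq : Fact q.Prime] (h3 : 3 < p) (A W P : Subgroup Y)
    [hWn : W.Normal] (hWc : ∀ a ∈ W, ∀ b ∈ W, a * b = b * a) (hWe : ∀ a ∈ W, a ^ q = 1)
    (hs : Group.IsSolvable A) (hP : Nat.card P = p) (a : Y) (haA : a ∈ A)
    (hA : A = P ⊔ P.map (MulAut.conj a).toMonoidHom)
    (hne : ¬ A ≤ centralizer (W : Set Y))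
    (hirr : ∀ U : Subgroup Y, U ≤ W → A ≤ normalizer (U : Set Y) → U = ⊥ ∨ U = W) :
    (Nat.card (W ⊓ centralizer (P : Set Y) : Subgroup Y)) ^ 2 < Nat.card W := by
  have hPA : P ≤ A := by rw [hA]; exact le_sup_left
  have hPn : Nontrivial P := by
    rw [← Finite.one_lt_card_iff_nontrivial, hP]
    exact hp.out.one_lt
  obtain ⟨⟨x, hxP⟩, hx1⟩ := exists_ne (1 : P)
  have hx1' : x ≠ 1 := fun h => hx1 (Subtype.ext h)
  have hxp : x ^ p = 1 := by
    have h1 := pow_card_eq_one' (x := (⟨x, hxP⟩ : P))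
    rw [hP] at h1
    exact congrArg Subtype.val h1
  have hzx : Subgroup.zpowers x = P := by
    apply Subgroup.eq_of_le_of_card_ge (Subgroup.zpowers_le.mpr hxP)
    rw [hP, Nat.card_zpowers, orderOf_eq_prime hxp hx1']
  let xA : A := ⟨x, hPA hxP⟩
  have hgen : normalClosure ({xA} : Set A) = ⊤ := by
    have h1 : A ≤ (normalClosure ({xA} : Set A)).map A.subtype := by
      conv_lhs => rw [hA]
      refine sup_le ?_ ?_
      · refine hzx.ge.trans ?_
        rw [zpowers_le]
        exact ⟨xA, subset_normalClosure (Set.mem_singleton _), rfl⟩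
      · rintro _ ⟨y, hy, rfl⟩
        rw [← hzx] at hy
        have h2 : zpowers x ≤ (normalClosure ({xA} : Set A)).map A.subtype := by
          rw [zpowers_le]
          exact ⟨xA, subset_normalClosure (Set.mem_singleton _), rfl⟩
        obtain ⟨z, hz, hzy⟩ := h2 hy
        refine ⟨⟨a, haA⟩ * z * ⟨a, haA⟩⁻¹, ?_, ?_⟩
        · exact (normalClosure_normal).conj_mem z hz _
        · show a * (z : Y) * a⁻¹ = a * y * a⁻¹
          have : (z : Y) = y := hzy
          rw [this]
    rw [eq_top_iff]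
    intro g _
    obtain ⟨z, hz, hzg⟩ := h1 g.2
    have : z = g := Subtype.ext hzg
    rwa [← this]
  letI : CommGroup W := { (inferInstance : Group W) with
    mul_comm := fun u v => Subtype.ext (hWc u u.2 v v.2) }
  let φ : A →* MulAut W := (MulAut.conjNormal (H := W)).comp A.subtype
  have hφ : ∀ (g : A) (w : W), ((φ g w : W) : Y) = (g : Y) * w * (g : Y)⁻¹ := fun g w => MulAut.conjNormal_apply _ _
  have h1 := H26.FlavFit.card_fix_sq_lt (M := W) (q := q) φ (five_le h3) (fun m => Subtype.ext (hWe m m.2)) hs (x := xA)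
    (Subtype.ext hxp) hgen (by
      by_contra hcon
      push Not at hcon
      apply hne
      intro g hg
      rw [mem_centralizer_iff]
      intro w hw
      have h2 := congrArg Subtype.val (hcon ⟨g, hg⟩ ⟨w, hw⟩)
      rw [hφ] at h2
      have h3 : g * w * g⁻¹ = w := h2
      calc w * g = (g * w * g⁻¹) * g := by rw [h3]
        _ = g * w := by group) (by
      intro U hU
      rcases hirr (U.map W.subtype) (Subgroup.map_subtype_le _) (by
        apply H1.Coprime.le_normalizer_of_conj_mem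
        rintro g hg _ ⟨u, hu, rfl⟩
        exact ⟨φ ⟨g, hg⟩ u, hU ⟨g, hg⟩ u hu, hφ ⟨g, hg⟩ u⟩) with h | h
      · left
        exact (Subgroup.map_eq_bot_iff_of_injective _ W.subtype_injective).mp h
      · right
        rw [eq_top_iff]
        intro w _
        have : (w : Y) ∈ U.map W.subtype := by rw [h]; exact w.2
        obtain ⟨u, hu, huw⟩ := this
        have : u = w := Subtype.ext huw
        rwa [← this])
  have h2 : Nat.card {m : W // φ xA m = m} = Nat.card (W ⊓ centralizer (P : Set Y) : Subgroup Y) := by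
    have hcx : ∀ w : Y, w ∈ centralizer (P : Set Y) ↔ x * w * x⁻¹ = w := by
      intro w
      have e : centralizer (P : Set Y) = centralizer {x} := by
        rw [← hzx, zpowers_eq_closure, centralizer_closure]
      rw [e, mem_centralizer_singleton_iff, mul_inv_eq_iff_eq_mul]
      exact eq_comm
    refine Nat.card_congr ⟨fun m => ⟨(m : W), mem_inf.mpr ⟨(m : W).2, ?_⟩⟩, fun m => ⟨⟨m, m.2.1⟩, ?_⟩, fun m => rfl, fun m => rfl⟩
    · rw [hcx]
      have := congrArg Subtype.val m.2
      rwa [hφ] at this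
    · apply Subtype.ext
      rw [hφ]
      exact (hcx _).mp m.2.2
  rw [h2] at h1
  exact h1

/-- Lemma L -/
theorem lemmaL {p q : ℕ} [hp : Fact p.Prime] [hq : Fact q.Prime] (h3 : 3 < p) (A W R P : Subgroup Y)
    [hWn : W.Normal] (hWc : ∀ a ∈ W, ∀ b ∈ W, a * b = b * a) (hWe : ∀ a ∈ W, a ^ q = 1) (hWb : W ≠ ⊥)
    (hAW : A ⊔ W = ⊤) (hs : Group.IsSolvable A) (hP : Nat.card P = p) (a : Y) (haA : a ∈ A)
    (hA : A = P ⊔ P.map (MulAut.conj a).toMonoidHom) (hRA : R ≤ A) (hAR : A ≤ normalizer (R : Set Y))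
    (hRq : (Nat.card R).Coprime q) (hCWR : W ⊓ centralizer (R : Set Y) = ⊥)
    (hirr : ∀ U : Subgroup Y, U ≤ W → A ≤ normalizer (U : Set Y) → U = ⊥ ∨ U = W) :
    ∃ v ∈ W, (P ⊔ P.map (MulAut.conj (v * a)).toMonoidHom) ⊓ W ≠ ⊥ := by
  by_contra hcon
  push Not at hcon
  have hne : ¬ A ≤ centralizer (W : Set Y) := by
    intro h
    apply hWb
    rw [eq_bot_iff, ← hCWR]
    exact le_inf le_rfl (Subgroup.le_centralizer_iff.mp (hRA.trans h))
  have hmain := card_sq_lt (q := q) h3 A W P hWc hWe hs hP a haA hA hne hirr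
  have hPA : P ≤ A := by rw [hA]; exact le_sup_left
  have hPaA : ∀ y ∈ P, a * y * a⁻¹ ∈ A := fun y hy => A.mul_mem (A.mul_mem haA (hPA hy)) (A.inv_mem haA)
  have hAWb : A ⊓ W = ⊥ := by
    have h1 := hcon 1 (one_mem _)
    rwa [one_mul, ← hA] at h1
  have hWq : IsPGroup q W := fun y => ⟨1, by
    apply Subtype.ext
    rw [pow_one]
    exact hWe y y.2⟩
  have hWs : Group.IsSolvable W := by
    have := hWq.isNilpotent
    infer_instance
  have hRW : R ⊓ W = ⊥ := by
    rw [eq_bot_iff, ← hAWb]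
    exact inf_le_inf_right _ hRA
  set M := R ⊔ W with hM
  have hMn : M.Normal := by
    rw [← Subgroup.normalizer_eq_top_iff, eq_top_iff, ← hAW]
    refine sup_le ?_ ?_
    · exact H1.Coprime2.le_normalizer_sup hAR (by rw [Subgroup.normalizer_eq_top]; exact le_top)
    · exact (le_sup_right : W ≤ M).trans Subgroup.le_normalizer
  have hcardM : Nat.card M = Nat.card R * Nat.card W := H1.Hall.card_sup_of_disjoint_normal hRW
  have hrel : W.relIndex M = Nat.card R := by
    have h1 : Nat.card W * W.relIndex M = Nat.card M := by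
      have := (W.subgroupOf M).card_mul_index
      rwa [Nat.card_congr (Subgroup.subgroupOfEquivOfLe (le_sup_right : W ≤ M)).toEquiv] at this
    rw [hcardM, mul_comm (Nat.card R)] at h1
    exact Nat.eq_of_mul_eq_mul_left Nat.card_pos h1
  -- the normalizer of `R` is `A`
  have hNR : ∀ n ∈ normalizer (R : Set Y), n ∈ A := by
    intro n hn
    have hn' : n ∈ A ⊔ W := by rw [hAW]; exact mem_top n
    obtain ⟨b, hb, w, hw, rfl⟩ := Subgroup.mem_sup_of_normal_right.mp hn'
    have hwN : w ∈ normalizer (R : Set Y) := by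
      have h1 := mul_mem (inv_mem (hAR hb)) hn
      rwa [inv_mul_cancel_left] at h1
    have hw1 : w ∈ W ⊓ centralizer (R : Set Y) := by
      refine mem_inf.mpr ⟨hw, ?_⟩
      exact H1.Coprime.mem_centralizer_of_mem_normalizer (K := W)
        (by rw [Subgroup.normalizer_eq_top]; exact le_top) hRW hw hwN
    rw [hCWR, mem_bot] at hw1
    rw [hw1, mul_one]
    exact hb
  -- factorization of every element of `W`
  have hfac : ∀ v ∈ W, ∃ w ∈ W ⊓ centralizer (P : Set Y),
      ∃ u ∈ W ⊓ centralizer ((P.map (MulAut.conj a).toMonoidHom : Subgroup Y) : Set Y), v = w * u := by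
    intro v hv
    set B := P ⊔ P.map (MulAut.conj (v * a)).toMonoidHom with hB
    have hBW : B ⊔ W = ⊤ := by
      rw [eq_top_iff, ← hAW]
      refine sup_le ?_ le_sup_right
      rw [hA]
      refine sup_le (le_sup_left.trans le_sup_left) ?_
      rintro _ ⟨y, hy, rfl⟩
      have h1 : (v * a) * y * (v * a)⁻¹ ∈ B ⊔ W := (le_sup_left : B ≤ B ⊔ W) ((le_sup_right : _ ≤ B) ⟨y, hy, rfl⟩)
      have h2 : v ∈ B ⊔ W := (le_sup_right : W ≤ B ⊔ W) hv
      have h3 := mul_mem (mul_mem (inv_mem h2) h1) h2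
      have e : v⁻¹ * ((v * a) * y * (v * a)⁻¹) * v = a * y * a⁻¹ := by group
      rw [e] at h3
      exact h3
    have hBb : B ⊓ W = ⊥ := hcon v hv
    have hRv1 : (B ⊓ M) ⊔ W = M := by
      have h1 := H1.Hall.modular_law (A := M) (N := W) (H := B) le_sup_right (by
        rw [sup_comm W B, hBW]; exact le_top)
      rw [sup_comm, inf_comm]
      exact h1.symm
    have hRv2 : (B ⊓ M) ⊓ W = ⊥ := by
      rw [eq_bot_iff, ← hBb]
      exact inf_le_inf_right _ inf_le_left
    have hRvc : Nat.card (B ⊓ M : Subgroup Y) = Nat.card R := by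
      have h1 := H1.Hall.card_sup_of_disjoint_normal hRv2
      rw [hRv1, hcardM] at h1
      exact (Nat.eq_of_mul_eq_mul_right Nat.card_pos h1).symm
    obtain ⟨w, hw, hwR⟩ := H1.SZ.conj_of_card_rel M W le_sup_right
      (by rw [Subgroup.normalizer_eq_top]; exact le_top) (by
        rw [hrel]
        exact H1.Cores.coprime_card_of_isPGroup hWq hRq) (Or.inl hWs) R (B ⊓ M) le_sup_left inf_le_right
      hrel.symm (by rw [hRvc, hrel])
    have hconj : ∀ y ∈ B, w⁻¹ * y * w ∈ A := by
      intro y hy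
      apply hNR
      have h1 : y ∈ normalizer ((B ⊓ M : Subgroup Y) : Set Y) :=
        H1.Coprime2.le_normalizer_inf (Subgroup.le_normalizer (H := B))
          (by rw [Subgroup.normalizer_eq_top]; exact le_top) hy
      rw [← hwR] at h1
      have h2 : MulAut.conj y • (MulAut.conj w • R) = MulAut.conj w • R := H1.SZ.conj_smul_eq_of_mem_normalizer h1
      apply H1.SZ.mem_normalizer_of_conj_smul_eq
      rw [H1.SZ.conj_mul_smul, H1.SZ.conj_mul_smul, h2, ← H1.SZ.conj_mul_smul, inv_mul_cancel, map_one, one_smul]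
    refine ⟨w, mem_inf.mpr ⟨hw, ?_⟩, w⁻¹ * v, mem_inf.mpr ⟨W.mul_mem (W.inv_mem hw) hv, ?_⟩, by group⟩
    · rw [mem_centralizer_iff]
      intro y hy
      have h1 := hconj y ((le_sup_left : P ≤ B) hy)
      have h2 : y⁻¹ * (w⁻¹ * y * w) ∈ A ⊓ W := by
        refine mem_inf.mpr ⟨A.mul_mem (A.inv_mem (hPA hy)) h1, ?_⟩
        have h4 := hWn.conj_mem w⁻¹ (W.inv_mem hw) y⁻¹
        have h5 := W.mul_mem h4 hw
        have e : y⁻¹ * w⁻¹ * y⁻¹⁻¹ * w = y⁻¹ * (w⁻¹ * y * w) := by group
        rwa [e] at h5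
      rw [hAWb, mem_bot] at h2
      have h3 : w⁻¹ * y * w = y := by
        rw [inv_mul_eq_one] at h2
        exact h2.symm
      calc y * w = w * (w⁻¹ * y * w) := by group
        _ = w * y := by rw [h3]
    · rw [mem_centralizer_iff]
      rintro _ ⟨y, hy, rfl⟩
      show a * y * a⁻¹ * (w⁻¹ * v) = w⁻¹ * v * (a * y * a⁻¹)
      set z := a * y * a⁻¹ with hz
      have hzA : z ∈ A := hPaA y hy
      set t := w⁻¹ * v with ht
      have htW : t ∈ W := W.mul_mem (W.inv_mem hw) hv
      have h1 := hconj ((v * a) * y * (v * a)⁻¹) ((le_sup_right : _ ≤ B) ⟨y, hy, rfl⟩)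
      have e : w⁻¹ * ((v * a) * y * (v * a)⁻¹) * w = t * z * t⁻¹ := by rw [hz, ht]; group
      rw [e] at h1
      have h2 : z⁻¹ * (t * z * t⁻¹) ∈ A ⊓ W := by
        refine mem_inf.mpr ⟨A.mul_mem (A.inv_mem hzA) h1, ?_⟩
        have h4 := hWn.conj_mem t htW z⁻¹
        have h5 := W.mul_mem h4 (W.inv_mem htW)
        have e : z⁻¹ * t * z⁻¹⁻¹ * t⁻¹ = z⁻¹ * (t * z * t⁻¹) := by group
        rwa [e] at h5
      rw [hAWb, mem_bot] at h2
      have h3 : t * z * t⁻¹ = z := by
        rw [inv_mul_eq_one] at h2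
        exact h2.symm
      calc z * t = (t * z * t⁻¹) * t := by rw [h3]
        _ = t * z := by group
  -- counting
  have hcc : Nat.card (W ⊓ centralizer ((P.map (MulAut.conj a).toMonoidHom : Subgroup Y) : Set Y) : Subgroup Y) ≤
      Nat.card (W ⊓ centralizer (P : Set Y) : Subgroup Y) := by
    refine Nat.card_le_card_of_injective
      (fun u : (W ⊓ centralizer ((P.map (MulAut.conj a).toMonoidHom : Subgroup Y) : Set Y) : Subgroup Y) =>
        (⟨a⁻¹ * u * a, mem_inf.mpr ⟨by simpa using hWn.conj_mem u (mem_inf.mp u.2).1 a⁻¹, ?_⟩⟩ :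
          (W ⊓ centralizer (P : Set Y) : Subgroup Y))) ?_
    · rw [mem_centralizer_iff]
      intro y hy
      have h1 := mem_centralizer_iff.mp (mem_inf.mp u.2).2 (a * y * a⁻¹) ⟨y, hy, rfl⟩
      calc y * (a⁻¹ * u * a) = a⁻¹ * (a * y * a⁻¹ * u) * a := by group
        _ = a⁻¹ * (u * (a * y * a⁻¹)) * a := by rw [h1]
        _ = a⁻¹ * u * a * y := by group
    · intro u u' h
      have h1 := Subtype.mk.inj h
      apply Subtype.ext
      have h2 : a * (a⁻¹ * (u : Y) * a) * a⁻¹ = a * (a⁻¹ * (u' : Y) * a) * a⁻¹ := by rw [h1]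
      simpa [mul_assoc] using h2
  have hle : Nat.card W ≤ Nat.card (W ⊓ centralizer (P : Set Y) : Subgroup Y) *
      Nat.card (W ⊓ centralizer ((P.map (MulAut.conj a).toMonoidHom : Subgroup Y) : Set Y) : Subgroup Y) := by
    rw [← Nat.card_prod]
    choose! f hf g hg hfg using hfac
    refine Nat.card_le_card_of_injective (fun v : W => (⟨⟨f v, hf v v.2⟩, ⟨g v, hg v v.2⟩⟩ : _ × _)) ?_
    intro v v' h
    have h1 := congrArg Prod.fst h
    have h2 := congrArg Prod.snd h
    have h1' : f v = f v' := congrArg Subtype.val h1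
    have h2' : g v = g v' := congrArg Subtype.val h2
    apply Subtype.ext
    rw [hfg v v.2, hfg v' v'.2, h1', h2']
  have := hle.trans (Nat.mul_le_mul_left _ hcc)
  rw [← sq] at this
  exact absurd hmain (not_lt.mpr this)

end H26.FlavFit2
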