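import Cfsg.Agent.Lib.H26.FlavFit2

set_option autoImplicit false
set_option linter.unusedSectionVars false
set_option linter.style.haveILetI false

open Subgroup Cfsg
open scoped Pointwise commutatorElement

namespace H26.FlavFit3

universe u

theorem map_conj_map {X Y : Type*} [Group X] [Group Y] (f : X →* Y) (P : Subgroup X) (a : X) :
    (P.map (MulAut.conj a).toMonoidHom).map f = (P.map f).map (MulAut.conj (f a)).toMonoidHom := by
  rw [Subgroup.map_map, Subgroup.map_map]
  congr 1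
  ext x
  show f (a * x * a⁻¹) = f a * f x * (f a)⁻¹
  rw [map_mul, map_mul, map_inv]

theorem le_sup_of_conj {X : Type*} [Group X] (P W : Subgroup X) {v a : X} (hv : v ∈ W) :
    P.map (MulAut.conj a).toMonoidHom ≤ (P ⊔ P.map (MulAut.conj (v * a)).toMonoidHom) ⊔ W := by
  rintro _ ⟨y, hy, rfl⟩
  set B := P ⊔ P.map (MulAut.conj (v * a)).toMonoidHom with hB
  have h1 : (v * a) * y * (v * a)⁻¹ ∈ B ⊔ W := (le_sup_left : B ≤ B ⊔ W) ((le_sup_right : _ ≤ B) ⟨y, hy, rfl⟩)
  have h2 : v ∈ B ⊔ W := (le_sup_right : W ≤ B ⊔ W) hv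
  have h3 := mul_mem (mul_mem (inv_mem h2) h1) h2
  have e : v⁻¹ * ((v * a) * y * (v * a)⁻¹) * v = a * y * a⁻¹ := by group
  rw [e] at h3
  exact h3

/-- lifting Lemma L from the Frattini quotient -/
theorem lift {X : Type u} [Group X] [Finite X] {p q : ℕ} [hp : Fact p.Prime] [hq : Fact q.Prime] (h3 : 3 < p)
    (A W R P : Subgroup X) [hWn : W.Normal] (hWq : IsPGroup q W) (hWb : W ≠ ⊥)
    (hAW : A ⊔ W = ⊤) (hs : Group.IsSolvable A) (hP : Nat.card P = p) (a : X) (haA : a ∈ A)
    (hA : A = P ⊔ P.map (MulAut.conj a).toMonoidHom) (hRA : R ≤ A) (hAR : A ≤ normalizer (R : Set X))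
    (hRq : (Nat.card R).Coprime q) (hWR : ⁅W, R⁆ = W) (hΦ1 : ∀ w ∈ W, w ^ q ∈ ⁅W, W⁆)
    (hΦ2 : ∀ B : Subgroup X, B ≤ W → B ⊔ ⁅W, W⁆ = W → B = W)
    (hirr : ∀ U : Subgroup X, U < W → A ≤ normalizer (U : Set X) → U ≤ ⁅W, W⁆) :
    ∃ v ∈ W, W ≤ P ⊔ P.map (MulAut.conj (v * a)).toMonoidHom := by
  set Φ : Subgroup X := ⁅W, W⁆ with hΦ
  have hΦn : Φ.Normal := by rw [hΦ]; infer_instance
  set π := QuotientGroup.mk' Φ with hπ
  have hπs : Function.Surjective π := QuotientGroup.mk'_surjective Φ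
  have hker : ∀ g : X, π g = 1 ↔ g ∈ Φ := fun g => QuotientGroup.eq_one_iff g
  have hΦW : Φ ≤ W := by
    rw [hΦ, Subgroup.commutator_le]
    intro x hx y hy
    exact W.mul_mem (W.mul_mem (W.mul_mem hx hy) (W.inv_mem hx)) (W.inv_mem hy)
  have hΦlt : Φ < W := H1.Coprime2.commutator_lt_of_isPGroup hWq hWq Subgroup.le_normalizer hWb
  have hcm : ∀ K : Subgroup X, Φ ≤ K → (K.map π).comap π = K := by
    intro K hK
    rw [QuotientGroup.comap_map_mk', sup_eq_right.mpr hK]
  have hWbn : (W.map π).Normal := Subgroup.Normal.map hWn _ hπs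
  have hWbb : W.map π ≠ ⊥ := by
    intro h
    apply hΦlt.not_ge
    intro w hw
    rw [← hker]
    have : π w ∈ W.map π := ⟨w, hw, rfl⟩
    rwa [h, mem_bot] at this
  have hWc : ∀ b ∈ W.map π, ∀ c ∈ W.map π, b * c = c * b := by
    rintro _ ⟨b, hb, rfl⟩ _ ⟨c, hc, rfl⟩
    rw [← commutatorElement_eq_one_iff_mul_comm, ← map_commutatorElement, hker]
    exact Subgroup.commutator_mem_commutator hb hc
  have hWe : ∀ b ∈ W.map π, b ^ q = 1 := by
    rintro _ ⟨b, hb, rfl⟩
    rw [← map_pow, hker]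
    exact hΦ1 b hb
  have htopmap : ∀ K : Subgroup X, K = ⊤ → K.map π = ⊤ := by
    rintro _ rfl
    rw [eq_top_iff]
    intro g _
    obtain ⟨g, rfl⟩ := hπs g
    exact ⟨g, mem_top g, rfl⟩
  have hAWb : A.map π ⊔ W.map π = ⊤ := by
    rw [← Subgroup.map_sup]
    exact htopmap _ hAW
  have hAs : Group.IsSolvable (A.map π) := by
    have h1 : Function.Surjective (π.subgroupMap A) := MonoidHom.subgroupMap_surjective π A
    exact Group.isSolvable_of_surjective h1
  have hPΦ : P ⊓ Φ = ⊥ := by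
    by_contra hne
    have h1 : P ⊓ Φ = P := by
      apply Subgroup.eq_of_le_of_card_ge inf_le_left
      have h2 : Nat.card (P ⊓ Φ : Subgroup X) ∣ p := by
        rw [← hP]; exact Subgroup.card_dvd_of_le inf_le_left
      rcases (Nat.dvd_prime hp.out).mp h2 with h | h
      · exact absurd (Subgroup.card_eq_one.mp h) hne
      · rw [h, hP]
    have h2 : P ≤ Φ := by rw [← h1]; exact inf_le_right
    have h4 : A ≤ Φ := by
      rw [hA]
      refine sup_le h2 ?_
      rintro _ ⟨y, hy, rfl⟩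
      exact hΦn.conj_mem y (h2 hy) a
    have h5 : R ≤ W := hRA.trans (h4.trans hΦW)
    have h6 : R = ⊥ := by
      have h7 := H1.Cores.disjoint_of_isPGroup hWq hRq
      rw [eq_bot_iff, ← h7]
      exact le_inf h5 le_rfl
    apply hWb
    rw [← hWR, h6, Subgroup.commutator_bot_right]
  have hPc : Nat.card (P.map π) = p := by
    rw [← hP]
    exact H1.Hall.card_map_mk_of_disjoint hPΦ
  have hAb : A.map π = P.map π ⊔ (P.map π).map (MulAut.conj (π a)).toMonoidHom := by
    conv_lhs => rw [hA]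
    rw [Subgroup.map_sup, map_conj_map]
  have hRqb : (Nat.card (R.map π)).Coprime q :=
    Nat.Coprime.coprime_dvd_left (Subgroup.card_map_dvd _ _) hRq
  have hARb : A.map π ≤ normalizer ((R.map π : Subgroup (X ⧸ Φ)) : Set (X ⧸ Φ)) :=
    (Subgroup.map_mono hAR).trans (Subgroup.le_normalizer_map π)
  have hCWR : W.map π ⊓ centralizer ((R.map π : Subgroup (X ⧸ Φ)) : Set (X ⧸ Φ)) = ⊥ := by
    have h1 := H65.HallHigman.commutator_inf_centralizer_le (R.map π) (W.map π)
      (by rw [Subgroup.normalizer_eq_top]; exact le_top)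
      (H1.Cores.coprime_card_of_isPGroup (hWq.map π) hRqb).symm
    rw [← Subgroup.map_commutator, hWR, ← Subgroup.map_commutator] at h1
    rw [eq_bot_iff]
    refine h1.trans ?_
    rintro _ ⟨y, hy, rfl⟩
    rw [mem_bot]
    exact (hker y).mpr hy
  have hirrb : ∀ U : Subgroup (X ⧸ Φ), U ≤ W.map π → A.map π ≤ normalizer (U : Set (X ⧸ Φ)) →
      U = ⊥ ∨ U = W.map π := by
    intro U hU hAU
    have hU' : U.comap π ≤ W := by
      have := Subgroup.comap_mono (f := π) hU
      rwa [hcm W hΦW] at this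
    have hAU' : A ≤ normalizer ((U.comap π : Subgroup X) : Set X) := by
      apply H1.Coprime.le_normalizer_of_conj_mem
      intro g hg u hu
      rw [mem_comap, map_mul, map_mul, map_inv]
      exact (Subgroup.mem_normalizer_iff.mp (hAU ⟨g, hg, rfl⟩) _).mp hu
    rcases eq_or_lt_of_le hU' with h | h
    · right
      rw [← h, Subgroup.map_comap_eq_self_of_surjective hπs]
    · left
      have h1 := hirr _ h hAU'
      rw [eq_bot_iff]
      intro u hu
      obtain ⟨u, rfl⟩ := hπs u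
      rw [mem_bot, hker]
      exact h1 hu
  obtain ⟨_, ⟨v, hv, rfl⟩, hvB⟩ := H26.FlavFit2.lemmaL (q := q) h3 (A.map π) (W.map π) (R.map π) (P.map π) hWc hWe hWbb hAWb
    hAs hPc (π a) ⟨a, haA, rfl⟩ hAb (Subgroup.map_mono hRA) hARb hRqb hCWR hirrb
  refine ⟨v, hv, ?_⟩
  set B := P ⊔ P.map (MulAut.conj (v * a)).toMonoidHom with hB
  have hBb : B.map π = P.map π ⊔ (P.map π).map (MulAut.conj (π v * π a)).toMonoidHom := by
    rw [hB, Subgroup.map_sup, map_conj_map, map_mul]
  rw [← hBb] at hvB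
  have hBW : B ⊔ W = ⊤ := by
    rw [eq_top_iff, ← hAW]
    refine sup_le ?_ le_sup_right
    conv_lhs => rw [hA]
    exact sup_le (le_sup_left.trans le_sup_left) (le_sup_of_conj P W hv)
  have hinv : A.map π ≤ normalizer ((B.map π ⊓ W.map π : Subgroup (X ⧸ Φ)) : Set (X ⧸ Φ)) := by
    have h1 : (⊤ : Subgroup (X ⧸ Φ)) ≤ normalizer ((B.map π ⊓ W.map π : Subgroup (X ⧸ Φ)) : Set (X ⧸ Φ)) := by
      have h2 : B.map π ⊔ W.map π = ⊤ := by
        rw [← Subgroup.map_sup]; exact htopmap _ hBW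
      rw [← h2]
      refine sup_le ?_ ?_
      · exact H1.Coprime2.le_normalizer_inf Subgroup.le_normalizer (by rw [Subgroup.normalizer_eq_top]; exact le_top)
      · refine le_trans ?_ (Subgroup.centralizer_le_normalizer _)
        intro w hw
        rw [mem_centralizer_iff]
        intro y hy
        exact hWc y hy.2 w hw
    exact le_top.trans h1
  have hWB : W.map π ≤ B.map π := by
    rcases hirrb _ inf_le_right hinv with h | h
    · exact absurd h hvB
    · rw [← h]; exact inf_le_left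
  have hWB' : W ≤ Φ ⊔ B := by
    have := Subgroup.comap_mono (f := π) hWB
    rw [hcm W hΦW, QuotientGroup.comap_map_mk'] at this
    exact this
  have h1 := H1.Hall.modular_law (A := W) (N := Φ) (H := B) hΦW hWB'
  have h2 := hΦ2 (W ⊓ B) inf_le_left (by rw [sup_comm]; exact h1.symm)
  rw [← h2]
  exact inf_le_right

end H26.FlavFit3
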