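import Cfsg.Agent.Lib.H26.FlavFit3

set_option autoImplicit false
set_option linter.unusedSectionVars false
set_option linter.style.haveILetI false

open Subgroup Cfsg
open scoped Pointwise commutatorElement

namespace H26.FlavFit4

universe u

variable {G : Type u} [Group G] [Finite G]

theorem map_conj_subgroupOf {X P : Subgroup G} (hP : P ≤ X) (b : X) :
    ((P.subgroupOf X).map (MulAut.conj b).toMonoidHom).map X.subtype = P.map (MulAut.conj (b : G)).toMonoidHom := by
  rw [H26.FlavFit3.map_conj_map, Subgroup.map_subgroupOf_eq_of_le hP]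
  rfl

theorem isSolvable_sup {A W : Subgroup G} (hA : Group.IsSolvable A) (hW : Group.IsSolvable W)
    (hAW : A ≤ normalizer (W : Set G)) : Group.IsSolvable ↥(A ⊔ W) := by
  have hWX : W ≤ A ⊔ W := le_sup_right
  have hXN : A ⊔ W ≤ normalizer (W : Set G) := sup_le hAW Subgroup.le_normalizer
  have hn : (W.subgroupOf (A ⊔ W)).Normal := (Subgroup.normal_subgroupOf_iff_le_normalizer hWX).mpr hXN
  have h1 : Group.IsSolvable (W.subgroupOf (A ⊔ W)) :=
    Group.isSolvable_of_surjective (f := (Subgroup.subgroupOfEquivOfLe hWX).symm.toMonoidHom)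
      (Subgroup.subgroupOfEquivOfLe hWX).symm.surjective
  have h2 : Group.IsSolvable (↥(A ⊔ W) ⧸ W.subgroupOf (A ⊔ W)) := by
    let f : A →* (↥(A ⊔ W) ⧸ W.subgroupOf (A ⊔ W)) :=
      (QuotientGroup.mk' (W.subgroupOf (A ⊔ W))).comp (Subgroup.inclusion (le_sup_left : A ≤ A ⊔ W))
    refine Group.isSolvable_of_surjective (f := f) ?_
    intro y
    obtain ⟨⟨y, hy⟩, rfl⟩ := QuotientGroup.mk'_surjective _ y
    have h3 := Subgroup.coe_mul_of_left_le_normalizer_right A W hAW
    have h4 : y ∈ (A : Set G) * (W : Set G) := by rw [← h3]; exact hy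
    obtain ⟨b, hb, w, hw, rfl⟩ := Set.mem_mul.mp h4
    refine ⟨⟨b, hb⟩, ?_⟩
    show QuotientGroup.mk' _ _ = QuotientGroup.mk' _ _
    rw [← inv_mul_eq_one, ← map_inv, ← map_mul]
    refine (QuotientGroup.eq_one_iff _).mpr ?_
    rw [mem_subgroupOf]
    show b⁻¹ * (b * w) ∈ W
    rw [inv_mul_cancel_left]
    exact hw
  exact Group.isSolvable_of_ker_le_range (W.subgroupOf (A ⊔ W)).subtype (QuotientGroup.mk' (W.subgroupOf (A ⊔ W)))
    (by rw [QuotientGroup.ker_mk', Subgroup.range_subtype])

/-- `R` centralizes every `A`-invariant `q`-subgroup. -/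
theorem key {p q : ℕ} [hp : Fact p.Prime] [hq : Fact q.Prime] (h3 : 3 < p) (P : Subgroup G) (hP : Nat.card P = p)
    (A : Subgroup G) (hAs : Group.IsSolvable A) (a : G) (haA : a ∈ A)
    (hA : A = P ⊔ P.map (MulAut.conj a).toMonoidHom)
    (hmax : ∀ B : Subgroup G, A ≤ B → Group.IsSolvable ↥B →
      (∃ b ∈ B, B = P ⊔ P.map (MulAut.conj b).toMonoidHom) → B = A)
    (R : Subgroup G) (hRA : R ≤ A) (hAR : A ≤ normalizer (R : Set G)) (hRq : (Nat.card R).Coprime q)
    (W0 : Subgroup G) (hW0 : IsPGroup q W0) (hAW0 : A ≤ normalizer (W0 : Set G)) : ⁅W0, R⁆ = ⊥ := by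
  classical
  by_contra hcon
  obtain ⟨W, hWmin⟩ := (Set.toFinite {W : Subgroup G | W ≤ W0 ∧ A ≤ normalizer (W : Set G) ∧ ⁅W, R⁆ ≠ ⊥}).exists_minimal
    ⟨W0, le_rfl, hAW0, hcon⟩
  obtain ⟨⟨hWW0, hAW, hWR⟩, hmin⟩ := hWmin
  have hWq : IsPGroup q W := hW0.to_le hWW0
  obtain ⟨h1, h2, hΦ, -, -, -⟩ := H65.HallHigman.minimal_action A R W hWq hAW hRA hAR hRq hWR (by
    intro U hU hAU
    by_contra hne
    exact hU.not_ge (hmin ⟨hU.le.trans hWW0, hAU, hne⟩ hU.le))
  have hWb : W ≠ ⊥ := by
    rintro rfl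
    exact hWR (Subgroup.commutator_bot_left _)
  have hPA : P ≤ A := by rw [hA]; exact le_sup_left
  set X := A ⊔ W with hX
  have hAX : A ≤ X := le_sup_left
  have hWX : W ≤ X := le_sup_right
  have hXN : X ≤ normalizer (W : Set G) := sup_le hAW Subgroup.le_normalizer
  have hWn : (W.subgroupOf X).Normal := (Subgroup.normal_subgroupOf_iff_le_normalizer hWX).mpr hXN
  have hmapinj : ∀ K L : Subgroup X, K.map X.subtype = L.map X.subtype → K = L :=
    fun K L h => Subgroup.map_injective X.subtype_injective h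
  have hcomm : (⁅W.subgroupOf X, W.subgroupOf X⁆).map X.subtype = ⁅W, W⁆ := by
    rw [Subgroup.map_commutator, Subgroup.map_subgroupOf_eq_of_le hWX]
  have hWs : Group.IsSolvable W := by
    have := hWq.isNilpotent
    infer_instance
  have hlift := H26.FlavFit3.lift (q := q) h3 (A.subgroupOf X) (W.subgroupOf X) (R.subgroupOf X) (P.subgroupOf X)
    (hWq.comap_subtype) (by
      intro h
      apply hWb
      rw [← Subgroup.map_subgroupOf_eq_of_le hWX, h, Subgroup.map_bot]) (by
      apply hmapinj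
      rw [Subgroup.map_sup, Subgroup.map_subgroupOf_eq_of_le hWX, Subgroup.map_subgroupOf_eq_of_le hAX,
        ← MonoidHom.range_eq_map, Subgroup.range_subtype]) (by
      exact Group.isSolvable_of_surjective (f := (Subgroup.subgroupOfEquivOfLe hAX).symm.toMonoidHom)
        (Subgroup.subgroupOfEquivOfLe hAX).symm.surjective) (by
      rw [H1.SZ.card_subgroupOf_of_le (hPA.trans hAX), hP]) ⟨a, hAX haA⟩ (mem_subgroupOf.mpr haA) (by
      apply hmapinj
      rw [Subgroup.map_sup, map_conj_subgroupOf (hPA.trans hAX), Subgroup.map_subgroupOf_eq_of_le hAX,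
        Subgroup.map_subgroupOf_eq_of_le (hPA.trans hAX)]
      exact hA) (Subgroup.comap_mono hRA) (by
      apply H1.Coprime.le_normalizer_of_conj_mem
      intro g hg r hr
      rw [mem_subgroupOf] at hg hr ⊢
      exact (Subgroup.mem_normalizer_iff.mp (hAR hg) _).mp hr) (by
      rw [H1.SZ.card_subgroupOf_of_le (hRA.trans hAX)]; exact hRq) (by
      apply hmapinj
      rw [Subgroup.map_commutator, Subgroup.map_subgroupOf_eq_of_le hWX,
        Subgroup.map_subgroupOf_eq_of_le (hRA.trans hAX), h1]) (by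
      intro w hw
      have h4 : ((w : G)) ^ q ∈ ⁅W, W⁆ := by
        rw [← hΦ]
        exact ⟨_, H1.Frat.pow_mem_frattini hWq (⟨w, hw⟩ : W), rfl⟩
      rw [← hcomm] at h4
      obtain ⟨y, hy, hyw⟩ := h4
      have : y = w ^ q := Subtype.ext hyw
      rwa [← this]) (by
      intro B hB hBW
      apply hmapinj
      rw [Subgroup.map_subgroupOf_eq_of_le hWX]
      have hBW' : B.map X.subtype ≤ W := by
        have := Subgroup.map_mono (f := X.subtype) hB
        rwa [Subgroup.map_subgroupOf_eq_of_le hWX] at this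
      have h4 : B.map X.subtype ⊔ ⁅W, W⁆ = W := by
        have := congrArg (Subgroup.map X.subtype) hBW
        rwa [Subgroup.map_sup, hcomm, Subgroup.map_subgroupOf_eq_of_le hWX] at this
      have h5 : (B.map X.subtype).subgroupOf W ⊔ frattini W = ⊤ := by
        apply Subgroup.map_injective W.subtype_injective
        rw [Subgroup.map_sup, hΦ, Subgroup.map_subgroupOf_eq_of_le hBW', h4, ← MonoidHom.range_eq_map,
          Subgroup.range_subtype]
      have h6 := frattini_nongenerating h5
      rw [Subgroup.subgroupOf_eq_top] at h6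
      exact le_antisymm hBW' h6) (by
      intro U hU hAU
      have hU1 : U.map X.subtype < W := by
        have h4 : U.map X.subtype ≤ W := by
          have := Subgroup.map_mono (f := X.subtype) hU.le
          rwa [Subgroup.map_subgroupOf_eq_of_le hWX] at this
        refine lt_of_le_of_ne h4 ?_
        intro h
        apply hU.ne
        apply hmapinj
        rw [Subgroup.map_subgroupOf_eq_of_le hWX, h]
      have h4 := h2 _ hU1 (by
        apply H1.Coprime.le_normalizer_of_conj_mem
        rintro g hg _ ⟨u, hu, rfl⟩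
        have h5 := (Subgroup.mem_normalizer_iff.mp (hAU (mem_subgroupOf.mpr hg : (⟨g, hAX hg⟩ : X) ∈ A.subgroupOf X)) _).mp hu
        exact ⟨_, h5, rfl⟩)
      rw [← hcomm] at h4
      exact (Subgroup.map_le_map_iff_of_injective X.subtype_injective).mp h4)
  obtain ⟨v, hv, hvB⟩ := hlift
  have hvW : (v : G) ∈ W := mem_subgroupOf.mp hv
  have hWB : W ≤ P ⊔ P.map (MulAut.conj ((v : G) * a)).toMonoidHom := by
    have := Subgroup.map_mono (f := X.subtype) hvB
    rw [Subgroup.map_subgroupOf_eq_of_le hWX, Subgroup.map_sup, map_conj_subgroupOf (hPA.trans hAX),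
      Subgroup.map_subgroupOf_eq_of_le (hPA.trans hAX)] at this
    exact this
  have hBX : X = P ⊔ P.map (MulAut.conj ((v : G) * a)).toMonoidHom := by
    apply le_antisymm
    · refine sup_le ?_ hWB
      conv_lhs => rw [hA]
      refine sup_le le_sup_left ?_
      refine (H26.FlavFit3.le_sup_of_conj P W hvW).trans (sup_le le_rfl hWB)
    · refine sup_le (hPA.trans hAX) ?_
      rintro _ ⟨y, hy, rfl⟩
      have h5 : (v : G) * a ∈ X := X.mul_mem (hWX hvW) (hAX haA)
      exact X.mul_mem (X.mul_mem h5 (hAX (hPA hy))) (X.inv_mem h5)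
  have hXA : X = A := hmax X hAX (isSolvable_sup hAs hWs hAW) ⟨(v : G) * a, X.mul_mem (hWX hvW) (hAX haA), hBX⟩
  have hWA : W ≤ A := hWX.trans hXA.le
  apply hWR
  rw [eq_bot_iff, ← H1.Cores.disjoint_of_isPGroup hWq hRq]
  exact le_inf (H1.Coprime2.commutator_le_left (hRA.trans hAW)) (H1.Coprime2.commutator_le_right (hWA.trans hAR))

end H26.FlavFit4
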