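import Cfsg.Agent.Lib.H26.FlavFit4
import Cfsg.Agent.Lib.H13.Cores

set_option autoImplicit false
set_option linter.unusedSectionVars false
set_option linter.style.haveILetI false

open Subgroup Cfsg
open scoped Pointwise commutatorElement

namespace H26.FlavFit5

universe u

variable {G : Type u} [Group G] [Finite G]

theorem le_centralizer_of_comm {K L : Subgroup G} (h : ⁅K, L⁆ = ⊥) : L ≤ centralizer (K : Set G) := by
  rw [Subgroup.le_centralizer_iff]
  exact (Subgroup.commutator_eq_bot_iff_le_centralizer).mp h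

theorem final (A V : Subgroup G) (hV : Group.IsNilpotent ↥V) (hAV : A ≤ normalizer (V : Set G))
    (hkey : ∀ (q : ℕ) [Fact q.Prime] (R : Subgroup G), R ≤ A → A ≤ normalizer (R : Set G) → (Nat.card R).Coprime q →
      ∀ W0 : Subgroup G, IsPGroup q W0 → A ≤ normalizer (W0 : Set G) → ⁅W0, R⁆ = ⊥) :
    Group.IsNilpotent ↥((fittingSubgroup ↥A).map A.subtype ⊔ V) := by
  set F := (fittingSubgroup ↥A).map A.subtype with hF
  set N := F ⊔ V with hN
  let Fq : ℕ → Subgroup G := fun q => (pCore q A).map A.subtype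
  let Vq : ℕ → Subgroup G := fun q => (pCore q V).map V.subtype
  have hFA : ∀ q, Fq q ≤ A := fun q => Subgroup.map_subtype_le _
  have hVV : ∀ q, Vq q ≤ V := fun q => Subgroup.map_subtype_le _
  have hFp : ∀ q, IsPGroup q (Fq q) := fun q => (H1.Cores.isPGroup_pCore q).map _
  have hVp : ∀ q, IsPGroup q (Vq q) := fun q => (H1.Cores.isPGroup_pCore q).map _
  have hFeq : F = ⨆ q : Nat.Primes, Fq q := by
    rw [hF, H1.Cores.fittingSubgroup_eq_iSup_pCore, Subgroup.map_iSup]
  have hVeq : V ≤ ⨆ q : Nat.Primes, Vq q := by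
    have hVt : Group.IsNilpotent (⊤ : Subgroup V) := inferInstance
    have h1 := H1.Cores.nilpotent_le_iSup_pCore (⊤ : Subgroup V) hVt
    have h2 := Subgroup.map_mono (f := V.subtype) h1
    rwa [← MonoidHom.range_eq_map, Subgroup.range_subtype, Subgroup.map_iSup] at h2
  have hnormF : ∀ q, A ≤ normalizer (Fq q : Set G) := by
    intro q
    have : (pCore q A).Normal := inferInstance
    exact H65.HallHigman.le_normalizer_map_char Subgroup.le_normalizer _
  have hnormV : ∀ q, normalizer (V : Set G) ≤ normalizer (Vq q : Set G) := by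
    intro q
    exact H65.HallHigman.le_normalizer_map_char le_rfl _
  have hcop : ∀ (q r : ℕ), q.Prime → r.Prime → r ≠ q → ∀ K : Subgroup G, IsPGroup r K → (Nat.card K).Coprime q := by
    intro q r hq hr hrq K hK
    have : Fact r.Prime := ⟨hr⟩
    obtain ⟨n, hn⟩ := IsPGroup.iff_card.mp hK
    rw [hn]
    exact Nat.Coprime.pow_left n ((Nat.coprime_primes hr hq).mpr hrq)
  let S : Nat.Primes → Subgroup G := fun q => Fq q ⊔ Vq q
  have hSp : ∀ q : Nat.Primes, IsPGroup q (S q) := by
    intro q
    exact IsPGroup.to_sup_of_normal_right' (hFp q) (hVp q) ((hFA q).trans (hAV.trans (hnormV q)))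
  have hFV : ∀ q r : Nat.Primes, r ≠ q → Fq r ≤ centralizer (Vq q : Set G) := by
    intro q r hrq
    have hqf : Fact (q : ℕ).Prime := ⟨q.2⟩
    exact le_centralizer_of_comm (hkey q (Fq r) (hFA r) (hnormF r)
      (hcop q r q.2 r.2 (fun h => hrq (Subtype.ext h)) _ (hFp r)) (Vq q) (hVp q) (hAV.trans (hnormV q)))
  have hFF : ∀ q r : Nat.Primes, r ≠ q → Fq r ≤ centralizer (Fq q : Set G) := by
    intro q r hrq
    have hqf : Fact (q : ℕ).Prime := ⟨q.2⟩
    apply le_centralizer_of_comm
    rw [eq_bot_iff, ← H1.Cores.disjoint_of_isPGroup (hFp q) (hcop q r q.2 r.2 (fun h => hrq (Subtype.ext h)) _ (hFp r))]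
    exact le_inf (H1.Coprime2.commutator_le_left ((hFA r).trans (hnormF q)))
      (H1.Coprime2.commutator_le_right ((hFA q).trans (hnormF r)))
  have hVVc : ∀ q r : Nat.Primes, r ≠ q → Vq r ≤ centralizer (Vq q : Set G) := by
    intro q r hrq
    have hqf : Fact (q : ℕ).Prime := ⟨q.2⟩
    apply le_centralizer_of_comm
    rw [eq_bot_iff, ← H1.Cores.disjoint_of_isPGroup (hVp q) (hcop q r q.2 r.2 (fun h => hrq (Subtype.ext h)) _ (hVp r))]
    exact le_inf (H1.Coprime2.commutator_le_left ((hVV r).trans (Subgroup.le_normalizer.trans (hnormV q))))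
      (H1.Coprime2.commutator_le_right ((hVV q).trans (Subgroup.le_normalizer.trans (hnormV r))))
  have hNS : ∀ q : Nat.Primes, N ≤ normalizer (S q : Set G) := by
    intro q
    refine sup_le ?_ (hVeq.trans ?_)
    · rw [hFeq]
      refine iSup_le fun r => ?_
      by_cases hrq : r = q
      · subst hrq
        exact (le_sup_left : Fq r ≤ S r).trans Subgroup.le_normalizer
      · refine le_trans ?_ (Subgroup.centralizer_le_normalizer _)
        rw [Subgroup.le_centralizer_iff]
        refine sup_le ?_ ?_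
        · exact Subgroup.le_centralizer_iff.mp (hFF q r hrq)
        · exact Subgroup.le_centralizer_iff.mp (hFV q r hrq)
    · refine iSup_le fun r => ?_
      by_cases hrq : r = q
      · subst hrq
        exact (le_sup_right : Vq r ≤ S r).trans Subgroup.le_normalizer
      · refine le_trans ?_ (Subgroup.centralizer_le_normalizer _)
        rw [Subgroup.le_centralizer_iff]
        refine sup_le ?_ ?_
        · exact hFV r q (Ne.symm hrq)
        · exact Subgroup.le_centralizer_iff.mp (hVVc q r hrq)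
  have hSN : ∀ q : Nat.Primes, S q ≤ N := by
    intro q
    refine sup_le ?_ ((hVV q).trans le_sup_right)
    refine le_trans ?_ (le_sup_left : F ≤ N)
    rw [hFeq]
    exact le_iSup (fun q : Nat.Primes => Fq q) q
  have htop : (⨆ q : Nat.Primes, pCore (q : ℕ) N) = ⊤ := by
    apply Subgroup.map_injective N.subtype_injective
    rw [← MonoidHom.range_eq_map, Subgroup.range_subtype]
    apply le_antisymm (Subgroup.map_subtype_le _)
    have h1 : ∀ q : Nat.Primes, S q ≤ (⨆ q : Nat.Primes, pCore (q : ℕ) N).map N.subtype := by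
      intro q
      have h2 : (S q).subgroupOf N ≤ pCore (q : ℕ) N := by
        apply H1.Cores.le_pCore
        · exact (Subgroup.normal_subgroupOf_iff_le_normalizer (hSN q)).mpr (hNS q)
        · exact (hSp q).comap_subtype
      rw [← Subgroup.map_subgroupOf_eq_of_le (hSN q)]
      exact Subgroup.map_mono (h2.trans (le_iSup (fun q : Nat.Primes => pCore (q : ℕ) N) q))
    refine sup_le ?_ (hVeq.trans ?_)
    · rw [hFeq]
      exact iSup_le fun q => (le_sup_left : Fq q ≤ S q).trans (h1 q)
    · exact iSup_le fun q => (le_sup_right : Vq q ≤ S q).trans (h1 q)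
  have h1 := H1.Cores.isNilpotent_iSup_pCore (G := N)
  rw [htop] at h1
  exact Group.nilpotent_of_mulEquiv (Subgroup.topEquiv (G := N))

theorem main {p : ℕ} [hp : Fact p.Prime] (h3 : 3 < p) (P : Subgroup G) (hP : Nat.card P = p)
    (A : Subgroup G)
    (hA : Group.IsSolvable ↥A ∧ ∃ a ∈ A, A = P ⊔ P.map (MulAut.conj a).toMonoidHom)
    (hmax : ∀ B : Subgroup G, A ≤ B → Group.IsSolvable ↥B → (∃ b ∈ B, B = P ⊔ P.map (MulAut.conj b).toMonoidHom) → B = A)
    (V : Subgroup G) (hV : Group.IsNilpotent ↥V) (hAV : A ≤ Subgroup.normalizer (V : Set G)) :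
    Group.IsNilpotent ↥((Cfsg.fittingSubgroup ↥A).map A.subtype ⊔ V) := by
  obtain ⟨hAs, a, haA, hAa⟩ := hA
  exact final A V hV hAV (fun q _ R hRA hAR hRq W0 hW0 hAW0 =>
    H26.FlavFit4.key (q := q) h3 P hP A hAs a haA hAa hmax R hRA hAR hRq W0 hW0 hAW0)

end H26.FlavFit5
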