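import Mathlib
import Cfsg.Prelude
import Cfsg.Agent.Lib.H1.Cores
import Cfsg.Agent.Lib.H1.Coprime
import Cfsg.Agent.Lib.H76.FixPt
import Cfsg.Agent.Lib.H63.SolvablePrimes
import Cfsg.Agent.Lib.H11.MinNormal
import Cfsg.Agent.Lib.H66.MinimalNormal
import Cfsg.Agent.Lib.H37.QuadCore

set_option autoImplicit false
set_option linter.unusedSectionVars false

open Subgroup Cfsg
open scoped Pointwise

namespace H26.FlavGrp

universe u

section

variable {G : Type u} [Group G] [Finite G]

theorem orderOf_eq_prime_pow {p : ℕ} [Fact p.Prime] {x : G} (hx : x ^ p = 1) :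
    ∃ k, orderOf x = p ^ k := by
  have h1 : orderOf x ∣ p ^ 1 := by rw [pow_one]; exact orderOf_dvd_of_pow_eq_one hx
  obtain ⟨k, _, hk⟩ := (Nat.dvd_prime_pow (Fact.out : p.Prime)).mp h1
  exact ⟨k, hk⟩

theorem card_eq_pow_mul {p r : ℕ} [hp : Fact p.Prime] [hr : Fact r.Prime] (L : Subgroup G) [L.Normal]
    (hL : IsPGroup r L) (x : G) (hx : x ^ p = 1) (hne : ¬ L ≤ centralizer {x}) :
    ∃ a : ℕ, 1 ≤ a ∧ Nat.card L = r ^ a * Nat.card (L ⊓ centralizer {x} : Subgroup G) ∧
      (r ≠ p → r ^ a ≡ 1 [MOD p]) ∧ p ≤ r ^ a := by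
  set D : Subgroup G := L ⊓ centralizer {x} with hD
  have hDL : D ≤ L := inf_le_left
  have h1 : Nat.card D * D.relIndex L = Nat.card L := by
    have := (D.subgroupOf L).card_mul_index
    rwa [Nat.card_congr (Subgroup.subgroupOfEquivOfLe hDL).toEquiv] at this
  obtain ⟨n, hn⟩ := IsPGroup.iff_card.mp hL
  have h2 : D.relIndex L ∣ r ^ n := by rw [← hn, ← h1]; exact dvd_mul_left _ _
  obtain ⟨a, _, ha⟩ := (Nat.dvd_prime_pow hr.out).mp h2
  have ha1 : 1 ≤ a := by
    rw [Nat.one_le_iff_ne_zero]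
    rintro rfl
    rw [pow_zero, Subgroup.relIndex_eq_one] at ha
    exact hne (ha.trans inf_le_right)
  have hmod : r ≠ p → r ^ a ≡ 1 [MOD p] := by
    intro hrp
    obtain ⟨k, hk⟩ := orderOf_eq_prime_pow hx
    have h3 := H76.FixPt.card_modEq_inf_centralizer p L x hk
    rw [← hD, ← h1, ha] at h3
    obtain ⟨m, hm⟩ := IsPGroup.iff_card.mp (hL.to_le hDL)
    have h4 : p.Coprime (Nat.card D) := by
      rw [hm]
      exact Nat.Coprime.pow_right m ((Nat.coprime_primes hp.out hr.out).mpr (Ne.symm hrp))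
    have h5 : Nat.card D * r ^ a ≡ Nat.card D * 1 [MOD p] := by rwa [mul_one]
    exact Nat.ModEq.cancel_left_of_coprime h4 h5
  refine ⟨a, ha1, by rw [← h1, ha, mul_comm], hmod, ?_⟩
  by_cases hrp : r = p
  · rw [hrp]
    exact Nat.le_self_pow (by omega) p
  · have h3 := hmod hrp
    have h4 : 1 < r ^ a := Nat.one_lt_pow (by omega) hr.out.one_lt
    have h5 : p ∣ r ^ a - 1 := (Nat.modEq_iff_dvd' h4.le).mp h3.symm
    have := Nat.le_of_dvd (by omega) h5
    omega

theorem fix_complement {p r : ℕ} [hp : Fact p.Prime] [hr : Fact r.Prime] (L M : Subgroup G) [L.Normal]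
    (hLM : L ⊔ M = ⊤) (hd : L ⊓ M = ⊥) (hL : IsPGroup r L) (x : G) (hxM : x ∈ M) (hx : x ^ p = 1)
    (hne : ¬ L ≤ centralizer {x}) : p * Nat.card {g : G // g⁻¹ * x * g ∈ M} ≤ Nat.card G := by
  obtain ⟨a, ha, hc, -, hpa⟩ := card_eq_pow_mul L hL x hx hne
  have hcomp : L.IsComplement' M := by
    apply Subgroup.isComplement'_of_disjoint_and_mul_eq_univ (disjoint_iff.mpr hd)
    rw [Set.eq_univ_iff_forall]
    intro g
    have hg : g ∈ L ⊔ M := by rw [hLM]; exact mem_top g
    obtain ⟨y, hy, z, hz, h⟩ := Subgroup.mem_sup_of_normal_left.mp hg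
    exact ⟨y, hy, z, hz, h⟩
  have hcard : Nat.card L * Nat.card M = Nat.card G := hcomp.card_mul_card
  have hex : ∀ g : {g : G // g⁻¹ * x * g ∈ M}, ∃ y : (L ⊓ centralizer {x} : Subgroup G) × M,
      (y.1 : G) * (y.2 : G) = g.1 := by
    rintro ⟨g, hg⟩
    have hg' : g ∈ L ⊔ M := by rw [hLM]; exact mem_top g
    obtain ⟨y, hy, z, hz, rfl⟩ := Subgroup.mem_sup_of_normal_left.mp hg'
    have h1 : y⁻¹ * x * y ∈ M := by
      have h2 := M.mul_mem (M.mul_mem hz hg) (M.inv_mem hz)
      have : z * ((y * z)⁻¹ * x * (y * z)) * z⁻¹ = y⁻¹ * x * y := by group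
      rwa [this] at h2
    have h2 : y⁻¹ * x * y * x⁻¹ ∈ L ⊓ M := by
      refine Subgroup.mem_inf.mpr ⟨?_, M.mul_mem h1 (M.inv_mem hxM)⟩
      have h3 : x * y * x⁻¹ ∈ L := Subgroup.Normal.conj_mem inferInstance y hy x
      have := L.mul_mem (L.inv_mem hy) h3
      have e : y⁻¹ * (x * y * x⁻¹) = y⁻¹ * x * y * x⁻¹ := by group
      rwa [e] at this
    rw [hd, Subgroup.mem_bot] at h2
    have h3 : y * x = x * y := by
      have h4 : y⁻¹ * x * y = x := by rwa [mul_inv_eq_one] at h2
      calc y * x = y * (y⁻¹ * x * y) := by rw [h4]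
        _ = x * y := by group
    exact ⟨⟨⟨y, Subgroup.mem_inf.mpr ⟨hy, Subgroup.mem_centralizer_singleton_iff.mpr h3⟩⟩, ⟨z, hz⟩⟩, rfl⟩
  choose f hf using hex
  have hinj : Function.Injective f := by
    intro g g' h
    apply Subtype.ext
    rw [← hf g, ← hf g', h]
  have h1 := Nat.card_le_card_of_injective f hinj
  rw [Nat.card_prod] at h1
  calc p * Nat.card {g : G // g⁻¹ * x * g ∈ M}
      ≤ r ^ a * (Nat.card (L ⊓ centralizer {x} : Subgroup G) * Nat.card M) := Nat.mul_le_mul hpa h1
    _ = Nat.card G := by rw [← mul_assoc, ← hc, hcard]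

theorem quot_step {p : ℕ} (C : Subgroup G) [C.Normal] (H : Subgroup G) (hC : C ≤ H) (x : G)
    (h : p * Nat.card {g : G ⧸ C // g⁻¹ * QuotientGroup.mk' C x * g ∈ H.map (QuotientGroup.mk' C)} ≤
      Nat.card (G ⧸ C)) : p * Nat.card {g : G // g⁻¹ * x * g ∈ H} ≤ Nat.card G := by
  have h1 := QuotientGroup.card_preimage_mk C
    {g : G ⧸ C | g⁻¹ * QuotientGroup.mk' C x * g ∈ H.map (QuotientGroup.mk' C)}
  have h2 : Nat.card {g : G // g⁻¹ * x * g ∈ H} = Nat.card ↑((QuotientGroup.mk : G → G ⧸ C) ⁻¹'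
      {g : G ⧸ C | g⁻¹ * QuotientGroup.mk' C x * g ∈ H.map (QuotientGroup.mk' C)}) := by
    apply Nat.card_congr
    apply Equiv.subtypeEquivRight
    intro g
    rw [Set.mem_preimage, Set.mem_ofPred_eq]
    have e : ((g : G ⧸ C))⁻¹ * QuotientGroup.mk' C x * (g : G ⧸ C) = QuotientGroup.mk' C (g⁻¹ * x * g) := by
      rw [map_mul, map_mul, map_inv]; rfl
    rw [e]
    have e2 : H = (H.map (QuotientGroup.mk' C)).comap (QuotientGroup.mk' C) := by
      rw [QuotientGroup.comap_map_mk', sup_eq_right.mpr hC]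
    constructor
    · intro h; exact Subgroup.mem_map_of_mem _ h
    · intro h
      rw [e2]
      exact h
  rw [h2, h1]
  have h3 : Nat.card G = Nat.card (G ⧸ C) * Nat.card C := C.card_eq_card_quotient_mul_card_subgroup
  rw [h3]
  calc p * (Nat.card C * Nat.card ↑{g : G ⧸ C | g⁻¹ * QuotientGroup.mk' C x * g ∈ H.map (QuotientGroup.mk' C)})
      = (p * Nat.card ↑{g : G ⧸ C | g⁻¹ * QuotientGroup.mk' C x * g ∈ H.map (QuotientGroup.mk' C)}) *
        Nat.card C := by ring
    _ ≤ _ := Nat.mul_le_mul_right _ h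

end

/-- solvable, generated by the conjugates of `x`: for a proper subgroup `H` at most one `p`-th of the
elements conjugate `x` into `H`. -/
theorem fix_bound {p : ℕ} [hp : Fact p.Prime] (n : ℕ) : ∀ (G : Type u) [Group G] [Finite G],
    Nat.card G = n → Group.IsSolvable G → ∀ x : G, x ^ p = 1 → normalClosure ({x} : Set G) = ⊤ →
    ∀ H : Subgroup G, H ≠ ⊤ → p * Nat.card {g : G // g⁻¹ * x * g ∈ H} ≤ Nat.card G := by
  induction n using Nat.strong_induction_on with
  | _ n ih =>
  intro G _ _ hn hs x hx hgen H hH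
  -- reduction to a quotient
  have hquot : ∀ (C : Subgroup G) [C.Normal], C ≠ ⊥ → ∀ H : Subgroup G, H ≠ ⊤ → C ≤ H →
      p * Nat.card {g : G // g⁻¹ * x * g ∈ H} ≤ Nat.card G := by
    intro C _ hC H hH hCH
    apply quot_step C H hCH x
    have hlt : Nat.card (G ⧸ C) < n := by
      rw [← hn, C.card_eq_card_quotient_mul_card_subgroup]
      have h1 : 1 < Nat.card C := (Subgroup.one_lt_card_iff_ne_bot C).mpr hC
      have h2 : 0 < Nat.card (G ⧸ C) := Nat.card_pos
      nlinarith
    refine ih _ hlt (G ⧸ C) rfl (Group.isSolvable_of_surjective (f := QuotientGroup.mk' C)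
      (QuotientGroup.mk'_surjective C)) _ ?_ ?_ _ ?_
    · rw [← map_pow, hx, map_one]
    · have h1 := Subgroup.map_normalClosure ({x} : Set G) (QuotientGroup.mk' C) (QuotientGroup.mk'_surjective C)
      rw [hgen, Set.image_singleton] at h1
      rw [← h1, eq_top_iff]
      intro g _
      obtain ⟨g, rfl⟩ := QuotientGroup.mk'_surjective C g
      exact ⟨g, mem_top g, rfl⟩
    · intro h
      apply hH
      have e2 : H = (H.map (QuotientGroup.mk' C)).comap (QuotientGroup.mk' C) := by
        rw [QuotientGroup.comap_map_mk', sup_eq_right.mpr hCH]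
      rw [e2, h, Subgroup.comap_top]
  -- main case
  have hmain : ∀ H : Subgroup G, H ≠ ⊤ → x ∈ H → p * Nat.card {g : G // g⁻¹ * x * g ∈ H} ≤ Nat.card G := by
    intro H hH hxH
    have hnt : Nontrivial G := by
      by_contra hcon
      rw [not_nontrivial_iff_subsingleton] at hcon
      exact hH (Subsingleton.elim _ _)
    obtain ⟨r, hr, L, hLn, hLb, hLr, hLc⟩ := H63.SolvablePrimes.exists_normal_elementary hs
    have : Fact r.Prime := ⟨hr⟩
    have hLp : IsPGroup r L := fun y => ⟨1, by
      apply Subtype.ext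
      rw [pow_one]
      exact hLr y y.2⟩
    by_cases hLH : L ⊔ H = ⊤
    · have hCn : (L ⊓ H).Normal := by
        rw [← Subgroup.normalizer_eq_top_iff, eq_top_iff, ← hLH]
        refine sup_le ?_ ?_
        · refine le_trans ?_ (Subgroup.centralizer_le_normalizer _)
          intro a ha
          rw [Subgroup.mem_centralizer_iff]
          intro b hb
          exact hLc b hb.1 a ha
        · intro h hh
          rw [Subgroup.mem_normalizer_iff]
          intro g
          rw [Subgroup.mem_inf, Subgroup.mem_inf]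
          have h1 : g ∈ L ↔ h * g * h⁻¹ ∈ L := by
            have hLn' : h ∈ normalizer (L : Set G) := by
              rw [Subgroup.normalizer_eq_top]; exact mem_top h
            exact Subgroup.mem_normalizer_iff.mp hLn' g
          have h2 : g ∈ H ↔ h * g * h⁻¹ ∈ H :=
            Subgroup.mem_normalizer_iff.mp (Subgroup.le_normalizer hh) g
          rw [h1, h2]
      by_cases hCb : L ⊓ H = ⊥
      · by_cases hLx : L ≤ centralizer {x}
        · exfalso
          have h1 : centralizer (L : Set G) = ⊤ := by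
            have hn : (centralizer (L : Set G)).Normal := inferInstance
            rw [eq_top_iff, ← hgen]
            apply Subgroup.normalClosure_le_normal
            rw [Set.singleton_subset_iff, SetLike.mem_coe, Subgroup.mem_centralizer_iff]
            intro l hl
            exact (Subgroup.mem_centralizer_singleton_iff.mp (hLx hl))
          have hHn : H.Normal := by
            rw [← Subgroup.normalizer_eq_top_iff, eq_top_iff, ← hLH]
            refine sup_le ?_ Subgroup.le_normalizer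
            refine le_trans ?_ (Subgroup.centralizer_le_normalizer _)
            rw [Subgroup.le_centralizer_iff, h1]
            exact le_top
          apply hH
          rw [eq_top_iff, ← hgen]
          apply Subgroup.normalClosure_le_normal
          rw [Set.singleton_subset_iff]
          exact hxH
        · exact fix_complement L H hLH hCb hLp x hxH hx hLx
      · exact hquot (L ⊓ H) hCb H hH inf_le_right
    · refine le_trans ?_ (hquot L hLb (L ⊔ H) hLH le_sup_left)
      apply Nat.mul_le_mul_left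
      apply Nat.card_le_card_of_injective
        (fun g : {g : G // g⁻¹ * x * g ∈ H} => (⟨g.1, (le_sup_right : H ≤ L ⊔ H) g.2⟩ :
          {g : G // g⁻¹ * x * g ∈ L ⊔ H}))
      intro g g' h
      exact Subtype.ext (Subtype.mk.inj h)
  by_cases hF : ∃ g : G, g⁻¹ * x * g ∈ H
  · obtain ⟨g0, hg0⟩ := hF
    set H' : Subgroup G := H.map (MulAut.conj g0).toMonoidHom with hH'
    have hmem : ∀ y : G, y ∈ H' ↔ g0⁻¹ * y * g0 ∈ H := by
      intro y
      rw [hH', Subgroup.mem_map]
      constructor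
      · rintro ⟨z, hz, rfl⟩
        simpa [mul_assoc] using hz
      · intro h
        exact ⟨_, h, by simp [mul_assoc]⟩
    have hH't : H' ≠ ⊤ := by
      intro h
      apply hH
      rw [eq_top_iff]
      intro y _
      have h1 : g0 * y * g0⁻¹ ∈ H' := by rw [h]; exact mem_top _
      rw [hmem] at h1
      simpa [mul_assoc] using h1
    have h1 := hmain H' hH't ((hmem x).mpr hg0)
    have h2 : Nat.card {g : G // g⁻¹ * x * g ∈ H} = Nat.card {g : G // g⁻¹ * x * g ∈ H'} := by
      apply Nat.card_congr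
      refine (Equiv.mulRight g0⁻¹).subtypeEquiv ?_
      intro g
      rw [hmem, Equiv.coe_mulRight]
      have : g0⁻¹ * ((g * g0⁻¹)⁻¹ * x * (g * g0⁻¹)) * g0 = g⁻¹ * x * g := by group
      rw [this]
    rw [h2]
    exact h1
  · have : IsEmpty {g : G // g⁻¹ * x * g ∈ H} := ⟨fun g => hF ⟨g.1, g.2⟩⟩
    rw [Nat.card_of_isEmpty, mul_zero]
    exact Nat.zero_le _

/-- transitive form -/
theorem fixedBy_bound {p : ℕ} [hp : Fact p.Prime] {G : Type u} [Group G] [Finite G] (hs : Group.IsSolvable G)
    {x : G} (hx : x ^ p = 1) (hgen : normalClosure ({x} : Set G) = ⊤) {α : Type*} [MulAction G α] [Finite α]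
    [MulAction.IsPretransitive G α] [Nontrivial α] :
    p * Nat.card {a : α // x • a = a} ≤ Nat.card α := by
  classical
  obtain ⟨a0⟩ : Nonempty α := inferInstance
  set H := MulAction.stabilizer G a0 with hH
  have hHt : H ≠ ⊤ := by
    intro h
    obtain ⟨b, hb⟩ := exists_ne a0
    obtain ⟨g, hg⟩ := MulAction.exists_smul_eq G a0 b
    have h1 : g ∈ H := by rw [h]; exact mem_top g
    rw [hH, MulAction.mem_stabilizer_iff] at h1
    exact hb (by rw [← hg, h1])
  have h1 := fix_bound (p := p) _ G rfl hs x hx hgen H hHt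
  let e : G ⧸ H ≃ α := (MulAction.orbitEquivQuotientStabilizer G a0).symm.trans
    ((Equiv.setCongr (MulAction.orbit_eq_univ G a0)).trans (Equiv.Set.univ α))
  have he : ∀ g : G, e (g : G ⧸ H) = g • a0 := by
    intro g
    rfl
  have h2 := QuotientGroup.card_preimage_mk H {q : G ⧸ H | x • e q = e q}
  have h3 : Nat.card {g : G // g⁻¹ * x * g ∈ H} = Nat.card ↑((QuotientGroup.mk : G → G ⧸ H) ⁻¹'
      {q : G ⧸ H | x • e q = e q}) := by
    apply Nat.card_congr
    apply Equiv.subtypeEquivRight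
    intro g
    rw [Set.mem_preimage, Set.mem_ofPred_eq, he, hH, MulAction.mem_stabilizer_iff, mul_assoc, mul_smul,
      inv_smul_eq_iff, mul_smul]
  have h4 : Nat.card ↑{q : G ⧸ H | x • e q = e q} = Nat.card {a : α // x • a = a} :=
    Nat.card_congr (e.subtypeEquiv (fun q => Iff.rfl))
  have h5 : Nat.card G = Nat.card α * Nat.card H := by
    rw [H.card_eq_card_quotient_mul_card_subgroup, Nat.card_congr e]
  rw [h3, h2, h4, h5, mul_comm (Nat.card H), ← mul_assoc] at h1
  exact Nat.le_of_mul_le_mul_right h1 Nat.card_pos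

end H26.FlavGrp
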