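import Cfsg.Agent.Lib.H26.FlavGrp
import Cfsg.Agent.Lib.H39.NPS
import Cfsg.Agent.Lib.H65.PBasic2

set_option autoImplicit false
set_option linter.unusedSectionVars false

open Subgroup Cfsg
open scoped Pointwise commutatorElement

namespace H26.FlavGrp2

universe u

variable {G : Type u} [Group G] [Finite G]

theorem mem_centralizer_of_quad {p : ℕ} [hp : Fact p.Prime] (h5 : 5 ≤ p) (hG : IsPSolvable p G)
    (N : Subgroup G) [hNn : N.Normal] (hN : N ≠ ⊥) (hmin : ∀ K : Subgroup G, K.Normal → K ≤ N → K = ⊥ ∨ K = N)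
    (hel : IsElementaryAbelian p N) {a : G} (ha : ⁅⁅N, zpowers a⁆, zpowers a⁆ = ⊥) :
    a ∈ centralizer (N : Set G) := by
  have hst := (H13.QStable.isActionPStable (H13.QStable.good_pSolvable h5) hG).1 N hel a ha
  set C := centralizer (N : Set G) with hC
  set K := (pCore p (G ⧸ C)).comap (QuotientGroup.mk' C) with hK
  have haK : a ∈ K := hst
  have hKp : ∀ k ∈ K, ∃ j : ℕ, k ^ p ^ j ∈ centralizer (N : Set G) := by
    intro k hk
    obtain ⟨j, hj⟩ := H1.Cores.isPGroup_pCore (G := G ⧸ C) p ⟨QuotientGroup.mk' C k, hk⟩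
    refine ⟨j, ?_⟩
    have h1 : QuotientGroup.mk' C (k ^ p ^ j) = 1 := by
      rw [map_pow]
      exact congrArg Subtype.val hj
    exact (QuotientGroup.eq_one_iff _).mp h1
  have hNp : IsPGroup p N := fun y => ⟨1, by
    apply Subtype.ext
    rw [pow_one]
    exact hel.2 y y.2⟩
  have hKn : K.Normal := by rw [hK]; infer_instance
  have h1 := H39.NPS.inf_centralizer_ne_bot hNp hN hKp
  rcases hmin (N ⊓ centralizer (K : Set G)) inferInstance inf_le_left with h2 | h2
  · exact absurd h2 h1
  · have h3 : N ≤ centralizer (K : Set G) := by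
      rw [← h2]; exact inf_le_right
    exact (Subgroup.le_centralizer_iff.mp h3) haK

/-- prime index of the fixed points of `x` in an abelian normal `p`-subgroup gives a quadratic action -/
theorem quad_of_index {p : ℕ} [hp : Fact p.Prime] (N : Subgroup G) [hNn : N.Normal]
    (hc : ∀ a ∈ N, ∀ b ∈ N, a * b = b * a) {x : G} (hx : x ^ p = 1)
    (hidx : Nat.card N = p * Nat.card (N ⊓ centralizer {x} : Subgroup G)) :
    ⁅⁅N, zpowers x⁆, zpowers x⁆ = ⊥ := by
  have h1 := H76.FixPt.card_centralizer_mul_card_range N hc x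
  set φ := H76.FixPt.commHom N hc x with hφ
  have hφv : ∀ a : N, ((φ a : N) : G) = (a : G)⁻¹ * (x * a * x⁻¹) := fun a => rfl
  set R : Subgroup G := φ.range.map N.subtype with hR
  have hRN : R ≤ N := Subgroup.map_subtype_le _
  have hRc : Nat.card R = p := by
    rw [hR, Subgroup.card_map_of_injective N.subtype_injective]
    have h2 : Nat.card (N ⊓ centralizer {x} : Subgroup G) * Nat.card φ.range =
        Nat.card (N ⊓ centralizer {x} : Subgroup G) * p := by
      rw [h1, hidx, mul_comm]
    exact Nat.eq_of_mul_eq_mul_left Nat.card_pos h2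
  have hxR : zpowers x ≤ normalizer (R : Set G) := by
    have h3 : ∀ y ∈ R, x * y * x⁻¹ ∈ R := by
      rintro _ ⟨_, ⟨a, rfl⟩, rfl⟩
      refine ⟨φ ⟨x * a * x⁻¹, hNn.conj_mem a a.2 x⟩, ⟨_, rfl⟩, ?_⟩
      show ((φ ⟨x * a * x⁻¹, hNn.conj_mem a a.2 x⟩ : N) : G) = x * ((φ a : N) : G) * x⁻¹
      rw [hφv, hφv]
      show (x * (a : G) * x⁻¹)⁻¹ * (x * (x * a * x⁻¹) * x⁻¹) = _
      group
    rw [Subgroup.zpowers_le]
    rw [Subgroup.mem_normalizer_iff]
    intro y
    refine ⟨h3 y, ?_⟩
    -- finite order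
    intro hy
    have h4 : ∀ k : ℕ, ∀ y ∈ R, x ^ k * y * (x ^ k)⁻¹ ∈ R := by
      intro k
      induction k with
      | zero => intro y hy; simpa using hy
      | succ k ih =>
        intro y hy
        have h5 := h3 _ (ih y hy)
        have : x * (x ^ k * y * (x ^ k)⁻¹) * x⁻¹ = x ^ (k + 1) * y * (x ^ (k + 1))⁻¹ := by
          rw [pow_succ']; group
        rwa [this] at h5
    have h5 := h4 (p - 1) _ hy
    have h6 : x ^ (p - 1) * x = 1 := by
      rw [← pow_succ, Nat.sub_add_cancel hp.out.one_lt.le, hx]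
    have h7 : x ^ (p - 1) * (x * y * x⁻¹) * (x ^ (p - 1))⁻¹ = y := by
      have h8 : x ^ (p - 1) = x⁻¹ := mul_eq_one_iff_eq_inv.mp h6
      rw [h8]; group
    rwa [h7] at h5
  have hZp : IsPGroup p (zpowers x) := by
    obtain ⟨k, hk⟩ := H26.FlavGrp.orderOf_eq_prime_pow hx
    exact IsPGroup.of_card (n := k) (by rw [Nat.card_zpowers, hk])
  have hRx : R ≤ centralizer {x} := by
    have h3 := H65.PBasic2.card_modEq_card_inf_centralizer (zpowers x) R hZp hxR
    have h4 : p ∣ Nat.card (R ⊓ centralizer ((zpowers x : Subgroup G) : Set G) : Subgroup G) := by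
      rw [hRc] at h3
      have h5 : Nat.card (R ⊓ centralizer ((zpowers x : Subgroup G) : Set G) : Subgroup G) ≡ 0 [MOD p] := by
        refine h3.symm.trans ?_
        exact (Nat.modEq_zero_iff_dvd.mpr dvd_rfl)
      exact Nat.modEq_zero_iff_dvd.mp h5
    have h5 : R ⊓ centralizer ((zpowers x : Subgroup G) : Set G) = R := by
      apply Subgroup.eq_of_le_of_card_ge inf_le_left
      rw [hRc]
      exact Nat.le_of_dvd Nat.card_pos h4
    rw [← h5]
    refine inf_le_right.trans ?_
    apply Subgroup.centralizer_le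
    rw [Set.singleton_subset_iff]
    exact mem_zpowers x
  set D : Subgroup G := N ⊓ centralizer {x} with hD
  have hRD : R ≤ D := le_inf hRN hRx
  have hcomm : ∀ a ∈ N, ∀ k : ℕ, ⁅a, x ^ k⁆ ∈ D := by
    intro a ha k
    have h0 : ⁅a, x⁆ ∈ D := by
      have h3 : (φ ⟨a, ha⟩ : G) ∈ D := hRD ⟨φ ⟨a, ha⟩, ⟨_, rfl⟩, rfl⟩
      rw [hφv] at h3
      -- ⁅a, x⁆ = a * x * a⁻¹ * x⁻¹
      have h4 : ((φ ⟨a⁻¹, N.inv_mem ha⟩ : N) : G) ∈ D := hRD ⟨φ ⟨a⁻¹, N.inv_mem ha⟩, ⟨_, rfl⟩, rfl⟩
      rw [hφv] at h4
      have e : ⁅a, x⁆ = (a⁻¹)⁻¹ * (x * a⁻¹ * x⁻¹) := by rw [commutatorElement_def]; group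
      rw [e]
      exact h4
    induction k with
    | zero => rw [pow_zero, commutatorElement_one_right]; exact one_mem _
    | succ k ih =>
      have e : ⁅a, x ^ (k + 1)⁆ = ⁅a, x ^ k⁆ * (x ^ k * ⁅a, x⁆ * (x ^ k)⁻¹) := by
        rw [pow_succ, commutatorElement_def, commutatorElement_def, commutatorElement_def]; group
      have h3 : x ^ k * ⁅a, x⁆ * (x ^ k)⁻¹ = ⁅a, x⁆ := by
        have h4 : Commute ⁅a, x⁆ x := Subgroup.mem_centralizer_singleton_iff.mp (Subgroup.mem_inf.mp h0).2
        rw [← (h4.pow_right k).eq, mul_inv_cancel_right]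
      rw [e, h3]
      exact D.mul_mem ih h0
  rw [eq_bot_iff]
  have h2 : ⁅N, zpowers x⁆ ≤ D := by
    rw [Subgroup.commutator_le]
    intro a ha y hy
    rw [← mem_powers_iff_mem_zpowers] at hy
    obtain ⟨k, rfl⟩ := hy
    exact hcomm a ha k
  refine (Subgroup.commutator_mono h2 le_rfl).trans ?_
  rw [Subgroup.commutator_le]
  intro a ha y hy
  rw [Subgroup.mem_bot, commutatorElement_eq_one_iff_mul_comm]
  obtain ⟨k, rfl⟩ := Subgroup.mem_zpowers_iff.mp hy
  have h4 : Commute a x := Subgroup.mem_centralizer_singleton_iff.mp (Subgroup.mem_inf.mp ha).2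
  exact (h4.zpow_right k).eq

theorem arith1 {p I : ℕ} (h5 : 5 ≤ p) (h : p * p ≤ I) : 4 * (I + (p - 1)) ≤ p * I := by
  obtain ⟨q, rfl⟩ : ∃ q, p = q + 5 := ⟨p - 5, by omega⟩
  have e : q + 5 - 1 = q + 4 := by omega
  rw [e]
  nlinarith

theorem arith2 {p I : ℕ} (h7 : 7 ≤ p) (h : p + 1 ≤ I) : 4 * (I + (p - 1)) ≤ p * I := by
  obtain ⟨q, rfl⟩ : ∃ q, p = q + 7 := ⟨p - 7, by omega⟩
  have e : q + 7 - 1 = q + 6 := by omega
  rw [e]
  nlinarith

theorem pow_ne_six {r a : ℕ} (hr : r.Prime) : r ^ a ≠ 6 := by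
  intro h
  have h2 : 2 ∣ r ^ a := by rw [h]; norm_num
  have h3 : 3 ∣ r ^ a := by rw [h]; norm_num
  have h2' := (Nat.prime_dvd_prime_iff_eq Nat.prime_two hr).mp (Nat.prime_two.dvd_of_dvd_pow h2)
  have h3' := (Nat.prime_dvd_prime_iff_eq Nat.prime_three hr).mp (Nat.prime_three.dvd_of_dvd_pow h3)
  omega

theorem pow_ne_eleven {r a : ℕ} (hr : r.Prime) (ha : 2 ≤ a) : r ^ a ≠ 11 := by
  intro h
  have h2 : r ∣ 11 := by rw [← h]; exact dvd_pow_self r (by omega)
  have h3 : r = 11 := (Nat.prime_dvd_prime_iff_eq hr (by norm_num)).mp h2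
  subst h3
  have : 11 ^ 2 ≤ 11 ^ a := Nat.pow_le_pow_right (by norm_num) ha
  omega

/-- the structure used in the homogeneous case -/
theorem struct {p : ℕ} [hp : Fact p.Prime] (h5 : 5 ≤ p) (hs : Group.IsSolvable G) {x : G} (hx : x ^ p = 1)
    (hgen : normalClosure ({x} : Set G) = ⊤) (Z : Subgroup G) [hZn : Z.Normal] (hZc : Z ≤ center G)
    (hab : ∀ A : Subgroup G, A.Normal → (∀ a ∈ A, ∀ b ∈ A, a * b = b * a) → A ≤ Z) (hZ : Z ≠ ⊤) :
    ∃ N : Subgroup (G ⧸ Z), N.Normal ∧ (∀ a ∈ N, ∀ b ∈ N, a * b = b * a) ∧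
      (∃ r : ℕ, r.Prime ∧ IsPGroup r N ∧ ∀ a ∈ N, a ^ r = 1) ∧ N ≠ ⊥ ∧
      4 * (Nat.card N + (p - 1) * Nat.card (N ⊓ centralizer {QuotientGroup.mk' Z x} : Subgroup (G ⧸ Z))) ≤
        p * Nat.card N := by
  classical
  set π := QuotientGroup.mk' Z with hπ
  have hπs : Function.Surjective π := QuotientGroup.mk'_surjective Z
  have hker : ∀ g : G, π g = 1 ↔ g ∈ Z := fun g => QuotientGroup.eq_one_iff g
  have hnt : Nontrivial (G ⧸ Z) := by
    rw [← not_subsingleton_iff_nontrivial]
    intro hsub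
    apply hZ
    rw [eq_top_iff]
    intro g _
    exact (hker g).mp (Subsingleton.elim _ _)
  have hsq : Group.IsSolvable (G ⧸ Z) := Group.isSolvable_of_surjective (f := π) hπs
  obtain ⟨N, hN⟩ := H66.MinimalNormal.exists_isMinimalNormal (G := G ⧸ Z)
  obtain ⟨hNn, hNb, hNmin⟩ := hN
  obtain ⟨hNc, r, hr, hNr, hNe⟩ := H11.MinNormal.minimal_normal_abelian hsq N hNb hNmin
  have hc : ∀ a ∈ N, ∀ b ∈ N, a * b = b * a := by
    intro a ha b hb
    exact congrArg Subtype.val (hNc.is_comm.comm (⟨a, ha⟩ : N) ⟨b, hb⟩)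
  have hrf : Fact r.Prime := ⟨hr⟩
  refine ⟨N, hNn, hc, ⟨r, hr, hNr, hNe⟩, hNb, ?_⟩
  have hxb : (π x) ^ p = 1 := by rw [← map_pow, hx, map_one]
  have hgenb : normalClosure ({π x} : Set (G ⧸ Z)) = ⊤ := by
    have h1 := Subgroup.map_normalClosure ({x} : Set G) π hπs
    rw [hgen, Set.image_singleton] at h1
    rw [← h1, eq_top_iff]
    intro g _
    obtain ⟨g, rfl⟩ := hπs g
    exact ⟨g, mem_top g, rfl⟩
  -- `x` does not centralize `N`
  have hne : ¬ N ≤ centralizer {π x} := by
    intro hle
    have h1 : centralizer (N : Set (G ⧸ Z)) = ⊤ := by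
      have hn : (centralizer (N : Set (G ⧸ Z))).Normal := inferInstance
      rw [eq_top_iff, ← hgenb]
      apply Subgroup.normalClosure_le_normal
      rw [Set.singleton_subset_iff, SetLike.mem_coe, Subgroup.mem_centralizer_iff]
      intro l hl
      exact (Subgroup.mem_centralizer_singleton_iff.mp (hle hl))
    obtain ⟨⟨n, hnN⟩, hn1⟩ := Subgroup.ne_bot_iff_exists_ne_one.mp hNb
    obtain ⟨n, rfl⟩ := hπs n
    have hcen : π n ∈ center (G ⧸ Z) := by
      rw [Subgroup.mem_center_iff]
      intro g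
      have : g ∈ centralizer (N : Set (G ⧸ Z)) := by rw [h1]; exact mem_top g
      exact (Subgroup.mem_centralizer_iff.mp this _ hnN).symm
    have hAn : ((zpowers (π n)).comap π).Normal := by
      have : (zpowers (π n)).Normal := by
        refine ⟨fun y hy g => ?_⟩
        have hyc : y ∈ center (G ⧸ Z) := (zpowers_le.mpr hcen) hy
        rw [Subgroup.mem_center_iff] at hyc
        rwa [hyc g, mul_inv_cancel_right]
      infer_instance
    have hA : (zpowers (π n)).comap π ≤ Z := by
      apply hab _ hAn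
      have hform : ∀ a ∈ (zpowers (π n)).comap π, ∃ k : ℤ, ∃ z ∈ Z, a = n ^ k * z := by
        intro a ha
        obtain ⟨k, hk⟩ := Subgroup.mem_zpowers_iff.mp (Subgroup.mem_comap.mp ha)
        refine ⟨k, (n ^ k)⁻¹ * a, ?_, by group⟩
        rw [← hker, map_mul, map_inv, map_zpow, hk, inv_mul_cancel]
      intro a ha b hb
      obtain ⟨k, z, hz, rfl⟩ := hform a ha
      obtain ⟨l, w, hw, rfl⟩ := hform b hb
      have hz' := Subgroup.mem_center_iff.mp (hZc hz)
      have hw' := Subgroup.mem_center_iff.mp (hZc hw)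
      calc n ^ k * z * (n ^ l * w) = n ^ k * (z * n ^ l) * w := by group
        _ = n ^ k * (n ^ l * z) * w := by rw [hz' (n ^ l)]
        _ = n ^ l * n ^ k * (z * w) := by
            rw [← mul_assoc, ← zpow_add, add_comm k l, zpow_add]; group
        _ = n ^ l * n ^ k * (w * z) := by rw [hz' w]
        _ = n ^ l * (n ^ k * w) * z := by group
        _ = n ^ l * (w * n ^ k) * z := by rw [hw' (n ^ k)]
        _ = n ^ l * w * (n ^ k * z) := by group
    apply hn1
    apply Subtype.ext
    show π n = 1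
    rw [hker]
    exact hA (Subgroup.mem_comap.mpr (mem_zpowers _))
  obtain ⟨a, ha1, hcard, hmod, hpa⟩ := H26.FlavGrp.card_eq_pow_mul N hNr (π x) hxb hne
  set D : Subgroup (G ⧸ Z) := N ⊓ centralizer {π x} with hD
  -- the index is not a prime
  have ha2 : a ≠ 1 := by
    rintro rfl
    rw [pow_one] at hcard hmod
    by_cases hrp : r = p
    · subst hrp
      have hq := quad_of_index N hc hxb hcard
      have hps := H37.QuadCore.isPSolvable_of_isSolvable r _ (G ⧸ Z) hsq rfl
      have h1 := mem_centralizer_of_quad h5 hps N hNb hNmin ⟨hNc, hNe⟩ hq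
      apply hne
      intro n hn
      rw [Subgroup.mem_centralizer_singleton_iff]
      exact Subgroup.mem_centralizer_iff.mp h1 n hn
    · -- the symplectic argument
      obtain ⟨n, hnN, hnx⟩ := Set.not_subset.mp hne
      obtain ⟨n, rfl⟩ := hπs n
      set c : G := x * n * x⁻¹ * n⁻¹ with hcdef
      have hcN : π c ∈ N := by
        rw [hcdef, map_mul, map_mul, map_mul, map_inv, map_inv]
        exact N.mul_mem (hNn.conj_mem _ hnN _) (N.inv_mem hnN)
      have hNcomm : ∀ u v : G, π u ∈ N → π v ∈ N → u * v * u⁻¹ * v⁻¹ ∈ Z := by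
        intro u v hu hv
        rw [← hker, map_mul, map_mul, map_mul, map_inv, map_inv, hc _ hu _ hv]
        group
      -- `c` is not fixed by `x`
      have hcD : π c ∉ D := by
        intro h
        have h1 := Subgroup.mem_centralizer_singleton_iff.mp (Subgroup.mem_inf.mp h).2
        have h2 : ∀ k : ℕ, (π x) ^ k * π n * ((π x) ^ k)⁻¹ = (π c) ^ k * π n := by
          intro k
          induction k with
          | zero => simp
          | succ k ih =>
            have e1 : (π x) ^ (k + 1) * π n * ((π x) ^ (k + 1))⁻¹ =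
                π x * ((π x) ^ k * π n * ((π x) ^ k)⁻¹) * (π x)⁻¹ := by rw [pow_succ']; group
            have e2 : π x * (π c) ^ k = (π c) ^ k * π x := by
              have : Commute (π c) (π x) := h1
              exact (this.symm.pow_right k).eq
            have e3 : π x * π n * (π x)⁻¹ = π c * π n := by
              rw [hcdef]; simp [mul_assoc]
            rw [e1, ih]
            calc π x * ((π c) ^ k * π n) * (π x)⁻¹ = (π x * (π c) ^ k) * π n * (π x)⁻¹ := by group
              _ = (π c) ^ k * (π x * π n * (π x)⁻¹) := by rw [e2]; group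
              _ = (π c) ^ (k + 1) * π n := by rw [e3, pow_succ, mul_assoc]
        have h3 := h2 p
        rw [hxb, one_mul, inv_one, mul_one] at h3
        have h4 : (π c) ^ p = 1 := mul_eq_right.mp h3.symm
        have h5' : (π c) ^ r = 1 := hNe _ hcN
        have h6 : orderOf (π c) ∣ 1 := by
          have : Nat.Coprime p r := (Nat.coprime_primes hp.out hr).mpr (Ne.symm hrp)
          rw [← this]
          exact Nat.dvd_gcd (orderOf_dvd_of_pow_eq_one h4) (orderOf_dvd_of_pow_eq_one h5')
        have h7 : π c = 1 := orderOf_eq_one_iff.mp (Nat.dvd_one.mp h6)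
        apply hnx
        rw [SetLike.mem_coe, Subgroup.mem_centralizer_singleton_iff]
        have e3 : π x * π n * (π x)⁻¹ = π c * π n := by
          rw [hcdef]; simp [mul_assoc]
        rw [h7, one_mul, mul_inv_eq_iff_eq_mul] at e3
        exact e3.symm
      -- `c` commutes with the preimage of `D`
      have hcomm : ∀ y : G, π y ∈ D → c * y = y * c := by
        intro y hy
        rw [hD, Subgroup.mem_inf] at hy
        have hyx : x * y * x⁻¹ * y⁻¹ ∈ Z := by
          rw [← hker, map_mul, map_mul, map_mul, map_inv, map_inv,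
            ← Subgroup.mem_centralizer_singleton_iff.mp hy.2]
          group
        set z := x * y * x⁻¹ * y⁻¹ with hz
        have hzc := Subgroup.mem_center_iff.mp (hZc hyx)
        set t := n * y * n⁻¹ * y⁻¹ with ht
        have htZ : t ∈ Z := hNcomm n y hnN hy.1
        have htc := Subgroup.mem_center_iff.mp (hZc htZ)
        have h1 : x * t * x⁻¹ = t := by rw [htc x]; group
        have h2 : x * t * x⁻¹ = (c * n) * (z * y) * (c * n)⁻¹ * (z * y)⁻¹ := by
          rw [ht, hz, hcdef]; group
        have h3 : (c * n) * (z * y) * (c * n)⁻¹ * (z * y)⁻¹ = c * n * y * (c * n)⁻¹ * y⁻¹ := by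
          have e : (c * n) * (z * y) = z * (c * n * y) := by
            calc (c * n) * (z * y) = (c * n * z) * y := by group
              _ = (z * (c * n)) * y := by rw [hzc (c * n)]
              _ = _ := by group
          rw [e]
          have e2 : z * (c * n * y) * (c * n)⁻¹ * (z * y)⁻¹ = z * (c * n * y * (c * n)⁻¹ * y⁻¹) * z⁻¹ := by
            group
          rw [e2, ← hzc]
          group
        have h4 : c * n * y * (c * n)⁻¹ * y⁻¹ = t * (c * y * c⁻¹ * y⁻¹) := by
          have e : c * n * y * (c * n)⁻¹ * y⁻¹ = c * t * (y * c⁻¹ * y⁻¹) := by rw [ht]; group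
          rw [e, htc c]; group
        have h5' : t * (c * y * c⁻¹ * y⁻¹) = t := by rw [← h4, ← h3, ← h2, h1]
        have h6 : c * y * c⁻¹ * y⁻¹ = 1 := mul_eq_left.mp h5'
        have h7 : c * y * c⁻¹ = y := mul_inv_eq_one.mp h6
        calc c * y = (c * y * c⁻¹) * c := by group
          _ = y * c := by rw [h7]
      -- `N = D ⟨c⟩`
      have hDN : D ≤ N := inf_le_left
      have hsup : D ⊔ zpowers (π c) = N := by
        apply Subgroup.eq_of_le_of_card_ge (sup_le hDN (zpowers_le.mpr hcN))
        set E := D ⊔ zpowers (π c) with hE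
        have hDE : D ≤ E := le_sup_left
        have h1 : Nat.card D * D.relIndex E = Nat.card E := by
          have := (D.subgroupOf E).card_mul_index
          rwa [Nat.card_congr (Subgroup.subgroupOfEquivOfLe hDE).toEquiv] at this
        have hEN : E ≤ N := sup_le hDN (zpowers_le.mpr hcN)
        have h2 : Nat.card E ∣ Nat.card N := Subgroup.card_dvd_of_le hEN
        rw [hcard, ← h1, mul_comm r] at h2
        have h3 : D.relIndex E ∣ r := Nat.dvd_of_mul_dvd_mul_left Nat.card_pos h2
        have h4 : D.relIndex E ≠ 1 := by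
          intro h
          rw [Subgroup.relIndex_eq_one] at h
          exact hcD (h ((le_sup_right : zpowers (π c) ≤ E) (mem_zpowers _)))
        have h5' : D.relIndex E = r := (Nat.Prime.eq_one_or_self_of_dvd hr _ h3).resolve_left h4
        rw [hcard, ← h1, h5', mul_comm]
      have hcall : ∀ g : G, π g ∈ N → c * g = g * c := by
        intro g hg
        rw [← hsup] at hg
        have hle : D ≤ normalizer ((zpowers (π c) : Subgroup (G ⧸ Z)) : Set (G ⧸ Z)) := by
          refine le_trans ?_ (Subgroup.centralizer_le_normalizer _)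
          rw [Subgroup.le_centralizer_iff, Subgroup.zpowers_le, Subgroup.mem_centralizer_iff]
          intro d hd
          exact hc d (hDN hd) _ hcN
        have h1 := Subgroup.coe_mul_of_left_le_normalizer_right D (zpowers (π c)) hle
        have h2 : π g ∈ (D : Set (G ⧸ Z)) * ((zpowers (π c) : Subgroup (G ⧸ Z)) : Set (G ⧸ Z)) := by
          rw [← h1]; exact hg
        obtain ⟨d, hd, w, hw, hdw⟩ := Set.mem_mul.mp h2
        obtain ⟨k, rfl⟩ := Subgroup.mem_zpowers_iff.mp hw
        obtain ⟨d, rfl⟩ := hπs d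
        have h3 : (d * c ^ k)⁻¹ * g ∈ Z := by
          rw [← hker, map_mul, map_inv, map_mul, map_zpow, hdw, inv_mul_cancel]
        set z := (d * c ^ k)⁻¹ * g with hz
        have hg' : g = d * c ^ k * z := by rw [hz]; group
        have hzc := Subgroup.mem_center_iff.mp (hZc h3)
        have hcd := hcomm d hd
        rw [hg']
        calc c * (d * c ^ k * z) = (c * d) * c ^ k * z := by group
          _ = d * c ^ k * (c * z) := by rw [hcd]; group
          _ = d * c ^ k * (z * c) := by rw [hzc c]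
          _ = _ := by group
      have hAn : (N.comap π ⊓ centralizer ((N.comap π : Subgroup G) : Set G)).Normal := inferInstance
      have hA := hab _ hAn (by
        intro u hu v hv
        rw [Subgroup.mem_inf] at hu hv
        exact (Subgroup.mem_centralizer_iff.mp hv.2 u hu.1))
      have hcA : c ∈ N.comap π ⊓ centralizer ((N.comap π : Subgroup G) : Set G) := by
        refine Subgroup.mem_inf.mpr ⟨hcN, ?_⟩
        rw [Subgroup.mem_centralizer_iff]
        intro g hg
        exact (hcall g hg).symm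
      apply hcD
      rw [(hker c).mpr (hA hcA)]
      exact one_mem _
  have ha2' : 2 ≤ a := by omega
  have hfin : 4 * (r ^ a + (p - 1)) ≤ p * r ^ a := by
    by_cases hrp : r = p
    · apply arith1 h5
      rw [hrp, ← sq]
      exact Nat.pow_le_pow_right hp.out.pos ha2'
    · have h1 := hmod hrp
      have h2 : 1 < r ^ a := Nat.one_lt_pow (by omega) hr.one_lt
      have h3 : p ∣ r ^ a - 1 := (Nat.modEq_iff_dvd' h2.le).mp h1.symm
      have h4 : p + 1 ≤ r ^ a := by
        have := Nat.le_of_dvd (by omega) h3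
        omega
      by_cases h7 : 7 ≤ p
      · exact arith2 h7 h4
      · have hp5 : p = 5 := by
          have h6 : p ≠ 6 := by
            intro h
            have := hp.out
            rw [h] at this
            exact absurd this (by norm_num)
          omega
        subst hp5
        obtain ⟨m, hm⟩ := h3
        have h6 := pow_ne_six (a := a) hr
        have h11 := pow_ne_eleven hr ha2'
        omega
  calc 4 * (Nat.card N + (p - 1) * Nat.card D) = (4 * (r ^ a + (p - 1))) * Nat.card D := by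
        rw [hcard]; ring
    _ ≤ (p * r ^ a) * Nat.card D := Nat.mul_le_mul_right _ hfin
    _ = p * Nat.card N := by rw [hcard]; ring

end H26.FlavGrp2
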