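import Mathlib

set_option autoImplicit false
set_option linter.unusedSectionVars false
set_option linter.style.haveILetI false

open Module

namespace H26.FlavRep

section orbits

variable {K : Type*} [Field K] {C W : Type*} [AddCommGroup C] [Module K C] [AddCommGroup W] [Module K W]
  [FiniteDimensional K W]

theorem finrank_le_orbits {ι : Type*} [Finite ι] {P : Type*} [Group P] [MulAction P ι]
    (s : ι → (C →ₗ[K] W)) (D : ι → Submodule K W) (d : ℕ) (hs : ∀ i v, s i v ∈ D i)
    (hd : ∀ i, finrank K (D i) ≤ d) (h0 : ∀ v, (∀ i, s i v = 0) → v = 0)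
    (hmove : ∀ (g : P) i v, s i v = 0 → s (g • i) v = 0) :
    finrank K C ≤ Nat.card (Quotient (MulAction.orbitRel P ι)) * d := by
  classical
  have : Finite (Quotient (MulAction.orbitRel P ι)) := inferInstance
  letI : Fintype (Quotient (MulAction.orbitRel P ι)) := Fintype.ofFinite _
  let Φ : C →ₗ[K] (∀ o : Quotient (MulAction.orbitRel P ι), D o.out) :=
    LinearMap.pi (fun o => (s o.out).codRestrict (D o.out) (hs _))
  have hΦ : Function.Injective Φ := by
    rw [← LinearMap.ker_eq_bot, LinearMap.ker_eq_bot']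
    intro v hv
    apply h0
    intro i
    have h1 : s (Quotient.mk (MulAction.orbitRel P ι) i).out v = 0 := by
      have := congrFun hv (Quotient.mk (MulAction.orbitRel P ι) i)
      exact congrArg Subtype.val this
    have h2 : (MulAction.orbitRel P ι) (Quotient.mk (MulAction.orbitRel P ι) i).out i :=
      Quotient.mk_out i
    rw [MulAction.orbitRel_apply] at h2
    obtain ⟨g, hg⟩ := h2
    have h3 := hmove g⁻¹ _ v h1
    rw [← hg] at h3
    simpa using h3
  have h1 := LinearMap.finrank_le_finrank_of_injective hΦ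
  rw [finrank_pi_fintype] at h1
  calc finrank K C ≤ ∑ o : Quotient (MulAction.orbitRel P ι), finrank K (D o.out) := h1
    _ ≤ ∑ _o : Quotient (MulAction.orbitRel P ι), d := Finset.sum_le_sum (fun o _ => hd _)
    _ = _ := by rw [Finset.sum_const, smul_eq_mul, Finset.card_univ, Nat.card_eq_fintype_card]

end orbits

/-- the number of orbits of a cyclic group of order dividing `p` -/
theorem card_orbits_le {Γ : Type*} [Group Γ] {ι : Type*} [Finite ι] [MulAction Γ ι] {p : ℕ} [hp : Fact p.Prime]
    {x : Γ} (hx : x ^ p = 1) :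
    p * Nat.card (Quotient (MulAction.orbitRel (Subgroup.zpowers x) ι)) ≤
      Nat.card ι + (p - 1) * Nat.card {i : ι // x • i = i} := by
  classical
  letI : Fintype ι := Fintype.ofFinite ι
  have hfin : Finite (Quotient (MulAction.orbitRel (Subgroup.zpowers x) ι)) := inferInstance
  letI : Fintype (Quotient (MulAction.orbitRel (Subgroup.zpowers x) ι)) := Fintype.ofFinite _
  by_cases hx1 : x = 1
  · have h1 : Nat.card {i : ι // x • i = i} = Nat.card ι := by
      apply Nat.card_congr
      exact Equiv.subtypeUnivEquiv (fun i => by rw [hx1, one_smul])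
    have h2 : Nat.card (Quotient (MulAction.orbitRel (Subgroup.zpowers x) ι)) ≤ Nat.card ι :=
      Nat.card_le_card_of_surjective _ Quotient.mk_surjective
    rw [h1]
    have h3 : Nat.card ι + (p - 1) * Nat.card ι = p * Nat.card ι := by
      obtain ⟨q, hq⟩ : ∃ q, p = q + 1 := ⟨p - 1, by have := hp.out.pos; omega⟩
      rw [hq, Nat.add_sub_cancel]; ring
    rw [h3]
    exact Nat.mul_le_mul_left _ h2
  · have hord : orderOf x = p := orderOf_eq_prime hx hx1
    have hcardP : Nat.card (Subgroup.zpowers x) = p := by rw [Nat.card_zpowers, hord]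
    have hfinP : Finite (Subgroup.zpowers x) := Nat.finite_of_card_ne_zero (by rw [hcardP]; exact hp.out.ne_zero)
    letI : Fintype (Subgroup.zpowers x) := Fintype.ofFinite _
    have hB := MulAction.sum_card_fixedBy_eq_card_orbits_mul_card_group (Subgroup.zpowers x) ι
    have hcP : Fintype.card (Subgroup.zpowers x) = p := by rw [← Nat.card_eq_fintype_card, hcardP]
    have hfix : ∀ g : Subgroup.zpowers x, g ≠ 1 →
        Fintype.card (MulAction.fixedBy ι g) = Nat.card {i : ι // x • i = i} := by
      intro g hg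
      rw [← Nat.card_eq_fintype_card]
      apply Nat.card_congr
      apply Equiv.subtypeEquivRight
      intro i
      rw [MulAction.mem_fixedBy]
      have hmem : x ∈ Subgroup.zpowers (g : Γ) := by
        have h1 : Subgroup.zpowers (g : Γ) = Subgroup.zpowers x := by
          apply Subgroup.eq_of_le_of_card_ge (Subgroup.zpowers_le.mpr g.2)
          rw [hcardP, Nat.card_zpowers]
          have h2 : orderOf (g : Γ) ∣ p := by
            rw [← hord]; exact orderOf_dvd_of_mem_zpowers g.2
          rcases (Nat.dvd_prime hp.out).mp h2 with h | h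
          · exact absurd (Subtype.ext (orderOf_eq_one_iff.mp h)) hg
          · exact h.ge
        rw [h1]; exact Subgroup.mem_zpowers x
      constructor
      · intro h
        obtain ⟨k, hk⟩ := Subgroup.mem_zpowers_iff.mp hmem
        have h1 : (g : Γ) ∈ MulAction.stabilizer Γ i := h
        have h2 : x ∈ MulAction.stabilizer Γ i := by
          rw [← hk]; exact zpow_mem h1 k
        exact h2
      · intro h
        have h1 : x ∈ MulAction.stabilizer Γ i := h
        obtain ⟨k, hk⟩ := Subgroup.mem_zpowers_iff.mp g.2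
        have h2 : (g : Γ) ∈ MulAction.stabilizer Γ i := by
          rw [← hk]; exact zpow_mem h1 k
        exact h2
    have h1 : ∑ g : Subgroup.zpowers x, Fintype.card (MulAction.fixedBy ι g) =
        Nat.card ι + (p - 1) * Nat.card {i : ι // x • i = i} := by
      rw [← Finset.add_sum_erase _ _ (Finset.mem_univ (1 : Subgroup.zpowers x))]
      congr 1
      · rw [Nat.card_eq_fintype_card]
        apply Fintype.card_congr
        exact Equiv.subtypeUnivEquiv (fun i => by rw [MulAction.mem_fixedBy, one_smul])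
      · rw [Finset.sum_congr rfl (fun g hg => hfix g (Finset.ne_of_mem_erase hg)), Finset.sum_const,
          smul_eq_mul, Finset.card_erase_of_mem (Finset.mem_univ _), Finset.card_univ, hcP]
    rw [h1, hcP, ← Nat.card_eq_fintype_card] at hB
    rw [mul_comm p]
    exact hB.ge

section lower

variable {K : Type*} [Field K] {V : Type*} [AddCommGroup V] [Module K V] [FiniteDimensional K V]

/-- the commutant of an endomorphism -/
def comm (f : Module.End K V) : Submodule K (Module.End K V) where
  carrier := {T | T * f = f * T}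
  add_mem' {a b} ha hb := by
    show (a + b) * f = f * (a + b)
    rw [add_mul, mul_add, ha, hb]
  zero_mem' := by
    show (0 : Module.End K V) * f = f * 0
    rw [zero_mul, mul_zero]
  smul_mem' c a ha := by
    show (c • a) * f = f * (c • a)
    rw [smul_mul_assoc, mul_smul_comm, ha]

theorem mem_comm {f T : Module.End K V} : T ∈ comm f ↔ T * f = f * T := Iff.rfl

theorem sq_lt_finrank_comm (f : Module.End K V) (hf : f ≠ 1) :
    (finrank K (LinearMap.ker (f - 1))) ^ 2 < finrank K (comm f) := by
  set h := f - 1 with hh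
  have hh0 : h ≠ 0 := sub_ne_zero.mpr hf
  let Φ : ((V ⧸ LinearMap.range h) →ₗ[K] LinearMap.ker h) →ₗ[K] Module.End K V :=
    { toFun := fun φ => (LinearMap.ker h).subtype ∘ₗ φ ∘ₗ (LinearMap.range h).mkQ
      map_add' := by intro a b; ext v; simp
      map_smul' := by intro c a; ext v; simp }
  have hΦv : ∀ φ v, Φ φ v = ((φ (Submodule.Quotient.mk v) : LinearMap.ker h) : V) := fun φ v => rfl
  have hΦh : ∀ φ, Φ φ * h = 0 := by
    intro φ
    ext v
    rw [Module.End.mul_apply, hΦv, (Submodule.Quotient.mk_eq_zero _).mpr (LinearMap.mem_range_self h v), map_zero]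
    rfl
  have hhΦ : ∀ φ, h * Φ φ = 0 := by
    intro φ
    ext v
    rw [Module.End.mul_apply, hΦv]
    exact LinearMap.mem_ker.mp (φ (Submodule.Quotient.mk v)).2
  have hf1 : f = h + 1 := by rw [hh]; abel
  have hΦc : ∀ φ, Φ φ ∈ comm f := by
    intro φ
    rw [mem_comm, hf1, mul_add, add_mul, hΦh, hhΦ, mul_one, one_mul]
  let Ψ : ((V ⧸ LinearMap.range h) →ₗ[K] LinearMap.ker h) →ₗ[K] comm f := Φ.codRestrict (comm f) hΦc
  have hΨ : Function.Injective Ψ := by
    rw [← LinearMap.ker_eq_bot, LinearMap.ker_eq_bot']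
    intro φ hφ
    have h1 : Φ φ = 0 := congrArg Subtype.val hφ
    ext v
    have h2 := LinearMap.congr_fun h1 v
    rw [hΦv] at h2
    exact h2
  have hns : ¬ Function.Surjective Ψ := by
    intro hs
    have h1c : (1 : Module.End K V) ∈ comm f := by rw [mem_comm, one_mul, mul_one]
    obtain ⟨φ, hφ⟩ := hs ⟨1, h1c⟩
    have h1 : Φ φ = 1 := congrArg Subtype.val hφ
    have h2 := hΦh φ
    rw [h1, one_mul] at h2
    exact hh0 h2
  have hlt : finrank K ((V ⧸ LinearMap.range h) →ₗ[K] LinearMap.ker h) < finrank K (comm f) := by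
    refine lt_of_le_of_ne (LinearMap.finrank_le_finrank_of_injective hΨ) ?_
    intro heq
    exact hns ((LinearMap.injective_iff_surjective_of_finrank_eq_finrank heq).mp hΨ)
  rw [finrank_linearMap] at hlt
  have h3 : finrank K (V ⧸ LinearMap.range h) = finrank K (LinearMap.ker h) := by
    have h4 := Submodule.finrank_quotient_add_finrank (LinearMap.range h)
    have h5 := LinearMap.finrank_range_add_finrank_ker h
    omega
  rw [h3, ← sq] at hlt
  exact hlt

end lower

section eigen

variable {K : Type*} [Field K] {V : Type*} [AddCommGroup V] [Module K V] [FiniteDimensional K V]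

/-- a common eigenvector of a commuting family -/
theorem exists_common {ι : Type*} (f : ι → Module.End K V) (hc : ∀ i j, f i * f j = f j * f i) (M : ι → Set K)
    (hev : ∀ i, ∀ W : Submodule K V, W ≠ ⊥ → (∀ w ∈ W, f i w ∈ W) → ∃ μ ∈ M i, ∃ w ∈ W, w ≠ 0 ∧ f i w = μ • w)
    (n : ℕ) : ∀ W : Submodule K V, W ≠ ⊥ → (∀ i, ∀ w ∈ W, f i w ∈ W) → finrank K W = n →
      ∃ χ : ι → K, (∀ i, χ i ∈ M i) ∧ ∃ v ∈ W, v ≠ 0 ∧ ∀ i, f i v = χ i • v := by
  induction n using Nat.strong_induction_on with
  | _ n ih =>
  intro W hW hinv hn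
  by_cases hall : ∀ i, ∃ μ ∈ M i, ∀ w ∈ W, f i w = μ • w
  · choose χ hχ hχ' using hall
    obtain ⟨v, hv, hv0⟩ := (Submodule.ne_bot_iff _).mp hW
    exact ⟨χ, hχ, v, hv, hv0, fun i => hχ' i v hv⟩
  · push Not at hall
    obtain ⟨i, hi⟩ := hall
    obtain ⟨μ, hμ, w, hw, hw0, hfw⟩ := hev i W hW (hinv i)
    obtain ⟨u, hu, hfu⟩ := hi μ hμ
    set W' : Submodule K V := W ⊓ LinearMap.ker (f i - μ • 1) with hW'
    have hmem : ∀ v, v ∈ W' ↔ v ∈ W ∧ f i v = μ • v := by
      intro v
      rw [hW', Submodule.mem_inf, LinearMap.mem_ker, LinearMap.sub_apply, LinearMap.smul_apply,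
        Module.End.one_apply, sub_eq_zero]
    have hW'b : W' ≠ ⊥ := by
      intro h
      have : w ∈ W' := (hmem w).mpr ⟨hw, hfw⟩
      rw [h, Submodule.mem_bot] at this
      exact hw0 this
    have hlt : W' < W := by
      refine lt_of_le_of_ne inf_le_left ?_
      intro h
      have : u ∈ W' := by rw [h]; exact hu
      exact hfu ((hmem u).mp this).2
    have hfr : finrank K W' < n := by
      rw [← hn]; exact Submodule.finrank_lt_finrank_of_lt hlt
    obtain ⟨χ, hχ, v, hv, hv0, hvχ⟩ := ih _ hfr W' hW'b (by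
      intro j v hv
      rw [hmem] at hv ⊢
      refine ⟨hinv j v hv.1, ?_⟩
      rw [← Module.End.mul_apply, hc, Module.End.mul_apply, hv.2, map_smul]) rfl
    exact ⟨χ, hχ, v, ((hmem v).mp hv).1, hv0, hvχ⟩

end eigen

end H26.FlavRep
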