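import Cfsg.Agent.Lib.H26.FlavRep
import Cfsg.Agent.Lib.H26.FlavGrp

set_option autoImplicit false
set_option linter.unusedSectionVars false
set_option linter.style.haveILetI false

open Module

namespace H26.FlavRep2

section decomp

variable {K : Type*} [Field K] {V : Type*} [AddCommGroup V] [Module K V] [FiniteDimensional K V]

/-- orbit estimate for a direct sum decomposition -/
theorem decomp_bound {Γ : Type*} [Group Γ] (ρ : Γ →* Module.End K V) {ι : Type*} [Finite ι] [MulAction Γ ι]
    (W : ι → Submodule K V) (hind : iSupIndep W) (hsup : iSup W = ⊤) (hmap : ∀ g i, ∀ v ∈ W i, ρ g v ∈ W (g • i))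
    (d : ℕ) (hd : ∀ i, finrank K (W i) = d) {p : ℕ} [hp : Fact p.Prime] {x : Γ} (hx : x ^ p = 1) :
    p * finrank K (LinearMap.ker (ρ x - 1)) ≤ (Nat.card ι + (p - 1) * Nat.card {i : ι // x • i = i}) * d ∧
      Nat.card ι * d = finrank K V := by
  classical
  letI : Fintype ι := Fintype.ofFinite ι
  have hint : DirectSum.IsInternal W := DirectSum.isInternal_submodule_of_iSupIndep_of_iSup_eq_top hind hsup
  letI : DirectSum.Decomposition W := hint.chooseDecomposition
  let π : ι → V →ₗ[K] V := fun i => (W i).subtype ∘ₗ (DirectSum.component K ι (fun i => W i) i) ∘ₗ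
    (DirectSum.decomposeLinearEquiv W).toLinearMap
  have hπ : ∀ i v, π i v = (DirectSum.decompose W v i : V) := fun i v => rfl
  have hπmem : ∀ i v, π i v ∈ W i := fun i v => by rw [hπ]; exact (DirectSum.decompose W v i).2
  have hsame : ∀ i, ∀ v ∈ W i, π i v = v := by
    intro i v hv
    rw [hπ, DirectSum.decompose_of_mem_same W hv]
  have hne : ∀ i j, i ≠ j → ∀ v ∈ W i, π j v = 0 := by
    intro i j hij v hv
    rw [hπ, DirectSum.decompose_of_mem_ne W hv hij]
  have hsum : ∀ v, ∑ i, π i v = v := by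
    intro v
    have h1 := DirectSum.sum_support_decompose W v
    conv_rhs => rw [← h1]
    symm
    apply Finset.sum_subset (Finset.subset_univ _)
    intro i _ hi
    rw [DFinsupp.notMem_support_iff] at hi
    rw [hi]; rfl
  have hequiv : ∀ g i v, π (g • i) (ρ g v) = ρ g (π i v) := by
    intro g i v
    conv_lhs => rw [← hsum v]
    rw [map_sum, map_sum, Finset.sum_eq_single i]
    · exact hsame _ _ (hmap g i _ (hπmem i v))
    · intro j _ hj
      apply hne (g • j) (g • i) (fun h => hj (MulAction.injective g h))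
      exact hmap g j _ (hπmem j v)
    · intro h; exact absurd (Finset.mem_univ i) h
  have hcard : Nat.card ι * d = finrank K V := by
    have h1 : finrank K V = ∑ i, finrank K (W i) := by
      rw [LinearEquiv.finrank_eq (DirectSum.decomposeLinearEquiv W), Module.finrank_directSum]
    rw [h1, Finset.sum_congr rfl (fun i _ => hd i), Finset.sum_const, smul_eq_mul, Finset.card_univ,
      Nat.card_eq_fintype_card]
  refine ⟨?_, hcard⟩
  have hfix : ∀ v ∈ LinearMap.ker (ρ x - 1), ∀ g ∈ Subgroup.zpowers x, ρ g v = v := by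
    intro v hv g hg
    have h1 : ρ x v = v := by
      rw [LinearMap.mem_ker, LinearMap.sub_apply, Module.End.one_apply, sub_eq_zero] at hv
      exact hv
    have hfo : IsOfFinOrder x := isOfFinOrder_iff_pow_eq_one.mpr ⟨p, hp.out.pos, hx⟩
    rw [← hfo.mem_powers_iff_mem_zpowers] at hg
    obtain ⟨k, rfl⟩ := hg
    show ρ (x ^ k) v = v
    induction k with
    | zero => rw [pow_zero, map_one]; rfl
    | succ k ih => rw [pow_succ, map_mul, Module.End.mul_apply, h1, ih]
  have h1 := H26.FlavRep.finrank_le_orbits (P := Subgroup.zpowers x) (C := LinearMap.ker (ρ x - 1))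
    (fun i => π i ∘ₗ (LinearMap.ker (ρ x - 1)).subtype) W d (fun i v => hπmem i v) (fun i => (hd i).le)
    (by
      intro v hv
      apply Subtype.ext
      rw [← hsum (v : V)]
      exact Finset.sum_eq_zero (fun i _ => hv i))
    (by
      intro g i v hv
      have h2 := hequiv (g : Γ) i v
      rw [hfix v v.2 g g.2] at h2
      show π (g • i) v = 0
      have h3 : (g • i) = ((g : Γ) • i) := rfl
      rw [h3, h2]
      have h4 : π i v = 0 := hv
      rw [h4, map_zero])
  have h2 := H26.FlavRep.card_orbits_le (ι := ι) hx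
  calc p * finrank K (LinearMap.ker (ρ x - 1))
      ≤ p * (Nat.card (Quotient (MulAction.orbitRel (Subgroup.zpowers x) ι)) * d) := Nat.mul_le_mul_left _ h1
    _ = (p * Nat.card (Quotient (MulAction.orbitRel (Subgroup.zpowers x) ι))) * d := by ring
    _ ≤ _ := Nat.mul_le_mul_right _ h2

end decomp

section imprimitive

universe u

variable {K : Type*} [Field K] [IsAlgClosed K] {V : Type*} [AddCommGroup V] [Module K V] [FiniteDimensional K V]
  {G : Type u} [Group G] [Finite G]

/-- joint eigenspace of a subgroup -/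
def jE (ρ : G →* Module.End K V) (A : Subgroup G) (χ : A → K) : Submodule K V :=
  ⨅ a : A, Module.End.eigenspace (ρ a) (χ a)

theorem mem_jE {ρ : G →* Module.End K V} {A : Subgroup G} {χ : A → K} {v : V} :
    v ∈ jE ρ A χ ↔ ∀ a : A, ρ a v = χ a • v := by
  unfold jE
  rw [Submodule.mem_iInf]
  exact forall_congr' (fun a => Module.End.mem_eigenspace_iff)

theorem independent_jE (ρ : G →* Module.End K V) (A : Subgroup G) (hA : ∀ a ∈ A, ∀ b ∈ A, a * b = b * a) :
    iSupIndep (fun χ : A → K => jE ρ A χ) := by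
  have h1 := Module.End.independent_iInf_maxGenEigenspace_of_forall_mapsTo (fun a : A => (ρ a : Module.End K V))
    (by
      intro i j φ
      apply Module.End.mapsTo_maxGenEigenspace_of_comm
      show ρ j * ρ i = ρ i * ρ j
      rw [← map_mul, ← map_mul, hA _ j.2 _ i.2])
  refine h1.mono ?_
  intro χ
  apply iInf_mono
  intro a
  exact Module.End.eigenspace_le_maxGenEigenspace

theorem exists_jE_ne_bot [Nontrivial V] (ρ : G →* Module.End K V) (A : Subgroup G)
    (hA : ∀ a ∈ A, ∀ b ∈ A, a * b = b * a) : ∃ χ : A → K, jE ρ A χ ≠ ⊥ := by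
  obtain ⟨χ, -, v, -, hv0, hv⟩ := H26.FlavRep.exists_common (fun a : A => (ρ a : Module.End K V))
    (fun a b => by rw [← map_mul, ← map_mul, hA _ a.2 _ b.2]) (fun _ => Set.univ) (by
      intro a W hW hinv
      have hnt : Nontrivial W := (Submodule.nontrivial_iff_ne_bot).mpr hW
      let f : Module.End K W := (ρ a : Module.End K V).restrict hinv
      obtain ⟨c, hc⟩ := Module.End.exists_eigenvalue f
      obtain ⟨w, hw⟩ := hc.exists_hasEigenvector
      refine ⟨c, trivial, w, w.2, fun h => hw.2 (Subtype.ext h), ?_⟩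
      have := congrArg Subtype.val hw.apply_eq_smul
      exact this) _ ⊤ (by exact top_ne_bot) (fun _ _ _ => trivial) rfl
  refine ⟨χ, ?_⟩
  rw [Submodule.ne_bot_iff]
  exact ⟨v, mem_jE.mpr hv, hv0⟩

/-- the action of `G` on submodules -/
@[reducible] def subAct (ρ : G →* Module.End K V) : MulAction G (Submodule K V) where
  smul g U := U.map (ρ g)
  one_smul U := by
    show U.map (ρ 1) = U
    rw [map_one]
    exact Submodule.map_id U
  mul_smul g h U := by
    show U.map (ρ (g * h)) = (U.map (ρ h)).map (ρ g)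
    rw [map_mul, ← Submodule.map_comp]
    rfl

theorem map_jE (ρ : G →* Module.End K V) (A : Subgroup G) [hAn : A.Normal] (χ : A → K) (g : G) :
    ∃ χ' : A → K, (jE ρ A χ).map (ρ g) = jE ρ A χ' := by
  refine ⟨fun a => χ ⟨g⁻¹ * a * g, by simpa using hAn.conj_mem a a.2 g⁻¹⟩, ?_⟩
  apply le_antisymm
  · rintro _ ⟨v, hv, rfl⟩
    rw [SetLike.mem_coe, mem_jE] at hv
    rw [mem_jE]
    intro a
    have h1 := hv ⟨g⁻¹ * a * g, by simpa using hAn.conj_mem a a.2 g⁻¹⟩
    rw [← Module.End.mul_apply, ← map_mul]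
    have h2 : (a : G) * g = g * (g⁻¹ * a * g) := by group
    rw [h2, map_mul, Module.End.mul_apply]
    have h3 : ρ (g⁻¹ * a * g) v = χ ⟨g⁻¹ * a * g, by simpa using hAn.conj_mem a a.2 g⁻¹⟩ • v := h1
    rw [h3, map_smul]
  · intro v hv
    rw [mem_jE] at hv
    refine ⟨ρ g⁻¹ v, ?_, ?_⟩
    · rw [SetLike.mem_coe, mem_jE]
      intro a
      have h1 := hv ⟨g * a * g⁻¹, hAn.conj_mem a a.2 g⟩
      rw [← Module.End.mul_apply, ← map_mul]
      have h2 : (a : G) * g⁻¹ = g⁻¹ * (g * a * g⁻¹) := by group
      rw [h2, map_mul, Module.End.mul_apply]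
      have h3 : ρ (g * a * g⁻¹) v = χ a • v := by
        refine h1.trans ?_
        congr 2
        apply Subtype.ext
        show g⁻¹ * (g * a * g⁻¹) * g = a
        group
      rw [h3, map_smul]
    · rw [← Module.End.mul_apply, ← map_mul, mul_inv_cancel, map_one]; rfl

theorem numeric {p n f c d v : ℕ} (h5 : 5 ≤ p) (h1 : p * c ≤ (n + (p - 1) * f) * d) (h2 : n * d = v)
    (h3 : p * f ≤ n) (hv : 0 < v) : 2 * c < v := by
  obtain ⟨q, rfl⟩ : ∃ q, p = q + 5 := ⟨p - 5, by omega⟩
  have e : q + 5 - 1 = q + 4 := by omega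
  rw [e] at h1
  have h4 : (q + 5) * ((q + 5) * c) ≤ (2 * (q + 5) - 1) * v := by
    calc (q + 5) * ((q + 5) * c) ≤ (q + 5) * ((n + (q + 4) * f) * d) := Nat.mul_le_mul_left _ h1
      _ = ((q + 5) * n + (q + 4) * ((q + 5) * f)) * d := by ring
      _ ≤ ((q + 5) * n + (q + 4) * n) * d := by
          apply Nat.mul_le_mul_right
          apply Nat.add_le_add_left
          exact Nat.mul_le_mul_left _ h3
      _ = (2 * (q + 5) - 1) * v := by
          rw [← h2]
          have : 2 * (q + 5) - 1 = 2 * q + 9 := by omega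
          rw [this]; ring
  have e2 : 2 * (q + 5) - 1 = 2 * q + 9 := by omega
  rw [e2] at h4
  by_contra hcon
  push Not at hcon
  nlinarith [Nat.mul_le_mul_left ((q + 5) * (q + 5)) hcon]

/-- the imprimitive case -/
theorem imprimitive [Nontrivial V] {p : ℕ} [hp : Fact p.Prime] (h5 : 5 ≤ p) (hs : Group.IsSolvable G) {x : G}
    (hx : x ^ p = 1) (hgen : Subgroup.normalClosure ({x} : Set G) = ⊤) (ρ : G →* Module.End K V)
    (hirr : ∀ W : Submodule K V, (∀ g, ∀ v ∈ W, ρ g v ∈ W) → W = ⊥ ∨ W = ⊤) (A : Subgroup G) [hAn : A.Normal]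
    (hA : ∀ a ∈ A, ∀ b ∈ A, a * b = b * a) (hns : ¬ ∀ a ∈ A, ∃ c : K, ρ a = c • (1 : Module.End K V)) :
    2 * finrank K (LinearMap.ker (ρ x - 1)) < finrank K V := by
  classical
  obtain ⟨χ, hχ⟩ := exists_jE_ne_bot ρ A hA
  letI : MulAction G (Submodule K V) := subAct ρ
  have hsm : ∀ (g : G) (U : Submodule K V), g • U = U.map (ρ g) := fun _ _ => rfl
  set V0 := jE ρ A χ with hV0
  let ι := MulAction.orbit G V0
  have hfin : Finite ι := (Set.finite_range (fun g : G => g • V0)).to_subtype
  have hex : ∀ U : ι, ∃ χ' : A → K, (U : Submodule K V) = jE ρ A χ' := by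
    rintro ⟨_, g, rfl⟩
    exact map_jE ρ A χ g
  choose F hF using hex
  have hFinj : Function.Injective F := by
    intro U U' h
    apply Subtype.ext
    rw [hF U, hF U', h]
  have hind : iSupIndep (fun U : ι => (U : Submodule K V)) := by
    have h1 := (independent_jE ρ A hA).comp hFinj
    have h2 : (fun U : ι => (U : Submodule K V)) = (fun χ : A → K => jE ρ A χ) ∘ F := by
      funext U; exact hF U
    rw [h2]; exact h1
  have hmap : ∀ (g : G) (U : ι), ∀ v ∈ (U : Submodule K V), ρ g v ∈ ((g • U : ι) : Submodule K V) := by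
    intro g U v hv
    rw [MulAction.orbit.coe_smul, hsm]
    exact Submodule.mem_map_of_mem hv
  have hsup : iSup (fun U : ι => (U : Submodule K V)) = ⊤ := by
    rcases hirr (iSup (fun U : ι => (U : Submodule K V))) (by
      intro g v hv
      have h1 : (iSup (fun U : ι => (U : Submodule K V))) ≤ (iSup (fun U : ι => (U : Submodule K V))).comap (ρ g) := by
        apply iSup_le
        intro U u hu
        rw [Submodule.mem_comap]
        exact (le_iSup (fun U : ι => (U : Submodule K V)) (g • U)) (hmap g U u hu)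
      exact h1 hv) with h | h
    · exfalso
      apply hχ
      rw [eq_bot_iff, ← h]
      exact le_iSup (fun U : ι => (U : Submodule K V)) (⟨V0, MulAction.mem_orbit_self _⟩ : ι)
    · exact h
  have hdim : ∀ U : ι, finrank K (U : Submodule K V) = finrank K V0 := by
    rintro ⟨_, g, rfl⟩
    show finrank K (V0.map (ρ g)) = finrank K V0
    have hinj : Function.Injective (ρ g) := by
      intro a b hab
      have h1 : ρ g⁻¹ (ρ g a) = ρ g⁻¹ (ρ g b) := by rw [hab]
      rw [← Module.End.mul_apply, ← Module.End.mul_apply, ← map_mul, inv_mul_cancel, map_one] at h1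
      exact h1
    exact (Submodule.equivMapOfInjective (ρ g) hinj V0).finrank_eq.symm
  have hnt : Nontrivial ι := by
    by_contra hcon
    rw [not_nontrivial_iff_subsingleton] at hcon
    apply hns
    have h1 : V0 = ⊤ := by
      rw [eq_top_iff, ← hsup]
      apply iSup_le
      intro U
      have : U = (⟨V0, MulAction.mem_orbit_self _⟩ : ι) := Subsingleton.elim _ _
      rw [this]
    intro a ha
    refine ⟨χ ⟨a, ha⟩, ?_⟩
    ext v
    have h2 : v ∈ V0 := by rw [h1]; trivial
    rw [hV0, mem_jE] at h2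
    exact h2 ⟨a, ha⟩
  obtain ⟨h1, h2⟩ := decomp_bound ρ (fun U : ι => (U : Submodule K V)) hind hsup hmap _ hdim hx
  have h3 := H26.FlavGrp.fixedBy_bound hs hx hgen (α := ι)
  exact numeric h5 h1 h2 h3 finrank_pos

end imprimitive

end H26.FlavRep2
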