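import Cfsg.Agent.Lib.H26.FlavRep2
import Cfsg.Agent.Lib.H26.FlavGrp2
import Cfsg.Agent.Lib.H66.Crit

set_option autoImplicit false
set_option linter.unusedSectionVars false
set_option linter.style.haveILetI false

open Module
open scoped commutatorElement

namespace H26.FlavRep3

universe u

variable {K : Type*} [Field K] {V : Type*} [AddCommGroup V] [Module K V] [FiniteDimensional K V]
  {G : Type u} [Group G] [Finite G]

/-- elements acting as scalars -/
def scal (ρ : Representation K G V) [Nontrivial V] : Subgroup G where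
  carrier := {g | ∃ c : K, ρ g = c • (1 : Module.End K V)}
  one_mem' := ⟨1, by rw [map_one, one_smul]⟩
  mul_mem' := by
    rintro a b ⟨c, hc⟩ ⟨d, hd⟩
    exact ⟨c * d, by rw [map_mul, hc, hd, smul_mul_smul_comm, one_mul]⟩
  inv_mem' := by
    rintro a ⟨c, hc⟩
    have h1 : ρ a⁻¹ * ρ a = (1 : Module.End K V) := by rw [← map_mul, inv_mul_cancel, map_one]
    have hc0 : c ≠ 0 := by
      rintro rfl
      rw [hc, zero_smul, mul_zero] at h1
      exact zero_ne_one h1
    refine ⟨c⁻¹, ?_⟩
    rw [hc, mul_smul_comm, mul_one] at h1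
    rw [← h1, smul_smul, inv_mul_cancel₀ hc0, one_smul]

theorem mem_scal {ρ : Representation K G V} [Nontrivial V] {g : G} :
    g ∈ scal ρ ↔ ∃ c : K, ρ g = c • (1 : Module.End K V) := Iff.rfl

theorem scal_le_center (ρ : Representation K G V) [Nontrivial V] (hf : Function.Injective ρ) :
    scal ρ ≤ Subgroup.center G := by
  rintro z ⟨c, hc⟩
  rw [Subgroup.mem_center_iff]
  intro g
  apply hf
  rw [map_mul, map_mul, hc, mul_smul_comm, smul_mul_assoc, mul_one, one_mul]

/-- commutant of a subgroup -/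
def cent (ρ : Representation K G V) (E : Subgroup G) : Submodule K (Module.End K V) where
  carrier := {S | ∀ y ∈ E, ρ y * S = S * ρ y}
  add_mem' {a b} ha hb := by
    intro y hy
    rw [mul_add, add_mul, ha y hy, hb y hy]
  zero_mem' := by intro y _; rw [mul_zero, zero_mul]
  smul_mem' c a ha := by
    intro y hy
    rw [mul_smul_comm, smul_mul_assoc, ha y hy]

theorem P_left (ρ : Representation K G V) (E : Subgroup G) [Fintype E] {S : Module.End K V} (hS : S ∈ cent ρ E)
    (T : Module.End K V) : H66.Crit.P ρ E (S * T) = S * H66.Crit.P ρ E T := by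
  unfold H66.Crit.P
  rw [Finset.mul_sum]
  apply Finset.sum_congr rfl
  intro y _
  have h1 := hS y y.2
  rw [← mul_assoc, h1]
  simp only [mul_assoc]

/-- the averaging operator as a linear map -/
def Pl (ρ : Representation K G V) (E : Subgroup G) [Fintype E] : Module.End K V →ₗ[K] Module.End K V where
  toFun T := H66.Crit.P ρ E T
  map_add' a b := H66.Crit.P_add ρ E a b
  map_smul' c a := H66.Crit.P_smul ρ E c a

/-- right multiplication -/
def Rm (S : Module.End K V) : Module.End K V →ₗ[K] Module.End K V where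
  toFun T := T * S
  map_add' a b := add_mul a b S
  map_smul' c a := smul_mul_assoc c a S

theorem numeric {p n f o d C v c : ℕ} (hp : 0 < p) (h1 : C ≤ o * d) (h2 : p * o ≤ n + (p - 1) * f)
    (h3 : 4 * (n + (p - 1) * f) ≤ p * n) (h4 : n * d ≤ v ^ 2) (h5 : c ^ 2 < C) : 2 * c < v := by
  have h6 : p * (4 * C) ≤ p * v ^ 2 := by
    calc p * (4 * C) ≤ p * (4 * (o * d)) := by
          apply Nat.mul_le_mul_left
          exact Nat.mul_le_mul_left _ h1
      _ = 4 * (p * o) * d := by ring
      _ ≤ 4 * (n + (p - 1) * f) * d := by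
          apply Nat.mul_le_mul_right
          exact Nat.mul_le_mul_left _ h2
      _ ≤ p * n * d := Nat.mul_le_mul_right _ h3
      _ = p * (n * d) := by ring
      _ ≤ p * v ^ 2 := Nat.mul_le_mul_left _ h4
  have h7 : 4 * C ≤ v ^ 2 := Nat.le_of_mul_le_mul_left h6 hp
  have h8 : (2 * c) ^ 2 < v ^ 2 := by
    have : (2 * c) ^ 2 = 4 * c ^ 2 := by ring
    omega
  exact lt_of_pow_lt_pow_left₀ 2 (Nat.zero_le _) h8

/-- the homogeneous case -/
theorem homogeneous [Nontrivial V] {ℓ : ℕ} [hℓ : Fact ℓ.Prime] [CharP K ℓ] {p : ℕ} [hp : Fact p.Prime] (h5 : 5 ≤ p)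
    (hs : Group.IsSolvable G) {x : G} (hx : x ^ p = 1) (hgen : Subgroup.normalClosure ({x} : Set G) = ⊤)
    (ρ : Representation K G V) (hf : Function.Injective ρ) (hx1 : x ≠ 1)
    (hsc : ∀ A : Subgroup G, A.Normal → (∀ a ∈ A, ∀ b ∈ A, a * b = b * a) → ∀ a ∈ A, ∃ c : K, ρ a = c • (1 : Module.End K V))
    (hns : ¬ ∀ g, ∃ c : K, ρ g = c • (1 : Module.End K V)) :
    2 * finrank K (LinearMap.ker (ρ x - 1)) < finrank K V := by
  classical
  set Z := scal ρ with hZ
  have hZc : Z ≤ Subgroup.center G := scal_le_center ρ hf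
  have hZn : Z.Normal := by
    refine ⟨fun z hz g => ?_⟩
    have := Subgroup.mem_center_iff.mp (hZc hz) g
    rw [this, mul_inv_cancel_right]
    exact hz
  have hab : ∀ A : Subgroup G, A.Normal → (∀ a ∈ A, ∀ b ∈ A, a * b = b * a) → A ≤ Z :=
    fun A hA hc a ha => hsc A hA hc a ha
  have hZt : Z ≠ ⊤ := by
    intro h
    apply hns
    intro g
    have : g ∈ Z := by rw [h]; exact Subgroup.mem_top g
    exact this
  obtain ⟨N, hNn, hNc, ⟨r, hr, hNr, hNe⟩, hNb, hineq⟩ := H26.FlavGrp2.struct h5 hs hx hgen Z hZc hab hZt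
  set π := QuotientGroup.mk' Z with hπ
  have hπs : Function.Surjective π := QuotientGroup.mk'_surjective Z
  have hker : ∀ g : G, π g = 1 ↔ g ∈ Z := fun g => QuotientGroup.eq_one_iff g
  set E : Subgroup G := N.comap π with hE
  have hEn : E.Normal := by rw [hE]; infer_instance
  have hmemE : ∀ g : G, g ∈ E ↔ π g ∈ N := fun g => Iff.rfl
  have hZE : Z ≤ E := by
    intro z hz
    rw [hmemE, (hker z).mpr hz]
    exact one_mem _
  have hEcomm : ∀ a ∈ E, ∀ b ∈ E, ⁅a, b⁆ ∈ Z := by
    intro a ha b hb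
    rw [← hker, commutatorElement_def, map_mul, map_mul, map_mul, map_inv, map_inv,
      hNc _ ((hmemE a).mp ha) _ ((hmemE b).mp hb)]
    group
  have hEZ : ¬ E ≤ Z := by
    intro h
    apply hNb
    rw [eq_bot_iff]
    intro n hn
    obtain ⟨n, rfl⟩ := hπs n
    rw [Subgroup.mem_bot, hker]
    exact h hn
  have hD : H66.Crit.Data ρ E Z := by
    refine ⟨hZE, fun z hz => hz, hEcomm, ?_⟩
    intro a ha h
    have hA := hab (E ⊓ Subgroup.centralizer (E : Set G)) inferInstance (by
      intro u hu v hv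
      exact (Subgroup.mem_centralizer_iff.mp hv.2 u hu.1))
    apply hA
    refine Subgroup.mem_inf.mpr ⟨ha, ?_⟩
    rw [Subgroup.mem_centralizer_iff]
    intro y hy
    have h1 : ⁅a, y⁆ = 1 := hf (by rw [h y hy, map_one])
    exact (commutatorElement_eq_one_iff_mul_comm.mp h1).symm
  -- no elements of order `ℓ` in `Z`
  have hZℓ : ∀ z ∈ Z, z ^ ℓ = 1 → z = 1 := by
    rintro z ⟨c, hc⟩ hz
    have h1 : (ρ z) ^ ℓ = 1 := by rw [← map_pow, hz, map_one]
    rw [hc, smul_pow, one_pow] at h1
    have h2 : c ^ ℓ = 1 := by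
      obtain ⟨v, hv⟩ := exists_ne (0 : V)
      have h3 := LinearMap.congr_fun h1 v
      rw [LinearMap.smul_apply, Module.End.one_apply] at h3
      have h4 : (c ^ ℓ - 1) • v = 0 := by rw [sub_smul, one_smul, h3, sub_self]
      exact sub_eq_zero.mp ((smul_eq_zero.mp h4).resolve_right hv)
    have h3 : (c - 1) ^ ℓ = 0 := by rw [sub_pow_char, h2, one_pow, sub_self]
    have h4 : c = 1 := sub_eq_zero.mp (eq_zero_of_pow_eq_zero h3)
    apply hf
    rw [hc, h4, one_smul, map_one]
  have hZ0 : (Nat.card Z : K) ≠ 0 := by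
    intro h
    rw [CharP.cast_eq_zero_iff K ℓ] at h
    obtain ⟨z, hz⟩ := exists_prime_orderOf_dvd_card' ℓ h
    have h1 : (z : G) = 1 := hZℓ z z.2 (by
      have := pow_orderOf_eq_one z
      rw [hz] at this
      exact congrArg Subtype.val this)
    have h2 : z = 1 := Subtype.ext h1
    rw [h2, orderOf_one] at hz
    exact hℓ.out.one_lt.ne hz
  have hrℓ : r ≠ ℓ := by
    intro h
    apply hEZ
    apply hab E hEn
    intro a ha b hb
    have hzc := Subgroup.mem_center_iff.mp (hZc (hEcomm a ha b hb))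
    have h1 : ∀ k : ℕ, a ^ k * b * (a ^ k)⁻¹ * b⁻¹ = ⁅a, b⁆ ^ k := by
      intro k
      induction k with
      | zero => simp
      | succ k ih =>
        have e1 : a ^ (k + 1) * b * (a ^ (k + 1))⁻¹ * b⁻¹ =
            a * (a ^ k * b * (a ^ k)⁻¹ * b⁻¹) * a⁻¹ * (a * b * a⁻¹ * b⁻¹) := by
          rw [pow_succ']; group
        have e2 : a * ⁅a, b⁆ ^ k * a⁻¹ = ⁅a, b⁆ ^ k := by
          have h3 : Commute a ⁅a, b⁆ := hzc a
          rw [(h3.pow_right k).eq, mul_inv_cancel_right]
        rw [e1, ih, e2, pow_succ]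
        rfl
    have h2 : a ^ r ∈ Z := by
      rw [← hker, map_pow]
      exact hNe _ ha
    have h3 : a ^ r * b * (a ^ r)⁻¹ * b⁻¹ = 1 := by
      have := Subgroup.mem_center_iff.mp (hZc h2) b
      rw [← this]; group
    have h4 : ⁅a, b⁆ = 1 := by
      apply hZℓ _ (hEcomm a ha b hb)
      rw [← h, ← h1 r, h3]
    exact commutatorElement_eq_one_iff_mul_comm.mp h4
  have hr0 : (r : K) ≠ 0 := by
    intro h
    rw [CharP.cast_eq_zero_iff K ℓ] at h
    exact hrℓ ((Nat.prime_dvd_prime_iff_eq hℓ.out hr).mp h).symm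
  have hcardE : Nat.card E = Nat.card Z * Nat.card N := H1.Cores.card_comap_mk' Z N
  have hE0 : (Nat.card E : K) ≠ 0 := by
    have hrf : Fact r.Prime := ⟨hr⟩
    obtain ⟨m, hm⟩ := IsPGroup.iff_card.mp hNr
    rw [hcardE, hm]
    push_cast
    exact mul_ne_zero hZ0 (pow_ne_zero _ hr0)
  letI : Fintype E := Fintype.ofFinite E
  letI : Fintype Z := Fintype.ofFinite Z
  letI : Fintype N := Fintype.ofFinite N
  have hE0' : (Fintype.card E : K) ≠ 0 := by rwa [← Nat.card_eq_fintype_card]
  have hZ0' : (Fintype.card Z : K) ≠ 0 := by rwa [← Nat.card_eq_fintype_card]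
  -- lifts
  let t : N → G := fun b => (hπs (b : G ⧸ Z)).choose
  have ht : ∀ b, π (t b) = (b : G ⧸ Z) := fun b => (hπs (b : G ⧸ Z)).choose_spec
  have htE : ∀ b, t b ∈ E := fun b => by rw [hmemE, ht]; exact b.2
  -- comparison of lifts
  have hlift : ∀ (T : Module.End K V) (w w' : G), w⁻¹ * w' ∈ Z → H66.Crit.P ρ E (T * ρ w⁻¹) = 0 →
      H66.Crit.P ρ E (T * ρ w'⁻¹) = 0 := by
    intro T w w' h h0
    obtain ⟨c, hc⟩ := Z.inv_mem h
    have e : w'⁻¹ = (w⁻¹ * w')⁻¹ * w⁻¹ := by group
    rw [e, map_mul, hc, smul_mul_assoc, one_mul, mul_smul_comm, H66.Crit.P_smul, h0, smul_zero]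
  -- the action on `N`
  letI : MulAction G N :=
    { smul := fun g b => ⟨π g * b * (π g)⁻¹, hNn.conj_mem b b.2 (π g)⟩
      one_smul := fun b => by
        apply Subtype.ext
        show π 1 * (b : G ⧸ Z) * (π 1)⁻¹ = b
        rw [map_one, inv_one, mul_one, one_mul]
      mul_smul := fun g h b => by
        apply Subtype.ext
        show π (g * h) * (b : G ⧸ Z) * (π (g * h))⁻¹ = π g * (π h * b * (π h)⁻¹) * (π g)⁻¹
        rw [map_mul, mul_inv_rev]; group }
  have hsmul : ∀ (g : G) (b : N), ((g • b : N) : G ⧸ Z) = π g * b * (π g)⁻¹ := fun _ _ => rfl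
  have hfixcard : Nat.card {b : N // x • b = b} =
      Nat.card (N ⊓ Subgroup.centralizer {π x} : Subgroup (G ⧸ Z)) := by
    refine Nat.card_congr ⟨fun b => ⟨(b : N), Subgroup.mem_inf.mpr ⟨(b : N).2, ?_⟩⟩, fun b => ⟨⟨b, b.2.1⟩, ?_⟩,
      fun b => rfl, fun b => rfl⟩
    · have h1 := congrArg Subtype.val b.2
      rw [hsmul, mul_inv_eq_iff_eq_mul] at h1
      rw [Subgroup.mem_centralizer_singleton_iff]
      exact h1.symm
    · apply Subtype.ext
      rw [hsmul, mul_inv_eq_iff_eq_mul]
      exact (Subgroup.mem_centralizer_singleton_iff.mp b.2.2).symm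
  set C := H26.FlavRep.comm (ρ x : Module.End K V) with hC
  have hcommg : ∀ T ∈ C, ∀ g ∈ Subgroup.zpowers x, T * ρ g = ρ g * T := by
    intro T hT g hg
    have hfo : IsOfFinOrder x := isOfFinOrder_iff_pow_eq_one.mpr ⟨p, hp.out.pos, hx⟩
    rw [← hfo.mem_powers_iff_mem_zpowers] at hg
    obtain ⟨k, rfl⟩ := hg
    have h1 : Commute T (ρ x : Module.End K V) := hT
    have h2 := h1.pow_right k
    rw [← map_pow] at h2
    exact h2
  let s : N → (C →ₗ[K] Module.End K V) := fun b => (Pl ρ E) ∘ₗ (Rm (ρ (t b)⁻¹)) ∘ₗ C.subtype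
  have hsv : ∀ (b : N) (T : C), s b T = H66.Crit.P ρ E ((T : Module.End K V) * ρ (t b)⁻¹) := fun _ _ => rfl
  have h1 := H26.FlavRep.finrank_le_orbits (P := Subgroup.zpowers x) (ι := N) s (fun _ => cent ρ E)
    (finrank K (cent ρ E)) (by
      intro b T y hy
      rw [hsv]
      exact H66.Crit.commute_P ρ E _ hy) (fun _ => le_rfl) (by
      intro T hT
      apply Subtype.ext
      have h2 := hD.expand (T : Module.End K V)
      have h3 : ∑ w : E, H66.Crit.P ρ E ((T : Module.End K V) * ρ (w : G)⁻¹) * ρ (w : G) = 0 := by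
        apply Finset.sum_eq_zero
        intro w _
        have h4 := hT ⟨π w, w.2⟩
        rw [hsv] at h4
        rw [hlift (T : Module.End K V) (t ⟨π w, w.2⟩) w (by
          rw [← hker, map_mul, map_inv, ht, inv_mul_cancel]) h4, zero_mul]
      rw [h3] at h2
      exact (smul_eq_zero.mp h2.symm).resolve_left (mul_ne_zero hE0' hZ0')) (by
      intro g b T hT
      rw [hsv] at hT ⊢
      have h2 : H66.Crit.P ρ E ((T : Module.End K V) * ρ ((g : G) * t b * (g : G)⁻¹)⁻¹) = 0 := by
        have e : ((g : G) * t b * (g : G)⁻¹)⁻¹ = (g : G) * (t b)⁻¹ * (g : G)⁻¹ := by group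
        have e2 : (T : Module.End K V) * ρ ((g : G) * (t b)⁻¹ * (g : G)⁻¹) =
            ρ (g : G) * ((T : Module.End K V) * ρ (t b)⁻¹) * ρ (g : G)⁻¹ := by
          rw [map_mul, map_mul]
          have h3 := hcommg T T.2 g g.2
          calc (T : Module.End K V) * (ρ (g : G) * ρ (t b)⁻¹ * ρ (g : G)⁻¹)
              = ((T : Module.End K V) * ρ (g : G)) * ρ (t b)⁻¹ * ρ (g : G)⁻¹ := by simp only [mul_assoc]
            _ = _ := by rw [h3]; simp only [mul_assoc]
        rw [e, e2, H66.Crit.P_conj ρ E _ (by rw [Subgroup.normalizer_eq_top]; exact Subgroup.mem_top _), hT,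
          mul_zero, zero_mul]
      refine hlift _ _ _ ?_ h2
      rw [← hker, map_mul, map_inv, ht]
      show (π ((g : G) * t b * (g : G)⁻¹))⁻¹ * (((g : G) • b : N) : G ⧸ Z) = 1
      rw [hsmul, map_mul, map_mul, map_inv, ht, inv_mul_cancel])
  have h2 := H26.FlavRep.card_orbits_le (ι := N) hx
  rw [hfixcard] at h2
  have h4 : Nat.card N * finrank K (cent ρ E) ≤ (finrank K V) ^ 2 := by
    let Ψ : (N → cent ρ E) →ₗ[K] Module.End K V :=
      { toFun := fun S => ∑ b, (S b : Module.End K V) * ρ (t b)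
        map_add' := by
          intro S S'
          simp only [Pi.add_apply, Submodule.coe_add, add_mul, Finset.sum_add_distrib]
        map_smul' := by
          intro c S
          simp only [Pi.smul_apply, Submodule.coe_smul, smul_mul_assoc, Finset.smul_sum, RingHom.id_apply] }
    have hΨ : Function.Injective Ψ := by
      rw [← LinearMap.ker_eq_bot, LinearMap.ker_eq_bot']
      intro S hS
      have hS' : ∑ b, (S b : Module.End K V) * ρ (t b) = 0 := hS
      funext c
      apply Subtype.ext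
      have h6 : Pl ρ E (Rm (ρ (t c)⁻¹) (∑ b, (S b : Module.End K V) * ρ (t b))) = 0 := by
        rw [hS', map_zero, map_zero]
      rw [map_sum, map_sum, Finset.sum_eq_single c] at h6
      · have e : Rm (ρ (t c)⁻¹) ((S c : Module.End K V) * ρ (t c)) = (S c : Module.End K V) * ρ 1 := by
          show (S c : Module.End K V) * ρ (t c) * ρ (t c)⁻¹ = _
          rw [mul_assoc, ← map_mul, mul_inv_cancel]
        rw [e] at h6
        have h7 : H66.Crit.P ρ E ((S c : Module.End K V) * ρ 1) = 0 := h6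
        rw [P_left ρ E (S c).2, hD.P_of_mem (one_mem Z), map_one, mul_smul_comm, mul_one] at h7
        exact (smul_eq_zero.mp h7).resolve_left hE0'
      · intro b _ hbc
        have e : Rm (ρ (t c)⁻¹) ((S b : Module.End K V) * ρ (t b)) = (S b : Module.End K V) * ρ (t b * (t c)⁻¹) := by
          show (S b : Module.End K V) * ρ (t b) * ρ (t c)⁻¹ = _
          rw [mul_assoc, ← map_mul]
        rw [e]
        show H66.Crit.P ρ E ((S b : Module.End K V) * ρ (t b * (t c)⁻¹)) = 0
        rw [P_left ρ E (S b).2, hD.P_of_notMem (E.mul_mem (htE b) (E.inv_mem (htE c))), mul_zero]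
        intro h
        apply hbc
        rw [← hker, map_mul, map_inv, ht, ht, mul_inv_eq_one] at h
        exact Subtype.ext h
      · intro h; exact absurd (Finset.mem_univ c) h
    have h6 := LinearMap.finrank_le_finrank_of_injective hΨ
    rw [Module.finrank_pi_fintype, Finset.sum_const, smul_eq_mul, Finset.card_univ, ← Nat.card_eq_fintype_card] at h6
    have h7 : finrank K (Module.End K V) = (finrank K V) ^ 2 := by
      rw [sq]; exact Module.finrank_linearMap K K V V
    rwa [h7] at h6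
  have hxρ : (ρ x : Module.End K V) ≠ 1 := fun h => hx1 (hf (by rw [h, map_one]))
  have h6 := H26.FlavRep.sq_lt_finrank_comm (ρ x : Module.End K V) hxρ
  exact numeric hp.out.pos h1 h2 hineq h4 h6

end H26.FlavRep3
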