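import Cfsg.Agent.Lib.H26.FlavRep3
import Cfsg.Agent.Lib.H44.LSIrr

set_option autoImplicit false
set_option linter.unusedSectionVars false
set_option linter.style.haveILetI false

open Module
open scoped commutatorElement

namespace H26.FlavRep4

universe u v

section

variable {K : Type*} [Field K] [IsAlgClosed K] {V : Type*} [AddCommGroup V] [Module K V] [FiniteDimensional K V]
  {G : Type u} [Group G] [Finite G]

theorem faithful [Nontrivial V] {ℓ : ℕ} [hℓ : Fact ℓ.Prime] [CharP K ℓ] {p : ℕ} [hp : Fact p.Prime] (h5 : 5 ≤ p)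
    (hs : Group.IsSolvable G) {x : G} (hx : x ^ p = 1) (hgen : Subgroup.normalClosure ({x} : Set G) = ⊤)
    (ρ : Representation K G V) (hf : Function.Injective ρ) (hx1 : x ≠ 1)
    (hirr : ∀ W : Submodule K V, (∀ g, ∀ v ∈ W, ρ g v ∈ W) → W = ⊥ ∨ W = ⊤) :
    2 * finrank K (LinearMap.ker (ρ x - 1)) < finrank K V := by
  by_cases hns : ∀ g, ∃ c : K, ρ g = c • (1 : Module.End K V)
  · obtain ⟨c, hc⟩ := hns x
    have hker : LinearMap.ker (ρ x - 1) = ⊥ := by
      rw [LinearMap.ker_eq_bot']
      intro v hv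
      by_contra hv0
      have h1 : (c - 1) • v = 0 := by
        rw [LinearMap.sub_apply, Module.End.one_apply, hc, LinearMap.smul_apply, Module.End.one_apply] at hv
        rw [sub_smul, one_smul, hv]
      have h2 : c = 1 := sub_eq_zero.mp ((smul_eq_zero.mp h1).resolve_right hv0)
      apply hx1
      apply hf
      rw [hc, h2, one_smul, map_one]
    rw [hker, finrank_bot, mul_zero]
    exact finrank_pos
  · by_cases hsc : ∀ A : Subgroup G, A.Normal → (∀ a ∈ A, ∀ b ∈ A, a * b = b * a) →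
        ∀ a ∈ A, ∃ c : K, ρ a = c • (1 : Module.End K V)
    · exact H26.FlavRep3.homogeneous (ℓ := ℓ) h5 hs hx hgen ρ hf hx1 hsc hns
    · push Not at hsc
      obtain ⟨A, hAn, hAc, a, ha, hna⟩ := hsc
      refine H26.FlavRep2.imprimitive h5 hs hx hgen ρ hirr A hAc ?_
      intro h
      obtain ⟨c, hc⟩ := h a ha
      exact hna c hc

theorem nontriv [Nontrivial V] {ℓ : ℕ} [hℓ : Fact ℓ.Prime] [CharP K ℓ] {p : ℕ} [hp : Fact p.Prime] (h5 : 5 ≤ p)
    (hs : Group.IsSolvable G) {x : G} (hx : x ^ p = 1) (hgen : Subgroup.normalClosure ({x} : Set G) = ⊤)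
    (ρ : Representation K G V) (hne : ∃ g, ρ g ≠ 1)
    (hirr : ∀ W : Submodule K V, (∀ g, ∀ v ∈ W, ρ g v ∈ W) → W = ⊥ ∨ W = ⊤) :
    2 * finrank K (LinearMap.ker (ρ x - 1)) < finrank K V := by
  set N : Subgroup G := MonoidHom.ker ρ with hN
  have hNn : N.Normal := by rw [hN]; infer_instance
  let ρ' : Representation K (G ⧸ N) V := QuotientGroup.lift N ρ (fun g hg => hg)
  have hρ' : ∀ g : G, ρ' (QuotientGroup.mk' N g) = ρ g := fun g => rfl
  have hsurj := QuotientGroup.mk'_surjective N
  have hxN : QuotientGroup.mk' N x ≠ 1 := by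
    intro h
    have h1 : x ∈ N := (QuotientGroup.eq_one_iff x).mp h
    obtain ⟨g, hg⟩ := hne
    apply hg
    have h2 : N = ⊤ := by
      rw [eq_top_iff, ← hgen]
      apply Subgroup.normalClosure_le_normal
      rw [Set.singleton_subset_iff]
      exact h1
    have h3 : g ∈ N := by rw [h2]; exact Subgroup.mem_top g
    exact h3
  have hinj : Function.Injective ρ' := by
    intro a b hab
    obtain ⟨a, rfl⟩ := hsurj a
    obtain ⟨b, rfl⟩ := hsurj b
    rw [hρ', hρ'] at hab
    rw [← inv_mul_eq_one, ← map_inv, ← map_mul]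
    refine (QuotientGroup.eq_one_iff _).mpr ?_
    show ρ (a⁻¹ * b) = 1
    rw [map_mul, ← hab, ← map_mul, inv_mul_cancel, map_one]
  refine faithful (ℓ := ℓ) (x := QuotientGroup.mk' N x) h5 (Group.isSolvable_of_surjective hsurj) ?_ ?_ ρ' hinj hxN ?_
  · rw [← map_pow, hx, map_one]
  · have h1 := Subgroup.map_normalClosure ({x} : Set G) (QuotientGroup.mk' N) hsurj
    rw [hgen, Set.image_singleton] at h1
    rw [← h1, eq_top_iff]
    intro g _
    obtain ⟨g, rfl⟩ := hsurj g
    exact ⟨g, Subgroup.mem_top g, rfl⟩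
  · intro W hW
    exact hirr W (fun g v hv => hW (QuotientGroup.mk' N g) v hv)

end

section subquot

variable {K : Type*} [Field K] {V : Type*} [AddCommGroup V] [Module K V] [FiniteDimensional K V]
  {G : Type u} [Group G]

def subR (ρ : G →* Module.End K V) (W : Submodule K V) (hW : ∀ g, ∀ v ∈ W, ρ g v ∈ W) : G →* Module.End K W where
  toFun g := (ρ g).restrict (hW g)
  map_one' := by
    ext v
    show (ρ 1) (v : V) = v
    rw [map_one]; rfl
  map_mul' g h := by
    ext v
    show (ρ (g * h)) (v : V) = ρ g (ρ h v)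
    rw [map_mul]; rfl

theorem subR_apply (ρ : G →* Module.End K V) (W : Submodule K V) (hW : ∀ g, ∀ v ∈ W, ρ g v ∈ W) (g : G) (v : W) :
    (subR ρ W hW g v : V) = ρ g v := rfl

def quotR (ρ : G →* Module.End K V) (W : Submodule K V) (hW : ∀ g, ∀ v ∈ W, ρ g v ∈ W) :
    G →* Module.End K (V ⧸ W) where
  toFun g := W.mapQ W (ρ g) (fun v hv => hW g v hv)
  map_one' := by
    apply LinearMap.ext
    intro w
    obtain ⟨v, rfl⟩ := W.mkQ_surjective w
    show W.mkQ (ρ 1 v) = W.mkQ v
    rw [map_one]; rfl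
  map_mul' g h := by
    apply LinearMap.ext
    intro w
    obtain ⟨v, rfl⟩ := W.mkQ_surjective w
    show W.mkQ (ρ (g * h) v) = W.mkQ (ρ g (ρ h v))
    rw [map_mul]; rfl

theorem quotR_apply (ρ : G →* Module.End K V) (W : Submodule K V) (hW : ∀ g, ∀ v ∈ W, ρ g v ∈ W) (g : G) (v : V) :
    quotR ρ W hW g (W.mkQ v) = W.mkQ (ρ g v) := rfl

theorem finrank_ker_le (ρ : G →* Module.End K V) (W : Submodule K V) (hW : ∀ g, ∀ v ∈ W, ρ g v ∈ W) (x : G) :
    finrank K (LinearMap.ker (ρ x - 1)) ≤ finrank K (LinearMap.ker (subR ρ W hW x - 1)) +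
      finrank K (LinearMap.ker (quotR ρ W hW x - 1)) := by
  have hmem : ∀ v, v ∈ LinearMap.ker (ρ x - 1) ↔ ρ x v = v := by
    intro v
    rw [LinearMap.mem_ker, LinearMap.sub_apply, Module.End.one_apply, sub_eq_zero]
  let f : LinearMap.ker (ρ x - 1) →ₗ[K] LinearMap.ker (quotR ρ W hW x - 1) :=
    (W.mkQ ∘ₗ (LinearMap.ker (ρ x - 1)).subtype).codRestrict _ (by
      intro v
      rw [LinearMap.mem_ker, LinearMap.sub_apply, Module.End.one_apply, sub_eq_zero]
      show quotR ρ W hW x (W.mkQ v) = W.mkQ v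
      rw [quotR_apply, (hmem v).mp v.2])
  have h1 := LinearMap.finrank_range_add_finrank_ker f
  have h2 : finrank K (LinearMap.range f) ≤ finrank K (LinearMap.ker (quotR ρ W hW x - 1)) :=
    Submodule.finrank_le _
  have hker : ∀ v : LinearMap.ker f, ((v : LinearMap.ker (ρ x - 1)) : V) ∈ W := by
    intro v
    have h3 : f v = 0 := v.2
    have h4 : W.mkQ ((v : LinearMap.ker (ρ x - 1)) : V) = 0 := congrArg Subtype.val h3
    rwa [Submodule.mkQ_apply, Submodule.Quotient.mk_eq_zero] at h4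
  let g : LinearMap.ker f →ₗ[K] LinearMap.ker (subR ρ W hW x - 1) :=
    (((LinearMap.ker (ρ x - 1)).subtype ∘ₗ (LinearMap.ker f).subtype).codRestrict W hker).codRestrict _ (by
      intro v
      rw [LinearMap.mem_ker, LinearMap.sub_apply, Module.End.one_apply, sub_eq_zero]
      apply Subtype.ext
      exact (hmem _).mp (v : LinearMap.ker (ρ x - 1)).2)
  have hg : Function.Injective g := by
    intro a b hab
    apply Subtype.ext
    apply Subtype.ext
    have h6 : (((g a : LinearMap.ker (subR ρ W hW x - 1)) : W) : V) = ((g b : LinearMap.ker (subR ρ W hW x - 1)) : W) := by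
      rw [hab]
    exact h6
  have h3 := LinearMap.finrank_le_finrank_of_injective hg
  omega

end subquot

/-- all composition factors nontrivial -/
theorem comp_bound {K : Type*} [Field K] [IsAlgClosed K] {G : Type u} [Group G] [Finite G] {ℓ : ℕ}
    [hℓ : Fact ℓ.Prime] [CharP K ℓ] {p : ℕ} [hp : Fact p.Prime] (h5 : 5 ≤ p)
    (hs : Group.IsSolvable G) {x : G} (hx : x ^ p = 1) (hgen : Subgroup.normalClosure ({x} : Set G) = ⊤)
    (A : Subgroup G) [Fintype A] (hA : (Fintype.card A : K) ≠ 0) (n : ℕ) :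
    ∀ (V : Type v) [AddCommGroup V] [Module K V] [FiniteDimensional K V] [Nontrivial V] (ρ : G →* Module.End K V),
      finrank K V = n → (∑ a : A, (ρ a : Module.End K V)) = 0 →
      2 * finrank K (LinearMap.ker (ρ x - 1)) < finrank K V := by
  induction n using Nat.strong_induction_on with
  | _ n ih =>
  intro V _ _ _ _ ρ hn hsum
  by_cases hirr : ∀ W : Submodule K V, (∀ g, ∀ v ∈ W, ρ g v ∈ W) → W = ⊥ ∨ W = ⊤
  · refine nontriv (ℓ := ℓ) h5 hs hx hgen ρ ?_ hirr
    by_contra hcon
    push Not at hcon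
    have h1 : (∑ a : A, (ρ a : Module.End K V)) = (Fintype.card A : K) • (1 : Module.End K V) := by
      have h0 : ∀ a ∈ (Finset.univ : Finset A), (ρ (a : G) : Module.End K V) = 1 := fun a _ => hcon a
      rw [Finset.sum_congr rfl h0, Finset.sum_const, Finset.card_univ, Nat.cast_smul_eq_nsmul]
    rw [hsum] at h1
    obtain ⟨v, hv⟩ := exists_ne (0 : V)
    have h2 := LinearMap.congr_fun h1 v
    rw [LinearMap.smul_apply, Module.End.one_apply] at h2
    exact (smul_ne_zero hA hv) h2.symm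
  · push Not at hirr
    obtain ⟨W, hW, hWb, hWt⟩ := hirr
    have hWn : Nontrivial W := (Submodule.nontrivial_iff_ne_bot).mpr hWb
    have hQn : Nontrivial (V ⧸ W) := Submodule.Quotient.nontrivial_iff.mpr hWt
    have h1 := Submodule.finrank_quotient_add_finrank W
    have h2 : 0 < finrank K W := finrank_pos
    have h3 : 0 < finrank K (V ⧸ W) := finrank_pos
    have hsW : (∑ a : A, (subR ρ W hW a : Module.End K W)) = 0 := by
      ext w
      have h4 := LinearMap.congr_fun hsum (w : V)
      rw [LinearMap.sum_apply] at h4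
      rw [LinearMap.sum_apply, AddSubmonoidClass.coe_finsetSum]
      exact h4
    have hsQ : (∑ a : A, (quotR ρ W hW a : Module.End K (V ⧸ W))) = 0 := by
      ext w
      have h4 := LinearMap.congr_fun hsum w
      rw [LinearMap.sum_apply] at h4
      show (∑ a : A, (quotR ρ W hW a : Module.End K (V ⧸ W))) (W.mkQ w) = 0
      rw [LinearMap.sum_apply]
      have h5 : ∀ a ∈ (Finset.univ : Finset A), (quotR ρ W hW (a : G)) (W.mkQ w) = W.mkQ (ρ a w) :=
        fun a _ => rfl
      rw [Finset.sum_congr rfl h5, ← map_sum, h4]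
      exact map_zero _
    have h4 := ih (finrank K W) (by omega) W (subR ρ W hW) rfl hsW
    have h5' := ih (finrank K (V ⧸ W)) (by omega) (V ⧸ W) (quotR ρ W hW) rfl hsQ
    have h6 := finrank_ker_le ρ W hW x
    omega

end H26.FlavRep4
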