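import Cfsg.Agent.Lib.H26.FlavRep4

set_option autoImplicit false
set_option linter.unusedSectionVars false
set_option linter.style.haveILetI false

open Module
open scoped commutatorElement TensorProduct

namespace H26.FlavRep5

universe u

variable {k : Type*} [Field k] {V : Type*} [AddCommGroup V] [Module k V] [FiniteDimensional k V]
  {G : Type u} [Group G] [Finite G]

/-- vectors fixed by a subgroup -/
def fixS (ρ : G →* Module.End k V) (A : Subgroup G) : Submodule k V where
  carrier := {v | ∀ a ∈ A, ρ a v = v}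
  add_mem' {v w} hv hw := by
    intro a ha
    rw [map_add, hv a ha, hw a ha]
  zero_mem' := by intro a _; rw [map_zero]
  smul_mem' c v hv := by
    intro a ha
    rw [map_smul, hv a ha]

theorem mem_fixS {ρ : G →* Module.End k V} {A : Subgroup G} {v : V} :
    v ∈ fixS ρ A ↔ ∀ a ∈ A, ρ a v = v := Iff.rfl

theorem fixS_inv (ρ : G →* Module.End k V) (A : Subgroup G) [hA : A.Normal] (g : G) (v : V) (hv : v ∈ fixS ρ A) :
    ρ g v ∈ fixS ρ A := by
  intro a ha
  rw [← Module.End.mul_apply, ← map_mul]
  have e : a * g = g * (g⁻¹ * a * g) := by group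
  rw [e, map_mul, Module.End.mul_apply, hv (g⁻¹ * a * g) (by simpa using hA.conj_mem a ha g⁻¹)]

theorem outer [Nontrivial V] (ℓ : ℕ) [hℓ : Fact ℓ.Prime] [CharP k ℓ] {p : ℕ} [hp : Fact p.Prime] (h5 : 5 ≤ p)
    (hs : Group.IsSolvable G) {x : G} (hx : x ^ p = 1) (hgen : Subgroup.normalClosure ({x} : Set G) = ⊤)
    (ρ : G →* Module.End k V) (hf : Function.Injective ρ) (hx1 : x ≠ 1)
    (hirr : ∀ W : Submodule k V, (∀ g, ∀ v ∈ W, ρ g v ∈ W) → W = ⊥ ∨ W = ⊤) :
    2 * finrank k (LinearMap.ker (ρ x - 1)) < finrank k V := by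
  classical
  have hnt : Nontrivial G := ⟨⟨x, 1, hx1⟩⟩
  obtain ⟨t, ht, T, hTn, hTb, hTt, hTc⟩ := H63.SolvablePrimes.exists_normal_elementary hs
  have hTfix : fixS ρ T = ⊥ := by
    rcases hirr (fixS ρ T) (fixS_inv ρ T) with h | h
    · exact h
    · exfalso
      apply hTb
      rw [eq_bot_iff]
      intro a ha
      rw [Subgroup.mem_bot]
      apply hf
      rw [map_one]
      ext v
      have h1 : v ∈ fixS ρ T := by rw [h]; trivial
      exact h1 a ha
  have htℓ : t ≠ ℓ := by
    intro h
    subst h
    have hcE : CharP (Module.End k V) t :=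
      charP_of_injective_algebraMap (algebraMap k (Module.End k V)).injective t
    obtain ⟨χ, hχ, v, -, hv0, hv⟩ := H26.FlavRep.exists_common (fun a : T => (ρ a : Module.End k V))
      (fun a b => by rw [← map_mul, ← map_mul, hTc _ a.2 _ b.2]) (fun _ => {1}) (by
        intro a W hW hinv
        by_contra hcon
        push Not at hcon
        have h1 : ∀ w ∈ W, w ≠ 0 → (ρ a - 1 : Module.End k V) w ≠ 0 := by
          intro w hw hw0 h2
          apply hcon 1 rfl w hw hw0
          rw [LinearMap.sub_apply, Module.End.one_apply, sub_eq_zero] at h2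
          rw [h2, one_smul]
        have h2 : ∀ j : ℕ, ∀ w ∈ W, w ≠ 0 → ((ρ a - 1 : Module.End k V) ^ j) w ∈ W ∧
            ((ρ a - 1 : Module.End k V) ^ j) w ≠ 0 := by
          intro j
          induction j with
          | zero => intro w hw hw0; exact ⟨by simpa using hw, by simpa using hw0⟩
          | succ j ih =>
            intro w hw hw0
            obtain ⟨h3, h4⟩ := ih w hw hw0
            rw [pow_succ', Module.End.mul_apply]
            refine ⟨?_, h1 _ h3 h4⟩
            rw [LinearMap.sub_apply, Module.End.one_apply]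
            exact W.sub_mem (hinv _ h3) h3
        obtain ⟨w, hw, hw0⟩ := (Submodule.ne_bot_iff _).mp hW
        apply (h2 t w hw hw0).2
        rw [sub_pow_char_of_commute t (Commute.one_right _), ← map_pow, hTt _ a.2, map_one, one_pow, sub_self]
        rfl) _ ⊤ (by exact top_ne_bot) (fun _ _ _ => trivial) rfl
    have h1 : v ∈ fixS ρ T := by
      intro a ha
      have h2 := hv ⟨a, ha⟩
      have h3 : χ ⟨a, ha⟩ = 1 := hχ ⟨a, ha⟩
      rw [h3, one_smul] at h2
      exact h2
    rw [hTfix, Submodule.mem_bot] at h1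
    exact hv0 h1
  letI : Fintype T := Fintype.ofFinite T
  have hTp : IsPGroup t T := fun y => ⟨1, by
    apply Subtype.ext
    rw [pow_one]
    exact hTt y y.2⟩
  have htf : Fact t.Prime := ⟨ht⟩
  have hcard0 : (Fintype.card T : k) ≠ 0 := by
    obtain ⟨m, hm⟩ := IsPGroup.iff_card.mp hTp
    rw [← Nat.card_eq_fintype_card, hm]
    push_cast
    apply pow_ne_zero
    intro h
    rw [CharP.cast_eq_zero_iff k ℓ] at h
    exact htℓ ((Nat.prime_dvd_prime_iff_eq hℓ.out ht).mp h).symm
  have hsum : (∑ a : T, (ρ a : Module.End k V)) = 0 := by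
    ext v
    have h1 : (∑ a : T, (ρ a : Module.End k V)) v ∈ fixS ρ T := by
      intro b hb
      rw [← Module.End.mul_apply, Finset.mul_sum]
      congr 1
      have h2 : ∀ a : T, ρ b * ρ (a : G) = ρ ((⟨b, hb⟩ * a : T) : G) := by
        intro a
        rw [← map_mul]; rfl
      rw [Finset.sum_congr rfl (fun a _ => h2 a)]
      exact Equiv.sum_comp (Equiv.mulLeft (⟨b, hb⟩ : T)) (fun a : T => (ρ (a : G) : Module.End k V))
    rw [hTfix, Submodule.mem_bot] at h1
    exact h1
  -- base change
  let K := AlgebraicClosure k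
  have hK : CharP K ℓ := charP_of_injective_algebraMap (algebraMap k K).injective ℓ
  let ρK : G →* Module.End K (K ⊗[k] V) := ((Module.End.baseChangeHom k K V : _ →* _)).comp ρ
  have hρK : ∀ g, ρK g = (ρ g).baseChange K := fun g => rfl
  have hdim : finrank K (K ⊗[k] V) = finrank k V := Module.finrank_baseChange
  have hntK : Nontrivial (K ⊗[k] V) := by
    apply Module.nontrivial_of_finrank_pos (R := K)
    rw [hdim]; exact finrank_pos
  have hsumK : (∑ a : T, (ρK a : Module.End K (K ⊗[k] V))) = 0 := by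
    have h1 : (∑ a : T, (ρK a : Module.End K (K ⊗[k] V))) =
        Module.End.baseChangeHom k K V (∑ a : T, (ρ a : Module.End k V)) := by
      rw [map_sum]; rfl
    rw [h1, hsum, map_zero]
  have hcardK : (Fintype.card T : K) ≠ 0 := by
    intro h
    apply hcard0
    apply (algebraMap k K).injective
    rw [map_natCast, map_zero, h]
  have h1 := H26.FlavRep4.comp_bound (ℓ := ℓ) h5 hs hx hgen T hcardK _ (K ⊗[k] V) ρK rfl hsumK
  rw [hdim] at h1
  refine lt_of_le_of_lt ?_ h1
  apply Nat.mul_le_mul_left
  set C := LinearMap.ker (ρ x - 1) with hC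
  have h2 : finrank K (K ⊗[k] C) = finrank k C := Module.finrank_baseChange
  rw [← h2]
  let f : K ⊗[k] C →ₗ[K] K ⊗[k] V := C.subtype.baseChange K
  have hfi : Function.Injective f := by
    have h3 := Module.Flat.lTensor_preserves_injective_linearMap (M := K) C.subtype C.subtype_injective
    rw [← LinearMap.baseChange_eq_ltensor] at h3
    exact h3
  have hfm : ∀ y, f y ∈ LinearMap.ker (ρK x - 1) := by
    intro y
    rw [LinearMap.mem_ker, LinearMap.sub_apply, Module.End.one_apply, sub_eq_zero]
    induction y using TensorProduct.induction_on with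
    | zero => rw [map_zero, map_zero]
    | tmul c v =>
      show (ρ x).baseChange K (C.subtype.baseChange K (c ⊗ₜ[k] v)) = C.subtype.baseChange K (c ⊗ₜ[k] v)
      rw [LinearMap.baseChange_tmul, LinearMap.baseChange_tmul]
      congr 1
      have h4 : (v : V) ∈ LinearMap.ker (ρ x - 1) := v.2
      rw [LinearMap.mem_ker, LinearMap.sub_apply, Module.End.one_apply, sub_eq_zero] at h4
      exact h4
    | add y z hy hz => rw [map_add, map_add, hy, hz]
  exact LinearMap.finrank_le_finrank_of_injective (f := f.codRestrict _ hfm) (by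
    intro a b hab
    exact hfi (congrArg Subtype.val hab))

/-- subgroup form -/
theorem main (ℓ : ℕ) [hℓ : Fact ℓ.Prime] [CharP k ℓ] {p : ℕ} [hp : Fact p.Prime] (h3 : 3 < p)
    (hs : Group.IsSolvable G) (P : Subgroup G) (hP : Nat.card P = p)
    (hgen : Subgroup.normalClosure (P : Set G) = ⊤)
    (ρ : Representation k G V) (hirr : ρ.IsIrreducible) (hf : Function.Injective ρ) :
    2 * finrank k ↥(⨅ g : ↥P, LinearMap.ker (ρ (g : G) - LinearMap.id)) < finrank k V := by
  have h5 : 5 ≤ p := by
    have h4 : p ≠ 4 := by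
      intro h
      have := hp.out
      rw [h] at this
      exact absurd this (by norm_num)
    omega
  rw [H44.LSIrr.irr_iff] at hirr
  obtain ⟨⟨v0, hv0⟩, hirr⟩ := hirr
  have hnt : Nontrivial V := ⟨⟨v0, 0, hv0⟩⟩
  have hPn : Nontrivial P := by
    rw [← Finite.one_lt_card_iff_nontrivial, hP]
    exact hp.out.one_lt
  obtain ⟨x, hx1⟩ := exists_ne (1 : P)
  have hx1' : (x : G) ≠ 1 := fun h => hx1 (Subtype.ext h)
  have hxp : (x : G) ^ p = 1 := by
    have h1 := pow_card_eq_one' (x := x)
    rw [hP] at h1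
    exact congrArg Subtype.val h1
  have hzx : Subgroup.zpowers (x : G) = P := by
    apply Subgroup.eq_of_le_of_card_ge (Subgroup.zpowers_le.mpr x.2)
    rw [hP, Nat.card_zpowers, orderOf_eq_prime hxp hx1']
  have hgen' : Subgroup.normalClosure ({(x : G)} : Set G) = ⊤ := by
    rw [eq_top_iff, ← hgen]
    apply Subgroup.normalClosure_le_normal
    exact hzx.ge.trans (Subgroup.zpowers_le.mpr (Subgroup.subset_normalClosure (Set.mem_singleton _)))
  have h1 := outer ℓ h5 hs hxp hgen' ρ hf hx1' hirr
  refine lt_of_le_of_lt (Nat.mul_le_mul_left _ ?_) h1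
  apply Submodule.finrank_mono
  exact iInf_le (fun g : P => LinearMap.ker (ρ (g : G) - LinearMap.id)) x

end H26.FlavRep5
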