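import Cfsg.Agent.Lib.H26.LocalFitting
import Cfsg.Agent.Lib.H52.Sub
import Cfsg.Agent.Lib.H92.Norm4
import Cfsg.Agent.S3012
import Cfsg.Agent.S3013

/-!
# The minimal counterexample of the Sidki pair problem (S3048)
-/

set_option autoImplicit false
set_option linter.unusedSectionVars false
set_option linter.style.haveILetI false

open Cfsg H26.LocalFitting
open scoped commutatorElement

namespace H26.Sidki

universe u

variable {G : Type u} [Group G] [Finite G]

/-- the minimality hypothesis of S3048 -/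
def Min (G : Type u) [Group G] : Prop :=
  ∀ (H : Type u) [Group H] [Finite H] (W : Subgroup H), Nat.card H < Nat.card G →
    IsElementaryAbelian 2 W → W ≠ ⊥ → IsSidkiPair W → W ⊓ pCore 2 H ≠ ⊥

theorem card_lt {H : Subgroup G} (hH : H ≠ ⊤) : Nat.card H < Nat.card G :=
  lt_of_le_of_ne (Subgroup.card_le_card_group H) fun h => hH (Subgroup.eq_top_of_card_eq H h)

theorem elab_mul_self {V : Subgroup G} (hV : IsElementaryAbelian 2 V) {v : G} (hv : v ∈ V) : v * v = 1 := by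
  have := hV.2 v hv
  rwa [pow_two] at this

theorem elab_comm {V : Subgroup G} (hV : IsElementaryAbelian 2 V) {v w : G} (hv : v ∈ V) (hw : w ∈ V) :
    v * w = w * v := by
  have := hV.1.is_comm.comm ⟨v, hv⟩ ⟨w, hw⟩
  exact congrArg Subtype.val this

theorem elab_le {V W : Subgroup G} (hV : IsElementaryAbelian 2 V) (h : W ≤ V) : IsElementaryAbelian 2 W :=
  ⟨⟨⟨fun a b => Subtype.ext (elab_comm hV (h a.2) (h b.2))⟩⟩, fun a ha => hV.2 a (h ha)⟩

theorem elab_subgroupOf {V : Subgroup G} (hV : IsElementaryAbelian 2 V) (H : Subgroup G) :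
    IsElementaryAbelian 2 (V.subgroupOf H) :=
  ⟨⟨⟨fun a b => Subtype.ext (Subtype.ext (elab_comm hV (Subgroup.mem_subgroupOf.1 a.2)
      (Subgroup.mem_subgroupOf.1 b.2)))⟩⟩,
    fun a ha => Subtype.ext (by simpa using hV.2 a (Subgroup.mem_subgroupOf.1 ha))⟩

theorem exists_ne_one {W : Subgroup G} (h : W ≠ ⊥) : ∃ w ∈ W, w ≠ 1 := by
  by_contra hc
  push Not at hc
  exact h (by rw [eq_bot_iff]; intro w hw; exact Subgroup.mem_bot.2 (hc w hw))

/-- application of minimality to a proper subgroup -/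
theorem Min.sub (hmin : Min G) {H W : Subgroup G} (hH : H ≠ ⊤) (hWH : W ≤ H)
    (hW : IsElementaryAbelian 2 W) (hW1 : W ≠ ⊥)
    (hS : ∀ h ∈ H, ∀ v ∈ W, Odd (orderOf h) → v * h * v⁻¹ = h⁻¹ → ∃ w ∈ W, w ≠ 1 ∧ w * h = h * w) :
    ∃ w ∈ W, w ≠ 1 ∧ w ∈ pc 2 H := by
  obtain ⟨w₀, hw₀, hw₀1⟩ := exists_ne_one hW1
  have h1 : W.subgroupOf H ≠ ⊥ := by
    intro h
    have h2 : (⟨w₀, hWH hw₀⟩ : H) ∈ W.subgroupOf H := Subgroup.mem_subgroupOf.2 hw₀
    rw [h, Subgroup.mem_bot] at h2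
    exact hw₀1 (congrArg Subtype.val h2)
  have h2 : IsSidkiPair (W.subgroupOf H) := by
    intro h v hv hodd hinv
    obtain ⟨w, hw, hw1, hwc⟩ := hS h.1 h.2 v.1 (Subgroup.mem_subgroupOf.1 hv)
      (by rwa [Subgroup.orderOf_coe]) (congrArg Subtype.val hinv)
    exact ⟨⟨w, hWH hw⟩, Subgroup.mem_subgroupOf.2 hw, fun h => hw1 (congrArg Subtype.val h),
      Subtype.ext hwc⟩
  obtain ⟨w, hw, hw1⟩ := exists_ne_one (hmin H (W.subgroupOf H) (card_lt hH)
    (elab_subgroupOf hW H) h1 h2)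
  exact ⟨w.1, Subgroup.mem_subgroupOf.1 hw.1, fun h => hw1 (Subtype.ext h), ⟨w, hw.2, rfl⟩⟩

/-- a `2`-element of `O_2(H)` centralizes the subnormal subgroups `D` of `G` normal in `H`, as `O_2(G) = 1` -/
theorem commute_of_pc (hO : pCore 2 G = ⊥) {H D : Subgroup G} (hD : D.IsSubnormal) (hDH : D ≤ H)
    (hn : H ≤ Subgroup.normalizer (D : Set G)) {w : G} (hw : w ∈ pc 2 H) {d : G} (hd : d ∈ D) :
    w * d = d * w := by
  have h1 : (pc 2 H ⊓ D).IsSubnormal := by
    refine H26.Subnormal.of_normal_subgroupOf hD inf_le_right ?_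
    refine ⟨fun x hx g => ?_⟩
    rw [Subgroup.mem_subgroupOf] at hx ⊢
    refine ⟨?_, ?_⟩
    · exact (Subgroup.mem_normalizer_iff.1 (le_normalizer_pc 2 H (hDH g.2)) x.1).1 hx.1
    · exact (g * x * g⁻¹).2
  have h2 : pc 2 H ⊓ D = ⊥ := by
    rw [eq_bot_iff, ← hO]
    exact H26.Subnormal.le_pCore h1 ((isPGroup_pc 2 H).to_le inf_le_left)
  have h3 : w * d * w⁻¹ * d⁻¹ ∈ pc 2 H ⊓ D := by
    refine ⟨?_, ?_⟩
    · have h4 : d * w⁻¹ * d⁻¹ ∈ pc 2 H :=
        (Subgroup.mem_normalizer_iff.1 (le_normalizer_pc 2 H (hDH hd)) w⁻¹).1 (inv_mem hw)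
      have h5 : w * d * w⁻¹ * d⁻¹ = w * (d * w⁻¹ * d⁻¹) := by group
      rw [h5]
      exact mul_mem hw h4
    · exact D.mul_mem ((Subgroup.mem_normalizer_iff.1 (hn (pc_le 2 H hw)) d).1 hd) (D.inv_mem hd)
  rw [h2, Subgroup.mem_bot] at h3
  calc w * d = (w * d * w⁻¹ * d⁻¹) * (d * w) := by group
    _ = d * w := by rw [h3, one_mul]

/-- a `2`-element in a nilpotent subnormal subgroup is trivial when `O_2(G) = 1` -/
theorem eq_one_of_nilpotent (hO : pCore 2 G = ⊥) {K : Subgroup G} (hK : K.IsSubnormal)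
    (hn : Group.IsNilpotent K) {w : G} (hw : w ∈ K) (h2 : w * w = 1) : w = 1 := by
  have h1 : (Subgroup.zpowers w).IsSubnormal := by
    have h3 : ((Subgroup.zpowers w).subgroupOf K).IsSubnormal := H52.Sub.isSubnormal_of_isNilpotent hn _
    exact (H26.Subnormal.subgroupOf_iff hK (by rwa [Subgroup.zpowers_le])).1 h3
  have h3 : IsPGroup 2 (Subgroup.zpowers w) := by
    intro x
    refine ⟨1, ?_⟩
    obtain ⟨k, hk⟩ := Subgroup.mem_zpowers_iff.1 x.2
    apply Subtype.ext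
    rw [pow_one, Subgroup.coe_pow, Subgroup.coe_one, ← hk, ← zpow_natCast, ← zpow_mul, mul_comm, zpow_mul,
      zpow_natCast, pow_two, h2, one_zpow]
  have h4 := H26.Subnormal.le_pCore h1 h3
  rw [hO, le_bot_iff, Subgroup.zpowers_eq_bot] at h4
  exact h4

/-- an involution central in a normal subgroup is trivial when `O_2(G) = 1` -/
theorem eq_one_of_central (hO : pCore 2 G = ⊥) {K : Subgroup G} (hK : K.IsSubnormal)
    {w : G} (hw : w ∈ K) (hc : ∀ k ∈ K, w * k = k * w) (h2 : w * w = 1) : w = 1 := by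
  have h1 : (Subgroup.zpowers w).IsSubnormal := by
    refine H26.Subnormal.of_normal_subgroupOf hK (by rwa [Subgroup.zpowers_le]) ?_
    refine ⟨fun x hx g => ?_⟩
    rw [Subgroup.mem_subgroupOf] at hx ⊢
    obtain ⟨k, hk⟩ := Subgroup.mem_zpowers_iff.1 hx
    have h3 : g.1 * x.1 * g.1⁻¹ = x.1 := by
      rw [← hk]
      have h4 : Commute w g.1 := hc g.1 g.2
      rw [← (h4.zpow_left k).eq]
      group
    have h5 : ((g * x * g⁻¹ : K) : G) = g.1 * x.1 * g.1⁻¹ := rfl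
    rw [h5, h3]
    exact hx
  have h3 : IsPGroup 2 (Subgroup.zpowers w) := by
    intro x
    refine ⟨1, ?_⟩
    obtain ⟨k, hk⟩ := Subgroup.mem_zpowers_iff.1 x.2
    apply Subtype.ext
    rw [pow_one, Subgroup.coe_pow, Subgroup.coe_one, ← hk, ← zpow_natCast, ← zpow_mul, mul_comm, zpow_mul,
      zpow_natCast, pow_two, h2, one_zpow]
  have h4 := H26.Subnormal.le_pCore h1 h3
  rw [hO, le_bot_iff, Subgroup.zpowers_eq_bot] at h4
  exact h4

/-- an element of odd order whose square lies in `M` lies in `M` -/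
theorem mem_of_sq_mem {M : Subgroup G} {h : G} (ho : Odd (orderOf h)) (hs : h * h ∈ M) : h ∈ M := by
  obtain ⟨m, hm⟩ := ho
  have h1 : h = (h * h) ^ (m + 1) := by
    rw [← pow_two, ← pow_mul, show 2 * (m + 1) = (2 * m + 1) + 1 by ring, pow_succ, ← hm,
      pow_orderOf_eq_one, one_mul]
  rw [h1]
  exact pow_mem hs _

theorem eq_one_of_inv {h : G} (ho : Odd (orderOf h)) (hs : h = h⁻¹) : h = 1 := by
  have h1 : h * h = 1 := by
    nth_rw 1 [hs]
    exact inv_mul_cancel h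
  have := mem_of_sq_mem (M := ⊥) ho (by rw [h1]; exact one_mem _)
  exact Subgroup.mem_bot.1 this

/-- elements of odd order of `W ⊔ M`, with `W` elementary abelian normalizing `M`, lie in `M` -/
theorem mem_of_odd {W M : Subgroup G} (hW : IsElementaryAbelian 2 W)
    (hn : W ≤ Subgroup.normalizer (M : Set G)) {h : G} (hh : h ∈ W ⊔ M) (ho : Odd (orderOf h)) : h ∈ M := by
  obtain ⟨a, ha, b, hb, rfl⟩ := (H26.Basic.mem_sup_of_le_normalizer hn).1 hh
  apply mem_of_sq_mem ho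
  have h1 : a * b * (a * b) = a * b * a⁻¹ * (a * a) * b := by group
  rw [h1, elab_mul_self hW ha, mul_one]
  exact mul_mem ((Subgroup.mem_normalizer_iff.1 (hn ha) b).1 hb) hb

/-- use of S3013 and minimality: for `v ∈ V` inverting `h ≠ 1` of odd order there is a nontrivial
element of `V` in `O_2(C(v) ∩ C(h))`. -/
theorem Min.centralizer (hmin : Min G) {V : Subgroup G} (hV : IsElementaryAbelian 2 V) (hV1 : V ≠ ⊥)
    (hS : IsSidkiPair V) {v h : G} (hv : v ∈ V) (ho : Odd (orderOf h)) (hinv : v * h * v⁻¹ = h⁻¹)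
    (h1 : h ≠ 1) :
    ∃ u ∈ V, u ≠ 1 ∧ u * h = h * u ∧
      u ∈ pc 2 (Subgroup.centralizer ({v} : Set G) ⊓ Subgroup.centralizer ({h} : Set G)) := by
  set C := Subgroup.centralizer ({v} : Set G) ⊓ Subgroup.centralizer ({h} : Set G) with hC
  have hCt : C ≠ ⊤ := by
    intro ht
    have h2 : v ∈ C := by rw [ht]; exact Subgroup.mem_top _
    have h3 : h * v = v * h := (Subgroup.mem_centralizer_iff.1 h2.2) h (Set.mem_singleton _)
    apply h1
    apply eq_one_of_inv ho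
    rw [← hinv, ← h3]
    group
  obtain ⟨h2, h3⟩ := Cfsg.Agent.S3013.result V hV hV1 hS v h hv ho hinv C hC
  have h4 : ∀ g ∈ C, ∀ v' ∈ C ⊓ V, Odd (orderOf g) → v' * g * v'⁻¹ = g⁻¹ →
      ∃ w ∈ C ⊓ V, w ≠ 1 ∧ w * g = g * w := by
    intro g hg v' hv' hodd hi
    obtain ⟨w, hw, hw1, hwc⟩ := h3 ⟨g, hg⟩ ⟨v', hv'.1⟩ (Subgroup.mem_subgroupOf.2 hv')
      (by rwa [← Subgroup.orderOf_coe]) (Subtype.ext hi)
    exact ⟨w.1, Subgroup.mem_subgroupOf.1 hw, fun h => hw1 (Subtype.ext h), congrArg Subtype.val hwc⟩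
  obtain ⟨u, hu, hu1, huc⟩ := hmin.sub hCt inf_le_left (elab_le hV inf_le_right) h2 h4
  refine ⟨u, hu.2, hu1, ?_, huc⟩
  exact ((Subgroup.mem_centralizer_iff.1 hu.1.2) h (Set.mem_singleton _)).symm

/-- **The commuting factors argument.** -/
theorem false_of (hmin : Min G) (hO : pCore 2 G = ⊥) {V : Subgroup G} (hV : IsElementaryAbelian 2 V)
    (hV1 : V ≠ ⊥) (hS : IsSidkiPair V) (M : Subgroup G) [hM : M.Normal]
    (hD : V ⊔ Subgroup.centralizer (M : Set G) ≠ ⊤) (hVM : V ⊔ M ≠ ⊤) : False := by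
  set D := Subgroup.centralizer (M : Set G) with hDdef
  haveI hDn : D.Normal := by rw [hDdef]; infer_instance
  -- W = C_V(D)
  set W := V ⊓ Subgroup.centralizer (D : Set G) with hW
  have hWV : W ≤ V := inf_le_left
  have hWe : IsElementaryAbelian 2 W := elab_le hV hWV
  have hW1 : W ≠ ⊥ := by
    obtain ⟨w, hw, hw1, hwc⟩ := hmin.sub hD le_sup_left hV hV1
      (fun h _ v hv ho hi => hS h v hv ho hi)
    intro h
    apply hw1
    have h1 : w ∈ W := by
      refine ⟨hw, Subgroup.mem_centralizer_iff.2 fun d hd => ?_⟩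
      exact (commute_of_pc hO hDn.isSubnormal le_sup_right
        (by rw [Subgroup.normalizer_eq_top]; exact le_top) hwc hd).symm
    rwa [h, Subgroup.mem_bot] at h1
  -- `W` does not centralize an element of `M`
  have hWM : W ⊔ M ≠ ⊤ := fun h => hVM (by
    rw [eq_top_iff, ← h]; exact sup_le_sup_right hWV _)
  have h1 : ¬ ∀ h ∈ W ⊔ M, ∀ v ∈ W, Odd (orderOf h) → v * h * v⁻¹ = h⁻¹ →
      ∃ w ∈ W, w ≠ 1 ∧ w * h = h * w := by
    intro hc
    obtain ⟨w, hw, hw1, hwc⟩ := hmin.sub hWM le_sup_left hWe hW1 hc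
    apply hw1
    have h2 : w ∈ D := by
      rw [hDdef]
      refine Subgroup.mem_centralizer_iff.2 fun d hd => ?_
      exact (commute_of_pc hO hM.isSubnormal le_sup_right
        (by rw [Subgroup.normalizer_eq_top]; exact le_top) hwc hd).symm
    refine eq_one_of_central hO hDn.isSubnormal h2 (fun k hk => ?_) (elab_mul_self hWe hw)
    exact ((Subgroup.mem_centralizer_iff.1 hw.2) k hk).symm
  push Not at h1
  obtain ⟨h, hh, w, hw, hodd, hinv, hno⟩ := h1
  have hhM : h ∈ M := mem_of_odd hWe (by rw [Subgroup.normalizer_eq_top]; exact le_top) hh hodd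
  have hh1 : h ≠ 1 := by
    rintro rfl
    obtain ⟨w', hw', hw'1⟩ := exists_ne_one hW1
    exact hno w' hw' hw'1 (by rw [mul_one, one_mul])
  obtain ⟨u, hu, hu1, huh, huc⟩ := hmin.centralizer hV hV1 hS (hWV hw) hodd hinv hh1
  refine hno u ⟨hu, Subgroup.mem_centralizer_iff.2 fun d hd => ?_⟩ hu1 huh
  refine (commute_of_pc hO hDn.isSubnormal ?_ (by rw [Subgroup.normalizer_eq_top]; exact le_top) huc hd).symm
  intro d hd
  refine ⟨Subgroup.mem_centralizer_iff.2 ?_, Subgroup.mem_centralizer_iff.2 ?_⟩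
  · rintro _ rfl
    exact ((Subgroup.mem_centralizer_iff.1 hw.2) d hd).symm
  · rintro _ rfl
    exact (Subgroup.mem_centralizer_iff.1 hd) _ hhM

end H26.Sidki
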