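import Cfsg.Agent.Lib.H26.Sidki

/-!
# The minimal counterexample of the Sidki pair problem (S3048), part 2: minimal normal subgroups
-/

set_option autoImplicit false
set_option linter.unusedSectionVars false
set_option linter.style.haveILetI false

open Cfsg H26.LocalFitting
open scoped commutatorElement

namespace H26.Sidki

universe u

variable {G : Type u} [Group G] [Finite G]

theorem odd_of_no_involution {M : Subgroup G} (h : ∀ m ∈ M, m * m = 1 → m = 1) : Odd (Nat.card M) := by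
  by_contra hc
  rw [Nat.not_odd_iff_even] at hc
  haveI : Fact (Nat.Prime 2) := ⟨Nat.prime_two⟩
  obtain ⟨x, hx⟩ := exists_prime_orderOf_dvd_card' 2 hc.two_dvd
  have h1 : x.1 * x.1 = 1 := by
    have h2 : x ^ 2 = 1 := by rw [← hx, pow_orderOf_eq_one]
    rw [pow_two] at h2
    exact congrArg Subtype.val h2
  have h3 := h x.1 x.2 h1
  have h4 : x = 1 := Subtype.ext h3
  rw [h4, orderOf_one] at hx
  norm_num at hx

theorem odd_orderOf {M : Subgroup G} (h : Odd (Nat.card M)) {m : G} (hm : m ∈ M) : Odd (orderOf m) := by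
  have h1 : orderOf m ∣ Nat.card M := by
    have := orderOf_dvd_natCard (⟨m, hm⟩ : M)
    rwa [← Subgroup.orderOf_coe] at this
  exact Odd.of_dvd_nat h h1

/-- `G = V D` with `V` abelian and `D` normal: commutators lie in `D` -/
theorem comm_mem_of_sup {V D : Subgroup G} [hD : D.Normal] (hV : IsElementaryAbelian 2 V) (h : V ⊔ D = ⊤)
    (a b : G) : a * b * a⁻¹ * b⁻¹ ∈ D := by
  have h1 : ∀ g : G, ∃ v ∈ V, (QuotientGroup.mk' D) g = QuotientGroup.mk' D v := by
    intro g
    have hg : g ∈ V ⊔ D := by rw [h]; exact Subgroup.mem_top _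
    obtain ⟨v, hv, d, hd, rfl⟩ := (H26.Basic.mem_sup_of_le_normalizer
      (by rw [Subgroup.normalizer_eq_top]; exact le_top)).1 hg
    refine ⟨v, hv, ?_⟩
    rw [map_mul, (QuotientGroup.eq_one_iff d).2 hd |> (fun h => (h : QuotientGroup.mk' D d = 1)), mul_one]
  obtain ⟨v, hv, h2⟩ := h1 a
  obtain ⟨v', hv', h3⟩ := h1 b
  rw [← QuotientGroup.eq_one_iff]
  change QuotientGroup.mk' D (a * b * a⁻¹ * b⁻¹) = 1
  rw [map_mul, map_mul, map_mul, map_inv, map_inv, h2, h3, ← map_mul, elab_comm hV hv hv', map_mul]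
  group

/-- no abelian minimal normal subgroup -/
theorem false_of_abelian (hmin : Min G) (hO : pCore 2 G = ⊥) {V : Subgroup G}
    (hV : IsElementaryAbelian 2 V) (hV1 : V ≠ ⊥) (hS : IsSidkiPair V) (M : Subgroup G) [hM : M.Normal]
    (hM1 : M ≠ ⊥) (hMm : ∀ N : Subgroup G, N.Normal → N ≤ M → N ≠ ⊥ → N = M)
    (hMa : ∀ x ∈ M, ∀ y ∈ M, x * y = y * x) : False := by
  set D := Subgroup.centralizer (M : Set G) with hDdef
  haveI hDn : D.Normal := by rw [hDdef]; infer_instance
  have hMD : M ≤ D := fun m hm => Subgroup.mem_centralizer_iff.2 fun x hx => hMa x hx m hm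
  by_cases hVD : V ⊔ D = ⊤
  swap
  · exact false_of hmin hO hV hV1 hS M hVD
      (fun h => hVD (by rw [eq_top_iff, ← h]; exact sup_le_sup_left hMD _))
  have hM2 : ∀ m ∈ M, m * m = 1 → m = 1 := fun m hm h =>
    eq_one_of_central hO hM.isSubnormal hm (fun k hk => hMa m hm k hk) h
  have hMo : Odd (Nat.card M) := odd_of_no_involution hM2
  have hVM : V ⊓ M = ⊥ := by
    rw [eq_bot_iff]
    intro x hx
    exact Subgroup.mem_bot.2 (hM2 x hx.2 (elab_mul_self hV hx.1))
  -- the quotient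
  obtain ⟨w, hw, hwM, hwX⟩ : ∃ w ∈ V, w ∉ M ∧ QuotientGroup.mk' M w ∈ pCore 2 (G ⧸ M) := by
    have h1 := Cfsg.Agent.S3012.result V M hV hV1 hS hVM
    have h2 : IsElementaryAbelian 2 (V.map (QuotientGroup.mk' M)) := by
      refine ⟨⟨⟨?_⟩⟩, ?_⟩
      · rintro ⟨_, a, ha, rfl⟩ ⟨_, b, hb, rfl⟩
        apply Subtype.ext
        change QuotientGroup.mk' M a * QuotientGroup.mk' M b = QuotientGroup.mk' M b * QuotientGroup.mk' M a
        rw [← map_mul, elab_comm hV ha hb, map_mul]
      · rintro _ ⟨a, ha, rfl⟩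
        rw [← map_pow, hV.2 a ha, map_one]
    have h3 : V.map (QuotientGroup.mk' M) ≠ ⊥ := by
      intro h
      rw [Subgroup.map_eq_bot_iff, QuotientGroup.ker_mk'] at h
      apply hV1
      rw [← hVM, inf_eq_left.2 h]
    have h4 : Nat.card (G ⧸ M) < Nat.card G := by
      rw [Subgroup.card_eq_card_quotient_mul_card_subgroup M]
      have h5 : 1 < Nat.card M := by
        rw [Subgroup.one_lt_card_iff_ne_bot]
        exact hM1
      have h6 : 0 < Nat.card (G ⧸ M) := Nat.card_pos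
      nlinarith
    obtain ⟨y, hy, hy1⟩ := exists_ne_one (hmin (G ⧸ M) _ h4 h2 h3 h1)
    obtain ⟨w, hw, rfl⟩ := hy.1
    exact ⟨w, hw, fun h => hy1 ((QuotientGroup.eq_one_iff w).2 h), hy.2⟩
  set X := (pCore 2 (G ⧸ M)).comap (QuotientGroup.mk' M) with hX
  haveI hXn : X.Normal := by
    rw [hX]
    haveI : (pCore 2 (G ⧸ M)).Normal := H1.Cores.pCore_normal 2
    infer_instance
  have hwX' : w ∈ X := hwX
  have hww : w * w = 1 := elab_mul_self hV hw
  have hwi : w⁻¹ = w := by rw [inv_eq_iff_mul_eq_one]; exact hww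
  -- `X ∩ D ≤ M`
  have hE : X ⊓ D ≤ M := by
    have hEn : Group.IsNilpotent (X ⊓ D : Subgroup G) := by
      let f : (X ⊓ D : Subgroup G) →* (pCore 2 (G ⧸ M)) :=
        ((QuotientGroup.mk' M).comp (X ⊓ D).subtype).codRestrict (pCore 2 (G ⧸ M)) (fun x => x.2.1)
      haveI : Group.IsNilpotent (pCore 2 (G ⧸ M)) := by
        haveI : Fact (Nat.Prime 2) := ⟨Nat.prime_two⟩
        exact (H1.Cores.isPGroup_pCore 2).isNilpotent
      refine Subgroup.isNilpotent_of_ker_le_center f ?_
      intro x hx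
      have h1 : (x : G) ∈ M := by
        have h2 : f x = 1 := hx
        have h3 := congrArg Subtype.val h2
        exact (QuotientGroup.eq_one_iff (x : G)).1 h3
      rw [Subgroup.mem_center_iff]
      intro g
      apply Subtype.ext
      exact ((Subgroup.mem_centralizer_iff.1 g.2.2) x.1 h1).symm
    have h1 : ∀ k : ℕ, ∀ x ∈ X ⊓ D, x ^ (2 ^ k) = 1 → x = 1 := by
      intro k
      induction k with
      | zero => intro x _ h; simpa using h
      | succ k ih =>
        intro x hx h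
        have h2 : x ^ (2 ^ k) = 1 := by
          refine eq_one_of_nilpotent hO (K := X ⊓ D) (Subgroup.Normal.isSubnormal inferInstance) hEn
            (pow_mem hx _) ?_
          rw [← pow_add, ← two_mul, ← pow_succ']
          exact h
        exact ih x hx h2
    intro e he
    have h2 : IsPGroup 2 (pCore 2 (G ⧸ M)) := H1.Cores.isPGroup_pCore 2
    obtain ⟨k, hk⟩ := h2 ⟨QuotientGroup.mk' M e, he.1⟩
    have hk' : (QuotientGroup.mk' M e) ^ (2 ^ k) = 1 := congrArg Subtype.val hk
    have h3 : e ^ (2 ^ k) ∈ M := by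
      rw [← map_pow] at hk'
      exact (QuotientGroup.eq_one_iff _).1 hk'
    have h4 : (e ^ (Nat.card M)) ^ (2 ^ k) = 1 := by
      rw [← pow_mul, mul_comm, pow_mul]
      have h5 : (⟨e ^ (2 ^ k), h3⟩ : M) ^ (Nat.card M) = 1 := pow_card_eq_one'
      exact congrArg Subtype.val h5
    have h5 : e ^ (Nat.card M) = 1 := h1 k _ (pow_mem he _) h4
    have h6 : orderOf (QuotientGroup.mk' M e) ∣ Nat.card M := by
      apply orderOf_dvd_of_pow_eq_one
      rw [← map_pow, h5, map_one]
    have h7 : orderOf (QuotientGroup.mk' M e) ∣ 2 ^ k := orderOf_dvd_of_pow_eq_one hk'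
    have h8 : Nat.Coprime (Nat.card M) (2 ^ k) := by
      apply Nat.Coprime.pow_right
      rw [Nat.coprime_comm]
      exact Nat.coprime_two_left.2 hMo
    have h9 : orderOf (QuotientGroup.mk' M e) = 1 := by
      have := Nat.dvd_gcd h6 h7
      rw [h8] at this
      exact Nat.dvd_one.1 this
    rw [orderOf_eq_one_iff] at h9
    exact (QuotientGroup.eq_one_iff _).1 h9
  have hwD : w ∉ D := fun h => hwM (hE ⟨hwX', h⟩)
  -- an inverted element of `M`
  obtain ⟨m, hm, hmw⟩ : ∃ m ∈ M, m * w ≠ w * m := by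
    by_contra hc
    push Not at hc
    exact hwD (Subgroup.mem_centralizer_iff.2 hc)
  set h := m⁻¹ * (w * m * w⁻¹) with hh
  have hhM : h ∈ M := mul_mem (inv_mem hm) (hM.conj_mem m hm w)
  have hh1 : h ≠ 1 := by
    intro h1
    apply hmw
    have h2 : w * m * w⁻¹ = m := by
      rw [hh, inv_mul_eq_one] at h1
      exact h1.symm
    calc m * w = (w * m * w⁻¹) * w := by rw [h2]
      _ = w * m := by group
  have hinv : w * h * w⁻¹ = h⁻¹ := by
    rw [hh, hwi]
    calc w * (m⁻¹ * (w * m * w)) * w = w * m⁻¹ * w * m * (w * w) := by group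
      _ = w * m⁻¹ * w * m := by rw [hww, mul_one]
      _ = (m⁻¹ * (w⁻¹ * m * w⁻¹))⁻¹ := by group
      _ = (m⁻¹ * (w * m * w))⁻¹ := by rw [hwi]
  obtain ⟨u, hu, hu1, huh, huc⟩ := hmin.centralizer hV hV1 hS hw (odd_orderOf hMo hhM) hinv hh1
  set C := Subgroup.centralizer ({w} : Set G) ⊓ Subgroup.centralizer ({h} : Set G) with hC
  -- `C_G(h) = D`
  set T := Subgroup.centralizer ({h} : Set G) with hT
  have hDT : D ≤ T := by
    intro d hd
    refine Subgroup.mem_centralizer_iff.2 ?_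
    rintro _ rfl
    exact (Subgroup.mem_centralizer_iff.1 hd) _ hhM
  haveI hTn : T.Normal := by
    refine ⟨fun t ht g => ?_⟩
    have h1 : g * t * g⁻¹ = (g * t * g⁻¹ * t⁻¹) * t := by group
    rw [h1]
    exact mul_mem (hDT (comm_mem_of_sup hV hVD g t)) ht
  have hTD : T ≤ D := by
    have h1 : M ⊓ Subgroup.centralizer (T : Set G) = M := by
      apply hMm _ inferInstance inf_le_left
      intro h2
      apply hh1
      have h3 : h ∈ M ⊓ Subgroup.centralizer (T : Set G) :=
        ⟨hhM, Subgroup.mem_centralizer_iff.2 fun t ht =>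
          ((Subgroup.mem_centralizer_iff.1 ht) h (Set.mem_singleton _)).symm⟩
      rwa [h2, Subgroup.mem_bot] at h3
    intro t ht
    refine Subgroup.mem_centralizer_iff.2 fun x hx => ?_
    have h2 : x ∈ M ⊓ Subgroup.centralizer (T : Set G) := by rw [h1]; exact hx
    exact ((Subgroup.mem_centralizer_iff.1 h2.2) t ht).symm
  -- `D ≤ C M`
  have hDC : D ≤ C ⊔ M := by
    intro d hd
    set md := d⁻¹ * (w * d * w⁻¹) with hmd
    have h1 : md ∈ M := by
      apply hE
      refine ⟨?_, D.mul_mem (D.inv_mem hd) (hDn.conj_mem d hd w)⟩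
      have h2 : md = (d⁻¹ * w * d⁻¹⁻¹) * w⁻¹ := by rw [hmd]; group
      rw [h2]
      exact X.mul_mem (hXn.conj_mem w hwX' d⁻¹) (X.inv_mem hwX')
    have h2 : w * md * w⁻¹ = md⁻¹ := by
      rw [hmd, hwi]
      calc w * (d⁻¹ * (w * d * w)) * w = w * d⁻¹ * w * d * (w * w) := by group
        _ = w * d⁻¹ * w * d := by rw [hww, mul_one]
        _ = (d⁻¹ * (w⁻¹ * d * w⁻¹))⁻¹ := by group
        _ = (d⁻¹ * (w * d * w))⁻¹ := by rw [hwi]
    obtain ⟨k, hk⟩ := odd_orderOf hMo h1
    have h3 : md ^ (k + 1) * md ^ (k + 1) = md := by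
      rw [← pow_add, show k + 1 + (k + 1) = (2 * k + 1) + 1 by ring, pow_succ, ← hk,
        pow_orderOf_eq_one, one_mul]
    have h4 : w * md ^ (k + 1) * w⁻¹ = (md ^ (k + 1))⁻¹ := by
      rw [← conj_pow, h2, inv_pow]
    have h5 : w * (d * md ^ (k + 1)) * w⁻¹ = d * md ^ (k + 1) := by
      calc w * (d * md ^ (k + 1)) * w⁻¹ = d * (d⁻¹ * (w * d * w⁻¹)) * (w * md ^ (k + 1) * w⁻¹) := by group
        _ = d * (md ^ (k + 1) * md ^ (k + 1)) * (md ^ (k + 1))⁻¹ := by rw [h4, h3]
        _ = d * md ^ (k + 1) := by group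
    have h6 : d * md ^ (k + 1) ∈ C := by
      refine ⟨Subgroup.mem_centralizer_iff.2 ?_, hDT (mul_mem hd (pow_mem (hMD h1) _))⟩
      intro w' hw'
      rw [show w' = w from hw']
      calc w * (d * md ^ (k + 1)) = (w * (d * md ^ (k + 1)) * w⁻¹) * w := by group
        _ = d * md ^ (k + 1) * w := by rw [h5]
    have h7 : d = (d * md ^ (k + 1)) * (md ^ (k + 1))⁻¹ := by group
    rw [h7]
    exact mul_mem (Subgroup.mem_sup_left h6) (Subgroup.mem_sup_right (inv_mem (pow_mem h1 _)))
  -- `O_2(C)` is normal in `G`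
  have hVC : V ≤ Subgroup.normalizer (C : Set G) := by
    have key : ∀ v ∈ V, ∀ c ∈ C, v * c * v⁻¹ ∈ C := by
      intro v hv c hc
      refine ⟨Subgroup.mem_centralizer_iff.2 ?_, hTn.conj_mem c hc.2 v⟩
      intro w' hw'
      rw [show w' = w from hw']
      have h1 : w * c = c * w := (Subgroup.mem_centralizer_iff.1 hc.1) w (Set.mem_singleton _)
      have h2 : v * w = w * v := elab_comm hV hv hw
      have h3 : v⁻¹ * w = w * v⁻¹ := by
        rw [inv_mul_eq_iff_eq_mul, ← mul_assoc, h2]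
        group
      calc w * (v * c * v⁻¹) = (w * v) * c * v⁻¹ := by group
        _ = v * (w * c) * v⁻¹ := by rw [← h2]; group
        _ = v * c * (w * v⁻¹) := by rw [h1]; group
        _ = v * c * v⁻¹ * w := by rw [← h3]; group
    intro v hv
    rw [Subgroup.mem_normalizer_iff]
    intro c
    refine ⟨fun hc => key v hv c hc, fun hc => ?_⟩
    have h1 := key v⁻¹ (inv_mem hv) _ hc
    have h2 : v⁻¹ * (v * c * v⁻¹) * v⁻¹⁻¹ = c := by group
    rwa [h2] at h1
  have hMY : M ≤ Subgroup.normalizer (pc 2 C : Set G) := by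
    intro x hx
    rw [Subgroup.mem_normalizer_iff]
    intro y
    have key : ∀ y ∈ pc 2 C, x * y * x⁻¹ = y := by
      intro y hy
      have h1 : y ∈ D := hTD (pc_le 2 C hy).2
      have h2 : x * y = y * x := (Subgroup.mem_centralizer_iff.1 h1) x hx
      rw [h2]
      group
    refine ⟨fun hy => by rw [key y hy]; exact hy, fun hy => ?_⟩
    have h1 : x * y * x⁻¹ ∈ D := hTD (pc_le 2 C hy).2
    have h2 : x * (x * y * x⁻¹) = (x * y * x⁻¹) * x := (Subgroup.mem_centralizer_iff.1 h1) x hx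
    have h3 : x * y * x⁻¹ = y := by
      have h4 : x * y * x⁻¹ * x = x * y := by group
      rw [h4] at h2
      exact mul_left_cancel h2
    rwa [h3] at hy
  have hYn : (pc 2 C).Normal := by
    rw [← Subgroup.normalizer_eq_top_iff, eq_top_iff, ← hVD]
    refine sup_le (hVC.trans (normalizer_le_normalizer_pc 2 C)) (hDC.trans (sup_le ?_ hMY))
    exact le_normalizer_pc 2 C
  have h1 : pc 2 C ≤ pCore 2 G := H26.Subnormal.le_pCore hYn.isSubnormal (isPGroup_pc 2 C)
  rw [hO, le_bot_iff] at h1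
  rw [h1, Subgroup.mem_bot] at huc
  exact hu1 huc

/-- nonabelian minimal normal subgroups: trivial centralizer and `G = V M` -/
theorem structure_of_nonabelian (hmin : Min G) (hO : pCore 2 G = ⊥) {V : Subgroup G}
    (hV : IsElementaryAbelian 2 V) (hV1 : V ≠ ⊥) (hS : IsSidkiPair V) (M : Subgroup G) [hM : M.Normal]
    (hMm : ∀ N : Subgroup G, N.Normal → N ≤ M → N ≠ ⊥ → N = M)
    (hMa : ∃ x ∈ M, ∃ y ∈ M, x * y ≠ y * x) :
    Subgroup.centralizer (M : Set G) = ⊥ ∧ V ⊔ M = ⊤ := by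
  set D := Subgroup.centralizer (M : Set G) with hDdef
  haveI hDn : D.Normal := by rw [hDdef]; infer_instance
  obtain ⟨x, hx, y, hy, hxy⟩ := hMa
  have h1 : M ⊓ D = ⊥ := by
    by_contra hc
    have h2 := hMm (M ⊓ D) inferInstance inf_le_left hc
    have h3 : y ∈ M ⊓ D := by rw [h2]; exact hy
    exact hxy ((Subgroup.mem_centralizer_iff.1 h3.2) x hx)
  have h2 : D = ⊥ := by
    by_contra hD
    refine false_of hmin hO hV hV1 hS M ?_ ?_
    · intro ht
      have h3 : x * y * x⁻¹ * y⁻¹ ∈ M ⊓ D :=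
        ⟨M.mul_mem (M.mul_mem (M.mul_mem hx hy) (M.inv_mem hx)) (M.inv_mem hy), comm_mem_of_sup hV ht x y⟩
      rw [h1, Subgroup.mem_bot] at h3
      apply hxy
      calc x * y = (x * y * x⁻¹ * y⁻¹) * (y * x) := by group
        _ = y * x := by rw [h3, one_mul]
    · intro ht
      apply hD
      rw [eq_bot_iff, ← hO]
      refine H26.Subnormal.le_pCore hDn.isSubnormal ?_
      intro d
      refine ⟨1, ?_⟩
      have h3 : d.1 * d.1 ∈ M ⊓ D := by
        refine ⟨?_, mul_mem d.2 d.2⟩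
        have h4 : d.1 ∈ V ⊔ M := by rw [ht]; exact Subgroup.mem_top _
        obtain ⟨a, ha, b, hb, hab⟩ := (H26.Basic.mem_sup_of_le_normalizer
          (by rw [Subgroup.normalizer_eq_top]; exact le_top)).1 h4
        rw [← hab]
        have h5 : a * b * (a * b) = a * b * a⁻¹ * (a * a) * b := by group
        rw [h5, elab_mul_self hV ha, mul_one]
        exact mul_mem (hM.conj_mem b hb a) hb
      rw [h1, Subgroup.mem_bot] at h3
      rw [pow_one, pow_two]
      exact Subtype.ext h3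
  refine ⟨h2, ?_⟩
  by_contra hc
  obtain ⟨w, hw, hw1, hwc⟩ := hmin.sub hc le_sup_left hV hV1 (fun h _ v hv ho hi => hS h v hv ho hi)
  apply hw1
  have h3 : w ∈ D := Subgroup.mem_centralizer_iff.2 fun d hd =>
    (commute_of_pc hO hM.isSubnormal le_sup_right (by rw [Subgroup.normalizer_eq_top]; exact le_top) hwc
      hd).symm
  rwa [h2, Subgroup.mem_bot] at h3

end H26.Sidki
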