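import Cfsg.Agent.Lib.H26.Sidki2

/-!
# The minimal counterexample of the Sidki pair problem (S3048), part 3: the minimal normal subgroup is simple
-/

set_option autoImplicit false
set_option linter.unusedSectionVars false
set_option linter.style.haveILetI false

open Cfsg H26.LocalFitting
open scoped commutatorElement

namespace H26.Sidki

universe u

variable {G : Type u} [Group G] [Finite G]

/-- the conjugate of `L` by `g` -/
def cj (g : G) (L : Subgroup G) : Subgroup G := L.map (MulAut.conj g).toMonoidHom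

theorem mem_cj {g : G} {L : Subgroup G} {x : G} : x ∈ cj g L ↔ g⁻¹ * x * g ∈ L := by
  constructor
  · rintro ⟨y, hy, rfl⟩
    have : g⁻¹ * (MulAut.conj g y) * g = y := by rw [MulAut.conj_apply]; group
    change g⁻¹ * (MulAut.conj g y) * g ∈ L
    rwa [this]
  · intro h
    refine ⟨_, h, ?_⟩
    change MulAut.conj g (g⁻¹ * x * g) = x
    rw [MulAut.conj_apply]
    group

theorem conj_mem_cj {g : G} {L : Subgroup G} {x : G} (hx : x ∈ L) : g * x * g⁻¹ ∈ cj g L := by
  rw [mem_cj]
  have : g⁻¹ * (g * x * g⁻¹) * g = x := by group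
  rwa [this]

theorem mem_normalizer_of_cj {g : G} {L : Subgroup G} (h : cj g L = L) :
    g ∈ Subgroup.normalizer (L : Set G) := by
  rw [Subgroup.mem_normalizer_iff]
  intro x
  constructor
  · intro hx
    have := conj_mem_cj (g := g) hx
    rwa [h] at this
  · intro hx
    rw [← h, mem_cj] at hx
    have : g⁻¹ * (g * x * g⁻¹) * g = x := by group
    rwa [this] at hx

theorem simple_of (hmin : Min G) (hO : pCore 2 G = ⊥) {V : Subgroup G}
    (hV : IsElementaryAbelian 2 V) (hV1 : V ≠ ⊥) (hS : IsSidkiPair V) (M : Subgroup G) [hM : M.Normal]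
    (hM1 : M ≠ ⊥) (hMm : ∀ N : Subgroup G, N.Normal → N ≤ M → N ≠ ⊥ → N = M)
    (hC : Subgroup.centralizer (M : Set G) = ⊥) (hVM : V ⊔ M = ⊤) : IsSimpleGroup M := by
  -- a minimal `M`-invariant subgroup
  obtain ⟨L, ⟨hLM, hL1, hLn⟩, hLmin⟩ : ∃ L : Subgroup G,
      (L ≤ M ∧ L ≠ ⊥ ∧ M ≤ Subgroup.normalizer (L : Set G)) ∧
      ∀ K : Subgroup G, K ≤ L → K ≠ ⊥ → M ≤ Subgroup.normalizer (K : Set G) → K = L := by
    have h1 : ({L : Subgroup G | L ≤ M ∧ L ≠ ⊥ ∧ M ≤ Subgroup.normalizer (L : Set G)}).Nonempty :=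
      ⟨M, le_rfl, hM1, Subgroup.le_normalizer⟩
    obtain ⟨L, hL, hmin'⟩ := Set.Finite.exists_minimal (Set.toFinite _) h1
    refine ⟨L, hL, fun K hK hK1 hKn => le_antisymm hK (hmin' ⟨hK.trans hL.1, hK1, hKn⟩ hK)⟩
  have hLsub : L.IsSubnormal := by
    refine H26.Subnormal.of_normal_subgroupOf hM.isSubnormal hLM ?_
    refine ⟨fun x hx g => ?_⟩
    rw [Subgroup.mem_subgroupOf] at hx ⊢
    exact (Subgroup.mem_normalizer_iff.1 (hLn g.2) x.1).1 hx
  have hcjM : ∀ g : G, cj g L ≤ M := by
    intro g x hx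
    rw [mem_cj] at hx
    have h1 := hM.conj_mem _ (hLM hx) g
    have h2 : g * (g⁻¹ * x * g) * g⁻¹ = x := by group
    rwa [h2] at h1
  have hcjn : ∀ g : G, ∀ m ∈ M, ∀ x ∈ cj g L, m * x * m⁻¹ ∈ cj g L := by
    intro g m hm x hx
    rw [mem_cj] at hx ⊢
    have h1 : g⁻¹ * (m * x * m⁻¹) * g = (g⁻¹ * m * g) * (g⁻¹ * x * g) * (g⁻¹ * m * g)⁻¹ := by group
    rw [h1]
    have h2 : g⁻¹ * m * g ∈ M := by
      have := hM.conj_mem m hm g⁻¹
      rwa [inv_inv] at this
    exact (Subgroup.mem_normalizer_iff.1 (hLn h2) _).1 hx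
  -- conjugates are equal or meet trivially
  have hinf : ∀ g : G, g ∉ Subgroup.normalizer (L : Set G) → L ⊓ cj g L = ⊥ := by
    intro g hg
    by_contra hc
    apply hg
    have h1 : L ⊓ cj g L = L := by
      apply hLmin _ inf_le_left hc
      have key : ∀ m ∈ M, ∀ x ∈ L ⊓ cj g L, m * x * m⁻¹ ∈ L ⊓ cj g L := fun m hm x hx =>
        ⟨(Subgroup.mem_normalizer_iff.1 (hLn hm) x).1 hx.1, hcjn g m hm x hx.2⟩
      intro m hm
      rw [Subgroup.mem_normalizer_iff]
      intro x
      refine ⟨fun hx => key m hm x hx, fun hx => ?_⟩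
      have h2 := key m⁻¹ (inv_mem hm) _ hx
      have h3 : m⁻¹ * (m * x * m⁻¹) * m⁻¹⁻¹ = x := by group
      rwa [h3] at h2
    apply mem_normalizer_of_cj
    have h2 : L ≤ cj g L := inf_eq_left.1 h1
    have h3 : Nat.card (cj g L) = Nat.card L :=
      Nat.card_congr (L.equivMapOfInjective _ (MulAut.conj g).injective).symm.toEquiv
    exact (Subgroup.eq_of_le_of_card_ge h2 h3.le).symm
  have hcomm : ∀ g : G, g ∉ Subgroup.normalizer (L : Set G) → ∀ x ∈ L, ∀ y ∈ cj g L, x * y = y * x := by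
    intro g hg x hx y hy
    have h1 : x * y * x⁻¹ * y⁻¹ ∈ L ⊓ cj g L := by
      refine ⟨?_, ?_⟩
      · have h2 : y * x⁻¹ * y⁻¹ ∈ L :=
          (Subgroup.mem_normalizer_iff.1 (hLn (hcjM g hy)) _).1 (inv_mem hx)
        have h3 : x * y * x⁻¹ * y⁻¹ = x * (y * x⁻¹ * y⁻¹) := by group
        rw [h3]
        exact L.mul_mem hx h2
      · exact (cj g L).mul_mem (hcjn g x (hLM hx) y hy) ((cj g L).inv_mem hy)
    rw [hinf g hg, Subgroup.mem_bot] at h1
    calc x * y = (x * y * x⁻¹ * y⁻¹) * (y * x) := by group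
      _ = y * x := by rw [h1, one_mul]
  -- elements commuting with all the conjugates are trivial
  have hcent : ∀ x : G, (∀ v ∈ V, ∀ l ∈ L, x * (v * l * v⁻¹) = (v * l * v⁻¹) * x) → x = 1 := by
    intro x hx
    have h1 : Subgroup.normalClosure (L : Set G) = M := by
      apply hMm _ Subgroup.normalClosure_normal (Subgroup.normalClosure_le_normal (by exact hLM))
      intro h
      apply hL1
      rw [eq_bot_iff, ← h]
      exact Subgroup.subset_normalClosure
    have h2 : M ≤ Subgroup.centralizer ({x} : Set G) := by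
      rw [← h1, Subgroup.normalClosure, Subgroup.closure_le]
      intro y hy
      rw [Group.mem_conjugatesOfSet_iff] at hy
      obtain ⟨l, hl, hly⟩ := hy
      obtain ⟨g, hg⟩ := isConj_iff.1 hly
      have h3 : g ∈ V ⊔ M := by rw [hVM]; exact Subgroup.mem_top _
      obtain ⟨v, hv, m, hm, rfl⟩ := (H26.Basic.mem_sup_of_le_normalizer
        (by rw [Subgroup.normalizer_eq_top]; exact le_top)).1 h3
      have h4 : m * l * m⁻¹ ∈ L := (Subgroup.mem_normalizer_iff.1 (hLn hm) l).1 hl
      have h5 : y = v * (m * l * m⁻¹) * v⁻¹ := by rw [← hg]; group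
      have h6 := hx v hv _ h4
      rw [← h5] at h6
      exact Subgroup.mem_centralizer_iff.2 fun z hz => by rw [show z = x from hz]; exact h6
    have h3 : x ∈ Subgroup.centralizer (M : Set G) := Subgroup.mem_centralizer_iff.2 fun m hm =>
      ((Subgroup.mem_centralizer_iff.1 (h2 hm)) x (Set.mem_singleton _)).symm
    rwa [hC, Subgroup.mem_bot] at h3
  by_cases hVN : V ≤ Subgroup.normalizer (L : Set G)
  · -- `L = M` is simple
    have h1 : L = M := by
      apply hMm L _ hLM hL1
      rw [← Subgroup.normalizer_eq_top_iff, eq_top_iff, ← hVM]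
      exact sup_le hVN hLn
    subst h1
    haveI : Nontrivial L := (Subgroup.nontrivial_iff_ne_bot L).2 hL1
    refine ⟨fun N hN => ?_⟩
    by_cases hN1 : N = ⊥
    · exact Or.inl hN1
    right
    have h2 : N.map L.subtype = L := by
      apply hLmin
      · exact Subgroup.map_subtype_le N
      · intro h
        apply hN1
        rwa [Subgroup.map_eq_bot_iff_of_injective _ L.subtype_injective] at h
      · have key : ∀ m ∈ L, ∀ x ∈ N.map L.subtype, m * x * m⁻¹ ∈ N.map L.subtype := by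
          rintro m hm _ ⟨x, hx, rfl⟩
          exact ⟨⟨m, hm⟩ * x * ⟨m, hm⟩⁻¹, hN.conj_mem x hx ⟨m, hm⟩, rfl⟩
        intro m hm
        rw [Subgroup.mem_normalizer_iff]
        intro x
        refine ⟨fun hx => key m hm x hx, fun hx => ?_⟩
        have h2 := key m⁻¹ (inv_mem hm) _ hx
        have h3 : m⁻¹ * (m * x * m⁻¹) * m⁻¹⁻¹ = x := by group
        rwa [h3] at h2
    rw [eq_top_iff]
    intro x _
    have h3 : (x : G) ∈ N.map L.subtype := by rw [h2]; exact x.2
    obtain ⟨y, hy, hyx⟩ := h3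
    have : y = x := Subtype.ext hyx
    rwa [← this]
  exfalso
  set V₀ := V ⊓ Subgroup.normalizer (L : Set G) with hV₀
  have hV₀e : IsElementaryAbelian 2 V₀ := elab_le hV inf_le_left
  by_cases hV₀1 : V₀ = ⊥
  · -- the regular case
    obtain ⟨c, hc, hc1⟩ := exists_ne_one hV1
    have hnot : ∀ v ∈ V, v ≠ 1 → v ∉ Subgroup.normalizer (L : Set G) := by
      intro v hv hv1 h
      apply hv1
      have h1 : v ∈ V₀ := ⟨hv, h⟩
      rwa [hV₀1, Subgroup.mem_bot] at h1
    obtain ⟨h, hh, hh1, hho⟩ : ∃ h ∈ L, h ≠ 1 ∧ Odd (orderOf h) := by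
      by_contra hc'
      push Not at hc'
      apply hL1
      rw [eq_bot_iff, ← hO]
      apply H26.Subnormal.le_pCore hLsub
      rw [IsPGroup.iff_card]
      refine ⟨_, Nat.eq_prime_pow_of_unique_prime_dvd Nat.card_pos.ne' ?_⟩
      intro q hq hqd
      haveI : Fact q.Prime := ⟨hq⟩
      obtain ⟨x, hx⟩ := exists_prime_orderOf_dvd_card' q hqd
      by_contra hq2
      apply hc' x.1 x.2
      · intro h1
        have h2 : x = 1 := Subtype.ext h1
        rw [h2, orderOf_one] at hx
        exact hq.one_lt.ne hx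
      · rw [Subgroup.orderOf_coe, hx]
        exact hq.odd_of_ne_two hq2
    have hcc : c * c = 1 := elab_mul_self hV hc
    set k := c * h⁻¹ * c⁻¹ with hk
    have hkc : k ∈ cj c L := conj_mem_cj (inv_mem hh)
    have hhk : h * k = k * h := hcomm c (hnot c hc hc1) h hh k hkc
    have hci : c⁻¹ = c := by rw [inv_eq_iff_mul_eq_one]; exact hcc
    have hinv : c * (h * k) * c⁻¹ = (h * k)⁻¹ := by
      have h1 : c * k * c⁻¹ = h⁻¹ := by
        rw [hk, hci]
        calc c * (c * h⁻¹ * c) * c = (c * c) * h⁻¹ * (c * c) := by group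
          _ = h⁻¹ := by rw [hcc, one_mul, mul_one]
      have h2 : c * h * c⁻¹ = k⁻¹ := by rw [hk]; group
      calc c * (h * k) * c⁻¹ = (c * h * c⁻¹) * (c * k * c⁻¹) := by group
        _ = (h * k)⁻¹ := by rw [h1, h2]; exact (mul_inv_rev h k).symm
    have hodd : Odd (orderOf (h * k)) := by
      have h1 : orderOf k = orderOf h := by
        rw [hk, show c * h⁻¹ * c⁻¹ = MulAut.conj c h⁻¹ from rfl, MulEquiv.orderOf_eq, orderOf_inv]
      have h2 : orderOf (h * k) ∣ Nat.lcm (orderOf h) (orderOf k) := Commute.orderOf_mul_dvd_lcm hhk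
      rw [h1, Nat.lcm_self] at h2
      exact Odd.of_dvd_nat hho h2
    obtain ⟨u, hu, hu1, hux⟩ := hS (h * k) c hc hodd hinv
    by_cases huc : u = c
    · subst huc
      have h1 : h * k = (h * k)⁻¹ := by
        rw [← hinv, hux]
        group
      have h2 : h * k = 1 := eq_one_of_inv hodd h1
      apply hh1
      have h3 : h ∈ L ⊓ cj u L := by
        refine ⟨hh, ?_⟩
        rw [← eq_inv_iff_mul_eq_one] at h2
        rw [h2]
        exact (cj u L).inv_mem hkc
      rwa [hinf u (hnot u hc hc1), Subgroup.mem_bot] at h3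
    · have huc1 : u * c ≠ 1 := by
        intro h1
        apply huc
        rw [← eq_inv_iff_mul_eq_one, hci] at h1
        exact h1
      apply hh1
      -- `h k` commutes with `L`
      have h1 : ∀ l ∈ L, l * (h * k) = (h * k) * l := by
        intro l hl
        have h2 : h * k = (u * h * u⁻¹) * ((u * c) * h⁻¹ * (u * c)⁻¹) := by
          calc h * k = u * (h * k) * u⁻¹ := by rw [hux]; group
            _ = _ := by rw [hk]; group
        have h3 := hcomm u (hnot u hu hu1) l hl _ (conj_mem_cj (g := u) hh)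
        have h4 := hcomm (u * c) (hnot _ (mul_mem hu hc) huc1) l hl _ (conj_mem_cj (g := u * c) (inv_mem hh))
        rw [h2]
        have key : ∀ a b : G, l * a = a * l → l * b = b * l → l * (a * b) = (a * b) * l := by
          intro a b ha hb
          rw [← mul_assoc, ha, mul_assoc, hb, mul_assoc]
        exact key _ _ h3 h4
      have h2 : ∀ l ∈ L, l * h = h * l := by
        intro l hl
        have h3 := h1 l hl
        have h4 := hcomm c (hnot c hc hc1) l hl k hkc
        have h5 : l * h * k = h * l * k := by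
          calc l * h * k = h * k * l := by rw [mul_assoc]; exact h3
            _ = h * (l * k) := by rw [h4, mul_assoc]
            _ = h * l * k := by rw [mul_assoc]
        exact mul_right_cancel h5
      apply hcent
      intro v hv l hl
      by_cases hv1 : v = 1
      · subst hv1
        rw [one_mul, inv_one, mul_one]
        exact (h2 l hl).symm
      · exact hcomm v (hnot v hv hv1) h hh _ (conj_mem_cj hl)
  · -- the case `V₀ ≠ 1`
    have hH : V₀ ⊔ L ≠ ⊤ := by
      intro ht
      apply hVN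
      have h1 : V₀ ⊔ L ≤ Subgroup.normalizer (L : Set G) := sup_le inf_le_right Subgroup.le_normalizer
      rw [ht] at h1
      exact le_top.trans h1
    have h1 : ¬ ∀ h ∈ V₀ ⊔ L, ∀ v ∈ V₀, Odd (orderOf h) → v * h * v⁻¹ = h⁻¹ →
        ∃ w ∈ V₀, w ≠ 1 ∧ w * h = h * w := by
      intro hc
      obtain ⟨w, hw, hw1, hwc⟩ := hmin.sub hH le_sup_left hV₀e hV₀1 hc
      apply hw1
      apply hcent
      intro v hv l hl
      have h2 : w * l = l * w := commute_of_pc hO hLsub le_sup_right
        (sup_le inf_le_right Subgroup.le_normalizer) hwc hl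
      have h3 : w * v = v * w := elab_comm hV hw.1 hv
      have h4 : w * v⁻¹ = v⁻¹ * w := by
        rw [eq_inv_mul_iff_mul_eq, ← mul_assoc, ← h3]
        group
      calc w * (v * l * v⁻¹) = (w * v) * l * v⁻¹ := by group
        _ = v * (w * l) * v⁻¹ := by rw [h3]; group
        _ = v * l * (w * v⁻¹) := by rw [h2]; group
        _ = v * l * v⁻¹ * w := by rw [h4]; group
    push Not at h1
    obtain ⟨h, hh, v, hv, hodd, hinv, hno⟩ := h1
    have hhL : h ∈ L := mem_of_odd hV₀e inf_le_right hh hodd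
    have hh1 : h ≠ 1 := by
      rintro rfl
      obtain ⟨w', hw', hw'1⟩ := exists_ne_one hV₀1
      exact hno w' hw' hw'1 (by rw [mul_one, one_mul])
    obtain ⟨u, hu, hu1, huh⟩ := hS h v hv.1 hodd hinv
    refine hno u ⟨hu, ?_⟩ hu1 huh
    by_contra hun
    apply hh1
    have h2 : h ∈ L ⊓ cj u L := by
      refine ⟨hhL, ?_⟩
      change h ∈ cj u L
      rw [mem_cj]
      have h3 : u⁻¹ * h * u = h := by
        rw [mul_assoc, ← huh]
        group
      rwa [h3]
    rwa [hinf u hun, Subgroup.mem_bot] at h2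

theorem main (hmin : Min G) {V : Subgroup G} (hV : IsElementaryAbelian 2 V) (hV1 : V ≠ ⊥)
    (hS : IsSidkiPair V) (hVO : V ⊓ pCore 2 G = ⊥) :
    IsSimpleGroup ↥(generalizedFittingSubgroup G) ∧ ¬ IsMulCommutative ↥(generalizedFittingSubgroup G) ∧
      V ⊔ generalizedFittingSubgroup G = ⊤ := by
  -- `O_2(G) = 1`
  have hO : pCore 2 G = ⊥ := by
    by_contra hO
    haveI hn : (pCore 2 G).Normal := H1.Cores.pCore_normal 2
    have h1 := Cfsg.Agent.S3012.result V (pCore 2 G) hV hV1 hS hVO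
    have h2 : IsElementaryAbelian 2 (V.map (QuotientGroup.mk' (pCore 2 G))) := by
      refine ⟨⟨⟨?_⟩⟩, ?_⟩
      · rintro ⟨_, a, ha, rfl⟩ ⟨_, b, hb, rfl⟩
        apply Subtype.ext
        change QuotientGroup.mk' (pCore 2 G) a * QuotientGroup.mk' (pCore 2 G) b =
          QuotientGroup.mk' (pCore 2 G) b * QuotientGroup.mk' (pCore 2 G) a
        rw [← map_mul, elab_comm hV ha hb, map_mul]
      · rintro _ ⟨a, ha, rfl⟩
        rw [← map_pow, hV.2 a ha, map_one]
    have h3 : V.map (QuotientGroup.mk' (pCore 2 G)) ≠ ⊥ := by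
      intro h
      rw [Subgroup.map_eq_bot_iff, QuotientGroup.ker_mk'] at h
      apply hV1
      rw [← hVO, inf_eq_left.2 h]
    have h4 : Nat.card (G ⧸ pCore 2 G) < Nat.card G := by
      rw [Subgroup.card_eq_card_quotient_mul_card_subgroup (pCore 2 G)]
      have h5 : 1 < Nat.card (pCore 2 G) := by
        rw [Subgroup.one_lt_card_iff_ne_bot]
        exact hO
      have h6 : 0 < Nat.card (G ⧸ pCore 2 G) := Nat.card_pos
      nlinarith
    apply hmin (G ⧸ pCore 2 G) _ h4 h2 h3 h1
    rw [H1.Cores.pCore_quotient_pCore, inf_bot_eq]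
  -- a minimal normal subgroup
  obtain ⟨M, hMn, hM1, hMm⟩ : ∃ M : Subgroup G, M.Normal ∧ M ≠ ⊥ ∧
      ∀ N : Subgroup G, N.Normal → N ≤ M → N ≠ ⊥ → N = M := by
    have h1 : ({L : Subgroup G | L.Normal ∧ L ≠ ⊥}).Nonempty := by
      refine ⟨⊤, inferInstance, ?_⟩
      intro h
      apply hV1
      rw [eq_bot_iff, ← h]
      exact le_top
    obtain ⟨L, hL, hmin'⟩ := Set.Finite.exists_minimal (Set.toFinite _) h1
    exact ⟨L, hL.1, hL.2, fun N hN hNL hN1 => le_antisymm hNL (hmin' ⟨hN, hN1⟩ hNL)⟩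
  have hMa : ∃ x ∈ M, ∃ y ∈ M, x * y ≠ y * x := by
    by_contra hc
    push Not at hc
    exact false_of_abelian hmin hO hV hV1 hS M hM1 hMm hc
  obtain ⟨hC, hVM⟩ := structure_of_nonabelian hmin hO hV hV1 hS M hMm hMa
  have hs := simple_of hmin hO hV hV1 hS M hM1 hMm hC hVM
  obtain ⟨x, hx, y, hy, hxy⟩ := hMa
  have hF : generalizedFittingSubgroup G = M := by
    refine H92.Norm4.gfit_of_simple M hs ⟨⟨x, hx⟩, ⟨y, hy⟩, fun h => hxy (congrArg Subtype.val h)⟩ ?_
    intro z hz
    have h1 : z ∈ Subgroup.centralizer (M : Set G) := Subgroup.mem_centralizer_iff.2 fun m hm =>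
      (hz m hm).eq.symm
    rwa [hC, Subgroup.mem_bot] at h1
  rw [hF]
  refine ⟨hs, fun h => ?_, hVM⟩
  exact hxy (congrArg Subtype.val (h.is_comm.comm ⟨x, hx⟩ ⟨y, hy⟩))

end H26.Sidki
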